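import Mathlib
import Cfsg.Agent.Classical.Balance
import Cfsg.Agent.Chev.Ss
import Cfsg.Agent.Chev.Cent

/-! Local balance for Chevalley groups: general lemmas. -/

set_option autoImplicit false
set_option linter.unusedSectionVars false
set_option maxHeartbeats 400000

namespace Cfsg.Agent.Chev
open Cfsg.Lie Cfsg.Agent.BN StSys Matrix Cfsg.Agent.Classical.Balance

section Gen
variable {K : Type*} [Group K] {x : MulAut K} {p : ℕ}

/-- the `p'`-core of the centralizer is trivial in every almost simple overgroup -/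
def BalBot (p : ℕ) (x : MulAut K) : Prop := ∀ A : Subgroup (MulAut K), (∀ k, MulAut.conj k ∈ A) →
  pPrimeCore p (A ⊓ Subgroup.centralizer {x} : Subgroup _) = ⊥

theorem balBot_of (hinj : Function.Injective (MulAut.conj : K →* _))
    (hL : ∀ M : Subgroup K, (∀ m ∈ M, x m = m) → (∀ k, x k = k → ∀ m ∈ M, k * m * k⁻¹ ∈ M) →
      (∀ m ∈ M, (orderOf m).Coprime p) → ∀ m ∈ M, m = 1)
    (hC : ∀ α : MulAut K, Commute α x → (∀ k, x k = k → α k = k) → (orderOf α).Coprime p →
      α = 1) : BalBot p x := fun A hinn => by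
  refine sSup_eq_bot.2 fun N ⟨hN, hNp⟩ => ?_
  have h0 : ∀ a ∈ N, (orderOf a.1).Coprime p := fun a ha => by
    rw [Subgroup.orderOf_coe]
    exact hNp.coprime_dvd_left (Subgroup.orderOf_dvd_natCard N ha)
  have h1 := hL ((N.comap (innHom hinn x)).map (Subgroup.subtype _))
    (by rintro _ ⟨k, -, rfl⟩; exact k.2)
    (by rintro k hk _ ⟨m, hm, rfl⟩; exact ⟨_, (hN.comap _).conj_mem m hm ⟨k, hk⟩, rfl⟩)
    (by rintro _ ⟨k, hk, rfl⟩; rw [← orderOf_injective _ hinj]; exact h0 _ hk)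
  rw [eq_bot_iff]
  intro a ha
  refine Subtype.ext (hC _ (Subgroup.mem_centralizer_singleton_iff.1 a.2.2) (fun l hl => ?_)
    (h0 _ ha))
  refine mul_inv_eq_one.1 (h1 _ ⟨⟨a.1 l * l⁻¹, mul_mem (apply_mem a hl) (inv_mem hl)⟩, ?_, rfl⟩)
  have := N.mul_mem ha (hN.conj_mem _ (N.inv_mem ha) (innHom hinn x ⟨l, hl⟩))
  refine Subgroup.mem_comap.2 (by
    convert this using 1
    refine Subtype.ext (?_ : MulAut.conj (a.1 l * l⁻¹) = a.1 *
      (MulAut.conj l * (a.1)⁻¹ * (MulAut.conj l)⁻¹))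
    simp only [map_mul, map_inv, ← conj_mul_conj, mul_assoc])

theorem BalBot.conj (α : MulAut K) (h : BalBot p (α * x * α⁻¹)) : BalBot p x := fun _ hA =>
  core_eq_bot_conj α (h _ (inn_map hA α))

theorem BalBot.of_pow {j : ℕ} (h : BalBot p (x ^ j)) (hj : (orderOf x).Coprime j) :
    BalBot p x := fun A hA => by
  have : Subgroup.centralizer {x} = Subgroup.centralizer {x ^ j} := Subgroup.ext fun y => by
    simp only [Subgroup.mem_centralizer_singleton_iff]
    refine ⟨fun e => (Commute.pow_right e j).eq, fun e => ?_⟩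
    obtain ⟨m, hm⟩ := exists_pow_eq_self_of_coprime hj.symm
    exact hm ▸ (Commute.pow_right e m).eq
  rw [this]; exact h A hA

theorem exists_fixed {Ω : Type*} [Finite Ω] (hp : p.Prime) (f : Ω → Ω) (h : ∀ a, f^[p] a = a)
    (hc : ¬ p ∣ Nat.card Ω) : ∃ a, f a = a := by
  classical
  haveI := Fact.mk hp
  haveI := Fintype.ofFinite Ω
  obtain ⟨n, rfl⟩ := Nat.exists_eq_succ_of_ne_zero hp.ne_zero
  let e : Equiv.Perm Ω := ⟨f, f^[n], h, fun a => (Function.iterate_succ_apply' f n a).symm.trans (h a)⟩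
  exact Equiv.Perm.exists_fixed_point_of_prime (p := n + 1) (n := 1) (σ := e)
    (Nat.card_eq_fintype_card (α := Ω) ▸ hc) (Equiv.ext fun a => by
      rw [pow_one, Equiv.Perm.coe_pow]; exact h a)

theorem exists_fixed_coset {R : Subgroup K} [Finite R] (hp : p.Prime) (T : K → K) (y : K)
    (h1 : ∀ z ∈ R, y⁻¹ * T (y * z) ∈ R) (h2 : ∀ z ∈ R, T^[p] (y * z) = y * z)
    (hc : ¬ p ∣ Nat.card R) : ∃ z ∈ R, T (y * z) = y * z := by
  let f : R → R := fun z => ⟨_, h1 z z.2⟩
  have key : ∀ n (z : R), y * f^[n] z = T^[n] (y * z) := fun n z => by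
    induction n with
    | zero => rfl
    | succ n ih => rw [Function.iterate_succ_apply', Function.iterate_succ_apply', ← ih]; simp [f]
  obtain ⟨z, hz⟩ := exists_fixed hp f
    (fun z => Subtype.ext (mul_left_cancel ((key p z).trans (h2 z z.2)))) hc
  exact ⟨z, z.2, inv_mul_eq_iff_eq_mul.1 (congrArg Subtype.val hz)⟩

theorem coprime_of_sup {M R : Subgroup K} {r : ℕ} (hr : r.Coprime p)
    (h : ∀ u ∈ R, ∀ m ∈ M, u * m * u⁻¹ ∈ M) (hM : ∀ m ∈ M, (orderOf m).Coprime p)
    (hR : ∀ u ∈ R, ∃ k, u ^ r ^ k = 1) {y : K} (hy : y ∈ M ⊔ R) : (orderOf y).Coprime p := by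
  obtain ⟨m, hm, u, hu, rfl⟩ := (mem_sup_of_normalizes (le_normalizer_of h)).1 hy
  have key : ∀ n, (m * u) ^ n * (u ^ n)⁻¹ ∈ M := fun n => by
    induction n with
    | zero => simp
    | succ n ih =>
      convert mul_mem hm (h u hu _ ih) using 1
      rw [pow_succ', pow_succ']; group
  obtain ⟨k, hk⟩ := hR u hu
  have h1 := hM _ (key (r ^ k))
  rw [hk, inv_one, mul_one] at h1
  exact ((hr.pow_left k).mul_left h1).coprime_dvd_left
    (orderOf_dvd_of_pow_eq_one (by rw [pow_mul, pow_orderOf_eq_one]))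

theorem not_coprime_of_map {L : Type*} [Group L] (hp : p.Prime) {y : K} {z : L}
    (h : ∀ n, y ^ n = 1 → z ^ n = 1) (h1 : z ≠ 1) {k : ℕ} (h2 : z ^ p ^ k = 1) :
    ¬ (orderOf y).Coprime p := fun e => h1 (by
  rw [← orderOf_eq_one_iff]
  exact Nat.eq_one_of_dvd_coprimes (e.pow_right k)
    (orderOf_dvd_of_pow_eq_one (h _ (pow_orderOf_eq_one y))) (orderOf_dvd_of_pow_eq_one h2))

end Gen

variable {D : ChevalleyDatum} [g : Good2 D] {F : Type*} [Field F] {G : Type*} [Group G]

theorem ln_mul_rW {w : W D} : ∀ {a : Rt D}, Pos a → ¬ Pos (w • a) → ln (w * rW a) < ln w := by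
  induction w using W_ind_left with
  | h1 => exact fun h h' => absurd (by simpa using h) h'
  | hs i w hw ih =>
    intro a ha h
    rw [ln_sW_mul_of_pos hw]
    by_cases e : Pos (w • a)
    · rw [mul_assoc, show w * rW a = rW (w • a) * w by rw [rW_smul]; simp,
        eq_sim_of_not_pos_rf e (by simpa [mul_smul] using h)]
      simp
    have := ih ha e
    by_cases e' : Pos ((w * rW a)⁻¹ • sim i)
    · rw [mul_assoc, ln_sW_mul_of_pos e']; omega
    · rw [mul_assoc]; have := ln_sW_mul_of_not_pos e'; omega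

theorem StSys.Mono.pow {S : StSys D F G} {a : G} {w : W D} (h : S.Mono a w) (n : ℕ) :
    S.Mono (a ^ n) (w ^ n) := by
  induction n with
  | zero => simpa using Mono.one
  | succ n ih => rw [pow_succ, pow_succ]; exact ih.mul h

theorem StSys.Mono.not_coprime {S : StSys D F G} {a : G} {w : W D} (h : S.Mono a w) (h1 : w ≠ 1)
    (h2 : w * w = 1) : ¬ (orderOf a).Coprime 2 :=
  not_coprime_of_map Nat.prime_two (fun n e => (h.pow n).unique (e ▸ Mono.one)) h1 (k := 1)
    (by simpa [sq] using h2)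

theorem ch_conj_inj : Function.Injective (MulAut.conj : D.group F →* _) :=
  (injective_iff_map_eq_one _).2 fun y h => Subgroup.mem_bot.1 (ch_center (D := D) (F := F) ▸
    Subgroup.mem_center_iff.2 fun z => by
      have : y * z * y⁻¹ = z := congrArg (fun β : MulAut _ => β z) h
      exact (mul_inv_eq_iff_eq_mul.1 this).symm)

end Cfsg.Agent.Chev
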