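import Mathlib
import Cfsg.Agent.Chev.BalA
import Cfsg.Agent.Chev.Mx
import Cfsg.Agent.Chev.AutC

/-! Local balance: automorphisms fixing a Borel subgroup with all simple orbits active. -/

set_option autoImplicit false
set_option linter.unusedSectionVars false
set_option maxHeartbeats 400000

namespace Cfsg.Agent.Chev
open Cfsg.Lie Cfsg.Agent.BN StSys Matrix

variable {D : ChevalleyDatum} [g : Good2 D] {F : Type*} [Field F] {G : Type*} [Group G]

/-- the product of the images under the first powers of an automorphism -/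
def nrB (β : MulAut G) (k : ℕ) (y : G) : G := ((List.range k).map fun l => (β ^ l) y).prod

section nrB
variable {β : MulAut G} {k : ℕ} {y : G}

theorem nrB_zero : nrB β 0 y = 1 := rfl

theorem nrB_succ : nrB β (k + 1) y = nrB β k y * (β ^ k) y := by simp [nrB, List.range_succ]

theorem nrB_one : nrB β 1 y = y := by simp [nrB]

theorem nrB_succ' : nrB β (k + 1) y = y * β (nrB β k y) := by
  induction k with
  | zero => simp [nrB]
  | succ k ih =>
    conv_lhs => rw [nrB_succ, ih]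
    rw [nrB_succ (k := k), map_mul, pow_succ', MulAut.mul_apply, mul_assoc]

theorem map_nrB (h : (β ^ k) y = y) : β (nrB β k y) = y⁻¹ * nrB β k y * y := by
  rw [mul_assoc, eq_inv_mul_iff_mul_eq, ← nrB_succ', nrB_succ, h]

theorem nrB_mem {K : Subgroup G} (h : ∀ l < k, (β ^ l) y ∈ K) : nrB β k y ∈ K :=
  list_prod_mem fun _ ha => by
    obtain ⟨l, hl, rfl⟩ := List.mem_map.1 ha
    exact h l (List.mem_range.1 hl)

theorem nrB_split {K : Subgroup G} (hk : k ≠ 0) (h : ∀ l, 0 < l → l < k → (β ^ l) y ∈ K) :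
    y⁻¹ * nrB β k y ∈ K := by
  obtain ⟨k, rfl⟩ := Nat.exists_eq_succ_of_ne_zero hk
  induction k with
  | zero => simp [nrB_one]
  | succ k ih =>
    rw [Nat.succ_eq_add_one, nrB_succ, ← mul_assoc]
    exact mul_mem (ih (by simp) fun l h1 h2 => h l h1 (by omega)) (h _ (by simp) (by simp))

theorem iterate_eq_pow (n : ℕ) (y : G) : β^[n] y = (β ^ n) y := by
  induction n with
  | zero => rfl
  | succ n ih => rw [Function.iterate_succ_apply', ih, pow_succ', MulAut.mul_apply]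

end nrB

theorem perm_fix_of_prime {ι : Type*} {π : Equiv.Perm ι} {p l : ℕ} (hp : p.Prime) {i : ι}
    (h1 : (π ^ p) i = i) (h0 : 0 < l) (hl : l < p) (h : (π ^ l) i = i) : π i = i := by
  have := Function.IsPeriodicPt.gcd (f := π) (x := i) (m := p) (n := l)
    ((congrFun (Equiv.Perm.coe_pow π p) i).symm.trans h1)
    ((congrFun (Equiv.Perm.coe_pow π l) i).symm.trans h)
  rwa [(Nat.coprime_of_lt_prime h0.ne' hl hp : p.gcd l = 1)] at this

theorem Sym.pow_sim (σ : Sym D) (l : ℕ) (i : Ix D) : (σ.p ^ l) (sim i) = sim ((σ.π ^ l) i) := by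
  induction l with
  | zero => rfl
  | succ l ih => rw [pow_succ', pow_succ', Equiv.Perm.mul_apply, ih, σ.p_sim]; rfl

theorem Sym.pow_ng (σ : Sym D) (l : ℕ) (r : Rt D) : (σ.p ^ l) (ng r) = ng ((σ.p ^ l) r) := by
  induction l with
  | zero => rfl
  | succ l ih => rw [pow_succ', Equiv.Perm.mul_apply, ih, σ.p_ng]; rfl

theorem Sym.pow_mem (σ : Sym D) {R : Set (Rt D)} (h : ∀ r ∈ R, σ.p r ∈ R) (l : ℕ) {r : Rt D}
    (hr : r ∈ R) : (σ.p ^ l) r ∈ R := by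
  induction l with
  | zero => exact hr
  | succ l ih => rw [pow_succ']; exact h _ ih

theorem Mor.pow_x {S : StSys D F G} {σ : Sym D} (m : Mor S S σ) {β : MulAut G}
    (hβ : ∀ y, β y = m.f y) (l : ℕ) (r : Rt D) (t : F) :
    ∃ u, (t ≠ 0 → u ≠ 0) ∧ (β ^ l) (S.x r t) = S.x ((σ.p ^ l) r) u := by
  induction l with
  | zero => exact ⟨t, id, rfl⟩
  | succ l ih =>
    obtain ⟨u, h1, h2⟩ := ih
    exact ⟨_, fun h => m.φ_ne _ (h1 h), by
      rw [pow_succ', MulAut.mul_apply, h2, hβ, m.f_x, pow_succ']; rfl⟩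

/-- the orbits of a symmetry of order at most three -/
def Orb.gen (σ : Sym D) (h : ∀ i, σ.π (σ.π i) = i ∨ σ.π (σ.π (σ.π i)) = i) :
    Orb σ (Set.range fun i => ({i, σ.π i, σ.π (σ.π i)} : Set (Ix D))) where
  o i := ⟨_, i, rfl⟩
  surj := by rintro ⟨_, i, rfl⟩; exact ⟨i, rfl⟩
  stab i := Subtype.ext (by rcases h i with e | e <;> simp only [e] <;> ext j <;> simp <;> tauto)
  orb i j e := by
    have : j ∈ ({j, σ.π j, σ.π (σ.π j)} : Set (Ix D)) := by simp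
    exact (Subtype.ext_iff.1 e).ge this

theorem cl_nonsim : Cl {r : Rt D | Pos r} {r | Pos r} {r | Pos r ∧ ∀ i, r ≠ sim i} :=
  fun r hr s hs => ⟨(uni_pos.cl_self r hr s hs).1, fun v i j hi hj e => by
    obtain ⟨h1, -, h2, -⟩ := rle_of_co hr hs hi hj e
    exact ⟨h1.pos hs, fun k e' => h2 (e'.trans (eq_sim_of_rle hs (e' ▸ h1)).symm)⟩⟩

theorem cl_nonsim' :
    Cl {r : Rt D | ¬ Pos r} {r | ¬ Pos r} {r | ¬ Pos r ∧ ∀ i, r ≠ ng (sim i)} :=
  fun r hr s hs => ⟨(uni_neg.cl_self r hr s hs).1, fun v i j hi hj e => by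
    have := (cl_nonsim (ng r) ((pos_ng r).2 hr) (ng s) ((pos_ng s).2 hs)).2 (ng v) i j hi hj
      (by simp [e, add_comm])
    exact ⟨(pos_ng v).1 this.1, fun k e' => this.2 k (by simp [e'])⟩⟩

theorem StSys.mem_Ui_iff {S : StSys D F G} {i : Ix D} {u : G} (hu : u ∈ S.U) :
    u ∈ S.Ui i ↔ S.ns i * u * (S.ns i)⁻¹ ∈ S.U :=
  ⟨fun h => (S.mono_ns i).conj_mem (fun _ hr => hr.2) h,
    fun h => (S.mono_ns i).mem_of_conj uni_pos uni_pos hu h⟩

theorem lc_split {i : Ix D} {s : F} {v : D.group F} (hv : v ∈ (chSys D F).Ui i) :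
    lc i ((chSys D F).x (sim i) s * v : D.group F).1 = s := by
  have h1 : v.1 ∈ (glSys D F).Ui i := ch_mem_XS.1 hv
  rw [Subgroup.coe_mul, ch_x_coe, lc_mul _ ((glSys D F).x_mem (T := {r | Pos r}) (pos_sim i) s)
    ((glSys D F).XS_mono (fun _ h => h.1) h1), lc_x, if_pos rfl, lc_of_mem_Ui h1, add_zero]

theorem SD.lc_eq {θ : MulAut (D.group F)} {π : Equiv.Perm (Ix D)} {f : Ix D → RingAut F}
    (h : SD (chSys D F) θ π f) (i : Ix D) {u : D.group F} (hu : u ∈ (chSys D F).U) :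
    lc (π i) (θ u).1 = f i (lc i u.1) := by
  obtain ⟨s, v, hv, rfl⟩ := (chSys D F).exists_Ui_split i hu
  have h1 : v ∈ (chSys D F).U := (chSys D F).XS_mono (fun _ h => h.1) hv
  rw [lc_split hv, map_mul, h.xp, lc_split]
  rw [mem_Ui_iff ((h.U _).1 h1), ← h.ns, ← map_inv, ← map_mul, ← map_mul, ← h.U]
  exact (mem_Ui_iff h1).1 hv

/-- automorphisms of prime order fixing the standard Borel subgroup and torus -/
structure TwB (p : ℕ) (β : MulAut (D.group F)) {σ : Sym D} (m : Mor (chSys D F) (chSys D F) σ) :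
    Prop where
  eq : ∀ y, β y = m.f y
  pow : β ^ p = 1
  prime : p.Prime
  cop : ¬ p ∣ Nat.card F
  orb : ∀ i, σ.π (σ.π i) = i ∨ σ.π (σ.π (σ.π i)) = i
  one : ∀ i, σ.π i = i → m.φ (sim i) 1 = 1

namespace TwB
variable [Finite F] {p : ℕ} {β : MulAut (D.group F)} {σ : Sym D}
  {m : Mor (chSys D F) (chSys D F) σ} (h : TwB p β m)
include h

theorem mem {y : D.group F} : y ∈ m.toTw.Fx ↔ β y = y := by
  rw [h.eq]; exact and_iff_right (ch_grp.ge trivial)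

theorem exists_lead {c : Ix D → ℤ} {R R' : Set (Rt D)} (hU : Uni c R) (hR : R' ⊆ R)
    (h1 : Cl R R R') (h2 : ∀ r ∈ R, σ.p r ∈ R) (h3 : ∀ r ∈ R', σ.p r ∈ R') {a : Rt D} (ha : a ∈ R)
    {t : F} {k : ℕ} (hk : (β ^ k) ((chSys D F).x a t) = (chSys D F).x a t) :
    ∃ z ∈ (chSys D F).XS R', nrB β k ((chSys D F).x a t) * z ∈ m.toTw.Fx := by
  have hU' : Uni c R' := ⟨fun r hr => hU.pos r (hR hr),
    fun r hr s hs => (h1 r (hR hr) s (hR hs)).2⟩
  have h4 : nrB β k ((chSys D F).x a t) ∈ (chSys D F).XS R := nrB_mem fun l _ => by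
    obtain ⟨u, -, e⟩ := m.pow_x h.eq l a t
    exact e ▸ (chSys D F).x_mem (σ.pow_mem h2 l ha) u
  obtain ⟨z, hz, e⟩ := exists_fixed_coset (R := (chSys D F).XS R') h.prime β
    (nrB β k ((chSys D F).x a t)) (fun z hz => by
      rw [map_mul, map_nrB hk, ← mul_assoc, h.eq z, ← mul_assoc, ← mul_assoc]
      exact mul_mem ((chSys D F).commutator_mem h1 (h1.mono le_rfl hR le_rfl)
        (h1.mono le_rfl hR le_rfl) h4 ((chSys D F).x_mem ha t)) (m.mem_XS h3 hz))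
    (fun z _ => by rw [iterate_eq_pow, h.pow]; rfl)
    (fun e => h.cop (h.prime.dvd_of_dvd_pow ((chSys D F).card_XS hU' ▸ e)))
  exact ⟨z, hz, h.mem.2 e⟩

theorem π_pow (i : Ix D) : (σ.π ^ p) i = i := by
  obtain ⟨u, -, e⟩ := m.pow_x h.eq p (sim i) 1
  rw [h.pow, σ.pow_sim] at e
  exact (sim_injective ((chSys D F).eq_of_x_eq one_ne_zero e)).symm

theorem exists_k (i : Ix D) : ∃ k ≠ 0, (∀ l, 0 < l → l < k → (σ.π ^ l) i ≠ i) ∧
    ∀ r t, (σ.π i = i → β ((chSys D F).x r t) = (chSys D F).x r t) →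
      (β ^ k) ((chSys D F).x r t) = (chSys D F).x r t := by
  by_cases e : σ.π i = i
  · exact ⟨1, one_ne_zero, fun l _ _ => by omega, fun r t ht => ht e⟩
  · exact ⟨p, h.prime.ne_zero, fun l h1 h2 h3 => e (perm_fix_of_prime h.prime (h.π_pow i) h1 h2 h3),
      fun r t _ => by rw [h.pow]; rfl⟩

theorem exists_pos (i : Ix D) {t : F} (ht : σ.π i = i → m.φ (sim i) t = t) :
    ∃ u ∈ (chSys D F).U, β u = u ∧ lc i u.1 = t ∧ ∀ j, (∀ l, (σ.π ^ l) i ≠ j) → lc j u.1 = 0 := by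
  obtain ⟨k, h0, h1, h2⟩ := h.exists_k i
  obtain ⟨z, hz, e⟩ := h.exists_lead uni_pos (fun _ h => h.1) cl_nonsim
    (fun r hr => (σ.pos_p r).2 hr) (fun r hr => ⟨(σ.pos_p r).2 hr.1, fun j e => hr.2 (σ.π⁻¹ j)
      (σ.p.injective (by rw [e, σ.p_sim]; simp))⟩) (pos_sim i)
    (h2 _ t fun e => by rw [h.eq, m.f_x, σ.p_sim, e, ht e])
  have h3 : ∀ j, z ∈ (chSys D F).Ui j := fun j =>
    (chSys D F).XS_mono (T' := {r | Pos r ∧ Pos (sW j • r)})
      (fun r hr => ⟨hr.1, pos_rf hr.1 (hr.2 j)⟩) hz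
  have h4 : ∀ j l, (σ.π ^ l) i ≠ j → (β ^ l) ((chSys D F).x (sim i) t) ∈ (chSys D F).Ui j :=
    fun j l hl => by
      obtain ⟨u, -, e⟩ := m.pow_x h.eq l (sim i) t
      rw [e, σ.pow_sim]; exact sim_mem_Ui hl u
  have h5 := mul_mem (nrB_split h0 fun l h h' => h4 i l (h1 l h h')) (h3 i)
  refine ⟨_, ?_, h.mem.1 e, ?_, fun j hj =>
    lc_of_mem_Ui (ch_mem_XS.1 (mul_mem (nrB_mem fun l _ => h4 j l (hj l)) (h3 j)))⟩
  · simpa [mul_assoc, StSys.U] using mul_mem ((chSys D F).x_mem (T := {r | Pos r}) (pos_sim i) t)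
      ((chSys D F).XS_mono (fun _ h => h.1) h5)
  · simpa [mul_assoc] using lc_split (s := t) h5

theorem wit (i : Ix D) : ∃ u ∈ (chSys D F).U ⊓ m.toTw.Fx, u ∉ (chSys D F).Ui i := by
  obtain ⟨u, h1, h2, h3, -⟩ := h.exists_pos i (h.one i)
  exact ⟨u, ⟨h1, h.mem.2 h2⟩, fun e =>
    one_ne_zero (h3.symm.trans (lc_of_mem_Ui (ch_mem_XS.1 e)))⟩

theorem neg_fix {i : Ix D} (e : σ.π i = i) (n : ℕ) :
    β ((chSys D F).x (ng (sim i)) (-n)) = (chSys D F).x (ng (sim i)) (-n) := by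
  induction n with
  | zero => simp
  | succ n ih =>
    have := m.φ_ng (sim i) one_ne_zero
    rw [h.one i e, inv_one] at this
    rw [Nat.cast_succ, neg_add, StSys.add, map_mul, ih, h.eq (StSys.x _ _ (-1)), m.f_x, this,
      σ.p_ng, σ.p_sim, e]

theorem isTw : IsTw m.toTw (Orb.gen σ h.orb) m.toTw.Fx := ⟨le_rfl, fun _ => inf_le_left, fun a => by
  obtain ⟨i, rfl⟩ := (Orb.gen σ h.orb).surj a
  obtain ⟨k, h0, h1, h2⟩ := h.exists_k i
  set J := (Orb.gen σ h.orb).J ((Orb.gen σ h.orb).o i)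
  have hi : ng (sim i) ∈ {r | ¬ Pos r ∧ PhiK J r} :=
    ⟨not_pos_ng_sim i, phiK_ng.2 (phiK_sim.2 rfl)⟩
  have h3 : ∀ r ∈ {r | ¬ Pos r ∧ PhiK J r}, σ.p r ∈ {r | ¬ Pos r ∧ PhiK J r} := fun r hr =>
    ⟨by simpa using hr.1, (Orb.gen σ h.orb).phiK_p hr.2⟩
  obtain ⟨z, hz, e⟩ := h.exists_lead (uni_phiK_neg J)
    (R' := {r | (¬ Pos r ∧ PhiK J r) ∧ ∀ j, r ≠ ng (sim j)}) (fun _ h => h.1)
    (fun r hr s hs => ⟨(cl_nonsim' r hr.1 s hs.1).1, fun v a b ha hb e =>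
      ⟨(uni_phiK_neg J).cl r hr s hs v a b ha hb e,
        ((cl_nonsim' r hr.1 s hs.1).2 v a b ha hb e).2⟩⟩) h3
    (fun r hr => ⟨h3 r hr.1, fun j e => hr.2 (σ.π⁻¹ j)
      (σ.p.injective (by rw [e, σ.p_ng, σ.p_sim]; simp))⟩) hi
    (h2 _ (-1) fun e => by simpa using h.neg_fix e 1)
  refine ⟨_, e, mul_mem (nrB_mem fun l _ => ?_) ((chSys D F).XS_mono (fun _ h => h.1) hz), ?_⟩
  · obtain ⟨u, -, e⟩ := m.pow_x h.eq l (ng (sim i)) (-1)
    exact e ▸ (chSys D F).x_mem (σ.pow_mem h3 l hi) u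
  have := ne_one_neg (S := chSys D F) (i := i) (t := -1) (by simp)
    (mul_mem (nrB_split h0 fun l h4 h5 => by
      obtain ⟨u, -, e⟩ := m.pow_x h.eq l (ng (sim i)) (-1)
      rw [e, σ.pow_ng, σ.pow_sim]; exact ng_mem_neg (h1 l h4 h5) u)
    ((chSys D F).XS_mono (T' := {r | ¬ Pos r ∧ r ≠ ng (sim i)})
      (fun r hr => ⟨hr.1.1, hr.2 i⟩) hz))
  simpa [mul_assoc] using this⟩

theorem normal_bot (hr : (ringChar F).Coprime p)
    (hX : ∀ X : Subgroup (D.group F), (∀ u ∈ (chSys D F).U, β u = u → u ∈ X) →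
      (∀ u ∈ (chSys D F).V, β u = u → u ∈ X) → (∀ y, β y = y → ∀ x ∈ X, y * x * y⁻¹ ∈ X) →
      (∀ y, β y = y → ∃ z ∈ (chSys D F).H, β z = z ∧ y * z⁻¹ ∈ X) →
      ∃ y ∈ X, ¬ (orderOf y).Coprime p)
    (M : Subgroup (D.group F)) (h1 : ∀ y ∈ M, β y = y)
    (h2 : ∀ k, β k = k → ∀ y ∈ M, k * y * k⁻¹ ∈ M) (h3 : ∀ y ∈ M, (orderOf y).Coprime p) :
    ∀ y ∈ M, y = 1 := by
  haveI : (M.subgroupOf m.toTw.Fx).Normal := ⟨fun y hy k => h2 k (h.mem.1 k.2) y hy⟩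
  rcases normal_le_or_sup h.isTw.bn_irreducible (M.subgroupOf m.toTw.Fx) with e | e
  · exact fun y hy => ch_θ_inj ((h.isTw.θ_eq_one_of_core h.wit fun a ha =>
      (@e ⟨_, h.mem.2 (h1 _ (h2 a (h.mem.1 ha) y hy))⟩ (h2 a (h.mem.1 ha) y hy)).1).trans
      (map_one _).symm)
  have h4 : ∀ y, β y = y → ∃ x ∈ M, ∃ u ∈ (chSys D F).U ⊓ m.toTw.Fx, ∃ z ∈ (chSys D F).H,
      β z = z ∧ y = x * u * z := fun y hy => by
    obtain ⟨x, hx, b, hb, e'⟩ := Subgroup.mem_sup_of_normal_left.1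
      (e.ge (Subgroup.mem_top ⟨y, h.mem.2 hy⟩))
    obtain ⟨u, hu, z, hz, e''⟩ := mem_B.1 hb.1
    have := Tw.mem_of_UH (T := m.toTw) hu hz (by rw [← e'']; exact b.2)
    exact ⟨x, hx, u, ⟨hu, this.1⟩, z, hz, h.mem.1 this.2, by
      rw [mul_assoc, ← e'']; exact (congrArg Subtype.val e').symm⟩
  have h5 : ∀ u ∈ (chSys D F).U ⊓ m.toTw.Fx, ∀ y ∈ M, u * y * u⁻¹ ∈ M :=
    fun u hu => h2 u (h.mem.1 hu.2)
  have h6 : ∀ y, β y = y → ∀ x ∈ M ⊔ ((chSys D F).U ⊓ m.toTw.Fx),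
      y * x * y⁻¹ ∈ M ⊔ ((chSys D F).U ⊓ m.toTw.Fx) := fun y hy x hx => by
    obtain ⟨a, ha, u, hu, z, hz, e1, rfl⟩ := h4 y hy
    obtain ⟨b, hb, v, hv, rfl⟩ := (mem_sup_of_normalizes (le_normalizer_of h5)).1 hx
    have h7 := mul_mem (Subgroup.mem_sup_left (T := (chSys D F).U ⊓ m.toTw.Fx) ha)
      (Subgroup.mem_sup_right hu)
    have h8 := mul_mem (Subgroup.mem_sup_left (h2 z e1 b hb)) (Subgroup.mem_sup_right
      (T := (chSys D F).U ⊓ m.toTw.Fx)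
      ⟨H_conj_mem hz hv.1, h.isTw.conj_Fx (h.mem.2 e1) hv.2⟩)
    convert mul_mem (mul_mem h7 h8) (inv_mem h7) using 1
    group
  obtain ⟨n, hn, -, hm⟩ := h.isTw.exists_n0
  obtain ⟨y, hy, h7⟩ := hX (M ⊔ ((chSys D F).U ⊓ m.toTw.Fx)) (fun u hu e => Subgroup.mem_sup_right ⟨hu, h.mem.2 e⟩)
    (fun v hv e => by
      have := h6 n (h.mem.1 hn) _ (Subgroup.mem_sup_right (S := M)
        (T := (chSys D F).U ⊓ m.toTw.Fx) ⟨hm.conj_mem' (T' := {r | Pos r})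
        (fun r hr => by simpa [pos_w0_univ] using hr) hv, h.isTw.conj_Fx' hn (h.mem.2 e)⟩)
      simpa [mul_assoc] using this) h6
    (fun y hy => by
      obtain ⟨a, ha, u, hu, z, hz, e1, rfl⟩ := h4 y hy
      exact ⟨z, hz, e1, by
        simpa using mul_mem (Subgroup.mem_sup_left ha) (Subgroup.mem_sup_right hu)⟩)
  haveI : Fact (ringChar F).Prime := ⟨CharP.char_is_prime F _⟩
  exact (h7 (coprime_of_sup hr h5 h3 (fun u hu => (exists_pow_U (ringChar F)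
    (ch_mem_XS.1 hu.1)).imp fun k hk => Subtype.ext hk) hy)).elim

theorem cent_bot (hg : Good3 D) (hφ : ∀ r, Function.Surjective (m.φ r))
    (hψ : ∀ ψ : RingAut F, (∀ i t, (σ.π i = i → m.φ (sim i) t = t) → ψ t = t) →
      (orderOf ψ).Coprime p → ψ = 1)
    (α : MulAut (D.group F)) (h1 : Commute α β) (h2 : ∀ k, β k = k → α k = k)
    (h3 : (orderOf α).Coprime p) : α = 1 := by
  obtain ⟨x, hx⟩ := piH_spec α
  obtain ⟨n, hn, hN, hm⟩ := h.isTw.exists_n0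
  have h4 : x ∈ (chSys D F).H := mem_H_of_wit (ch_grp.ge trivial) hN hm
    (fun i => (h.wit i).imp fun u hu => ⟨hu.1.1, hu.2, by
      simpa [h2 u (h.mem.1 hu.1.2)] using (hx.U u).1 hu.1.1⟩)
    (fun i => (h.wit i).imp fun u hu => ⟨hu.1.1, hu.2, by
      have := (hx.V _).1 (hm.conj_mem (T' := {r | ¬ Pos r})
        (fun r hr => by simpa [pos_w0_univ] using hr) hu.1.1)
      rwa [MulAut.mul_apply, h2 _ (h.mem.1 (h.isTw.conj_Fx hn hu.1.2))] at this⟩)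
  have h5 : Std (chSys D F) α (piH D F α) := by simpa using (Std.conj h4).inv.mul hx
  obtain ⟨c, f, h6⟩ := h5.exists_diag
  have h7 : ∀ i u, u ∈ (chSys D F).U → β u = u →
      c (piH D F α i) * lc (piH D F α i) u.1 = f i (lc i u.1) := fun i u hu e => by
    rw [← h6.lc_eq i hu, MulAut.mul_apply, h2 u e, ← lc_dgU]; rfl
  have h8 : piH D F α = 1 := by
    have h9 := h1.map (piH D F)
    rw [(m.std ch_grp hφ h.eq).piH_eq] at h9
    refine orderOf_eq_one_iff.1 (Nat.eq_one_of_dvd_coprimes h3 (orderOf_map_dvd _ _)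
      (orderOf_dvd_of_pow_eq_one (Equiv.ext fun i => ?_)))
    obtain ⟨u, hu, e, h10, h11⟩ := h.exists_pos i (h.one i)
    obtain ⟨l, hl⟩ : ∃ l, (σ.π ^ l) i = piH D F α i := by
      by_contra! h12
      have := h7 i u hu e
      rw [h11 _ h12, h10, map_one, mul_zero] at this
      exact zero_ne_one this
    have : ∀ n, (piH D F α ^ n) i = (σ.π ^ (l * n)) i := fun n => by
      induction n with
      | zero => rfl
      | succ n ih =>
        rw [pow_succ', Equiv.Perm.mul_apply, ih, ← Equiv.Perm.mul_apply, (h9.pow_right _).eq,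
          Equiv.Perm.mul_apply, ← hl, ← Equiv.Perm.mul_apply, ← pow_add, mul_add, mul_one]
    rw [this, mul_comm, pow_mul, show σ.π ^ p = 1 from Equiv.ext h.π_pow, one_pow]
  rw [h8] at h6 h7
  obtain ⟨ψ, h9⟩ := h6.exists_field hg
  simp only [(ord_one (D := D)).2, pow_one] at h9
  have h10 : ∀ i t, (σ.π i = i → m.φ (sim i) t = t) → c i * t = ψ t := fun i t ht => by
    obtain ⟨u, hu, e, h10, -⟩ := h.exists_pos i ht
    simpa [h10, h9] using h7 i u hu e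
  have h11 : c = 1 := funext fun i => Units.ext (by simpa using h10 i 1 (h.one i))
  rw [h11, map_one, one_mul] at h6
  have h12 : α = fieldAutHom D F ψ := aut_ext
    (fun i t => by rw [h6.xp, h9]; exact (fieldAut_x _ _ _).symm)
    (fun i t => by rw [h6.xm, h9]; exact (fieldAut_x _ _ _).symm)
  rw [h12, hψ ψ (fun i t ht => by simpa [h11] using (h10 i t ht).symm)
    (by rwa [h12, orderOf_injective _ fieldAutHom_inj] at h3), map_one]

end TwB

end Cfsg.Agent.Chev
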