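import Mathlib
import Cfsg.Agent.Chev.BalT
import Cfsg.Agent.Chev.Fix

/-! Local balance: matrices of graph automorphisms, and field type automorphisms. -/

set_option autoImplicit false
set_option linter.unusedSectionVars false
set_option maxHeartbeats 400000

namespace Cfsg.Agent.Chev
open Cfsg.Lie Cfsg.Agent.BN StSys Matrix

variable {D : ChevalleyDatum} [g : Good2 D] {F k : Type*} [Field F] [Field k]

/-- entrywise maps -/
abbrev mp (ψ : F →+* k) : GL D.Idx F →* GL D.Idx k := GeneralLinearGroup.map ψ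

theorem mp_mp {k' : Type*} [Field k'] (φ : F →+* k) (ψ : k →+* k') (y : GL D.Idx F) :
    mp ψ (mp φ y) = mp (ψ.comp φ) y := rfl

theorem mp_x (ψ : F →+* k) (r : Rt D) (t : F) :
    mp ψ ((glSys D F).x r t) = (glSys D k).x r (ψ t) := (fieldGL D ψ).f_x r t

theorem mp_congr {φ ψ : F →+* k} (h : ∀ t, φ t = ψ t) (y : GL D.Idx F) : mp φ y = mp ψ y := by
  rw [RingHom.ext h]

instance instFiniteRingAut [Finite F] : Finite (RingAut F) :=
  Finite.of_injective (fun σ => (σ : F → F)) DFunLike.coe_injective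

theorem mem_zpowers_of_fix [Finite F] {σ τ : RingAut F} (h : ∀ t, σ t = t → τ t = t) :
    τ ∈ Subgroup.zpowers σ := by
  obtain ⟨a, ha⟩ := FixedPoints.toAlgAut_surjective (Subgroup.zpowers σ) F
    (AlgEquiv.ofRingEquiv (f := τ) fun x => h _ (x.2 ⟨σ, Subgroup.mem_zpowers σ⟩))
  have : τ = a.1 := RingEquiv.ext fun t => (congrArg (· t) ha).symm
  exact this ▸ a.2

theorem exists_frob_pow [Fintype F] (r : ℕ) [Fact r.Prime] [CharP F r] {σ : RingAut F} {p : ℕ}
    (hp : p.Prime) (h : orderOf σ = p) : ∃ j e, p.Coprime j ∧ e ≠ 0 ∧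
      Fintype.card F = r ^ (e * p) ∧ ∀ t, (σ ^ j) t = t ^ r ^ e := by
  obtain ⟨F₀, _, _, ι, h1, h2⟩ := exists_fixed_field σ
  haveI := ι.charP ι.injective r
  obtain ⟨e, -, he⟩ := FiniteField.card F₀ r
  have h3 : ∀ t, σ t = t ↔ iterateFrobeniusEquiv F r e t = t := fun t => by
    rw [← h2, mem_fieldRange_iff, he]; rfl
  obtain ⟨j, hj⟩ := (mem_powers_iff_mem_zpowers.2 (mem_zpowers_of_fix fun t => (h3 t).1))
  refine ⟨j, e, hp.coprime_iff_not_dvd.2 fun hd => ?_, e.ne_zero, by rw [h1, h, he, pow_mul],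
    fun t => congrArg (· t) hj⟩
  have h4 : σ ^ j = 1 := orderOf_dvd_iff_pow_eq_one.1 (h ▸ hd)
  rw [show σ = 1 from RingEquiv.ext fun t => (h3 t).2 (by rw [← hj]; exact congrArg (· t) h4),
    orderOf_one] at h
  exact hp.one_lt.ne h

/-- matrices inducing graph automorphisms -/
structure GM (σ : Sym D) (η : Rt D → ℤ) (u : GL D.Idx F) : Prop where
  fix : ∀ ψ : F →+* F, mp ψ u = u
  ng : ∀ r, η r * η (ng r) = 1
  sim : ∀ i, η (sim i) = 1
  x : ∀ r t, u * (glSys D F).x r t * u⁻¹ = (glSys D F).x (σ.p r) (η r * t)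
  dg : ∀ c, u * dgU (fun i => c (σ.π i)) * u⁻¹ = dgU c
  co : ∀ r i, co (σ.p r) (σ.π i) = co r i

/-- the matrix of an automorphism of the tables -/
noncomputable abbrev Aut.u (a : Aut D) (F : Type*) [Field F] : GL D.Idx F :=
  (a.isUnit_mat (F := F)).unit

theorem Aut.mp_u (a : Aut D) (ψ : F →+* k) : mp ψ (a.u F) = a.u k := by
  refine Units.ext (Matrix.ext fun i j => ?_)
  change ψ (a.mat F i j) = a.mat k i j
  rcases i with i | i <;> rcases j with j | j <;> simp [Aut.mat, apply_ite ψ]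

theorem tor_perm {σ : Sym D} (h : ∀ r i, co (σ.p r) (σ.π i) = co r i) (c : Ix D → Fˣ) (r : Rt D) :
    tor (fun i => c (σ.π i)) (co r) = tor c (co (σ.p r)) := by
  simp only [tor, ← h r]
  exact Equiv.prod_comp σ.π fun i => c i ^ co (σ.p r) i

theorem Aut.gm (a : Aut D) {σ : Sym D} (h : a.p = σ.p) (h1 : ∀ i : Ix D, a.η (sim i) = 1)
    (h2 : ∀ r i, co (σ.p r) (σ.π i) = co r i) : GM σ (fun r => a.η r) (a.u F) where
  fix := a.mp_u
  ng r := by rw [a.η_ng, a.η_sq]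
  sim := h1
  x := (a.mor σ h).f_x
  dg c := mul_inv_eq_iff_eq_mul.2 (Units.ext (by
    have := a.mat_mul_dg fun s => (tor c (co s) : F)
    simp only [h, ← tor_perm h2] at this
    exact this))
  co := h2

theorem Aut.u_pow (a : Aut D) {n : ℕ}
    (h : ∀ s, a.p^[n] s = s ∧ ((List.range n).map fun l => a.η (a.p^[l] s : Rt D)).prod = 1) :
    a.u F ^ n = 1 := by
  have h1 : ∀ l r, a.mat F ^ l *ᵥ hV (fun i => (cv r i : F)) = hV fun i => (cv (a.p^[l] r) i : F) :=
    fun l r => by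
      induction l with
      | zero => simp
      | succ l ih =>
        rw [pow_succ', ← mulVec_mulVec, ih, a.mat_hV, Function.iterate_succ_apply', ← a.cv_p]
        exact congrArg hV (funext fun i => ((Int.castRingHom F).map_mulVec _ _ i).symm)
  have h2 : ∀ l (s : Rt D), a.mat F ^ l *ᵥ eV D F s = (((List.range l).map fun l =>
      a.η (a.p^[l] s : Rt D)).prod : ℤ) • eV D F (a.p^[l] s : Rt D) := fun l s => by
    induction l with
    | zero => simp
    | succ l ih =>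
      rw [pow_succ', ← mulVec_mulVec, ih, mulVec_smul, a.mat_eV, Function.iterate_succ_apply',
        List.range_succ, List.map_append, List.prod_append, Int.cast_smul_eq_zsmul, smul_smul]
      simp
  refine Units.ext (mat_ext (fun i => ?_) fun s => ?_)
  · have := h1 n (sim i)
    rw [(h _).1, show (fun j => (cv (sim i) j : F)) = Pi.single i 1 from funext fun j => by
      simp [Pi.single_apply]] at this
    simpa using this
  · simpa [h s] using h2 n s

theorem gm_one : GM (Sym.one D) (fun _ => 1) (1 : GL D.Idx F) :=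
  ⟨fun _ => map_one _, fun _ => rfl, fun _ => rfl, by simp, by simp, fun _ _ => rfl⟩

namespace GM
variable {σ τ : Sym D} {η η' : Rt D → ℤ} {u u' : GL D.Idx F}

theorem mul (h : GM σ η u) (h' : GM τ η' u') :
    GM (σ.mul τ) (fun r => η (τ.p r) * η' r) (u * u') where
  fix ψ := by rw [map_mul, h.fix, h'.fix]
  ng r := by rw [τ.p_ng, mul_mul_mul_comm, h.ng, h'.ng, mul_one]
  sim i := by rw [τ.p_sim, h.sim, h'.sim, mul_one]
  x r t := by
    rw [show ∀ y, u * u' * y * (u * u')⁻¹ = u * (u' * y * u'⁻¹) * u⁻¹ from fun y => by group,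
      h'.x, h.x, Int.cast_mul, mul_assoc]; rfl
  dg c := by
    rw [show ∀ y, u * u' * y * (u * u')⁻¹ = u * (u' * y * u'⁻¹) * u⁻¹ from fun y => by group,
      ← h.dg c, ← h'.dg fun i => c (σ.π i)]; rfl
  co r i := (h.co _ _).trans (h'.co r i)

theorem pow (h : GM σ η u) (n : ℕ) : ∃ τ η', τ.π = σ.π ^ n ∧ GM τ η' (u ^ n) := by
  induction n with
  | zero => exact ⟨_, _, rfl, pow_zero u ▸ gm_one⟩
  | succ n ih =>
    obtain ⟨τ, η', h1, h2⟩ := ih
    exact ⟨_, _, by rw [pow_succ, ← h1]; rfl, pow_succ u n ▸ h2.mul h⟩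

theorem of_map (ι : F →+* k) [Finite F] (h : GM σ η (mp ι u)) (h1 : ∀ ψ : F →+* F, mp ψ u = u) :
    GM σ η u where
  fix := h1
  ng := h.ng
  sim := h.sim
  x r t := GL_map_inj ι (by simp only [map_mul, map_inv, mp_x, h.x, map_intCast])
  dg c := GL_map_inj ι (by
    rw [map_mul, map_mul, map_inv, map_dgU, map_dgU]
    exact h.dg fun i => Units.map ι.toMonoidHom (c i))
  co := h.co

/-- the morphism given by a diagonal matrix, a graph matrix and a field homomorphism -/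
def mor (h : GM σ η u) (c : Ix D → Fˣ) (ψ : F →+* F) : Mor (glSys D F) (glSys D F) σ where
  f := (MulAut.conj (dgU c * u)).toMonoidHom.comp (mp ψ)
  φ r t := tor c (Chev.co (σ.p r)) * (η r * ψ t)
  f_x r t := by
    change dgU c * u * mp ψ _ * (dgU c * u)⁻¹ = _
    rw [show ∀ y, dgU c * u * y * (dgU c * u)⁻¹ = dgU c * (u * y * u⁻¹) * (dgU c)⁻¹ from
      fun y => by group, mp_x, h.x]
    exact dgU_conj _ _ _
  φ_inv r t ht := by
    have := congrArg (Int.cast : ℤ → F) (h.ng r)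
    rw [σ.p_ng, co_ng, tor_neg, mul_mul_mul_comm, Units.mul_inv, mul_mul_mul_comm, ← Int.cast_mul,
      this, ← map_mul]
    simp [ht]

theorem mor_f (h : GM σ η u) (c : Ix D → Fˣ) (ψ : F →+* F) (y : GL D.Idx F) :
    (h.mor c ψ).f y = dgU c * u * mp ψ y * (dgU c * u)⁻¹ := rfl

theorem η_ne (h : GM σ η u) (r : Rt D) : (η r : F) ≠ 0 := fun e => by
  simpa [e] using congrArg (Int.cast : ℤ → F) (h.ng r)

theorem surj (h : GM σ η u) (c : Ix D → Fˣ) (ψ : RingAut F) (r : Rt D) :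
    Function.Surjective ((h.mor c ψ.toRingHom).φ r) := fun t =>
  ⟨ψ.symm ((η r : F)⁻¹ * ((tor c (Chev.co (σ.p r)))⁻¹ * t)), by simp [mor, h.η_ne]⟩

/-- the automorphism given by a diagonal matrix, a graph matrix and a field automorphism -/
noncomputable def aut (h : GM σ η u) (c : Ix D → Fˣ) (ψ : RingAut F) : MulAut (D.group F) :=
  (h.mor c ψ.toRingHom).restrict.equiv (h.surj c ψ)

theorem aut_x (h : GM σ η u) (c : Ix D → Fˣ) (ψ : RingAut F) (r : Rt D) (t : F) :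
    h.aut c ψ ((chSys D F).x r t) =
      (chSys D F).x (σ.p r) (tor c (Chev.co (σ.p r)) * (η r * ψ t)) :=
  (h.mor c ψ.toRingHom).restrict.f_x r t

theorem conj_grp (h : GM σ η u) {y : GL D.Idx F} (hy : y ∈ (glSys D F).grp) :
    u * y * u⁻¹ ∈ (glSys D F).grp :=
  (glSys D F).conj_mem_XS (fun r _ t => h.x r t ▸ (glSys D F).x_mem_grp _ _) hy

theorem conj_GD (h : GM σ η u) {y : GL D.Idx F} (hy : y ∈ GD D F) : u * y * u⁻¹ ∈ GD D F := by
  obtain ⟨a, ha, c, rfl⟩ := mem_GD.1 hy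
  have := h.dg fun i => c (σ.π.symm i)
  simp only [Equiv.symm_apply_apply] at this
  rw [← conj_mul, this]
  exact mul_mem (mem_GD_of_grp (h.conj_grp ha)) (dgU_mem_GD _)

end GM

/-- an automorphism given by a matrix and a field automorphism -/
def RlB (α : MulAut (D.group F)) (b : GL D.Idx F) (ψ : RingAut F) : Prop :=
  ∀ y, (α y).1 = b * mp ψ.toRingHom y.1 * b⁻¹

theorem RlB.mul {α β : MulAut (D.group F)} {a b : GL D.Idx F} {φ ψ : RingAut F}
    (h : RlB α a φ) (h' : RlB β b ψ) : RlB (α * β) (a * mp φ.toRingHom b) (φ * ψ) := fun y => by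
  rw [MulAut.mul_apply, h, h', map_mul, map_mul, map_inv, mp_mp]
  simp only [mul_assoc, _root_.mul_inv_rev]; rfl

theorem real_one : RlB (1 : MulAut (D.group F)) 1 1 := fun y => by
  simp only [one_mul, inv_one, mul_one]; rfl

theorem RlB.pow {σ : Sym D} {η : Rt D → ℤ} {u z : GL D.Idx F} (hu : GM σ η u) (hz : z ∈ GD D F)
    {α : MulAut (D.group F)} {ψ : RingAut F} (h : RlB α (z * u) ψ) (n : ℕ) :
    ∃ z' ∈ GD D F, RlB (α ^ n) (z' * u ^ n) (ψ ^ n) := by
  induction n with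
  | zero => exact ⟨1, one_mem _, by simpa using real_one⟩
  | succ n ih =>
    obtain ⟨z', h1, h2⟩ := ih
    refine ⟨_, mul_mem hz (hu.conj_GD (map_mem_GD ψ.toRingHom h1)), ?_⟩
    convert h.mul h2 using 1
    exacts [pow_succ' _ _, by rw [map_mul, map_pow, hu.fix, pow_succ']; group, pow_succ' _ _]

variable (D F) in
/-- the inner-diagonal automorphisms -/
def gdAut : GD D F →* MulAut (D.group F) :=
  (D.group F).normalizerMonoidHom.comp (Subgroup.inclusion (le_normalizer_of fun a ha y hy => by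
    obtain ⟨b, hb, c, rfl⟩ := mem_GD.1 ha
    rw [group_eq] at hy ⊢
    simpa [mul_assoc] using mul_mem (mul_mem hb (dgU_conj_mem c hy)) (inv_mem hb)))

theorem real_gd (a : GD D F) : RlB (gdAut D F a) a 1 := fun _ => rfl

theorem RlB.ext {α β : MulAut (D.group F)} {b : GL D.Idx F} {ψ : RingAut F} (h : RlB α b ψ)
    (h' : RlB β b ψ) : α = β := MulEquiv.ext fun y => Subtype.ext ((h y).trans (h' y).symm)

theorem RlB.eq_one {z : GL D.Idx F} (hz : z ∈ GD D F) {ψ : RingAut F} (h : RlB 1 z ψ) :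
    ψ = 1 := by
  obtain ⟨a, ha, c, rfl⟩ := mem_GD.1 hz
  refine (diagO_mul_fieldO (D := D) (c := c) ((QuotientGroup.eq_one_iff _).2
    ⟨(⟨a, group_eq.ge ha⟩ : D.group F)⁻¹, MulEquiv.ext fun y => Subtype.ext ?_⟩)).1
  change a⁻¹ * y.1 * a⁻¹⁻¹ = dgU c * mp ψ.toRingHom y.1 * (dgU c)⁻¹
  conv_lhs => rw [show y.1 = _ from h y]
  group

theorem exists_real [Finite F] (hg : Good3 D) {σ : Sym D} {η : Rt D → ℤ} {u : GL D.Idx F}
    (hu : GM σ η u) (ho : Ord σ.π) {α : MulAut (D.group F)} (h : piH D F α = σ.π) :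
    ∃ z ∈ GD D F, ∃ ψ, RlB α (z * u) ψ := by
  obtain ⟨x, hx⟩ := piH_spec α
  obtain ⟨c, γ, ψ, e, -, h1, h2⟩ := exists_decomp hg hx
  simp only [h, ho.2, pow_one] at h1 h2
  have h3 : γ = hu.aut 1 1 := aut_ext
    (fun i t => by rw [h1, hu.aut_x, σ.p_sim]; simp [tor, hu.sim])
    fun i t => by
      have := hu.ng (sim i)
      rw [hu.sim, one_mul] at this
      rw [h2, hu.aut_x, σ.p_ng, σ.p_sim]; simp [tor, this]
  refine ⟨_, mul_mem (mem_GD_of_grp (group_eq.le x⁻¹.2)) (dgU_mem_GD c), ψ, fun y => ?_⟩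
  rw [eq_inv_mul_of_mul_eq e, h3]
  change x.1⁻¹ * (dgU c * (dgU 1 * u * mp ψ.toRingHom y.1 * (dgU 1 * u)⁻¹) * (dgU c)⁻¹) * x.1 = _
  rw [← dgH_apply 1, map_one, Subgroup.coe_inv]
  group

variable (D) in
/-- the Cartan matrix is nonsingular -/
def Sj : Prop := ∃ U U' V V' d, g.cert.chkSmith D U U' V V' d = true ∧ ∀ i ∈ d, 0 < i

theorem dgU_mem_H [IsAlgClosed k] (h : Sj D) (c : Ix D → kˣ) : dgU c ∈ (glSys D k).H := by
  obtain ⟨U, U', V, V', d, h, hd⟩ := h
  simp only [Cert.chkSmith, Bool.and_eq_true] at h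
  have h2 := chkMul_spec h.1.2
  have h3 := chkMul_spec h.2
  rw [of_dia_nil, one_mul] at h2
  rw [of_dia, show (of fun i j : Ix D => g.cert.ca D i (D.simple j)) = cartanM D from
    Matrix.ext fun i j => by simp [cartanM, ca_eq']] at h3
  obtain ⟨c, rfl⟩ := (pw_bijective (M := kˣ) h2).2 c
  have h4 : ∀ i : Ix D, 0 < d.getD i 1 := fun i => by
    rw [List.getD_eq_getElem?_getD]
    cases e : d[(i : ℕ)]? with
    | none => exact one_pos
    | some a => exact hd a (List.mem_of_getElem? e)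
  choose e he using fun i => IsAlgClosed.exists_pow_nat_eq (c i : k) (h4 i)
  have h5 : ∀ i, e i ≠ 0 := fun i h => (c i).ne_zero (by rw [← he, h, zero_pow (h4 i).ne'])
  rw [show c = pw kˣ (diagonal fun i : Ix D => ((d.getD i 1 : ℕ) : ℤ)) fun i => Units.mk0 _ (h5 i)
    from funext fun i => Units.ext (by rw [pw_diagonal, ← he]; simp), ← pw_mul, ← h3, pw_mul, ← gl_hT]
  exact (glSys D k).hP_mem _ _

theorem GD_le [IsAlgClosed k] (h : Sj D) : GD D k ≤ (glSys D k).grp :=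
  sup_le le_rfl (by rintro _ ⟨c, rfl⟩; exact (glSys D k).H_le_grp (dgU_mem_H h c))

theorem mp_mem_GD (ι : F →+* k) {y : GL D.Idx F} (hy : y ∈ GD D F) : mp ι y ∈ GD D k := by
  obtain ⟨a, ha, c, rfl⟩ := mem_GD.1 hy
  rw [map_mul, map_dgU]
  exact mul_mem (mem_GD_of_grp ((fieldGL D ι).mem_grp ha)) (dgU_mem_GD _)

theorem exists_GD_of_fix [Fintype F] (ι : F →+* k) {ψ : k →+* k}
    (hψ : ∀ t, ψ t = t ^ Fintype.card F) {y : GL D.Idx k} (hy : y ∈ (glSys D k).grp)
    (h : mp ψ y = y) : ∃ z ∈ GD D F, mp ι z = y := by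
  have hL : ∀ t, t ∈ ι.fieldRange ↔ ψ t = t := fun t => hψ t ▸ mem_fieldRange_iff ι t
  obtain ⟨l, hl, z, hz, h1, rfl⟩ := exists_GS_mul hL hy h
  obtain ⟨a, ha, rfl⟩ := ((fieldGL D ι).map_grp fun _ _ => rfl).ge hl
  obtain ⟨c, rfl⟩ := gl_R3.exists_hT hz
  rw [gl_hT, map_dgU] at h1
  choose d hd using fun i => (hL _).2 (congrArg Units.val (congrFun (dgH_inj h1) i))
  refine ⟨a * dgU fun i => Units.mk0 (d i) fun e => (pw kˣ (cartanM D) c i).ne_zero (by
    rw [← hd, e, map_zero]), mul_mem (mem_GD_of_grp ha) (dgU_mem_GD _), ?_⟩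
  rw [map_mul, map_dgU, gl_hT]
  exact congrArg₂ _ rfl (congrArg dgU (funext fun i => Units.ext (hd i)))

theorem eq_one_of_cent_map (ι : F →+* k) {y : GL D.Idx k} (hy : y ∈ GD D k)
    (h : ∀ z : D.group F, y * mp ι z.1 * y⁻¹ = mp ι z.1) : y = 1 :=
  eq_one_of_cent (GS_wit ι.fieldRange le_rfl).1 (GS_wit _ le_rfl).2 hy fun z hz => by
    obtain ⟨a, ha, rfl⟩ := ((fieldGL D ι).map_grp fun _ _ => rfl).ge hz
    exact h ⟨a, group_eq.ge ha⟩

theorem lang_real [Fintype F] [IsAlgClosed k] (ι : F →+* k) (hS : Sj D) (r : ℕ) [Fact r.Prime]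
    [CharP F r] {σ : Sym D} {η : Rt D → ℤ} {u z : GL D.Idx F} (hu : GM σ η (mp ι u))
    (hz : z ∈ GD D F) {p e : ℕ} (hp : u ^ p = 1) (he : e ≠ 0) (hF : Fintype.card F = r ^ (e * p))
    {ψ : RingAut F} (hψ : ∀ t, ψ t = t ^ r ^ e) {β : MulAut (D.group F)} (h : RlB β (z * u) ψ)
    (hβ : β ^ p = 1) : ∃ α, RlB (α * β * α⁻¹) u ψ := by
  haveI := charP_of_injective_ringHom ι.injective r
  let Φ : ℕ → GL D.Idx k →* GL D.Idx k := fun n => mp (iterateFrobenius k r (e * n))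
  have h1 : ∀ n y, Φ (n + 1) y = Φ 1 (Φ n y) := fun n y =>
    (mp_congr (fun t => by simp [iterateFrobenius_def, ← pow_mul, mul_add, pow_add]) y).trans
      (mp_mp _ _ y).symm
  have h2 : ∀ y, mp ι (mp ψ.toRingHom y) = Φ 1 (mp ι y) := fun y => (mp_mp _ _ y).trans
    ((mp_congr (fun t => by simp [iterateFrobenius_def, hψ]) y).trans (mp_mp _ _ y).symm)
  obtain ⟨a, ha, h3⟩ := par_grp.lang r (by simpa using he : e * 1 ≠ 0) (c := mp ι u)
    (σ := fun y => mp ι u * Φ 1 y * (mp ι u)⁻¹)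
    (fun y hy => ⟨hu.conj_grp ((fieldGL D _).mem_grp hy), rfl⟩) (GD_le hS (mp_mem_GD ι hz))
  have h4 : ∀ n (y : D.group F), mp ι ((β ^ n) y).1 =
      a⁻¹ * mp ι u ^ n * Φ n (a * mp ι y.1 * a⁻¹) * (mp ι u ^ n)⁻¹ * a := fun n y => by
    induction n with
    | zero =>
      rw [show ∀ y, Φ 0 y = y from fun y => mp_congr (ψ := RingHom.id k) (by simp) y]
      simp [mul_assoc]
    | succ n ih =>
      rw [pow_succ', MulAut.mul_apply, h, map_mul, map_mul, map_inv, map_mul, h2, ih, h1 n, ← h3]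
      simp only [map_mul, map_inv, map_pow, show Φ 1 (mp ι u) = mp ι u from hu.fix _, pow_succ']
      group
  have h5 : ∀ t, iterateFrobenius k r (e * p) t = t ^ Fintype.card F := fun t => by rw [hF]; rfl
  have h6 : a⁻¹ * Φ p a = 1 := eq_one_of_cent_map ι
    (mem_GD_of_grp (mul_mem (inv_mem ha) ((fieldGL D _).mem_grp ha))) fun y => by
      have := h4 p y
      rw [hβ, ← map_pow, hp, map_one, map_mul, map_mul, map_inv, show Φ p (mp ι y.1) = mp ι y.1
        from (mp_mp _ _ _).trans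
          (mp_congr (fun t => by simp [h5, ← map_pow, FiniteField.pow_card]) _)] at this
      conv_rhs => rw [show mp ι y.1 = _ from this]
      group
  obtain ⟨b, hb, rfl⟩ := exists_GD_of_fix ι h5 ha (inv_mul_eq_one.1 h6).symm
  refine ⟨gdAut D F ⟨b, hb⟩, ?_⟩
  have h7 : b⁻¹ * (u * mp ψ.toRingHom b * u⁻¹) = z := GL_map_inj ι (by
    simp only [map_mul, map_inv, h2]; exact h3)
  convert ((real_gd ⟨b, hb⟩).mul h).mul (map_inv (gdAut D F) _ ▸ real_gd ⟨b, hb⟩⁻¹) using 1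
  · change u = b * (z * u) * mp ψ.toRingHom b⁻¹
    rw [← h7, map_inv]; group
  · simp

end Cfsg.Agent.Chev
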