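import Mathlib
import Cfsg.Agent.Chev.BalL
import Cfsg.Agent.Chev.SL2

/-! Local balance: field, graph-field and Ree type automorphisms; twisted involutions. -/

set_option autoImplicit false
set_option linter.unusedSectionVars false
set_option maxHeartbeats 400000

namespace Cfsg.Agent.Chev
open Cfsg.Lie Cfsg.Agent.BN StSys Matrix MatrixGroups

variable {D : ChevalleyDatum} [g : Good2 D] {F : Type*} [Field F] {G : Type*} [Group G]

theorem slUL_three {s t : F} (h : s * t = -3) : (slU s * slL t) ^ 3 = 1 := Subtype.ext (by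
  ext i j
  fin_cases i <;> fin_cases j <;> simp [pow_succ, mul_apply, Fin.sum_univ_two] <;> grind)

theorem slUL_four {s t : F} (h : s * t = -2) : (slU s * slL t) ^ 2 ^ 2 = 1 := Subtype.ext (by
  ext i j
  fin_cases i <;> fin_cases j <;> simp [pow_succ, mul_apply, Fin.sum_univ_two] <;> grind)

theorem Mor.exists_U {S : StSys D F G} {σ : Sym D} (m : Mor S S σ)
    (hφ : ∀ r, Function.Surjective (m.φ r)) {u : G} (hu : u ∈ S.U) : ∃ v ∈ S.U, m.f v = u := by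
  induction hu using S.XS_ind with
  | h1 => exact ⟨1, one_mem _, map_one _⟩
  | hs r hr t a ha ih =>
    obtain ⟨v, hv, rfl⟩ := ih
    obtain ⟨r, rfl⟩ := σ.p.surjective r
    obtain ⟨t, rfl⟩ := hφ r t
    exact ⟨_, mul_mem (S.x_mem (T := {r | Pos r}) ((σ.pos_p r).1 hr) t) hv, by
      rw [map_mul, m.f_x]⟩

namespace Mor
variable {S : StSys D F G} {σ : Sym D} (m : Mor S S σ) (hφ : ∀ r, Function.Surjective (m.φ r))
  (hq : ∀ i (w : W D), w • sim (σ.π i) = ng (sim i) → ∀ γ t : F, γ ≠ 0 →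
    ∃ c, γ * m.φ (sim i) c * (c + t) = 1)
include hφ hq

theorem tw_shorter {w : W D} (hw : w ≠ 1) (hw' : σ.ρ w⁻¹ = w) {y : G} (hy : y ∈ S.cell w) :
    ∃ a ∈ S.grp, ∃ v, ln v < ln w ∧ a * y * (m.f a)⁻¹ ∈ S.cell v := by
  obtain ⟨i, hi⟩ := exists_not_pos (inv_ne_one.2 hw)
  have hj : ¬ Pos (w • sim (σ.π i)) := by rwa [← hw', ← σ.p_sim, σ.ρ_smul, σ.pos_p]
  obtain ⟨n, h2, h3⟩ := S.exists_N w
  obtain ⟨b, hb, u, hu, rfl⟩ := exists_normal h2 h3 hy
  obtain ⟨u, h4, rfl⟩ := m.exists_U hφ (Uw_le_U w hu)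
  obtain ⟨z, hz, t, h, hh, e⟩ := exists_B_split i (mul_mem (S.U_le_B h4) hb)
  have hm : S.Mono (h * n) w := by simpa using (mono_of_mem_H hh).mul h3
  have hN : h * n ∈ S.N := mul_mem (S.H_le_N hh) h2
  have key : ∀ c v, ln v < ln w → S.ns i * S.x (sim i) (c + t) * (h * n) *
      S.x (sim (σ.π i)) (-m.φ (sim i) c) * (S.ns (σ.π i))⁻¹ ∈ S.cell v →
      ∃ a ∈ S.grp, ∃ v, ln v < ln w ∧ a * (b * n * m.f u) * (m.f a)⁻¹ ∈ S.cell v :=
    fun c v h5 h6 => by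
    refine ⟨S.ns i * S.x (sim i) c * u, mul_mem (mul_mem (S.N_le_grp (S.ns_mem i))
      (S.x_mem_grp _ _)) (S.U_le_grp h4), v, h5, ?_⟩
    have := cell_mul_mem (mul_mem_cell (S.U_le_B ((S.mono_ns i).conj_mem (T' := {r | Pos r})
      (fun r hr => hr.2) (conj_mem_Ui (S.x_mem (T := {r | Pos r}) (pos_sim i) c) hz))) h6)
      (S.H_le_B (inv_mem (S.h_mem_H (sim (σ.π i)) (m.φ_ne (sim i) one_ne_zero))))
    convert this using 1
    rw [map_mul, map_mul, m.f_x, ns, m.f_n _ one_ne_zero, σ.p_sim, S.n_eq _ (m.φ _ _), S.add,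
      S.x_neg, show b = u⁻¹ * (u * b) by group, e, ns]
    group
  have h7 := ln_sW_mul_of_not_pos hi
  by_cases h5 : Pos ((sW i * w) • sim (σ.π i))
  · have h6 : w • sim (σ.π i) = ng (sim i) := by
      rw [← ng_eq_iff]
      refine eq_sim_of_not_pos_rf ((pos_ng _).mpr hj) ?_
      rw [rf_ng, pos_ng, not_not]
      exact h5
    obtain ⟨γ, h8, h9, -⟩ := hm.exists_conj (sim (σ.π i))
    obtain ⟨c, hc⟩ := hq i w h6 γ t h8
    have h0 : γ * -m.φ (sim i) c ≠ 0 := fun e => by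
      have : (1 : F) = 0 := by linear_combination -hc - (c + t) * e
      exact one_ne_zero this
    have h10 : c + t = -(γ * -m.φ (sim i) c)⁻¹ := by
      rw [← inv_neg]
      exact eq_inv_of_mul_eq_one_left (by linear_combination hc)
    refine key c (w * sW (σ.π i)) (ln_mul_lt hj) ?_
    have h11 := mul_mem_cell (mul_mem (S.H_le_B (S.n_mul_n_mem (sim i) one_ne_zero
      (neg_ne_zero.mpr (inv_ne_zero h0))))
      (S.U_le_B (S.x_mem (pos_sim i) (γ * -m.φ (sim i) c)⁻¹)))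
      (self_mem_cell (mul_mem hN (inv_mem (S.ns_mem (σ.π i))))
        (by simpa using hm.mul (S.mono_ns (σ.π i)).inv : S.Mono _ (w * sW (σ.π i))))
    convert h11 using 1
    rw [show ∀ s, S.x (sim (σ.π i)) s = (h * n)⁻¹ * (h * n * S.x (sim (σ.π i)) s * (h * n)⁻¹) *
      (h * n) from fun s => by group, h9, h6, x_ng_eq _ h0, h10, S.x_neg, ns]
    group
  · have h6 : S.ns i * (h * n) * S.x (sim (σ.π i)) (-m.φ (sim i) (-t)) ∈ S.cell (sW i * w) :=
      cell_mul_mem (self_mem_cell (mul_mem (S.ns_mem i) hN) ((S.mono_ns i).mul hm))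
      (S.U_le_B (S.x_mem (pos_sim _) _))
    rcases (ns_mul_cell (i := σ.π i) (inv_mem_cell h6)).2 with h8 | h8
    · refine key (-t) (sW i * w * sW (σ.π i)) ?_ (by simpa [mul_assoc] using inv_mem_cell h8)
      have := ln_mul_lt h5
      omega
    · exact key (-t) (sW i * w) (by omega) (by simpa [mul_assoc] using inv_mem_cell h8)

omit hφ hq in
theorem tw_sq {y a : G} (h2 : ∀ z ∈ S.grp, (y * m.f y)⁻¹ * z * (y * m.f y) = m.f (m.f z))
    (ha : a ∈ S.grp) : a * y * (m.f a)⁻¹ * m.f (a * y * (m.f a)⁻¹) = y * m.f y := by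
  rw [map_mul, map_mul, map_inv, ← h2 a ha]; group

theorem tw_conj_B {y : G} (hy : y ∈ S.grp)
    (h2 : ∀ z ∈ S.grp, (y * m.f y)⁻¹ * z * (y * m.f y) = m.f (m.f z)) :
    ∃ a ∈ S.grp, a * y * (m.f a)⁻¹ ∈ S.B := by
  obtain ⟨w, hw⟩ := exists_cell hy
  induction hn : ln w using Nat.strong_induction_on generalizing w y with
  | _ n ih =>
    by_cases e : w = 1
    · exact ⟨1, one_mem _, by simpa [e, StSys.mem_cell_one] using hw⟩
    have h1 : (y * m.f y)⁻¹ ∈ S.B := mem_B_of_conj (inv_mem (mul_mem hy (m.mem_grp hy)))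
      fun u hu => by
        rw [inv_inv, h2 u (S.U_le_grp hu)]
        exact S.U_le_B (m.mem_U (m.mem_U hu))
    have h3 := cell_unique (m.mem_cell (inv_mem_cell hw)) (by simpa using mul_mem_cell h1 hw)
    obtain ⟨a, ha, v, h3, h4⟩ := m.tw_shorter hφ hq e h3 hw
    obtain ⟨b, hb, h5⟩ := ih _ (hn ▸ h3) (cell_le_grp h4) (by rwa [m.tw_sq h2 ha]) v h4 rfl
    exact ⟨b * a, mul_mem hb ha, by simpa [mul_assoc] using h5⟩

theorem tw_conj_H (ho : ∀ u ∈ S.U, ∃ j, u ^ (2 * j + 1) = 1) {y : G} (hy : y ∈ S.grp)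
    (h2 : ∀ z ∈ S.grp, (y * m.f y)⁻¹ * z * (y * m.f y) = m.f (m.f z)) :
    ∃ a ∈ S.grp, a * y * (m.f a)⁻¹ ∈ S.H := by
  obtain ⟨a, ha, h3⟩ := m.tw_conj_B hφ hq hy h2
  obtain ⟨u, hu, z, hz, e⟩ := StSys.mem_B.mp h3
  rw [← m.tw_sq h2 ha, e, map_mul] at h2
  have h4 : ∀ v ∈ S.grp, (u * (z * m.f u * z⁻¹))⁻¹ * v * (u * (z * m.f u * z⁻¹))⁻¹⁻¹ =
      z * m.f z * m.f (m.f v) * (z * m.f z)⁻¹ := fun v hv => by rw [← h2 v hv]; group
  have h5 := mul_mem hu (H_conj_mem hz (m.mem_U hu))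
  have h6 := mul_mem hz (m.mem_H hz)
  obtain ⟨n, hN, hm⟩ := S.exists_n0
  have h7 : ∀ i, S.x (sim i) 1 ∈ S.U ∧ S.x (sim i) 1 ∉ S.Ui i := fun i =>
    ⟨S.x_mem (T := {r | Pos r}) (pos_sim i) 1, fun e => one_ne_zero (eq_zero_of_mem_Ui e)⟩
  have h8 := one_of_mem_U_H (inv_mem h5) (mem_H_of_wit (S.U_le_grp (inv_mem h5)) hN hm
    (fun i => ⟨_, (h7 i).1, (h7 i).2, mul_mem (mul_mem (inv_mem h5) (h7 i).1)
      (inv_mem (inv_mem h5))⟩) fun i => ⟨_, (h7 i).1, (h7 i).2, by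
      have := hm.conj_mem (T' := {r | ¬ Pos r}) (fun r hr => by simpa [pos_w0_univ] using hr)
        (h7 i).1
      rw [h4 _ (S.V_le_grp this)]
      exact H_conj_mem h6 (m.mem_V (m.mem_V this))⟩)
  obtain ⟨j, hj⟩ := ho u hu
  refine ⟨u ^ j * a, mul_mem (S.U_le_grp (pow_mem hu j)) ha, ?_⟩
  have h9 : m.f u = z⁻¹ * u⁻¹ * z := by
    rw [← eq_inv_of_mul_eq_one_right (inv_eq_one.1 h8)]; group
  rw [map_mul, map_pow, show ∀ x, u ^ j * a * y * (x * m.f a)⁻¹ =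
    u ^ j * (a * y * (m.f a)⁻¹) * x⁻¹ from fun x => by group, e, h9,
    show u ^ j * (u * z) * ((z⁻¹ * u⁻¹ * z) ^ j)⁻¹ = u ^ (2 * j + 1) * z by
      rw [show z⁻¹ * u⁻¹ * z = z⁻¹ * u⁻¹ * z⁻¹⁻¹ by simp, conj_pow]; group, hj, one_mul]
  exact hz

end Mor

namespace TwB
variable [Finite F] {p : ℕ} {β : MulAut (D.group F)} {σ : Sym D}
  {m : Mor (chSys D F) (chSys D F) σ} (h : TwB p β m)
include h

theorem not_coprime_two {X : Subgroup (D.group F)}
    (h1 : ∀ y, β y = y → ∃ z ∈ (chSys D F).H, β z = z ∧ y * z⁻¹ ∈ X) :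
    ∃ y ∈ X, ¬ (orderOf y).Coprime 2 := by
  obtain ⟨n, hn, -, hm⟩ := h.isTw.exists_n0
  obtain ⟨z, hz, -, h2⟩ := h1 n (h.mem.1 hn)
  exact ⟨_, h2, Mono.not_coprime (by simpa using hm.mul (mono_of_mem_H hz).inv)
    (w0_ne_one ⟨⟨0, g.rank_pos⟩, Set.mem_univ _⟩) (w0_mul_self _)⟩

theorem bot (hg : Good3 D) (hφ : ∀ r, Function.Surjective (m.φ r)) (hr : (ringChar F).Coprime p)
    {i : Ix D} (hi : σ.π i ≠ i) (hp : p = 2 ∨ p = 3 ∧ ∃ j, σ.π j = j) : BalBot p β := by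
  refine balBot_of ch_conj_inj (h.normal_bot hr fun X h1 h2 _ h4 => ?_)
    (h.cent_bot hg hφ fun ψ hψ _ => RingEquiv.ext fun t => hψ i t fun e => (hi e).elim)
  obtain rfl | ⟨rfl, j, hj⟩ := hp
  · exact h.not_coprime_two h4
  obtain ⟨φ, h5, h6, -⟩ := (ch_R3 (D := D) (F := F)).exists_sl2 (sim j)
  refine ⟨_, mul_mem (h1 _ ((chSys D F).x_mem (T := {r | Pos r}) (pos_sim j) 1)
    (by rw [h.eq, m.f_x, σ.p_sim, hj, h.one j hj])) (h2 _ ((chSys D F).x_mem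
      (T := {r | ¬ Pos r}) (not_pos_ng_sim j) _) (h.neg_fix hj 3)),
    not_coprime_of_map h.prime (fun _ => id) (fun e => ?_) (k := 1) ?_⟩
  · rw [mul_eq_one_iff_eq_inv, ← StSys.x_neg] at e
    exact ng_ne _ ((chSys D F).eq_of_x_eq one_ne_zero e).symm
  · rw [← h5, ← h6, ← map_mul, ← map_pow, pow_one, slUL_three (by simp), map_one]

end TwB

theorem not_dvd_card [Finite F] {p : ℕ} (hp : p.Prime) (hr : (ringChar F).Coprime p) :
    ¬ p ∣ Nat.card F := fun e => by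
  haveI := Fintype.ofFinite F
  obtain ⟨n, -, hn⟩ := FiniteField.card F (ringChar F)
  rw [Nat.card_eq_fintype_card, hn] at e
  exact hp.one_lt.ne' (hr.symm.eq_one_of_dvd (hp.dvd_of_dvd_pow e))

theorem bot_graph_field [Finite F] (hg : Good3 D) {σ : Sym D} {η : Rt D → ℤ} {u : GL D.Idx F}
    (hu : GM σ η u) {p : ℕ} (hr : (ringChar F).Coprime p) {i : Ix D} (hi : σ.π i ≠ i)
    (hp : p = 2 ∨ p = 3 ∧ ∃ j, σ.π j = j) (h1 : σ.π ^ p = 1) {β : MulAut (D.group F)}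
    {ψ : RingAut F} (h : RlB β u ψ) (hβ : β ^ p = 1) : BalBot p β := by
  have h2 : p.Prime := by rcases hp with rfl | ⟨rfl, -⟩ <;> norm_num
  refine TwB.bot (m := (hu.mor 1 ψ.toRingHom).restrict) ⟨fun y => Subtype.ext ?_, hβ, h2,
    not_dvd_card h2 hr, fun j => ?_, fun j _ => ?_⟩ hg (hu.surj 1 ψ) hr hi hp
  · rw [h]; change _ = dgU 1 * u * _ * (dgU 1 * u)⁻¹
    rw [← dgH_apply 1, map_one, one_mul]; rfl
  · rcases hp with rfl | ⟨rfl, -⟩
    exacts [.inl (congrArg (· j) h1), .inr (congrArg (· j) h1)]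
  · simp [Mor.restrict, GM.mor, tor, hu.sim]

theorem bot_field [Fintype F] (hg : Good3 D) {p : ℕ} (hp : p.Prime) (hr : (ringChar F).Coprime p)
    {β : MulAut (D.group F)} {ψ : RingAut F} (h : RlB β 1 ψ) (hψ : orderOf ψ = p) {y : D.group F}
    (hy : β y = y) (hy' : orderOf y = p) : BalBot p β := by
  obtain rfl : β = fieldAutHom D F ψ := h.ext fun y => by simp; rfl
  have h1 : TwB p (fieldAutHom D F ψ) (fieldMor D ψ.toRingHom) := ⟨fun _ => rfl, by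
    rw [← map_pow, ← hψ, pow_orderOf_eq_one, map_one], hp, not_dvd_card hp hr,
    fun _ => .inl rfl, fun _ _ => map_one ψ⟩
  refine balBot_of ch_conj_inj (h1.normal_bot hr fun X h2 h3 h4 h5 => ?_)
    (h1.cent_bot hg (fun _ => ψ.surjective) fun τ hτ e => orderOf_eq_one_iff.1
      (e.eq_one_of_dvd (hψ ▸ orderOf_dvd_of_mem_zpowers (mem_zpowers_of_fix fun t ht =>
        hτ ⟨0, g.rank_pos⟩ t fun _ => ht))))
  rcases hp.eq_two_or_odd' with rfl | ho
  · exact h1.not_coprime_two h5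
  obtain ⟨F₀, _, _, ι, -, h6⟩ := exists_fixed_field ψ
  by_cases e : p ∣ Fintype.card F₀ - 1
  · haveI := Fact.mk hp
    classical
    obtain ⟨ζ, hζ⟩ := exists_prime_orderOf_dvd_card (G := F₀ˣ) p (by rwa [Fintype.card_units])
    have h7 : ι ζ ≠ 0 := by simp
    refine ⟨_, (chSys D F).h_mem_of (r := sim ⟨0, g.rank_pos⟩) ψ.toRingHom
      (fun t ht => h2 _ ((chSys D F).x_mem (T := {r | Pos r}) (pos_sim _) t)
        ((fieldAut_x _ _ _).trans (congrArg _ ht)))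
      (fun t ht => h3 _ ((chSys D F).x_mem (T := {r | ¬ Pos r}) (not_pos_ng_sim _) t)
        ((fieldAut_x _ _ _).trans (congrArg _ ht))) ((h6 _).1 ⟨ζ, rfl⟩),
      not_coprime_of_map (z := ζ ^ 2) hp (fun n hn => ?_) (fun e => ?_) (k := 1) ?_⟩
    · have : ∀ n : ℕ, (chSys D F).h (sim ⟨0, g.rank_pos⟩) (ι ζ) ^ n *
          (chSys D F).x (sim ⟨0, g.rank_pos⟩) 1 * ((chSys D F).h (sim ⟨0, g.rank_pos⟩) (ι ζ) ^ n)⁻¹
          = (chSys D F).x (sim ⟨0, g.rank_pos⟩) ((ι ζ ^ 2) ^ n) := fun n => by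
        induction n with
        | zero => simp
        | succ n ih =>
          rw [pow_succ', show ∀ a b c : D.group F, a * b * c * (a * b)⁻¹ = a * (b * c * b⁻¹) * a⁻¹
            from fun a b c => by group, ih, h_conj _ _ h7, pr_self, pow_succ' _ n, zpow_ofNat]
      have h8 := this n
      rw [hn, one_mul, inv_one, mul_one] at h8
      exact Units.ext (ι.injective (by simpa using ((chSys D F).x_inj h8).symm))
    · exact (Nat.not_even_iff_odd.2 ho) ((Nat.prime_dvd_prime_iff_eq hp Nat.prime_two).1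
        (hζ ▸ orderOf_dvd_of_pow_eq_one e) ▸ even_two)
    · rw [pow_one, ← pow_mul, mul_comm, pow_mul, ← hζ, pow_orderOf_eq_one, one_pow]
  obtain ⟨z, hz, h7, h8⟩ := h5 y hy
  have h9 : ∀ n, y ^ n * (z ^ n)⁻¹ ∈ X := fun n => by
    induction n with
    | zero => simp
    | succ n ih =>
      convert mul_mem (h4 y hy _ ih) h8 using 1
      rw [pow_succ', pow_succ']; group
  have h10 : z ^ (Fintype.card F₀ - 1) = 1 := by
    obtain ⟨c, hc⟩ := gl_R3.exists_hT (ch_mem_H.1 hz)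
    have h11 : mp ψ.toRingHom z.1 = z.1 := congrArg Subtype.val h7
    rw [← hc, gl_hT, map_dgU] at h11
    refine Subtype.ext ?_
    rw [Subgroup.coe_pow, ← hc, gl_hT, ← dgH_apply, ← map_pow]
    refine (congrArg _ (funext fun i => Units.ext ?_)).trans (map_one _)
    obtain ⟨d, hd⟩ := (h6 _).2 (congrArg Units.val (congrFun (dgH_inj h11) i))
    rw [Pi.pow_apply, Units.val_pow_eq_pow_val, ← hd, ← map_pow, FiniteField.pow_card_sub_one_eq_one
      d fun e => (pw Fˣ (cartanM D) c i).ne_zero (by rw [← hd, e, map_zero]), map_one]; rfl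
  refine ⟨_, by simpa [h10] using h9 (Fintype.card F₀ - 1), not_coprime_of_map hp (fun _ => id)
    (fun e' => e (hy' ▸ orderOf_dvd_of_pow_eq_one e')) (k := 1) ?_⟩
  rw [pow_one, ← pow_mul, mul_comm, pow_mul, ← hy', pow_orderOf_eq_one, one_pow]

theorem exists_odd_U (r : ℕ) [Fact r.Prime] [CharP F r] (hr : r.Coprime 2) {u : GL D.Idx F}
    (hu : u ∈ (glSys D F).U) : ∃ j, u ^ (2 * j + 1) = 1 := by
  obtain ⟨n, hn⟩ := exists_pow_U r hu
  obtain ⟨j, hj⟩ := (Nat.coprime_two_right.1 hr).pow (n := n)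
  exact ⟨j, hj ▸ hn⟩

theorem bot_ree [Finite F] (hg : Good3 D) {σ : Sym D} (m : Mor (chSys D F) (chSys D F) σ)
    (hφ : ∀ r, Function.Surjective (m.φ r)) (hσ : ∀ i, σ.π i ≠ i ∧ σ.π (σ.π i) = i)
    (hq : ∀ i (w : W D), w • sim (σ.π i) ≠ ng (sim i)) (hr : (ringChar F).Coprime 2)
    {β : MulAut (D.group F)} {y : D.group F} (h : ∀ z, β z = y * m.f z * y⁻¹) (hβ : β ^ 2 = 1) :
    BalBot 2 β := by
  haveI : Fact (ringChar F).Prime := ⟨CharP.char_is_prime F _⟩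
  obtain ⟨a, -, ha⟩ := m.tw_conj_H hφ (fun i w e => (hq i w e).elim)
    (fun u hu => (exists_odd_U _ hr (ch_mem_XS.1 hu)).imp fun j hj => Subtype.ext hj)
    (ch_grp.ge trivial : y ∈ _) fun z _ => by
      have : β (β z) = z := congrArg (· z) (sq β ▸ hβ)
      rw [h, h, map_mul, map_mul, map_inv] at this
      conv_lhs => rw [← this]
      group
  obtain ⟨c, hc⟩ := ch_R3.exists_hT ha
  refine BalBot.conj (MulAut.conj a) (TwB.bot (m := (diagMor (pw Fˣ (cartanM D) c)).comp m)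
    ⟨fun z => ?_, by rw [conj_pow, hβ]; simp, Nat.prime_two, not_dvd_card Nat.prime_two hr,
      fun i => .inl (hσ i).2, fun i e => ((hσ i).1 e).elim⟩ hg (fun r t => ?_) hr
    (i := ⟨0, g.rank_pos⟩) (hσ _).1 (.inl rfl))
  · change _ = diagHom D F _ (m.f z)
    rw [← conj_hT, hc]
    simp [h, mul_assoc]
  · obtain ⟨s, hs⟩ := hφ r ((tor (pw Fˣ (cartanM D) c) (co (σ.p r)))⁻¹ * t)
    exact ⟨s, (congrArg (_ * ·) hs).trans (Units.mul_inv_cancel_left _ _)⟩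

end Cfsg.Agent.Chev
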