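import Mathlib
import Cfsg.Agent.Chev.BalF

/-! Local balance: graph type automorphisms fixing the standard Borel subgroup and torus. -/

set_option autoImplicit false
set_option linter.unusedSectionVars false
set_option maxHeartbeats 400000

namespace Cfsg.Agent.Chev
open Cfsg.Lie Cfsg.Agent.BN StSys Matrix MatrixGroups Pointwise

variable {D : ChevalleyDatum} [g : Good2 D] {k : Type*} [Field k]

theorem map_nrB' {G G' : Type*} [Group G] [Group G'] {β : MulAut G} {β' : MulAut G'} (f : G →* G')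
    (h : ∀ y, f (β y) = β' (f y)) (n : ℕ) (y : G) : f (nrB β n y) = nrB β' n (f y) := by
  have : ∀ l : ℕ, f ((β ^ l) y) = (β' ^ l) (f y) := fun l => by
    induction l with
    | zero => rfl
    | succ l ih => rw [pow_succ', pow_succ', MulAut.mul_apply, MulAut.mul_apply, h, ih]
  simp only [nrB, map_list_prod, List.map_map, Function.comp_def, this]

theorem nrB_mul {G : Type*} [Group G] {β : MulAut G} {n : ℕ} {y z : G}
    (h : ∀ i j, i < j → j < n → Commute ((β ^ i) z) ((β ^ j) y)) :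
    nrB β n (y * z) = nrB β n y * nrB β n z := by
  induction n with
  | zero => simp [nrB]
  | succ n ih =>
    have : Commute (nrB β n z) ((β ^ n) y) := Subgroup.mem_centralizer_singleton_iff.1
      (nrB_mem fun l hl => Subgroup.mem_centralizer_singleton_iff.2 (h l n hl (by simp)))
    rw [nrB_succ, nrB_succ, nrB_succ, ih fun i j h1 h2 => h i j h1 (by omega), map_mul,
      mul_assoc, ← mul_assoc (nrB β n z), this.eq]
    simp only [mul_assoc]

variable (k) in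
/-- graph type elements of prime order in standard form -/
structure GB (p : ℕ) (σ : Sym D) (η : Rt D → ℤ) (u : GL D.Idx k) where
  t : Ix D → kˣ
  gm : GM σ η u
  hp : p = 2 ∨ p = 3
  so : ∀ r, σ.p r ≠ r → SO D r (σ.p r)
  pow : (dgU t * u) ^ p = 1

/-- the size of an orbit -/
def ko (σ : Sym D) (p : ℕ) (r : Rt D) : ℕ := if σ.p r = r then 1 else p

theorem ko_ng (σ : Sym D) (p : ℕ) (r : Rt D) : ko σ p (ng r) = ko σ p r := by
  simp only [ko, σ.p_ng, ng_eq_iff, ng_ng]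

namespace GB
variable {p : ℕ} {σ : Sym D} {η : Rt D → ℤ} {u : GL D.Idx k} (B : GB k p σ η u)

/-- the matrix -/
def b : GL D.Idx k := dgU B.t * u
/-- the automorphism -/
def β : MulAut (GL D.Idx k) := MulAut.conj B.b
/-- the morphism -/
def m : Mor (glSys D k) (glSys D k) σ := B.gm.mor B.t (RingHom.id k)
/-- the character -/
def χ (r : Rt D) : k := tor B.t (co (σ.p r)) * η r
/-- active roots -/
def Act (r : Rt D) : Prop := σ.p r ≠ r ∨ B.χ r = 1
/-- the norm map of an orbit -/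
def nr (r : Rt D) (y : GL D.Idx k) : GL D.Idx k := nrB B.β (ko σ p r) y
/-- the root elements of the centralizer -/
def xo (r : Rt D) (s : k) : GL D.Idx k := B.nr r ((glSys D k).x r s)
/-- the centralizer -/
def C : Subgroup (GL D.Idx k) := Cz D k B.b

theorem β_eq (y : GL D.Idx k) : B.β y = B.m.f y := rfl

include B in
theorem prime : p.Prime := by rcases B.hp with rfl | rfl <;> norm_num

theorem β_x (r : Rt D) (s : k) : B.β ((glSys D k).x r s) = (glSys D k).x (σ.p r) (B.χ r * s) :=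
  (B.m.f_x r s).trans (congrArg _ (mul_assoc _ _ _).symm)

theorem β_pow : B.β ^ p = 1 := by rw [β, ← map_pow, b, B.pow, map_one]

theorem mem_C {y : GL D.Idx k} : y ∈ B.C ↔ y ∈ (glSys D k).grp ∧ B.β y = y :=
  mem_Cz.trans (and_congr_right' mul_inv_eq_iff_eq_mul.symm)

theorem mem_Fx {y : GL D.Idx k} : y ∈ B.C ↔ y ∈ B.m.toTw.Fx := B.mem_C

theorem χ_ng (r : Rt D) : B.χ r * B.χ (ng r) = 1 := by
  rw [χ, χ, σ.p_ng, co_ng, tor_neg, mul_mul_mul_comm, Units.mul_inv, ← Int.cast_mul, B.gm.ng]; simp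

theorem χ_ne (r : Rt D) : B.χ r ≠ 0 := left_ne_zero_of_mul_eq_one (B.χ_ng r)

theorem act_ng {r : Rt D} (h : B.Act r) : B.Act (ng r) :=
  h.imp (fun h e => h (ng_inj (σ.p_ng r ▸ e))) fun h => by simpa [h] using B.χ_ng r

include B in
theorem p_pow (r : Rt D) : (σ.p ^ p) r = r := by
  obtain ⟨s, -, e⟩ := B.m.pow_x B.β_eq p r 1
  rw [B.β_pow] at e
  exact ((glSys D k).eq_of_x_eq one_ne_zero e).symm

include B in
theorem pow_ne {r : Rt D} {l : ℕ} (h0 : 0 < l) (h : l < ko σ p r) : (σ.p ^ l) r ≠ r := fun e => by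
  unfold ko at h
  split_ifs at h with h1
  exacts [by omega, h1 (perm_fix_of_prime B.prime (B.p_pow r) h0 h e)]

include B in
theorem ko_ne (r : Rt D) : ko σ p r ≠ 0 := by
  unfold ko; split_ifs; exacts [one_ne_zero, B.prime.ne_zero]

theorem pow_Y (r : Rt D) (l : ℕ) {y : GL D.Idx k} (hy : y ∈ (glSys D k).XS {r, ng r}) :
    (B.β ^ l) y ∈ (glSys D k).XS {(σ.p ^ l) r, ng ((σ.p ^ l) r)} :=
  (glSys D k).map_mem_XS (B.β ^ l).toMonoidHom (fun s hs t => by
    obtain ⟨v, -, e⟩ := B.m.pow_x B.β_eq l s t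
    refine mem_of_eq e ((glSys D k).x_mem ?_ v)
    rcases hs with rfl | rfl <;> simp [σ.pow_ng]) hy

theorem comm {r : Rt D} {y z : GL D.Idx k} (hy : y ∈ (glSys D k).XS {r, ng r})
    (hz : z ∈ (glSys D k).XS {r, ng r}) (i j : ℕ) (h1 : i < j) (h2 : j < ko σ p r) :
    Commute ((B.β ^ i) y) ((B.β ^ j) z) := by
  obtain ⟨l, rfl⟩ := Nat.exists_eq_add_of_lt h1
  rw [add_assoc, pow_add, MulAut.mul_apply]
  refine Commute.map ?_ (B.β ^ i)
  have h3 := B.pow_Y r (l + 1) hz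
  unfold ko at h2
  split_ifs at h2 with h4
  · omega
  obtain rfl | rfl : l = 0 ∨ l = 1 := by rcases B.hp with rfl | rfl <;> omega
  · exact (B.so r h4).commute _ hy h3
  obtain rfl : p = 3 := by rcases B.hp with rfl | rfl <;> omega
  have h5 : σ.p ((σ.p ^ (1 + 1)) r) = r := B.p_pow r
  exact ((B.so _ fun e => h4 (by rw [← h5, e, e])).commute _ h3 (h5.symm ▸ hy)).symm

theorem nr_mul {r : Rt D} {y z : GL D.Idx k} (hy : y ∈ (glSys D k).XS {r, ng r})
    (hz : z ∈ (glSys D k).XS {r, ng r}) : B.nr r (y * z) = B.nr r y * B.nr r z :=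
  nrB_mul (B.comm hz hy)

theorem nr_mem {r : Rt D} (h : B.Act r) {y : GL D.Idx k} (hy : y ∈ (glSys D k).XS {r, ng r}) :
    B.nr r y ∈ B.C := by
  refine B.mem_C.2 ⟨nrB_mem fun l _ => (glSys D k).XS_le_grp _ (B.pow_Y r l hy), ?_⟩
  by_cases e : σ.p r = r
  · rw [nr, ko, if_pos e, nrB_one]
    refine (glSys D k).XS_le (K := B.β.toMonoidHom.eqLocus (MonoidHom.id _)).2 ?_ hy
    rintro s (rfl | rfl) t
    · exact (B.β_x _ t).trans (by rw [e, h.resolve_left (not_not.2 e), one_mul]; rfl)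
    · exact (B.β_x _ t).trans (by
        rw [(B.act_ng h).resolve_left (by simp [σ.p_ng, e]), σ.p_ng, e, one_mul]; rfl)
  · have := nrB_split (K := Subgroup.centralizer {y}) (B.ko_ne r) fun l h1 h2 =>
      Subgroup.mem_centralizer_singleton_iff.2 (B.comm hy hy 0 l h1 h2).symm
    rw [nr, map_nrB (by rw [ko, if_neg e, B.β_pow]; rfl),
      Subgroup.mem_centralizer_singleton_iff.1 this, mul_inv_cancel_left]

theorem xo_mem {r : Rt D} (h : B.Act r) (s : k) : B.xo r s ∈ B.C :=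
  B.nr_mem h ((glSys D k).x_mem (by simp) s)

theorem xo_ng (r : Rt D) (s : k) : B.xo (ng r) s = B.nr r ((glSys D k).x (ng r) s) := by
  rw [xo, nr, ko_ng, nr]

theorem xo_XS {R : Set (Rt D)} (hR : ∀ r ∈ R, σ.p r ∈ R) {r : Rt D} (hr : r ∈ R) (s : k) :
    B.xo r s ∈ (glSys D k).XS R := nrB_mem fun l _ => by
  obtain ⟨v, -, e⟩ := B.m.pow_x B.β_eq l r s
  exact e ▸ (glSys D k).x_mem (σ.pow_mem hR l hr) v

theorem xo_split {R : Set (Rt D)} {r : Rt D} (hR : ∀ l, (σ.p ^ l) r ≠ r → (σ.p ^ l) r ∈ R) (s : k) :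
    ((glSys D k).x r s)⁻¹ * B.xo r s ∈ (glSys D k).XS R :=
  nrB_split (B.ko_ne r) fun l h1 h2 => by
    obtain ⟨v, -, e⟩ := B.m.pow_x B.β_eq l r s
    exact e ▸ (glSys D k).x_mem (hR l (B.pow_ne h1 h2)) v

theorem xo_zero (r : Rt D) : B.xo r 0 = 1 := by simp [xo, nr, nrB]

include B in
theorem ph_pow (l : ℕ) (r : Rt D) : ph (fun _ => 1) ((σ.p ^ l) r) = ph (fun _ => 1) r := by
  induction l with
  | zero => rfl
  | succ l ih =>
    rw [pow_succ', Equiv.Perm.mul_apply, ← ih]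
    simp only [ph, lin_apply, mul_one, ← B.gm.co ((σ.p ^ l) r)]
    exact (Equiv.sum_comp σ.π _).symm

theorem lead_xo {r : Rt D} (hr : Pos r) (s : k) : (glSys D k).Lead (B.xo r s) r s :=
  B.xo_split (R := Ab r) (fun l h => ⟨σ.pow_mem (R := {r | Pos r}) (fun r h => (σ.pos_p r).2 h) l hr,
    fun e => h (co_inj (funext fun i => by
      have := B.ph_pow l r
      simp only [ph, lin_apply, mul_one] at this
      exact (Finset.sum_eq_sum_iff_of_le fun i _ => e i).1 this i (Finset.mem_univ i)))⟩) s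

theorem exists_hom (r : Rt D) : ∃ Φ : SL(2, k) →* GL D.Idx k, (∀ s, Φ (slU s) = B.xo r s) ∧
    ∀ s, Φ (slL s) = B.xo (ng r) s := by
  obtain ⟨φ, h1, h2, -, h3⟩ := (gl_R3 (D := D) (F := k)).exists_sl2 r
  exact ⟨MonoidHom.mk' (fun a => B.nr r (φ a)) fun a b => by
    rw [map_mul, B.nr_mul (h3.le ⟨a, rfl⟩) (h3.le ⟨b, rfl⟩)],
    fun s => congrArg (B.nr r) (h1 s), fun s => (congrArg (B.nr r) (h2 s)).trans (B.xo_ng r s).symm⟩

theorem nr_n (r : Rt D) (s : k) :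
    B.nr r ((glSys D k).n r s) = B.xo r s * B.xo (ng r) (-s⁻¹) * B.xo r s := by
  have h1 := (glSys D k).x_mem (T := {r, ng r}) (r := r) (by simp) s
  have h2 := (glSys D k).x_mem (T := {r, ng r}) (r := ng r) (by simp) (-s⁻¹)
  rw [n, B.nr_mul (mul_mem h1 h2) h1, B.nr_mul h1 h2, xo_ng]; rfl

theorem pow_n (l : ℕ) (r : Rt D) {s : k} (hs : s ≠ 0) :
    ∃ v ≠ 0, (B.β ^ l) ((glSys D k).n r s) = (glSys D k).n ((σ.p ^ l) r) v := by
  induction l with
  | zero => exact ⟨s, hs, rfl⟩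
  | succ l ih =>
    obtain ⟨v, h1, h2⟩ := ih
    exact ⟨_, B.m.φ_ne _ h1, by rw [pow_succ', MulAut.mul_apply, h2, β_eq, B.m.f_n _ h1, pow_succ']; rfl⟩

theorem mono_nr {r : Rt D} (hr : Pos r) {s : k} (hs : s ≠ 0) :
    B.nr r ((glSys D k).n r s) ∈ (glSys D k).N ∧ ∃ v, (glSys D k).Mono (B.nr r ((glSys D k).n r s)) v ∧
      ∀ w : W D, σ.ρ w = w → ¬ Pos (w • r) → ln (w * v) < ln w := by
  have h0 := (glSys D k).n_mem (T := {r, ng r}) (r := r) (by simp) (by simp) s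
  have key : ∀ j ≤ ko σ p r, nrB B.β j ((glSys D k).n r s) ∈ (glSys D k).N ∧
      ∃ v, (glSys D k).Mono (nrB B.β j ((glSys D k).n r s)) v ∧
        ∀ w : W D, (∀ l, ¬ Pos (w • (σ.p ^ l) r)) → ln (w * v) + j ≤ ln w := fun j hj => by
    induction j with
    | zero => exact ⟨one_mem _, 1, Mono.one, by simp⟩
    | succ j ih =>
      obtain ⟨h1, v, h2, h3⟩ := ih (by omega)
      obtain ⟨s', h4, h5⟩ := B.pow_n j r hs
      rw [nrB_succ, h5]
      refine ⟨mul_mem h1 ((glSys D k).n_mem_N _ h4), _, h2.mul ((glSys D k).mono_n _ h4),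
        fun w hw => ?_⟩
      obtain ⟨a, h6, h7⟩ := B.m.pow_x B.β_eq j r 1
      obtain ⟨c, h8, h9, -⟩ := h2.exists_conj ((σ.p ^ j) r)
      have h10 : Commute (nrB B.β j ((glSys D k).n r s)) ((B.β ^ j) ((glSys D k).x r 1)) :=
        Subgroup.mem_centralizer_singleton_iff.1 (nrB_mem fun l hl =>
          Subgroup.mem_centralizer_singleton_iff.2
            (B.comm h0 ((glSys D k).x_mem (by simp) 1) l j hl hj))
      have h11 := h9 a
      rw [← h7, h10.eq, mul_inv_cancel_right, h7] at h11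
      have := ln_mul_rW (w := w * v) (σ.pow_mem (R := {r | Pos r}) (fun r h => (σ.pos_p r).2 h) j hr)
        (by rw [mul_smul, ← (glSys D k).eq_of_x_eq (h6 one_ne_zero) h11]; exact hw j)
      have := h3 w hw
      rw [← mul_assoc]; omega
  obtain ⟨h1, v, h2, h3⟩ := key _ le_rfl
  refine ⟨h1, v, h2, fun w hw h4 => ?_⟩
  have := h3 w fun l => by
    induction l with
    | zero => exact h4
    | succ l ih => rwa [pow_succ', Equiv.Perm.mul_apply, ← hw, σ.ρ_smul, σ.pos_p]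
  have := B.ko_ne r
  omega

theorem par_xo {r : Rt D} {K : Subgroup (GL D.Idx k)} (h : ∀ s, B.xo r s ∈ K) :
    Par K (Set.range (B.xo r)) := by
  refine ⟨Unit, inferInstance, fun t => B.xo r (t ()), ?_, fun _ => h _,
    Set.insert_subset ⟨0, B.xo_zero r⟩ (by rintro _ ⟨t, rfl⟩; exact ⟨fun _ => t, rfl⟩)⟩
  simp only [xo, nr]
  induction ko σ p r with
  | zero => exact one_mem _
  | succ j ih =>
    simp only [nrB_succ, β, ← map_pow]
    exact mul_mem ih (mul_mem (mul_mem (const_mem_Reg _ _) fun _ _ =>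
      ⟨x_mem_subalgebra (proj_mem_polyF ()) r _ _,
        x_mem_subalgebra (neg_mem (proj_mem_polyF ())) r _ _⟩) (const_mem_Reg _ _))

theorem par_n {r : Rt D} (h : B.Act r) :
    Par B.C (Set.range fun s => B.nr r ((glSys D k).n r s)) :=
  (((B.par_xo (B.xo_mem h)).mul (B.par_xo (B.xo_mem (B.act_ng h)))).mul
    (B.par_xo (B.xo_mem h))).mono (by
    rintro _ ⟨s, rfl⟩
    exact .inr ⟨_, ⟨_, ⟨_, rfl⟩, _, ⟨_, rfl⟩, rfl⟩, _, ⟨_, rfl⟩, (B.nr_n r s).symm⟩)

theorem split {R : Set (Rt D)} (hU : Uni (fun _ => 1) R) (hR : ∀ r, σ.p r ∈ R ↔ r ∈ R)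
    (h : R.Nonempty) : ∃ a ∈ R, ∃ R' ⊂ R, Uni (fun _ => 1) R' ∧ (∀ r, σ.p r ∈ R' ↔ r ∈ R') ∧
      ∀ y ∈ B.C ⊓ (glSys D k).XS R, ∃ s, (B.Act a ∨ s = 0) ∧
        (B.xo a s)⁻¹ * y ∈ B.C ⊓ (glSys D k).XS R' := by
  obtain ⟨a, ha, h1⟩ := Set.exists_min_image R (ph fun _ => 1) (Set.toFinite _) h
  have h2 : ∀ l, Uni (fun _ => 1) (R \ {(σ.p ^ l) a}) := fun l =>
    ⟨fun r hr => hU.pos r hr.1, fun r hr s hs v i j hi hj e => ⟨hU.cl r hr.1 s hs.1 v i j hi hj e,
      fun e' => by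
        have h3 : ph (fun _ => 1) v = i * ph (fun _ => 1) r + j * ph (fun _ => 1) s := by
          simp only [ph, e, map_add, map_smul, smul_eq_mul]
        rw [e', B.ph_pow] at h3
        have := h1 r hr.1
        have := hU.pos r hr.1
        have := hU.pos s hs.1
        nlinarith⟩⟩
  have h3 : ∀ l, ∀ y ∈ B.C ⊓ (glSys D k).XS (R \ {(σ.p ^ 0) a}),
      y ∈ (glSys D k).XS (R \ {(σ.p ^ l) a}) := fun l y hy => by
    induction l with
    | zero => exact hy.2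
    | succ l ih =>
      rw [← (B.mem_C.1 hy.1).2]
      exact B.m.mem_XS (T := R \ {(σ.p ^ l) a}) (T' := R \ {(σ.p ^ (l + 1)) a})
        (fun r hr => ⟨(hR r).2 hr.1, fun e => hr.2 (σ.p.injective
        (e.trans (by rw [pow_succ']; rfl)))⟩) ih
  refine ⟨a, ha, R \ {(σ.p ^ 0) a} ∩ (R \ {(σ.p ^ 1) a}) ∩ (R \ {(σ.p ^ 2) a}),
    ⟨fun _ h => h.2.1, fun h => (h ha).1.1.2 rfl⟩, ((h2 0).inter (h2 1)).inter (h2 2),
    fun r => ?_, fun y hy => ?_⟩
  · have h4 := B.p_pow a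
    have h5 : ∀ r s, σ.p r = σ.p s ↔ r = s := fun _ _ => σ.p.injective.eq_iff
    rcases B.hp with rfl | rfl <;>
      simp only [pow_succ', pow_zero, mul_one, Equiv.Perm.mul_apply, Equiv.Perm.one_apply,
        Set.mem_inter_iff, Set.mem_diff, Set.mem_singleton_iff, hR] at h4 ⊢ <;> grind
  suffices ∃ s, (B.Act a ∨ s = 0) ∧ (B.xo a s)⁻¹ * y ∈ B.C ⊓ (glSys D k).XS (R \ {a}) by
    obtain ⟨s, h4, h5⟩ := this
    refine ⟨s, h4, h5.1, ?_⟩
    rw [← (glSys D k).XS_inf hU ((h2 0).inter (h2 1)) (h2 2) (fun _ h => h.1.1) (fun _ h => h.1),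
      ← (glSys D k).XS_inf hU (h2 0) (h2 1) (fun _ h => h.1) (fun _ h => h.1)]
    exact ⟨⟨h5.2, h3 1 _ h5⟩, h3 2 _ h5⟩
  obtain ⟨z, hz, v, hv, rfl⟩ := (glSys D k).exists_mul hU (T := {a}) (T' := R \ {a})
    (by simpa) (fun _ h => h.1) (by simp) hy.2
  obtain ⟨s, rfl⟩ := (glSys D k).mem_XS_singleton.1 hz
  by_cases e : B.Act a
  · refine ⟨s, .inl e, B.C.mul_mem (B.C.inv_mem (B.xo_mem e s)) hy.1, ?_⟩
    simpa [mul_assoc] using mul_mem (inv_mem (B.xo_split (R := R \ {a})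
      (fun l hl => ⟨σ.pow_mem (fun r h => (hR r).2 h) l ha, hl⟩) s)) hv
  obtain ⟨e1, e2⟩ := not_or.1 e
  rw [not_not] at e1
  obtain rfl : s = 0 := by_contra fun hs => by
    have h4 := (B.mem_C.1 hy.1).2
    rw [map_mul, β_x, e1] at h4
    have h5 : (glSys D k).x a ((B.χ a - 1) * s) = v * (B.β v)⁻¹ := by
      rw [sub_mul, one_mul, sub_eq_neg_add, StSys.add, x_neg, eq_mul_inv_of_mul_eq h4]; group
    exact ((glSys D k).mem_of_x_mem hU (h2 0) (fun _ h => h.1) ha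
      (mul_ne_zero (sub_ne_zero.2 e2) hs) (h5 ▸ mul_mem hv (inv_mem (B.m.mem_XS (T := R \ {a}) (T' := R \ {a})
        (fun r hr => ⟨(hR r).2 hr.1, fun e => hr.2 (σ.p.injective (e.trans e1.symm))⟩) hv)))).2 rfl
  rw [StSys.x_zero, one_mul] at hy ⊢
  exact ⟨0, .inr rfl, by rw [xo_zero, inv_one, one_mul]; exact ⟨hy.1, hv⟩⟩

theorem fix_XS {R : Set (Rt D)} (hU : Uni (fun _ => 1) R) (hR : ∀ r, σ.p r ∈ R ↔ r ∈ R) :
    (∀ K, B.C ⊓ (glSys D k).XS R ≤ K → Par K (B.C ⊓ (glSys D k).XS R : Subgroup _)) ∧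
      B.C ⊓ (glSys D k).XS R ≤ (glSys D k).XS {r | r ∈ R ∧ B.Act r} := by
  induction hn : R.ncard using Nat.strong_induction_on generalizing R with
  | _ n ih =>
    rcases R.eq_empty_or_nonempty with rfl | h
    · exact ⟨fun _ _ => Par.one.mono (by simp), by simp⟩
    obtain ⟨a, ha, R', h1, h2, h3, h4⟩ := B.split hU hR h
    obtain ⟨h5, h6⟩ := ih _ (hn ▸ Set.ncard_lt_ncard h1) h2 h3 rfl
    have h7 := h6.trans ((glSys D k).XS_mono (T' := {r | r ∈ R ∧ B.Act r})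
      fun r hr => ⟨h1.1 hr.1, hr.2⟩)
    have h9 : B.C ⊓ (glSys D k).XS R' ≤ B.C ⊓ (glSys D k).XS R :=
      inf_le_inf_left _ ((glSys D k).XS_mono h1.1)
    by_cases e : B.Act a
    · refine ⟨fun K hK => ((B.par_xo fun s => hK ⟨B.xo_mem e s,
        B.xo_XS (fun r => (hR r).2) ha s⟩).mul (h5 K (h9.trans hK))).mono fun y hy => ?_,
        fun y hy => ?_⟩
      · obtain ⟨s, -, h8⟩ := h4 y hy
        exact .inr ⟨_, ⟨s, rfl⟩, _, h8, mul_inv_cancel_left _ _⟩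
      · obtain ⟨s, -, h8⟩ := h4 y hy
        simpa using mul_mem (B.xo_XS (R := {r | r ∈ R ∧ B.Act r}) (fun r hr => ⟨(hR r).2 hr.1, by
          by_cases e : σ.p r = r
          exacts [e.symm ▸ hr.2, .inl fun e' => e (σ.p.injective e')]⟩) ⟨ha, e⟩ s) (h7 h8)
    have h8 : B.C ⊓ (glSys D k).XS R ≤ B.C ⊓ (glSys D k).XS R' := fun y hy => by
      obtain ⟨s, h8, h9⟩ := h4 y hy
      simpa [h8.resolve_left e, xo_zero] using h9
    exact ⟨fun K hK => (h5 K (h9.trans hK)).mono fun y hy => .inr (h8 hy), h8.trans h7⟩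

end GB

end Cfsg.Agent.Chev
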