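import Mathlib
import Cfsg.Agent.Chev.BalG

/-! Local balance: the centralizer of a graph type automorphism is connected. -/

set_option autoImplicit false
set_option linter.unusedSectionVars false
set_option maxHeartbeats 400000

namespace Cfsg.Agent.Chev
open Cfsg.Lie Cfsg.Agent.BN StSys Matrix MatrixGroups Pointwise

variable {D : ChevalleyDatum} [g : Good2 D] {k : Type*} [Field k]

theorem Par.inv_one {n : Type*} [Fintype n] [DecidableEq n] {K : Subgroup (GL n k)} {z : GL n k}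
    (h : Par K {z}) : Par K {z⁻¹} := by
  obtain ⟨ι, _, φ, h1, h2, h3⟩ := h
  obtain ⟨s, hs⟩ := h3 (Set.mem_insert _ _)
  obtain ⟨t, ht⟩ := h3 (.inr rfl)
  exact ⟨ι, ‹_›, φ⁻¹, inv_mem h1, fun t => inv_mem (h2 t),
    Set.insert_subset ⟨s, by simp [hs]⟩ (Set.singleton_subset_iff.2 ⟨t, by simp [ht]⟩)⟩

/-- the fixed node of a symmetry of order three -/
def Dg3 (σ : Sym D) (η : Rt D → ℤ) (j : Ix D) : Prop := (∀ l, σ.π l = l ↔ l = j) ∧
  (∀ a, Pos a → σ.p a ≠ a → ∃ b, Pos b ∧ σ.p b ≠ b ∧ rf j b = b ∧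
    (b = a ∨ co b = co a + co (rf j (σ.p a)))) ∧
  ∀ a, Pos a → σ.p a = a → η a = 1 ∧
    (a = sim j ∨ co (rf j a) = co a + co (sim j) ∨ co a = co (rf j a) + co (sim j))

/-- the fixed nodes of a symmetry of order two -/
def Dg2 (σ : Sym D) (η : Rt D → ℤ) (i j : Ix D) (a : Rt D) : Prop :=
  (∀ l, σ.π l = l ↔ l = i ∨ l = j) ∧ rf i (sim j) = a ∧ rf j (sim i) = a ∧
    co a = co (sim i) + co (sim j) ∧ η a = 1

/-- combinatorial facts on graph symmetries -/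
structure Dg (p : ℕ) (σ : Sym D) (η : Rt D → ℤ) : Prop where
  J : (p = 3 ∧ ∃ j, Dg3 σ η j) ∨ (p = 2 ∧ ∃ i j a, Dg2 σ η i j a)
  sp : ∀ j, ∃ L : List (Rt D), (∀ a ∈ L, σ.p a ≠ a) ∧ co (sim j) = (L.map co).sum ∧
    ∀ i, ca j (sim i) = (L.map fun a => pr a (sim i)).sum
  ne : ∃ i, σ.π i ≠ i

theorem wj_step {σ : Sym D} {w : W D} (h : ∀ a, Pos a → σ.p a ≠ a → Pos (w • a)) {j : Ix D}
    (hj : σ.π j = j) (a : Rt D) (ha : Pos a) (h1 : σ.p a ≠ a) : Pos ((w * sW j) • a) := by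
  rw [mul_smul, sW_smul]
  refine h _ (pos_rf ha fun e => h1 (by rw [e, σ.p_sim, hj])) fun e => h1 ?_
  rw [σ.p_rf, hj] at e
  exact (sw j).injective e

theorem wj_one {σ : Sym D} {w : W D} (h : ∀ a, Pos a → σ.p a ≠ a → Pos (w • a))
    (hj : ∀ j, σ.π j = j → Pos (w • sim j)) : w = 1 := eq_one_of_pos fun i => by
  by_cases e : σ.π i = i
  exacts [hj i e, h _ (pos_sim i) fun e' => e (sim_injective (σ.p_sim i ▸ e'))]

theorem pos_mul_sW {w : W D} {j : Ix D} (h : ¬ Pos (w • sim j)) : Pos ((w * sW j) • sim j) := by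
  rwa [mul_smul, sW_smul, rf_sim, pos_smul_ng]

namespace GB
variable {p : ℕ} {σ : Sym D} {η : Rt D → ℤ} {u : GL D.Idx k} (B : GB k p σ η u)

/-- the image under a field endomorphism -/
def map (ψ : k →+* k) : GB k p σ η u where
  t i := Units.map ψ.toMonoidHom (B.t i)
  gm := B.gm
  hp := B.hp
  so := B.so
  pow := by
    have := congrArg (mp ψ) B.pow
    rwa [map_pow, map_mul, B.gm.fix, map_dgU, map_one] at this

theorem map_b (ψ : k →+* k) : (B.map ψ).b = mp ψ B.b := by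
  rw [b, b, map_mul, B.gm.fix, map_dgU]; rfl

theorem map_χ (ψ : k →+* k) (r : Rt D) : (B.map ψ).χ r = ψ (B.χ r) := by
  simp [χ, map, tor]

theorem map_act (ψ : k →+* k) {r : Rt D} : (B.map ψ).Act r ↔ B.Act r := by
  rw [Act, Act, map_χ, map_eq_one_iff _ ψ.injective]

theorem χ_pow {r : Rt D} (h : σ.p r = r) : B.χ r ^ p = 1 := by
  have : ∀ l : ℕ, (B.β ^ l) ((glSys D k).x r 1) = (glSys D k).x r (B.χ r ^ l) := fun l => by
    induction l with
    | zero => simp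
    | succ l ih => rw [pow_succ', MulAut.mul_apply, ih, β_x, h, pow_succ']
  have := this p
  rw [B.β_pow] at this
  exact ((glSys D k).x_inj this).symm

theorem χ_add {a r s : Rt D} (h : co a = co r + co s) (ha : σ.p a = a) (hr : σ.p r = r)
    (hs : σ.p s = s) (h1 : η a = η r * η s) : B.χ a = B.χ r * B.χ s := by
  simp only [χ, ha, hr, hs, h, tor_add, h1]; push_cast; ring

section Tr
variable {B} {B' : GB k p σ η u} {n : GL D.Idx k} {w : W D}

theorem tr_β (h : n * B'.b * n⁻¹ = B.b) (y : GL D.Idx k) :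
    B.β (n * y * n⁻¹) = n * B'.β y * n⁻¹ := by
  simp only [β, MulAut.conj_apply, ← h]; group

theorem tr_C (h : n * B'.b * n⁻¹ = B.b) (hn : n ∈ (glSys D k).grp) {y : GL D.Idx k}
    (hy : y ∈ B'.C) : n * y * n⁻¹ ∈ B.C :=
  B.mem_C.2 ⟨mul_mem (mul_mem hn (B'.mem_C.1 hy).1) (inv_mem hn), by
    rw [tr_β h, (B'.mem_C.1 hy).2]⟩

theorem tr_smul (h : n * B'.b * n⁻¹ = B.b) (hm : (glSys D k).Mono n w) (a : Rt D) :
    σ.p (w • a) = w • σ.p a ∧ (σ.p a = a → B.χ (w • a) = B'.χ a) := by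
  obtain ⟨γ, h1, h2⟩ := hm
  have h3 := tr_β h ((glSys D k).x a 1)
  have h4 := left_ne_zero_of_mul_eq_one (h1 a)
  rw [h2, β_x, β_x, h2] at h3
  have h5 := (glSys D k).eq_of_x_eq (by simp [h4, B.χ_ne]) h3
  refine ⟨h5, fun e => ?_⟩
  rw [h5, e] at h3
  exact mul_left_cancel₀ h4 (by linear_combination (glSys D k).x_inj h3)

theorem tr_ρ (h : n * B'.b * n⁻¹ = B.b) (hm : (glSys D k).Mono n w) : σ.ρ w = w := W_ext fun r => by
  obtain ⟨r, rfl⟩ := σ.p.surjective r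
  rw [σ.ρ_smul, (tr_smul h hm r).1]

theorem tr_fix (h : n * B'.b * n⁻¹ = B.b) (hm : (glSys D k).Mono n w) {a : Rt D} :
    σ.p (w • a) = w • a ↔ σ.p a = a := by
  rw [(tr_smul h hm a).1, smul_left_cancel_iff]

theorem tr_act (h : n * B'.b * n⁻¹ = B.b) (hm : (glSys D k).Mono n w) {a : Rt D} :
    B.Act (w • a) ↔ B'.Act a := by
  by_cases e : σ.p a = a
  · rw [Act, Act, (tr_smul h hm a).2 e, Ne, tr_fix h hm]
  · exact iff_of_true (.inl fun e' => e ((tr_fix h hm).1 e')) (.inl e)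

theorem normal_tr (hH : ∀ c, dgU c ∈ (glSys D k).H) {c : GL D.Idx k} (hc : c ∈ (glSys D k).grp)
    (h : c * B'.b * c⁻¹ = B.b) : ∃ y ∈ B.C ⊓ (glSys D k).U, ∃ n ∈ (glSys D k).N, ∃ w,
      (glSys D k).Mono n w ∧ n * B'.b * n⁻¹ = B.b ∧ ∃ v ∈ B'.C ⊓ (glSys D k).Uw w, c = y * n * v := by
  obtain ⟨w, hw⟩ := exists_cell hc
  obtain ⟨y, hy, n, hn, hm, v, hv, rfl⟩ := exists_normal' hw
  have h1 : B.b * B'.b⁻¹ ∈ (glSys D k).H := by
    simpa [b, mul_assoc] using mul_mem (hH B.t) (inv_mem (hH B'.t))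
  have h2 : y * n * v = B.β y * (B.β n * (B.b * B'.b⁻¹)) * B'.β v := by
    calc _ = B.b * (y * n * v) * B'.b⁻¹ := by rw [← h]; group
      _ = _ := by simp only [β, MulAut.conj_apply]; group
  have h3 := mul_mem (B.m.mem_N hn) ((glSys D k).H_le_N h1)
  have h4 := (B.m.mono hn hm).mul (mono_of_mem_H h1)
  have h5 := B'.m.mem_Uw hv
  rw [mul_one] at h4
  have h6 : w = σ.ρ w := cell_unique hw ⟨_, h3, h4, _, (glSys D k).U_le_B (B.m.mem_U hy), _,
    (glSys D k).U_le_B (Uw_le_U _ h5), h2⟩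
  rw [← h6] at h4 h5
  obtain ⟨h7, h8, h9⟩ := normal_unique' hy (B.m.mem_U hy) hn h3 hm h4 hv h5 h2
  refine ⟨y, ⟨B.mem_C.2 ⟨(glSys D k).XS_le_grp _ hy, h7.symm⟩, hy⟩, n, hn, w, hm, ?_, v,
    ⟨B'.mem_C.2 ⟨(glSys D k).XS_le_grp _ hv, h9.symm⟩, hv⟩, rfl⟩
  have : n = B.b * n * B.b⁻¹ * (B.b * B'.b⁻¹) := h8
  conv_lhs => rw [this]
  rw [mul_inv_eq_iff_eq_mul]
  conv_rhs => rw [← this]
  group

theorem exists_kl (h : n * B'.b * n⁻¹ = B.b) (hm : (glSys D k).Mono n w) :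
    ∃ z ∈ B'.C ⊓ (glSys D k).N, Par B'.C {z} ∧ ∃ v, (glSys D k).Mono (n * z) v ∧
      ∀ a, Pos a → B'.Act a → Pos (v • a) := by
  induction hl : ln w using Nat.strong_induction_on generalizing n w with
  | _ l ih =>
    by_cases e : ∀ a, Pos a → B'.Act a → Pos (w • a)
    · exact ⟨1, one_mem _, Par.one, w, by simpa using hm, e⟩
    push_neg at e
    obtain ⟨a, h1, h2, h3⟩ := e
    obtain ⟨h4, v, h5, h6⟩ := B'.mono_nr h1 one_ne_zero
    have h7 := B'.nr_mem h2 ((glSys D k).n_mem (T := {a, ng a}) (r := a) (by simp) (by simp) 1)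
    obtain ⟨z, hz, h8, h9⟩ := ih _ (hl ▸ h6 w (tr_ρ h hm) h3) (by
      rw [← h, mul_assoc n, ← (mem_Cz.1 h7).2]; group) (hm.mul h5) rfl
    exact ⟨_, mul_mem ⟨h7, h4⟩ hz, ((B'.par_n h2).mul h8).mono
      (Set.singleton_subset_iff.2 (.inr ⟨_, ⟨1, rfl⟩, _, rfl, rfl⟩)), mul_assoc n _ _ ▸ h9⟩

theorem exists_split (hH : ∀ c, dgU c ∈ (glSys D k).H) {c : GL D.Idx k} (hc : c ∈ (glSys D k).grp)
    (h : c * B'.b * c⁻¹ = B.b) : ∃ y ∈ B.C, ∃ n ∈ (glSys D k).N, ∃ w, (glSys D k).Mono n w ∧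
      n * B'.b * n⁻¹ = B.b ∧ (∀ a, Pos a → B'.Act a → Pos (w • a)) ∧ c = y * n := by
  obtain ⟨y, hy, n, hn, w, hm, h1, v, hv, rfl⟩ := normal_tr hH hc h
  obtain ⟨z, hz, -, w', h2, h3⟩ := exists_kl h1 hm
  have h4 : n * z * B'.b * (n * z)⁻¹ = B.b := by
    rw [← h1, mul_assoc n, ← (mem_Cz.1 hz.1).2]; group
  exact ⟨_, mul_mem hy.1 (tr_C h4 (N_le_grp _ (mul_mem hn hz.2)) (mul_mem (inv_mem hz.1) hv.1)), _,
    mul_mem hn hz.2, w', h2, h4, h3, by group⟩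

theorem not_inv_two (h : n * B'.b * n⁻¹ = B.b) (hm : (glSys D k).Mono n w)
    (h1 : ∀ a, Pos a → B'.Act a → Pos (w • a)) (h2 : ∀ a, σ.p a = a → B'.χ a = B.χ a) (hp : p = 2)
    {i j : Ix D} {a : Rt D} (hD : Dg2 σ η i j a) : Pos (w • sim j) := by
  by_contra hj
  obtain ⟨d1, d2, d3, d4, d5⟩ := hD
  have fi := (d1 i).2 (.inl rfl)
  have fj := (d1 j).2 (.inr rfl)
  have gi : σ.p (sim i) = sim i := by rw [σ.p_sim, fi]
  have gj : σ.p (sim j) = sim j := by rw [σ.p_sim, fj]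
  have ga : σ.p a = a := by rw [← d2, σ.p_rf, fi, gj]
  have pa : Pos a := (pos_iff a).2 fun l => d4 ▸
    add_nonneg ((pos_iff _).1 (pos_sim i) l) ((pos_iff _).1 (pos_sim j) l)
  have d6 : rf i a = sim j := by rw [← d2, rf_rf]
  have d7 : rf j a = sim i := by rw [← d3, rf_rf]
  have ca := B'.χ_add d4 ga gi gj (by rw [d5, B.gm.sim, B.gm.sim, mul_one])
  have cj := B'.χ_pow gj
  have e1 := (tr_smul h hm _).2 gi
  have p0 : ∀ a, Pos a → σ.p a ≠ a → Pos (w • a) := fun a h e => h1 a h (.inl e)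
  have p1 := wj_step p0 fj
  have p2 := wj_step p1 fi
  have p3 := wj_step p2 fj
  have q1 := pos_mul_sW hj
  subst hp
  by_cases c1 : Pos ((w * sW j) • sim i)
  · have : w = sW j := mul_eq_one_iff_eq_inv.1
      (wj_one p1 fun l hl => by rcases (d1 l).1 hl with rfl | rfl <;> assumption)
    rw [this, sW_smul, d3, ← h2 a ga, ca] at e1
    exact hj (h1 _ (pos_sim j) (.inr (mul_left_cancel₀ (B'.χ_ne _) (e1.trans (mul_one _).symm))))
  have q2 := pos_mul_sW c1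
  by_cases c2 : Pos ((w * sW j * sW i) • sim j)
  · have : w = sW i * sW j := by
      rw [← sW_cancel_right j w, ← sW_cancel_right i (w * sW j), wj_one p2 fun l hl => by
        rcases (d1 l).1 hl with rfl | rfl <;> assumption, one_mul]
    rw [this, mul_smul, sW_smul, sW_smul, d3, d6, ← h2 _ gj] at e1
    have := this ▸ h1 a pa (.inr (by rw [ca, ← e1, ← sq, cj]))
    rw [mul_smul, sW_smul, sW_smul, d7, rf_sim] at this
    exact not_pos_ng_sim i this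
  have : w = sW j * sW i * sW j := by
    rw [← sW_cancel_right j w, ← sW_cancel_right i (w * sW j),
      ← sW_cancel_right j (w * sW j * sW i), wj_one p3 fun l hl => ?_, one_mul]
    rcases (d1 l).1 hl with rfl | rfl
    · rwa [mul_smul, sW_smul, d3, mul_smul, sW_smul, d6]
    · exact pos_mul_sW c2
  rw [this, mul_smul, mul_smul, sW_smul, sW_smul, sW_smul, d3, d6, rf_sim] at e1
  have := this ▸ h1 a pa (.inr (by rw [ca, ← e1, h2 _ gj, mul_comm, B.χ_ng]))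
  rw [mul_smul, mul_smul, sW_smul, sW_smul, sW_smul, d7, rf_sim, rf_ng, d3, pos_ng] at this
  exact this pa

theorem om_of (hD : Dg p σ η) (h : n * B'.b * n⁻¹ = B.b) (hm : (glSys D k).Mono n w)
    (h1 : ∀ a, Pos a → B'.Act a → Pos (w • a))
    (h2 : p = 2 → ∀ a, σ.p a = a → B'.χ a = B.χ a) :
    w = 1 ∨ p = 3 ∧ ∃ j, Dg3 σ η j ∧ ¬ B'.Act (sim j) ∧ w = sW j := by
  have p0 : ∀ a, Pos a → σ.p a ≠ a → Pos (w • a) := fun a h e => h1 a h (.inl e)
  obtain ⟨hp, j, hj⟩ | ⟨hp, i, j, a, hj⟩ := hD.J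
  · by_cases e : Pos (w • sim j)
    · exact .inl (wj_one p0 fun l hl => (hj.1 l).1 hl ▸ e)
    exact .inr ⟨hp, j, hj, fun e' => e (h1 _ (pos_sim j) e'), mul_eq_one_iff_eq_inv.1
      (wj_one (wj_step p0 ((hj.1 j).2 rfl)) fun l hl => ((hj.1 l).1 hl).symm ▸ pos_mul_sW e)⟩
  refine .inl (wj_one p0 fun l hl => ?_)
  rcases (hj.1 l).1 hl with rfl | rfl
  exacts [not_inv_two h hm h1 (h2 hp) hp ⟨fun l => (hj.1 l).trans or_comm, hj.2.2.1, hj.2.1,
    hj.2.2.2.1.trans (add_comm _ _), hj.2.2.2.2⟩, not_inv_two h hm h1 (h2 hp) hp hj]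

theorem one_of_C (hD : Dg p σ η) (h : n ∈ B.C) (hm : (glSys D k).Mono n w)
    (h1 : ∀ a, Pos a → B.Act a → Pos (w • a)) : w = 1 := by
  have h2 : n * B.b * n⁻¹ = B.b := by rw [← (mem_Cz.1 h).2, mul_inv_cancel_right]
  obtain e | ⟨rfl, j, hj, h3, rfl⟩ := om_of hD h2 hm h1 fun _ _ _ => rfl
  · exact e
  have h4 : σ.p (sim j) = sim j := by rw [σ.p_sim, (hj.1 j).2 rfl]
  have h5 := (tr_smul h2 hm _).2 h4
  have h6 := B.χ_ng (sim j)
  rw [sW_smul, rf_sim] at h5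
  rw [h5] at h6
  exact (h3 (.inr (by linear_combination B.χ_pow h4 - B.χ (sim j) * h6))).elim

end Tr

theorem par_H [IsAlgClosed k] (hS : Sj D) (hD : Dg p σ η) :
    Par B.C (B.C ⊓ (glSys D k).H : Subgroup _) := by
  classical
  have hH : ∀ c, dgU c ∈ (glSys D k).H := dgU_mem_H hS
  have h0 : ∀ (l : ℕ) y, y ∈ (glSys D k).H → (B.β ^ l) y ∈ (glSys D k).H := fun l y hy => by
    induction l with
    | zero => exact hy
    | succ l ih => rw [pow_succ']; exact B.m.mem_H ih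
  let ν : (Ix D → kˣ) →* GL D.Idx k := MonoidHom.mk' (fun c => nrB B.β p (dgU c)) fun c d => by
    rw [dgU_mul, nrB_mul fun i j _ _ =>
      H_comm_of_inj (fun _ _ h => h) _ (h0 _ _ (hH _)) _ (h0 _ _ (hH _))]
  let S := Finset.univ.filter fun a => σ.p a ≠ a
  let μ : (Rt D → kˣ) →* (Ix D → kˣ) := MonoidHom.mk' (fun l => ∏ a ∈ S, fun i => l a ^ pr a (sim i))
    fun l l' => by
      rw [← Finset.prod_mul_distrib]
      exact Finset.prod_congr rfl fun a _ => funext fun i => mul_zpow _ _ _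
  have h1 : ∀ d, d ∈ μ.range := fun d => by
    obtain ⟨c, rfl⟩ := exists_pw_of_mem (N_le_grp _ ((glSys D k).H_le_N (hH d)))
    have : pw kˣ (cartanM D) c = ∏ j, fun i => c j ^ ca j (sim i) :=
      funext fun i => by rw [Finset.prod_apply]; rfl
    refine this ▸ prod_mem fun j _ => ?_
    obtain ⟨L, h2, -, h3⟩ := hD.sp j
    simp only [h3]
    clear h3
    induction L with
    | nil => exact ⟨1, by ext; simp⟩
    | cons a L ih =>
      simp only [List.map_cons, List.sum_cons, _root_.zpow_add]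
      refine mul_mem (a := fun i => c j ^ pr a (sim i)) ⟨Pi.mulSingle a (c j), ?_⟩
        (ih fun b hb => h2 b (by simp [hb]))
      change ∏ b ∈ S, _ = _
      rw [Finset.prod_eq_single a (fun b _ e => by ext; simp [e]) fun e =>
        (e (by simpa [S] using h2 a (by simp))).elim, Pi.mulSingle_eq_same]
  refine (Par.prod (f := fun a (l : kˣ) => ν fun i => l ^ pr a (sim i)) (L := S.toList)
    fun a ha => ?_).mono fun y hy => .inr ?_
  · have e : σ.p a ≠ a := by simpa [S] using ha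
    have h2 := fun t => (glSys D k).n_mem (T := {a, ng a}) (r := a) (by simp) (by simp) t
    refine ((B.par_n (.inl e)).mul (B.par_n (.inl e))).mono ?_
    rintro _ ⟨l, rfl⟩
    refine .inr ⟨_, ⟨l, rfl⟩, _, ⟨-1, rfl⟩, ?_⟩
    change _ * _ = nrB B.β p _
    rw [← B.nr_mul (h2 _) (h2 _), ← h_eq_dgU, nr, ko, if_neg e]; rfl
  obtain ⟨c, rfl⟩ := gl_R3.exists_hT hy.2
  rw [gl_hT] at hy ⊢
  generalize pw kˣ (cartanM D) c = c at hy
  have h2 : ∀ c, B.β (dgU fun i => c (σ.π i)) = dgU c := fun c => by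
    rw [β, MulAut.conj_apply, b, show ∀ y, dgU B.t * u * y * (dgU B.t * u)⁻¹ =
      dgU B.t * (u * y * u⁻¹) * (dgU B.t)⁻¹ from fun y => by group, B.gm.dg, ← dgU_mul, mul_comm,
      dgU_mul, mul_inv_cancel_right]
  have h3 : (fun i => c (σ.π i)) = c :=
    dgH_inj (B.β.injective ((h2 c).trans (B.mem_C.1 hy.1).2.symm))
  choose ρ hρ using fun z : kˣ => (show ∃ y : kˣ, y ^ p = z by
    obtain ⟨y, hy⟩ := IsAlgClosed.exists_pow_nat_eq (z : k) B.prime.pos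
    exact ⟨Units.mk0 y fun e => z.ne_zero (by rw [← hy, e, zero_pow B.prime.ne_zero]),
      Units.ext (by simpa)⟩)
  obtain ⟨l, hl⟩ := h1 fun i => ρ (c i)
  have h4 : B.β (dgU fun i => ρ (c i)) = dgU fun i => ρ (c i) := by
    simpa only [congrFun h3 _] using h2 fun i => ρ (c i)
  refine ⟨l, ?_⟩
  beta_reduce
  rw [← Function.comp_def ν, ← List.map_map, ← map_list_prod, Finset.prod_map_toList]
  refine (congrArg ν hl).trans ?_
  change nrB B.β p _ = _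
  have h5 : ∀ j, nrB B.β j (dgU fun i => ρ (c i)) = (dgU fun i => ρ (c i)) ^ j := fun j => by
    induction j with
    | zero => rfl
    | succ j ih => rw [nrB_succ', ih, map_pow, h4, pow_succ']
  rw [h5, ← dgH_apply, ← map_pow]
  exact congrArg dgU (funext fun i => hρ _)

theorem uni_ht : Uni (fun _ => 1) {r : Rt D | Pos r} :=
  ⟨fun _ hr => lin_pos (fun _ => one_pos) hr, uni_pos.cl⟩

theorem par_C [IsAlgClosed k] (hS : Sj D) (hD : Dg p σ η) : Par B.C B.C := by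
  have h1 : Par B.C (B.C ⊓ (glSys D k).U : Subgroup _) :=
    (B.fix_XS uni_ht σ.pos_p).1 _ inf_le_left
  have h2 : ∀ w, Par B.C {n | n ∈ B.C ⊓ (glSys D k).N ∧ (glSys D k).Mono n w} := fun w => by
    rcases Set.eq_empty_or_nonempty {n | n ∈ B.C ⊓ (glSys D k).N ∧ (glSys D k).Mono n w} with
      e | ⟨n, hn, hm⟩
    · exact e ▸ Par.one.mono (by simp)
    obtain ⟨z, hz, h3, v, h4, h5⟩ := exists_kl (B := B) (B' := B)
      (by rw [← (mem_Cz.1 hn.1).2, mul_inv_cancel_right]) hm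
    obtain rfl := one_of_C hD (mul_mem hn.1 hz.1) h4 h5
    refine ((B.par_H hS hD).mul h3.inv_one).mono fun y hy => .inr ⟨y * z, ⟨mul_mem hy.1.1 hz.1,
      mem_H_of_mono (mul_mem hy.1.2 hz.2) ?_⟩, _, rfl, mul_inv_cancel_right _ _⟩
    simpa [mul_assoc] using (hy.2.mul hm.inv).mul h4
  refine ((h1.mul (Par.iUnion h2)).mul h1).mono fun y hy => .inr ?_
  obtain ⟨a, ha, n, hn, w, hm, h3, v, hv, rfl⟩ := normal_tr (B := B) (B' := B) (dgU_mem_H hS)
    (mem_Cz.1 hy).1 (by rw [← (mem_Cz.1 hy).2, mul_inv_cancel_right])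
  exact ⟨_, ⟨_, ha, _, Set.mem_iUnion.2 ⟨w, ⟨mem_Cz.2 ⟨N_le_grp _ hn,
    (mul_inv_eq_iff_eq_mul.1 h3).symm⟩, hn⟩, hm⟩, rfl⟩, _, ⟨hv.1, Uw_le_U _ hv.2⟩, rfl⟩

/-- semilinear monomial maps fixing the element and its standard Borel subgroup -/
structure SM (ψ : k →+* k) (n : GL D.Idx k) (w : W D) : Prop where
  mem : n ∈ (glSys D k).N
  mono : (glSys D k).Mono n w
  tr : n * (B.map ψ).b * n⁻¹ = B.b
  pos : ∀ a, Pos a → B.Act a → Pos (w • a)

theorem mp_C (ψ : k →+* k) {y : GL D.Idx k} (hy : y ∈ B.C) : mp ψ y ∈ (B.map ψ).C :=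
  mem_Cz.2 ⟨(fieldGL D ψ).mem_grp (mem_Cz.1 hy).1, by
    rw [map_b, ← map_mul, ← map_mul, (mem_Cz.1 hy).2]⟩

theorem exists_sm (hH : ∀ c, dgU c ∈ (glSys D k).H) (ψ : k →+* k) {c : GL D.Idx k}
    (hc : c ∈ (glSys D k).grp) (h : c * mp ψ B.b * c⁻¹ = B.b) :
    ∃ y ∈ B.C, ∃ n w, B.SM ψ n w ∧ c = y * n := by
  obtain ⟨y, hy, n, hn, w, h1, h2, h3, h4⟩ := exists_split hH hc (B.map_b ψ ▸ h)
  exact ⟨y, hy, n, w, ⟨hn, h1, h2, fun a h h' => h3 a h ((B.map_act ψ).2 h')⟩, h4⟩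

theorem lang_sm [IsAlgClosed k] (hS : Sj D) (hD : Dg p σ η) (r : ℕ) [Fact r.Prime] [CharP k r]
    {e : ℕ} (he : e ≠ 0) {c : GL D.Idx k} (hc : c ∈ (glSys D k).grp)
    (h : c * mp (iterateFrobenius k r e) B.b * c⁻¹ = B.b) : ∃ y ∈ B.C, ∃ n w,
      B.SM (iterateFrobenius k r e) n w ∧ y * c * (mp (iterateFrobenius k r e) y)⁻¹ = n := by
  obtain ⟨y, hy, n, w, h1, rfl⟩ := B.exists_sm (dgU_mem_H hS) _ hc h
  obtain ⟨z, hz, h2⟩ := (B.par_C hS hD).lang r he (c := n)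
    (σ := fun y => n * mp (iterateFrobenius k r e) y * n⁻¹)
    (fun y hy => ⟨tr_C h1.tr (N_le_grp _ h1.mem) (B.mp_C _ hy), rfl⟩) hy
  exact ⟨z, hz, n, w, h1, by rw [← h2]; group⟩

end GB

end Cfsg.Agent.Chev
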