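import Mathlib
import Cfsg.Agent.Chev.BalH

/-! Local balance: leading terms in the centralizer of a graph type automorphism. -/

set_option autoImplicit false
set_option linter.unusedSectionVars false
set_option maxHeartbeats 400000

namespace Cfsg.Agent.Chev
open Cfsg.Lie Cfsg.Agent.BN StSys Matrix MatrixGroups Pointwise

variable {D : ChevalleyDatum} [g : Good2 D] {k : Type*} [Field k]

/-- a semilinear conjugation -/
def smH (ψ : k →+* k) (n : GL D.Idx k) : GL D.Idx k →* GL D.Idx k :=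
  (MulAut.conj n).toMonoidHom.comp (mp ψ)

theorem smH_apply (ψ : k →+* k) (n y : GL D.Idx k) : smH ψ n y = n * mp ψ y * n⁻¹ := rfl

theorem exists_pow_V (r : ℕ) [Fact r.Prime] [CharP k r] {v : GL D.Idx k} (hv : v ∈ (glSys D k).V) :
    ∃ j, v ^ r ^ j = 1 := by
  obtain ⟨n, -, hm⟩ := exists_n0 (S := glSys D k)
  obtain ⟨j, hj⟩ := exists_pow_U r (hm.conj_mem (T' := {r | Pos r})
    (fun r hr => by simpa [pos_w0_univ] using hr) hv)
  exact ⟨j, by rwa [conj_pow, conj_eq_one_iff] at hj⟩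

theorem exists_root_fix [IsAlgClosed k] {γ : k} (hγ : γ ≠ 0) {q : ℕ} (hq : 1 < q) :
    ∃ s ≠ 0, γ * s ^ q = s := by
  obtain ⟨q, rfl⟩ := Nat.exists_eq_add_of_lt hq
  obtain ⟨s, hs⟩ := IsAlgClosed.exists_pow_nat_eq γ⁻¹ (show 0 < 1 + q by omega)
  refine ⟨s, fun e => inv_ne_zero hγ (by rw [← hs, e, zero_pow (by omega)]), ?_⟩
  rw [pow_succ, hs, ← mul_assoc, mul_inv_cancel₀ hγ, one_mul]

namespace GB
variable {p : ℕ} {σ : Sym D} {η : Rt D → ℤ} {u : GL D.Idx k} (B : GB k p σ η u)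

open _root_.Classical in
/-- the weights of the filtration -/
noncomputable def wt (i : Ix D) : ℤ := if p = 3 ∧ ¬ B.Act (sim i) then 0 else 1
/-- the levels of the filtration -/
def Lv (n : ℤ) : Set (Rt D) := {r | Pos r ∧ n ≤ ph B.wt r}
/-- the possible Weyl group elements of semilinear maps -/
def Om (w : W D) : Prop := w = 1 ∨ p = 3 ∧ ∃ j, Dg3 σ η j ∧ ¬ B.Act (sim j) ∧ w = sW j
/-- leading terms -/
def Ld (z : GL D.Idx k) (a : Rt D) (s : k) : Prop :=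
  ((glSys D k).x a s)⁻¹ * z ∈ (glSys D k).XS (B.Lv (ph B.wt a) \ {a})

theorem act_p {r : Rt D} : B.Act (σ.p r) ↔ B.Act r := by
  by_cases e : σ.p r = r
  · rw [e]
  · exact iff_of_true (.inl fun e' => e (σ.p.injective e')) (.inl e)

theorem ph_p (r : Rt D) : ph B.wt (σ.p r) = ph B.wt r := by
  simp only [ph, lin_apply, ← B.gm.co r]
  refine (Equiv.sum_comp σ.π _).symm.trans (Finset.sum_congr rfl fun i _ => ?_)
  rw [wt, wt, ← σ.p_sim, act_p]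

theorem lv_p {n : ℤ} (r : Rt D) : σ.p r ∈ B.Lv n ↔ r ∈ B.Lv n := by
  simp only [Lv, Set.mem_setOf_eq, σ.pos_p, ph_p]

theorem cl_lv {m n l : ℤ} (hm : 0 ≤ m) (hn : 0 ≤ n) (h : l ≤ m + n) :
    Cl (B.Lv m) (B.Lv n) (B.Lv l) := fun r hr s hs =>
  ⟨(uni_pos.cl_self r hr.1 s hs.1).1, fun v i j hi hj e => ⟨uni_pos.cl r hr.1 s hs.1 v i j hi hj e, by
    rw [ph_of_co _ e]; nlinarith [hr.2, hs.2]⟩⟩

theorem uni_lv {c : Ix D → ℤ} (hc : Uni c {r | Pos r}) {n : ℤ} (hn : 0 ≤ n) : Uni c (B.Lv n) :=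
  ⟨fun r hr => hc.pos r hr.1, fun r hr s hs => (B.cl_lv hn hn (by omega) r hr s hs).2⟩

theorem lv_succ (a : Rt D) : B.Lv (ph B.wt a + 1) ⊆ B.Lv (ph B.wt a) \ {a} :=
  fun r hr => ⟨⟨hr.1, by linarith [hr.2]⟩, fun e => by
    have := hr.2
    rw [e] at this; omega⟩

theorem uni_lv' {a : Rt D} (ha : a ∈ B.Lv 1) : Uni owt (B.Lv (ph B.wt a) \ {a}) :=
  ⟨fun r hr => uni_pos.pos r hr.1.1, fun r hr s hs v i j hi hj e => B.lv_succ a
    ((B.cl_lv (by linarith [ha.2]) (by linarith [ha.2]) (by linarith [ha.2]) r hr.1 s hs.1).2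
      v i j hi hj e)⟩

theorem act_lv (hD : Dg p σ η) {a : Rt D} (h : Pos a) (h' : B.Act a) : a ∈ B.Lv 1 := by
  refine ⟨h, not_lt.1 fun e => ?_⟩
  have h1 : ∀ i, co a i ≠ 0 → p = 3 ∧ ¬ B.Act (sim i) := fun i hi => by
    by_contra e'
    have := Finset.single_le_sum (f := fun i => co a i * B.wt i) (fun i _ =>
      mul_nonneg ((pos_iff a).1 h i) (by unfold wt; split_ifs <;> simp)) (Finset.mem_univ i)
    have := (pos_iff a).1 h i
    simp only [wt, if_neg e', ph, lin_apply] at *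
    omega
  obtain ⟨i, hi⟩ := Function.ne_iff.1 (co_ne_zero a)
  obtain ⟨-, j, hj⟩ | ⟨hp, -⟩ := hD.J
  · have h2 : ∀ i, co a i ≠ 0 → i = j := fun i hi => (hj.1 i).1 (by_contra fun e =>
      (h1 i hi).2 (.inl fun e' => e (sim_injective (σ.p_sim i ▸ e'))))
    obtain rfl := h2 i hi
    obtain ⟨l, h3, h4⟩ := exists_co_ne (i := i) (s := a) (fun e => (h1 i hi).2 (e ▸ h'))
      fun e => not_pos_ng_sim i (e ▸ h)
    exact h3 (h2 l h4)
  · have := (h1 i hi).1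
    omega

theorem mem_act {R : Set (Rt D)} (hU : Uni (fun _ => 1) R) (hR : ∀ r, σ.p r ∈ R ↔ r ∈ R)
    {T : Set (Rt D)} (h : ∀ r ∈ R, B.Act r → r ∈ T) {y : GL D.Idx k}
    (hy : y ∈ B.C ⊓ (glSys D k).XS R) : y ∈ (glSys D k).XS T :=
  (glSys D k).XS_mono (fun r hr => h r hr.1 hr.2) ((B.fix_XS hU hR).2 hy)

theorem ld_xo {a : Rt D} (h : Pos a) (s : k) : B.Ld (B.xo a s) a s :=
  B.xo_split (R := B.Lv (ph B.wt a) \ {a})
    (fun l e => ⟨σ.pow_mem (fun r => (B.lv_p r).2) l ⟨h, le_rfl⟩, e⟩) s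

theorem map_xo (f : GL D.Idx k →* GL D.Idx k) (hf : ∀ y, f (B.β y) = B.β (f y)) {r r' : Rt D}
    {s s' : k} (e : f ((glSys D k).x r s) = (glSys D k).x r' s') (h : σ.p r' = r' ↔ σ.p r = r) :
    f (B.xo r s) = B.xo r' s' := by
  rw [xo, nr, map_nrB' f hf, e, xo, nr, ko, ko, if_congr h rfl rfl]

variable {B}

theorem Om.ph {w : W D} (h : B.Om w) (r : Rt D) : ph B.wt (w • r) = ph B.wt r := by
  obtain rfl | ⟨hp, j, -, h1, rfl⟩ := h
  · rw [one_smul]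
  · rw [Chev.ph, sW_smul, co_rf, map_sub, map_smul, lin_single, wt, if_pos ⟨hp, h1⟩]; simp [Chev.ph]

theorem Om.sq {w : W D} (h : B.Om w) (r : Rt D) : w • w • r = r := by
  obtain rfl | ⟨-, j, -, -, rfl⟩ := h <;> simp

theorem Om.lv {w : W D} (h : B.Om w) {n : ℤ} (hn : 1 ≤ n) {r : Rt D} (hr : r ∈ B.Lv n) :
    w • r ∈ B.Lv n := by
  refine ⟨?_, (h.ph r).symm ▸ hr.2⟩
  obtain rfl | ⟨hp, j, -, h1, rfl⟩ := h
  · simpa using hr.1
  refine pos_rf hr.1 fun e => ?_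
  have := hr.2
  simp [e, wt, hp, h1] at this
  omega

theorem Om.orb {w : W D} (h : B.Om w) {a : Rt D} {l : ℕ} (e : (σ.p ^ l) (w • a) = a) :
    w • a = a := by
  obtain rfl | ⟨-, j, -, -, rfl⟩ := h
  · rw [one_smul]
  have := B.ph_pow l (sW j • a)
  rw [e] at this
  simp only [Chev.ph, sW_smul, co_rf, map_sub, map_smul, lin_single, smul_eq_mul] at this
  exact co_inj (by rw [sW_smul, co_rf, show ca j a = 0 by omega, zero_smul, sub_zero])

section Ld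
variable {z : GL D.Idx k} {a : Rt D} {s : k}

theorem Ld.mem (h : B.Ld z a s) (ha : Pos a) : z ∈ (glSys D k).XS (B.Lv (ph B.wt a)) := by
  simpa using mul_mem ((glSys D k).x_mem (T := B.Lv (ph B.wt a)) ⟨ha, le_rfl⟩ s)
    ((glSys D k).XS_mono Set.diff_subset h)

theorem Ld.conj (h : B.Ld z a s) (ha : a ∈ B.Lv 1) {v : GL D.Idx k}
    (hv : v ∈ (glSys D k).XS (B.Lv 1)) : B.Ld (v * z * v⁻¹) a s := by
  have h0 : 0 ≤ ph B.wt a := by linarith [ha.2]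
  have := mul_mem h ((glSys D k).XS_mono (B.lv_succ a) ((glSys D k).commutator_mem
    (B.cl_lv h0 zero_le_one le_rfl) (B.cl_lv h0 (by omega) (by omega))
    (B.cl_lv zero_le_one (by omega) (by omega)) (h.mem ha.1) (inv_mem hv)))
  simpa [Ld, mul_assoc] using this

theorem Ld.unique (h : B.Ld z a s) (ha : a ∈ B.Lv 1) {t : k} (h' : B.Ld z a t) : s = t := by
  by_contra e
  refine ((glSys D k).mem_of_x_mem uni_pos (B.uni_lv' ha) (fun _ h => h.1.1) ha.1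
    (t := -s + t) (fun e' => e (by linear_combination -e')) ?_).2 rfl
  simpa [StSys.add, StSys.x_neg, mul_assoc] using mul_mem h (inv_mem h')

theorem Ld.pos (h : B.Ld z a s) (ha : a ∈ B.Lv 1) (hs : s ≠ 0) {n : GL D.Idx k} {w : W D}
    (hm : (glSys D k).Mono n w) (e : n * z * n⁻¹ ∈ (glSys D k).U) : Pos (w • a) := by
  by_contra e'
  refine hs (h.unique ha ?_)
  simpa [Ld] using (glSys D k).XS_mono (T' := B.Lv (ph B.wt a) \ {a})
    (fun r hr => ⟨hr.1, fun e => e' (e ▸ hr.2)⟩)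
    (hm.mem_of_conj (B.uni_lv uni_pos (by linarith [ha.2])) uni_pos (h.mem ha.1) e)

theorem Ld.map (h : B.Ld z a s) (ha : a ∈ B.Lv 1) {w : W D} (hw : B.Om w)
    (f : GL D.Idx k →* GL D.Idx k) (hf : ∀ r t, ∃ t', f ((glSys D k).x r t) = (glSys D k).x (w • r) t')
    {t : k} (e : f ((glSys D k).x a s) = (glSys D k).x (w • a) t) : B.Ld (f z) (w • a) t := by
  rw [Ld, ← e, ← map_inv, ← map_mul, hw.ph]
  refine (glSys D k).map_mem_XS f (fun r hr t => ?_) h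
  obtain ⟨t', e'⟩ := hf r t
  exact e' ▸ (glSys D k).x_mem (T := B.Lv (ph B.wt a) \ {w • a})
    ⟨hw.lv ha.2 hr.1, fun e => hr.2 (smul_left_cancel w e)⟩ _

end Ld

namespace SM
variable {ψ : k →+* k} {n : GL D.Idx k} {w : W D} (h : B.SM ψ n w)
include h

theorem om (hD : Dg p σ η) : B.Om w := by
  refine (om_of hD h.tr h.mono (fun a h1 h2 => h.pos a h1 ((B.map_act ψ).1 h2)) ?_).imp id
    fun ⟨h1, j, h2, h3, h4⟩ => ⟨h1, j, h2, fun e => h3 ((B.map_act ψ).2 e), h4⟩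
  rintro rfl a ha
  rcases _root_.sq_eq_one_iff.1 (B.χ_pow ha) with e | e <;> simp [map_χ, e]

theorem act {a : Rt D} : B.Act (w • a) ↔ B.Act a := (tr_act h.tr h.mono).trans (B.map_act ψ)

theorem exists_γ : ∃ γ : Rt D → k, (∀ r, γ r * γ (ng r) = 1) ∧
    ∀ r s, smH ψ n ((glSys D k).x r s) = (glSys D k).x (w • r) (γ r * ψ s) := by
  obtain ⟨γ, h1, h2⟩ := h.mono
  exact ⟨γ, h1, fun r s => by rw [smH_apply, mp_x, h2]⟩

theorem comm (y : GL D.Idx k) : smH ψ n (B.β y) = B.β (smH ψ n y) := by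
  rw [smH_apply, smH_apply, tr_β h.tr]
  simp only [β, MulAut.conj_apply, map_mul, map_inv, map_b]

theorem mem_C {y : GL D.Idx k} (hy : y ∈ B.C) : smH ψ n y ∈ B.C :=
  tr_C h.tr (N_le_grp _ h.mem) (B.mp_C ψ hy)

theorem mem_XS {T T' : Set (Rt D)} (hT : ∀ r ∈ T, w • r ∈ T') {y : GL D.Idx k}
    (hy : y ∈ (glSys D k).XS T) : smH ψ n y ∈ (glSys D k).XS T' :=
  h.mono.conj_mem hT ((fieldGL D ψ).mem_XS (fun _ h => h) hy)

theorem mono_map {a : GL D.Idx k} (ha : a ∈ (glSys D k).N) {v : W D} (hm : (glSys D k).Mono a v) :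
    smH ψ n a ∈ (glSys D k).N ∧ (glSys D k).Mono (smH ψ n a) (w * v * w⁻¹) :=
  ⟨h.mono.conj_mem_N ((fieldGL D ψ).mem_N ha),
    (h.mono.mul (Sym.one_ρ v ▸ (fieldGL D ψ).mono ha hm)).mul h.mono.inv⟩

theorem mem_U {y : GL D.Idx k} (hy : y ∈ B.C ⊓ (glSys D k).U) : smH ψ n y ∈ (glSys D k).U :=
  h.mem_XS (T := {r | Pos r ∧ B.Act r}) (fun r hr => h.pos r hr.1 hr.2)
    (B.mem_act uni_ht σ.pos_p (fun _ h h' => And.intro h h') hy)

theorem bruhat (hH : ∀ c, dgU c ∈ (glSys D k).H) {y : GL D.Idx k} (hy : y ∈ B.C)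
    (e : smH ψ n y = y) : ∃ a ∈ B.C ⊓ (glSys D k).U, ∃ b ∈ B.C ⊓ (glSys D k).N, ∃ v,
      (glSys D k).Mono b v ∧ ∃ c ∈ B.C ⊓ (glSys D k).Uw v, y = a * b * c ∧
        smH ψ n a = a ∧ smH ψ n b = b ∧ smH ψ n c = c := by
  obtain ⟨a, ha, b, hb, v, hm, h1, c, hc, rfl⟩ := normal_tr (B := B) (B' := B) hH
    (mem_Cz.1 hy).1 (by rw [← (mem_Cz.1 hy).2, mul_inv_cancel_right])
  obtain ⟨h2, h3⟩ := h.mono_map hb hm
  have h4 : smH ψ n c ∈ (glSys D k).Uw (w * v * w⁻¹) :=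
    h.mem_XS (T := {r | r ∈ invs v ∧ B.Act r}) (fun r hr => mem_invs.2
      ⟨h.pos r (mem_invs.1 hr.1).1 hr.2, by
        rw [mul_smul, inv_smul_smul, mul_smul, ← pos_smul_ng]
        exact h.pos _ ((pos_ng _).2 (mem_invs.1 hr.1).2) (B.act_ng ((tr_act h1 hm).2 hr.2))⟩)
      (B.mem_act ⟨fun r hr => uni_ht.pos r (mem_invs.1 hr).1, (uni_invs v).cl⟩
        (fun r => by simpa only [tr_ρ h1 hm, Finset.mem_coe] using σ.p_mem_invs (w := v) (r := r))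
        (fun _ h h' => And.intro h h') hc)
  rw [map_mul, map_mul] at e
  have h5 : w * v * w⁻¹ = v := cell_unique
    ⟨_, h2, h3, _, (glSys D k).U_le_B (h.mem_U ha), _, (glSys D k).U_le_B (Uw_le_U _ h4), e.symm⟩
    ⟨_, hb, hm, _, (glSys D k).U_le_B ha.2, _, (glSys D k).U_le_B (Uw_le_U _ hc.2), rfl⟩
  rw [h5] at h3 h4
  exact ⟨a, ha, b, ⟨mem_Cz.2 ⟨N_le_grp _ hb, (mul_inv_eq_iff_eq_mul.1 h1).symm⟩, hb⟩, v, hm, c, hc,
    rfl, normal_unique' (h.mem_U ha) ha.2 h2 hb h3 hm h4 hc.2 e⟩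

theorem exists_good (hD : Dg p σ η) {b : GL D.Idx k} (hb : b ∈ B.C ⊓ (glSys D k).N)
    (e : smH ψ n b = b) {v : W D} (hm : (glSys D k).Mono b v) {a : Rt D} (ha : Pos a)
    (ha' : B.Act a) : (∀ r : Rt D, v • w • r = w • v • r) ∧
      ∃ c, Pos c ∧ B.Act c ∧ w • c = c ∧ (Pos (v • a) ↔ Pos (v • c)) := by
  have h0 : ∀ r : Rt D, v • w • r = w • v • r := fun r => by
    have := (h.mono_map hb.2 hm).2
    rw [e] at this
    conv_lhs => rw [← this.unique hm]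
    simp [mul_smul]
  have h1 : b * B.b * b⁻¹ = B.b := by rw [← (mem_Cz.1 hb.1).2, mul_inv_cancel_right]
  refine ⟨h0, ?_⟩
  obtain rfl | ⟨-, j, hj, h2, rfl⟩ := h.om hD
  · exact ⟨a, ha, ha', one_smul _ _, Iff.rfl⟩
  have gj : σ.p (sim j) = sim j := by rw [σ.p_sim, (hj.1 j).2 rfl]
  have h3 : σ.p a ≠ a := fun e => by
    have f1 := (tr_fix h.tr h.mono).2 e
    have f2 := ha'.resolve_left (not_not.2 e)
    have f3 := (h.act.2 ha').resolve_left (not_not.2 f1)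
    have f4 := (hj.2.2 _ (h.pos a ha ha') f1).1
    obtain ⟨f5, rfl | f6 | f6⟩ := hj.2.2 a ha e
    · exact h2 ha'
    · have := B.χ_add f6 f1 e gj (by rw [f5, B.gm.sim]; exact f4)
      exact h2 (.inr (by rw [f2, one_mul] at this; exact this.symm.trans f3))
    · have := B.χ_add f6 e f1 gj (by rw [f5, B.gm.sim]; exact (congrArg (· * 1) f4).symm)
      exact h2 (.inr (by rw [f2, show B.χ (rf j a) = 1 from f3, one_mul] at this; exact this.symm))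
  obtain ⟨c, h4, h5, h6, rfl | h7⟩ := hj.2.1 a ha h3
  · exact ⟨c, h4, ha', h6, Iff.rfl⟩
  refine ⟨c, h4, .inl h5, h6, ?_⟩
  have h8 := co_smul_of_eq v (a := 1) (b := 1) (v := c) (r := a) (s := sW j • σ.p a)
    (by simpa using h7)
  have h9 : σ.p (σ.p (v • a)) ≠ σ.p (v • a) := fun e => h3 ((tr_fix h1 hm).1 (σ.p.injective e))
  have h10 : Pos (rf j (σ.p (v • a))) ↔ Pos (v • a) :=
    (pos_rf_iff (fun e => h9 (by rw [e, gj])) fun e => h9 (by rw [e, σ.p_ng, gj])).trans (σ.pos_p _)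
  rw [h0, ← (tr_smul h1 hm a).1, one_smul, one_smul, sW_smul] at h8
  by_cases h11 : Pos (v • a)
  · exact iff_of_true h11 ((pos_iff _).2 fun i => h8 ▸
      add_nonneg ((pos_iff _).1 h11 i) ((pos_iff _).1 (h10.2 h11) i))
  · exact iff_of_false h11 ((not_pos_iff _).2 fun i => h8 ▸
      add_nonpos ((not_pos_iff _).1 h11 i) ((not_pos_iff _).1 (mt h10.1 h11) i))

end SM

theorem exists_fixed_root (hD : Dg p σ η) : ∃ a, Pos a ∧ B.Act a ∧ ∀ w, B.Om w → w • a = a := by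
  obtain ⟨i, hi⟩ := hD.ne
  have h1 : σ.p (sim i) ≠ sim i := fun e => hi (sim_injective (σ.p_sim i ▸ e))
  obtain ⟨-, j, hj⟩ | ⟨hp, -⟩ := hD.J
  · obtain ⟨a, h2, h3, h4, -⟩ := hj.2.1 _ (pos_sim i) h1
    refine ⟨a, h2, .inl h3, ?_⟩
    rintro _ (rfl | ⟨-, l, hl, -, rfl⟩)
    exacts [one_smul _ _, (hj.1 l).1 ((hl.1 l).2 rfl) ▸ h4]
  · refine ⟨_, pos_sim i, .inl h1, ?_⟩
    rintro _ (rfl | ⟨h, -⟩)
    exacts [one_smul _ _, by omega]

theorem U_eq_one {n : GL D.Idx k} (hn : n ∈ (glSys D k).N) {w : W D} (hm : (glSys D k).Mono n w)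
    (hw : ∀ a, Pos a → B.Act a → ¬ Pos (w • a)) {y z y' n' : GL D.Idx k}
    (hy : y ∈ B.C ⊓ (glSys D k).U) (hz : z ∈ (glSys D k).H) (hy' : y' ∈ (glSys D k).U)
    (hn' : n' ∈ (glSys D k).N) (e : n * (y * z) = y' * n') : y = 1 := by
  obtain ⟨w', hm'⟩ := exists_mono hn'
  have h1 : z⁻¹ * y * z ∈ (glSys D k).Uw w := H_conj_mem' hz
    (B.mem_act uni_ht σ.pos_p (fun r h h' => mem_invs.2 ⟨h, hw r h h'⟩) hy)
  have h2 : (glSys D k).Mono (n * z) w := by simpa using hm.mul (mono_of_mem_H hz)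
  have h3 := mul_mem hn ((glSys D k).H_le_N hz)
  have h4 : 1 * (n * z) * (z⁻¹ * y * z) = y' * n' * 1 := by rw [mul_one, ← e]; group
  obtain rfl : w = w' := cell_unique
    ⟨_, h3, h2, _, one_mem _, _, (glSys D k).U_le_B (Uw_le_U _ h1), rfl⟩
    ⟨_, hn', hm', _, (glSys D k).U_le_B hy', _, one_mem _, h4⟩
  simpa [mul_assoc, inv_mul_eq_one] using
    (normal_unique' (one_mem _) hy' h3 hn' h2 hm' h1 (one_mem _) h4).2.2

end GB

end Cfsg.Agent.Chev
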