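import Mathlib
import Cfsg.Agent.Chev.BalI

/-! Local balance: fixed points of a Frobenius map in the centralizer of a graph type element. -/

set_option autoImplicit false
set_option linter.unusedSectionVars false
set_option maxHeartbeats 400000

namespace Cfsg.Agent.Chev
open Cfsg.Lie Cfsg.Agent.BN StSys Matrix MatrixGroups Pointwise

variable {D : ChevalleyDatum} [g : Good2 D] {k : Type*} [Field k]

namespace GB
variable {p : ℕ} {σ : Sym D} {η : Rt D → ℤ} {u : GL D.Idx k} (B : GB k p σ η u)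

/-- a Frobenius map in standard form -/
structure FS (r e : ℕ) [Fact r.Prime] [CharP k r] (m : GL D.Idx k) (μ : W D)
    (K : Subgroup (GL D.Idx k)) : Prop where
  he : e ≠ 0
  sm : B.SM (iterateFrobenius k r e) m μ
  hS : Sj D
  hD : Dg p σ η
  k1 : ∀ y ∈ K, smH (iterateFrobenius k r e) m y = y
  k2 : ∀ y ∈ B.C, smH (iterateFrobenius k r e) m y = y → (∃ j, y ^ r ^ j = 1) → y ∈ K
  hr : r ≠ p

theorem xo_U {a : Rt D} (h : Pos a) (s : k) : B.xo a s ∈ (glSys D k).U :=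
  B.xo_XS (R := {r | Pos r}) (fun r => (σ.pos_p r).2) h s

theorem xo_V {a : Rt D} (h : ¬ Pos a) (s : k) : B.xo a s ∈ (glSys D k).V :=
  B.xo_XS (R := {r | ¬ Pos r}) (fun r h => mt (σ.pos_p r).1 h) h s

namespace FS
variable {B} [IsAlgClosed k] {r e : ℕ} [Fact r.Prime] [CharP k r] {m : GL D.Idx k} {μ : W D}
  {K : Subgroup (GL D.Idx k)} (h : B.FS r e m μ K)
include h

theorem one_lt : 1 < r ^ e := Nat.one_lt_pow h.he (Fact.out : r.Prime).one_lt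

theorem exists_line {a : Rt D} (ha : μ • a = a) : ∃ γ : k, γ ≠ 0 ∧
    (∀ s, smH (iterateFrobenius k r e) m ((glSys D k).x a s) = (glSys D k).x a (γ * s ^ r ^ e)) ∧
    ∀ s, smH (iterateFrobenius k r e) m ((glSys D k).x (ng a) s) =
      (glSys D k).x (ng a) (γ⁻¹ * s ^ r ^ e) := by
  obtain ⟨γ, h1, h2⟩ := h.sm.exists_γ
  exact ⟨γ a, left_ne_zero_of_mul_eq_one (h1 a), fun s => by rw [h2, ha]; rfl, fun s => by
    rw [h2, smul_ng, ha, eq_inv_of_mul_eq_one_right (h1 a)]; rfl⟩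

theorem xo_fix {a : Rt D} {s : k}
    (h1 : smH (iterateFrobenius k r e) m ((glSys D k).x a s) = (glSys D k).x a s) :
    smH (iterateFrobenius k r e) m (B.xo a s) = B.xo a s := B.map_xo _ h.sm.comm h1 Iff.rfl

theorem xo_K {a : Rt D} (ha : B.Act a) {s : k}
    (h1 : smH (iterateFrobenius k r e) m ((glSys D k).x a s) = (glSys D k).x a s) : B.xo a s ∈ K :=
  h.k2 _ (B.xo_mem ha s) (h.xo_fix h1) (by
    by_cases e : Pos a
    exacts [exists_pow_U r (B.xo_U e s), exists_pow_V r (B.xo_V e s)])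

theorem U_K {y : GL D.Idx k} (hy : y ∈ B.C ⊓ (glSys D k).U)
    (h1 : smH (iterateFrobenius k r e) m y = y) : y ∈ K := h.k2 _ hy.1 h1 (exists_pow_U r hy.2)

theorem exists_wit {a : Rt D} (h1 : Pos a) (h2 : B.Act a) :
    ∃ z ∈ K ⊓ (B.C ⊓ (glSys D k).U), ∃ s ≠ 0, B.Ld z a s := by
  by_cases e1 : μ • a = a
  · obtain ⟨γ, h3, h4, -⟩ := h.exists_line e1
    obtain ⟨s, h5, h6⟩ := exists_root_fix h3 h.one_lt
    exact ⟨_, ⟨h.xo_K h2 (by rw [h4, h6]), B.xo_mem h2 s, B.xo_U h1 s⟩, s, h5, B.ld_xo h1 s⟩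
  have ho := h.sm.om h.hD
  have ha := B.act_lv h.hD h1 h2
  have h0 : 0 ≤ ph B.wt a := by linarith [ha.2]
  obtain ⟨γ, h3, h4⟩ := h.sm.exists_γ
  have h5 := fun r => left_ne_zero_of_mul_eq_one (h3 r)
  obtain ⟨s, h6, h7⟩ := exists_root_fix (mul_ne_zero (h5 (μ • a)) (pow_ne_zero (r ^ e) (h5 a)))
    (Nat.one_lt_pow two_ne_zero h.one_lt)
  have h8 := B.map_xo _ h.sm.comm (h4 a s) (tr_fix h.sm.tr h.sm.mono)
  have h9 := B.map_xo _ h.sm.comm (h4 (μ • a) (γ a * iterateFrobenius k r e s))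
    (tr_fix h.sm.tr h.sm.mono)
  rw [ho.sq, ← h8, show γ (μ • a) * iterateFrobenius k r e (γ a * iterateFrobenius k r e s) = s by
    rw [iterateFrobenius_def, iterateFrobenius_def, mul_pow, ← pow_mul, ← sq, ← mul_assoc, h7]] at h9
  have h10 := B.xo_mem h2 s
  have h11 := h.sm.mem_C h10
  have h12 : smH (iterateFrobenius k r e) m (B.xo a s) ∈
      (glSys D k).XS (B.Lv (ph B.wt a) \ {a}) := h8 ▸ (glSys D k).XS_mono
    (fun r hr => And.intro hr.1 (hr.2 0)) (B.xo_XS (R := {r | r ∈ B.Lv (ph B.wt a) ∧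
      ∀ l, (σ.p ^ l) r ≠ a}) (fun r hr => ⟨(B.lv_p r).2 hr.1, fun l => by
        simpa [pow_succ] using hr.2 (l + 1)⟩) ⟨ho.lv ha.2 ⟨h1, le_rfl⟩, fun l e => e1 (ho.orb e)⟩ _)
  obtain ⟨y, hy, h13⟩ := ((B.fix_XS (B.uni_lv uni_ht (n := ph B.wt a + 1) (by omega))
    B.lv_p).1 _ le_rfl).lang r h.he (c := m) (σ := smH (iterateFrobenius k r e) m)
    (fun y hy => ⟨⟨h.sm.mem_C hy.1, h.sm.mem_XS (fun r => ho.lv (by omega)) hy.2⟩, rfl⟩)
    (a := (smH (iterateFrobenius k r e) m (B.xo a s))⁻¹ * (B.xo a s)⁻¹ *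
      smH (iterateFrobenius k r e) m (B.xo a s) * B.xo a s)
    ⟨B.C.mul_mem (B.C.mul_mem (B.C.mul_mem (B.C.inv_mem h11) (B.C.inv_mem h10)) h11) h10,
      (glSys D k).commutator_mem (B.cl_lv h0 zero_le_one le_rfl) (B.cl_lv h0 (by omega) (by omega))
        (B.cl_lv zero_le_one (by omega) (by omega)) ((glSys D k).XS_mono Set.diff_subset h12)
        (B.xo_XS (fun r => (B.lv_p r).2) ha s)⟩
  have h14 := mul_mem (mul_mem (B.ld_xo h1 s) h12)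
    (inv_mem ((glSys D k).XS_mono (B.lv_succ a) hy.2))
  have h15 : B.xo a s * smH (iterateFrobenius k r e) m (B.xo a s) * y⁻¹ ∈ B.C ⊓ (glSys D k).U :=
    ⟨B.C.mul_mem (B.C.mul_mem h10 h11) (B.C.inv_mem hy.1), Subgroup.mul_mem _ (mul_mem (B.xo_U h1 s)
      ((glSys D k).XS_mono (fun _ h => h.1.1) h12)) (inv_mem
        ((glSys D k).XS_mono (fun _ h => h.1) hy.2))⟩
  refine ⟨_, ⟨h.U_K h15 ?_, h15⟩, s, h6, by simpa [Ld, mul_assoc] using h14⟩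
  rw [map_mul, map_mul, map_inv, h9, ← mul_inv_cancel_left y (smH _ m y), h13]
  group

theorem eq_one_of_cent {y : GL D.Idx k} (hy : y ∈ (glSys D k).H)
    (h1 : ∀ z ∈ K ⊓ (B.C ⊓ (glSys D k).U), y * z * y⁻¹ = z) : y = 1 := by
  obtain ⟨c, rfl⟩ := gl_R3.exists_hT hy
  rw [gl_hT] at h1 ⊢
  generalize pw kˣ (cartanM D) c = c at h1
  have h2 : ∀ a, Pos a → σ.p a ≠ a → tor c (co a) = 1 := fun a h2 h3 => by
    obtain ⟨z, hz, s, h4, h5⟩ := h.exists_wit h2 (.inl h3)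
    have ha := B.act_lv h.hD h2 (.inl h3)
    have := h5.map ha (.inl rfl) (MulAut.conj (dgU c)).toMonoidHom
      (fun r t => ⟨_, dgU_conj c r t⟩) (dgU_conj c a s)
    rw [show (MulAut.conj (dgU c)).toMonoidHom z = z from h1 z hz, one_smul] at this
    exact Units.ext (mul_right_cancel₀ h4 ((this.unique ha h5).trans (one_mul s).symm))
  have h3 : ∀ L : List (Rt D), (∀ a ∈ L, σ.p a ≠ a) → tor c (L.map co).sum = 1 := fun L hL => by
    induction L with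
    | nil => exact tor_zero c
    | cons a L ih =>
      rw [List.map_cons, List.sum_cons, tor_add, ih fun b hb => hL b (by simp [hb]), mul_one]
      by_cases e : Pos a
      · exact h2 a e (hL a (by simp))
      · simpa [tor_neg] using h2 (ng a) ((pos_ng a).2 e) fun e =>
          hL a (by simp) (ng_inj (σ.p_ng a ▸ e))
  rw [show c = 1 from funext fun j => by
    obtain ⟨L, h4, h5, -⟩ := h.hD.sp j
    rw [← tor_single c j, ← co_sim, h5, h3 L h4]; rfl]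
  exact map_one (dgH D k)

theorem exists_n0 : ∃ n ∈ K ⊓ (B.C ⊓ (glSys D k).N), ∃ w, (glSys D k).Mono n w ∧
    ∀ a, Pos a → B.Act a → ¬ Pos (w • a) := by
  obtain ⟨w, ⟨n, hn, hm⟩, h1⟩ := Set.exists_min_image
    {w | ∃ n ∈ K ⊓ (B.C ⊓ (glSys D k).N), (glSys D k).Mono n w} (fun w => ln (w0 Set.univ * w))
    (Set.toFinite _) ⟨1, 1, one_mem _, Mono.one⟩
  refine ⟨n, hn, w, hm, fun a h2 h3 h4 => ?_⟩
  obtain ⟨-, c, h5, h6, h7, h8⟩ := h.sm.exists_good h.hD hn.2 (h.k1 _ hn.1) hm h2 h3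
  obtain ⟨γ, h9, h10, h11⟩ := h.exists_line h7
  obtain ⟨s, h12, h13⟩ := exists_root_fix h9 h.one_lt
  obtain ⟨h14, v, h15, h16⟩ := B.mono_nr h5 h12
  have h17 := h.xo_K h6 (s := s) (by rw [h10, h13])
  have h18 := h.xo_K (B.act_ng h6) (s := -s⁻¹) (by
    rw [h11, ← iterateFrobenius_def, map_neg, map_inv₀, iterateFrobenius_def, mul_neg, ← mul_inv,
      h13])
  refine (h1 _ ⟨_, mul_mem hn ⟨B.nr_n c s ▸ mul_mem (mul_mem h17 h18) h17,
    B.nr_mem h6 ((glSys D k).n_mem (by simp) (by simp) s), h14⟩, hm.mul h15⟩).not_gt ?_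
  rw [← mul_assoc]
  refine h16 _ ?_ (by rw [mul_smul, pos_w0_univ, not_not]; exact h8.1 h4)
  rw [map_mul, σ.ρ_w0 (K := Set.univ) (K' := Set.univ) (by simp), tr_ρ (B := B) (B' := B)
    (by rw [← (mem_Cz.1 hn.2.1).2, mul_inv_cancel_right]) hm]

theorem mono_one {X : Subgroup (GL D.Idx k)} (h1 : K ⊓ (B.C ⊓ (glSys D k).U) ≤ X)
    (h2 : ∀ y ∈ X, (orderOf y).Coprime p) {n : GL D.Idx k} (hn : n ∈ B.C ⊓ (glSys D k).N)
    (hX : n ∈ X) (h3 : smH (iterateFrobenius k r e) m n = n) {w : W D}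
    (hm : (glSys D k).Mono n w) : w = 1 := by
  refine one_of_C h.hD hn.1 hm fun a h4 h5 => by_contra fun h6 => ?_
  obtain ⟨h7, c, h8, h9, h10, h11⟩ := h.sm.exists_good h.hD hn h3 hm h4 h5
  have h0 : n * B.b * n⁻¹ = B.b := by rw [← (mem_Cz.1 hn.1).2, mul_inv_cancel_right]
  obtain ⟨γ, h12, h13, -⟩ := h.exists_line h10
  obtain ⟨s, h14, h15⟩ := exists_root_fix h12 h.one_lt
  obtain ⟨t, h16, h17, -⟩ := hm.exists_conj c
  have h18 : Pos (ng (w • c)) := (pos_ng _).2 (mt h11.2 h6)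
  have h19 : B.Act (ng (w • c)) := B.act_ng ((tr_act h0 hm).2 h9)
  obtain ⟨δ, h20, h21, h22⟩ := h.exists_line (a := ng (w • c)) (by rw [smul_ng, ← h7, h10])
  have h23 := h22 (t * s)
  rw [ng_ng, ← h17, map_mul, map_mul, map_inv, h3, h13, h15, h17] at h23
  have h24 := (glSys D k).x_inj h23
  have h25 : n * B.xo c s * n⁻¹ = B.xo (ng (ng (w • c))) (t * s) := by
    rw [ng_ng]
    exact B.map_xo (MulAut.conj n).toMonoidHom (fun y => (tr_β h0 y).symm) (h17 s) (tr_fix h0 hm)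
  have h26 : B.xo (ng (ng (w • c))) (t * s) ∈ X := h25 ▸ mul_mem (mul_mem hX
    (h1 ⟨h.xo_K h9 (by rw [h13, h15]), B.xo_mem h9 s, B.xo_U h8 s⟩)) (inv_mem hX)
  have h27 := mul_ne_zero h16 h14
  generalize ng (w • c) = d at *
  generalize t * s = v at *
  have hp : (p : k) ≠ 0 := fun e => h.hr (((Nat.prime_dvd_prime_iff_eq Fact.out B.prime).1
    ((CharP.cast_eq_zero_iff k r p).1 e)))
  have h28 : B.xo d (-p * v⁻¹) ∈ X := h1 ⟨h.xo_K h19 (by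
    rw [h21, ← iterateFrobenius_def, map_mul, map_neg, map_natCast, map_inv₀, iterateFrobenius_def]
    conv_rhs => rw [h24]
    congr 1; field_simp), B.xo_mem h19 _, B.xo_U h18 _⟩
  obtain ⟨Φ, h29, h30⟩ := B.exists_hom d
  have h31 : -p * v⁻¹ * v = -p := inv_mul_cancel_right₀ h27 _
  obtain ⟨j, h32⟩ : ∃ j, (slU (-p * v⁻¹) * slL v) ^ p ^ j = 1 := by
    rcases B.hp with rfl | rfl
    exacts [⟨2, slUL_four (by simpa using h31)⟩, ⟨1, slUL_three (by simpa using h31)⟩]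
  refine not_coprime_of_map B.prime (fun _ h => h) (fun e => ?_) (k := j)
    (by rw [← h29, ← h30, ← map_mul, ← map_pow, h32, map_one]) (h2 _ (mul_mem h28 h26))
  have h33 := one_of_mem_B_V ((glSys D k).U_le_B (B.xo_U h18 (-p * v⁻¹)))
    (eq_inv_of_mul_eq_one_left e ▸ inv_mem (B.xo_V (by simpa using h18) v))
  have := (B.ld_xo h18 (-p * v⁻¹)).unique (B.act_lv h.hD h18 h19) (t := 0) (by rw [Ld, h33]; simp)
  exact mul_ne_zero (neg_ne_zero.2 hp) (inv_ne_zero h27) this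

theorem normal_bot {M : Subgroup (GL D.Idx k)} (h1 : M ≤ K ⊓ B.C)
    (h2 : ∀ z ∈ K ⊓ B.C, ∀ y ∈ M, z * y * z⁻¹ ∈ M) (h3 : ∀ y ∈ M, (orderOf y).Coprime p) :
    ∀ y ∈ M, y = 1 := by
  have h4 : ∀ y ∈ M ⊔ K ⊓ (B.C ⊓ (glSys D k).U), (orderOf y).Coprime p := fun y =>
    coprime_of_sup (R := K ⊓ (B.C ⊓ (glSys D k).U)) ((Nat.coprime_primes Fact.out B.prime).2 h.hr)
      (fun z hz => h2 z ⟨hz.1, hz.2.1⟩) h3 fun z hz => exists_pow_U r hz.2.2
  have h5 : ∀ y ∈ M, ∃ a ∈ B.C ⊓ (glSys D k).U, ∃ b ∈ (glSys D k).H, y = a * b := fun y hy => by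
    obtain ⟨a, ha, b, hb, v, hm, c, hc, rfl, h5, h6, h7⟩ :=
      h.sm.bruhat (dgU_mem_H h.hS) (h1 hy).2 (h.k1 _ (h1 hy).1)
    have hc' : c ∈ B.C ⊓ (glSys D k).U := ⟨hc.1, Uw_le_U _ hc.2⟩
    obtain rfl := h.mono_one le_sup_right h4 hb (by
      simpa [mul_assoc] using mul_mem (mul_mem (inv_mem (Subgroup.mem_sup_right (S := M)
        (T := K ⊓ (B.C ⊓ (glSys D k).U)) ⟨h.U_K ha h5, ha⟩)) (Subgroup.mem_sup_left hy))
        (inv_mem (Subgroup.mem_sup_right ⟨h.U_K hc' h7, hc'⟩))) h6 hm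
    exact ⟨a, ha, b, mem_H_of_mono hb.2 hm, by simpa [Uw] using hc.2⟩
  obtain ⟨n, hn, w, hm, h6⟩ := h.exists_n0
  have h7 : ∀ y ∈ M, y ∈ (glSys D k).H := fun y hy => by
    obtain ⟨a, ha, b, hb, e1⟩ := h5 _ (h2 n ⟨hn.1, hn.2.1⟩ y hy)
    obtain ⟨c, hc, d, hd, rfl⟩ := h5 y hy
    rwa [U_eq_one hn.2.2 hm h6 hc hd ha.2 (mul_mem ((glSys D k).H_le_N hb) hn.2.2)
      (by rw [← mul_assoc a, ← e1, inv_mul_cancel_right]), one_mul]
  refine fun y hy => h.eq_one_of_cent (h7 y hy) fun z hz => mul_inv_eq_one.1 (one_of_mem_U_H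
    (mul_mem (H_conj_mem (h7 y hy) hz.2.2) (inv_mem hz.2.2)) (h7 _ ?_))
  simpa [mul_assoc] using mul_mem hy (h2 z ⟨hz.1, hz.2.1⟩ _ (inv_mem hy))

theorem cent_sm {ψ : k →+* k} {c : GL D.Idx k} (hc : c ∈ (glSys D k).grp)
    (h1 : c * mp ψ B.b * c⁻¹ = B.b) (h2 : ∀ y ∈ K ⊓ B.C, smH ψ c y = y) : ∃ w, B.SM ψ c w := by
  obtain ⟨y, hy, n, w, h3, rfl⟩ := B.exists_sm (dgU_mem_H h.hS) ψ hc h1
  obtain ⟨a, ha, b, hb, v, hm, h4, d, hd, rfl⟩ := normal_tr (B := B) (B' := B) (dgU_mem_H h.hS)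
    (mem_Cz.1 hy).1 (by rw [← (mem_Cz.1 hy).2, mul_inv_cancel_right])
  have ho := h3.om h.hD
  obtain rfl := one_of_C h.hD (mem_Cz.2 ⟨N_le_grp _ hb, (mul_inv_eq_iff_eq_mul.1 h4).symm⟩) hm
    fun x h5 h6 => by
      have h7 := h3.pos x h5 h6
      obtain ⟨z, hz, s, h8, h9⟩ := h.exists_wit h7 (h3.act.2 h6)
      obtain ⟨γ, h10, h11⟩ := h3.exists_γ
      have h12 := h9.map (B.act_lv h.hD h7 (h3.act.2 h6)) ho _ (fun r t => ⟨_, h11 r t⟩) (h11 _ s)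
      rw [ho.sq] at h12
      refine (h12.conj (B.act_lv h.hD h5 h6) (B.mem_act uni_ht σ.pos_p (fun r => B.act_lv h.hD)
        ⟨hd.1, Uw_le_U _ hd.2⟩)).pos (B.act_lv h.hD h5 h6)
        (mul_ne_zero (left_ne_zero_of_mul_eq_one (h10 _)) ((_root_.map_ne_zero ψ).2 h8)) hm ?_
      convert (glSys D k).U.mul_mem ((glSys D k).U.mul_mem ((glSys D k).U.inv_mem ha.2) hz.2.2)
        ha.2 using 1
      conv_rhs => rw [← h2 z ⟨hz.1, hz.2.1⟩]
      simp only [smH_apply]; group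
  obtain rfl : d = 1 := by simpa [Uw] using hd.2
  obtain ⟨n0, hn, w0, h5, h6⟩ := h.exists_n0
  have h7 := mul_mem hb h3.mem
  have h8 := h2 n0 ⟨hn.1, hn.2.1⟩
  obtain rfl := U_eq_one hn.2.2 h5 h6 ha (one_mem _) ha.2 (mul_mem (mul_mem h7
    ((fieldGL D ψ).mem_N hn.2.2)) (inv_mem h7)) (by
      conv_lhs => rw [← h8, smH_apply]
      simp only [fieldGL]; group)
  exact ⟨w, by simpa using h7, by simpa using hm.mul h3.mono, by rwa [map_b], h3.pos⟩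

theorem cent_fix {ψ : k →+* k} {c : GL D.Idx k} (hc : c ∈ (glSys D k).grp)
    (h1 : c * mp ψ B.b * c⁻¹ = B.b) (h2 : ∀ y ∈ K ⊓ B.C, smH ψ c y = y) (t : k)
    (ht : t ^ r ^ e = t) : ψ t = t := by
  obtain ⟨w, h3⟩ := h.cent_sm hc h1 h2
  obtain ⟨a, h4, h5, h6⟩ := exists_fixed_root (B := B) h.hD
  obtain ⟨γ, h7, h8, -⟩ := h.exists_line (h6 _ (h.sm.om h.hD))
  obtain ⟨s, h9, h10⟩ := exists_root_fix h7 h.one_lt
  obtain ⟨δ, -, h11⟩ := h3.exists_γ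
  have key : ∀ t, t ^ r ^ e = t → δ a * ψ (s * t) = s * t := fun t ht => by
    have := B.map_xo _ h3.comm (h11 a (s * t)) (tr_fix h3.tr h3.mono)
    rw [h6 _ (h3.om h.hD), h2 _ ⟨h.xo_K h5 (by rw [h8, mul_pow, ht, ← mul_assoc, h10]),
      B.xo_mem h5 _⟩] at this
    exact (B.ld_xo h4 _).unique (B.act_lv h.hD h4 h5) (this ▸ B.ld_xo h4 _)
  have h12 := key t ht
  rw [map_mul, ← mul_assoc, show δ a * ψ s = s by simpa using key 1 (one_pow _)] at h12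
  exact mul_left_cancel₀ h9 h12

theorem cent_one {c : GL D.Idx k} (hc : c ∈ B.C) (h2 : ∀ y ∈ K ⊓ B.C, c * y * c⁻¹ = y) : c = 1 := by
  obtain ⟨w, h3⟩ := h.cent_sm (ψ := RingHom.id k) (mem_Cz.1 hc).1
    (mul_inv_eq_iff_eq_mul.2 (mem_Cz.1 hc).2.symm) h2
  obtain rfl := one_of_C h.hD hc h3.mono h3.pos
  exact h.eq_one_of_cent (mem_H_of_mono h3.mem h3.mono) fun z hz => h2 z ⟨hz.1, hz.2.1⟩

end FS

end GB

end Cfsg.Agent.Chev
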