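import Mathlib
import Cfsg.Agent.Chev.BalJ

/-! Local balance: graph type automorphisms over finite fields. -/

set_option autoImplicit false
set_option linter.unusedSectionVars false
set_option maxHeartbeats 400000

namespace Cfsg.Agent.Chev
open Cfsg.Lie Cfsg.Agent.BN StSys Matrix MatrixGroups Pointwise

variable {D : ChevalleyDatum} [g : Good2 D] {F k : Type*} [Field F] [Field k]

theorem exists_fixed_quot {G : Type*} [Group G] (K : Subgroup G) [Finite G] {p : ℕ} (hp : p.Prime)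
    (T : G → G) (h1 : ∀ a b, a⁻¹ * b ∈ K → (T a)⁻¹ * T b ∈ K) (h2 : ∀ a, a⁻¹ * T^[p] a ∈ K)
    (hc : ¬ p ∣ K.index) : ∃ a, a⁻¹ * T a ∈ K := by
  let f : G ⧸ K → G ⧸ K := Quotient.map' T fun a b h =>
    QuotientGroup.leftRel_apply.2 (h1 a b (QuotientGroup.leftRel_apply.1 h))
  have h3 : ∀ n (a : G), f^[n] a = (T^[n] a : G) := fun n a => by
    induction n with
    | zero => rfl
    | succ n ih => rw [Function.iterate_succ_apply', Function.iterate_succ_apply', ih]; rfl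
  obtain ⟨a, ha⟩ := exists_fixed hp f (fun a => by
    obtain ⟨a, rfl⟩ := QuotientGroup.mk_surjective a
    exact (h3 p a).trans (QuotientGroup.eq.2 (h2 a)).symm) hc
  obtain ⟨a, rfl⟩ := QuotientGroup.mk_surjective a
  exact ⟨a, QuotientGroup.eq.1 ha.symm⟩

theorem mem_grp_of_pow [Fintype F] (r : ℕ) [Fact r.Prime] [CharP F r] {z : GL D.Idx F}
    (hz : z ∈ GD D F) {j : ℕ} (h : z ^ r ^ j = 1) : z ∈ (glSys D F).grp := by
  obtain ⟨a, ha, c, rfl⟩ := mem_GD.1 hz
  have h1 : ∀ n, (a * dgU c) ^ n * (dgU (c ^ n))⁻¹ ∈ (glSys D F).grp := fun n => by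
    induction n with
    | zero => simp [← dgH_apply]
    | succ n ih =>
      convert mul_mem ha (dgU_conj_mem c ih) using 1
      rw [pow_succ', pow_succ', dgU_mul, _root_.mul_inv_rev]
      simp only [mul_assoc]
  have h2 := h1 (Fintype.card F - 1)
  rw [show c ^ (Fintype.card F - 1) = 1 from funext fun i => Units.ext (by
    simpa using FiniteField.pow_card_sub_one_eq_one _ (c i).ne_zero), ← dgH_apply 1, map_one, inv_one,
    mul_one] at h2
  obtain ⟨e, -, he⟩ := FiniteField.card F r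
  obtain ⟨m, hm⟩ := exists_pow_eq_self_of_coprime (x := a * dgU c) (n := Fintype.card F - 1)
    (Nat.Coprime.coprime_dvd_right (orderOf_dvd_of_pow_eq_one h) (Nat.Coprime.pow_right j
      (Nat.Coprime.coprime_dvd_right (dvd_pow_self r e.ne_zero) (he ▸
        (Nat.coprime_self_sub_left Fintype.card_pos).2 (Nat.coprime_one_left _)))))
  exact hm ▸ pow_mem h2 m

theorem exists_frob_ext [Fintype F] (r : ℕ) [Fact r.Prime] [CharP F r] [CharP k r] (ι : F →+* k)
    (ψ : RingAut F) : ∃ φ : k →+* k, ∀ t, φ (ι t) = ι (ψ t) := by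
  obtain ⟨j, hj⟩ := mem_powers_iff_mem_zpowers.2 (mem_zpowers_of_fix (σ := frobeniusEquiv F r)
    (τ := ψ) fun t ht => by
      obtain ⟨a, rfl⟩ := (mem_fieldRange_iff (ZMod.castHom (dvd_refl r) F) t).2
        (by rw [ZMod.card]; exact ht)
      exact RingHom.congr_fun (RingHom.ext_zmod
        (ψ.toRingHom.comp (ZMod.castHom (dvd_refl r) F)) (ZMod.castHom (dvd_refl r) F)) a)
  subst hj
  refine ⟨iterateFrobenius k r j, fun t => ?_⟩
  induction j with
  | zero => simp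
  | succ j ih =>
    rw [iterateFrobenius_def] at ih ⊢
    rw [pow_succ r, pow_mul, ih, ← map_pow]
    exact congrArg ι (congrArg (· t) (pow_succ' (frobeniusEquiv F r) j)).symm

theorem RlB.pow_eq_one (ι : F →+* k) {σ : Sym D} {η : Rt D → ℤ} {u z : GL D.Idx F} (hu : GM σ η u)
    (hz : z ∈ GD D F) {p : ℕ} (hp : u ^ p = 1) {β : MulAut (D.group F)} (h : RlB β (z * u) 1)
    (hβ : β ^ p = 1) : (z * u) ^ p = 1 := by
  have h1 : ∀ n : ℕ, RlB (β ^ n) ((z * u) ^ n) 1 ∧ (z * u) ^ n * (u ^ n)⁻¹ ∈ GD D F := fun n => by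
    induction n with
    | zero => exact ⟨real_one, by simp⟩
    | succ n ih =>
      refine ⟨fun y => ?_, ?_⟩
      · rw [pow_succ, ih.1.mul h, pow_succ]; rfl
      convert mul_mem hz (hu.conj_GD ih.2) using 1
      rw [pow_succ', pow_succ']; group
  refine eq_one_of_cent_map (RingHom.id F) (by simpa [hp] using (h1 p).2) fun y => ?_
  exact ((h1 p).1 y).symm.trans (by rw [hβ]; rfl)

theorem bot_graph [Fintype F] [IsAlgClosed k] (ι : F →+* k) (hg : Good3 D) (hS : Sj D) (r : ℕ)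
    [Fact r.Prime] [CharP F r] {σ : Sym D} {η : Rt D → ℤ} {u z : GL D.Idx F} (hu : GM σ η u)
    {p : ℕ} (hD : Dg p σ η) (hr : r ≠ p) (hz : z ∈ GD D F) {β : MulAut (D.group F)}
    (h : RlB β (z * u) 1)
    (hπ : ∀ α, Commute α β → (orderOf α).Coprime p → piH D F α = 1) (B : GB k p σ η (mp ι u))
    {a : GL D.Idx k} (ha : a ∈ (glSys D k).grp) (h1 : a * mp ι (z * u) * a⁻¹ = B.b) :
    BalBot p β := by
  haveI := charP_of_injective_ringHom ι.injective r
  obtain ⟨e, -, he⟩ := FiniteField.card F r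
  have h2 : ∀ t, iterateFrobenius k r e t = t ^ Fintype.card F := fun t => by rw [he]; rfl
  have h3 : ∀ y : GL D.Idx F, mp (iterateFrobenius k r e) (mp ι y) = mp ι y := fun y =>
    (mp_mp _ _ _).trans (mp_congr (fun t => by simp [h2, ← map_pow, FiniteField.pow_card]) _)
  obtain ⟨y, hy, n, w, h4, h5⟩ := B.lang_sm hS hD r e.ne_zero
    (mul_mem ha (inv_mem ((fieldGL D (iterateFrobenius k r e)).mem_grp ha))) (by
      rw [← h1, map_mul, map_mul, h3, map_inv]; simp only [fieldGL]; group)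
  have h6 : y * a * mp ι (z * u) * (y * a)⁻¹ = B.b := by
    rw [← mul_inv_eq_iff_eq_mul.2 (mem_Cz.1 hy).2.symm, ← h1]; group
  have h7 : n = y * a * (mp (iterateFrobenius k r e) (y * a))⁻¹ := by
    rw [← h5, map_mul]; simp only [fieldGL]; group
  have h8 := mul_mem (mem_Cz.1 hy).1 ha
  generalize y * a = a at h6 h7 h8
  let f : D.group F →* GL D.Idx k :=
    (MulAut.conj a).toMonoidHom.comp ((mp ι).comp (D.group F).subtype)
  have f1 : ∀ t, f t = a * mp ι t.1 * a⁻¹ := fun _ => rfl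
  have f2 : Function.Injective f := fun s t h =>
    Subtype.ext (GL_map_inj ι ((MulAut.conj a).injective h))
  have f3 : ∀ t, f t ∈ B.C ↔ β t = t := fun t => by
    rw [B.mem_C, and_iff_right (show f t ∈ _ from mul_mem (mul_mem h8
      ((fieldGL D ι).mem_grp (group_eq.le t.2))) (inv_mem h8)), ← f2.eq_iff, f1 (β t), h, GB.β, MulAut.conj_apply, ← h6, f1]
    simp only [map_mul, map_inv]
    refine Eq.congr_left ?_
    rw [show mp (1 : RingAut F).toRingHom t.1 = t.1 from rfl]; group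
  have hF : B.FS r e n w f.range := ⟨e.ne_zero, h4, hS, hD, by
      rintro _ ⟨t, rfl⟩
      rw [smH_apply, f1, h7, map_mul, map_mul, h3, map_inv]; group,
    fun v hv h9 ⟨j, hj⟩ => by
      obtain ⟨x, hx, h10⟩ := exists_GD_of_fix ι h2
        (mul_mem (mul_mem (inv_mem h8) (mem_Cz.1 hv).1) h8) (by
          conv_rhs => rw [← h9, smH_apply, h7]
          rw [map_mul, map_mul, map_inv]; group)
      refine ⟨⟨x, group_eq.ge (mem_grp_of_pow r hx (j := j) (GL_map_inj ι ?_))⟩, by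
        rw [f1, h10]; group⟩
      rw [map_pow, h10, ← inv_inv a, inv_inv a⁻¹, ← inv_inv a, conj_pow, hj]; simp, hr⟩
  refine balBot_of ch_conj_inj (fun M m1 m2 m3 x hx => f2 ((hF.normal_bot (M := M.map f) ?_ ?_ ?_ _
    ⟨x, hx, rfl⟩).trans (map_one f).symm)) fun α a1 a2 a3 => ?_
  · rintro _ ⟨t, ht, rfl⟩
    exact ⟨⟨t, rfl⟩, (f3 t).2 (m1 t ht)⟩
  · rintro _ ⟨⟨s, rfl⟩, hs⟩ _ ⟨t, ht, rfl⟩
    exact ⟨_, m2 s ((f3 s).1 hs) t ht, by rw [map_mul, map_mul, map_inv]⟩
  · rintro _ ⟨t, ht, rfl⟩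
    exact orderOf_injective f f2 t ▸ m3 t ht
  obtain ⟨x, hx, ψ, a4⟩ := exists_real hg gm_one ord_one (hπ α a1 a3)
  rw [mul_one] at a4
  have a5 : x * mp ψ.toRingHom (z * u) * x⁻¹ = z * u := by
    have h9 : mp ψ.toRingHom (z * u) = mp ψ.toRingHom z * u := by rw [map_mul, hu.fix]
    refine mul_inv_eq_one.1 (eq_one_of_cent_map (RingHom.id F) ?_ fun t => ?_)
    · convert mul_mem (mul_mem (mul_mem hx (mp_mem_GD ψ.toRingHom hz)) (hu.conj_GD (inv_mem hx)))
        (inv_mem hz) using 1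
      rw [h9]; group
    obtain ⟨t, rfl⟩ := (β * α).surjective t
    conv_rhs => rw [← a1.eq]
    change _ * ((β * α) t).1 * _ = ((α * β) t).1
    rw [a4.mul h, h.mul a4, mul_one ψ, one_mul ψ, show mp (1 : RingAut F).toRingHom x = x from rfl]
    group
  have key : ∀ φ : k →+* k, (∀ t, φ (ι t) = ι (ψ t)) →
      a * mp ι x * (mp φ a)⁻¹ ∈ (glSys D k).grp ∧
      a * mp ι x * (mp φ a)⁻¹ * mp φ B.b * (a * mp ι x * (mp φ a)⁻¹)⁻¹ = B.b ∧
      ∀ y ∈ f.range ⊓ B.C, smH φ (a * mp ι x * (mp φ a)⁻¹) y = y := fun φ hφ => by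
    have h9 : ∀ y : GL D.Idx F, mp φ (mp ι y) = mp ι (mp ψ.toRingHom y) := fun y =>
      (mp_mp _ _ _).trans ((mp_congr (ψ := ι.comp ψ.toRingHom) hφ _).trans (mp_mp _ _ _).symm)
    refine ⟨mul_mem (mul_mem h8 (GD_le hS (mp_mem_GD ι hx))) (inv_mem ((fieldGL D φ).mem_grp h8)),
      ?_, ?_⟩
    · conv_rhs => rw [← h6, ← a5, map_mul, map_mul, map_inv]
      rw [← h6, map_mul, map_mul, h9, map_inv]; group
    · rintro _ ⟨⟨t, rfl⟩, ht⟩
      conv_rhs => rw [← a2 t ((f3 t).1 ht), f1, a4, map_mul, map_mul, map_inv]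
      rw [smH_apply, f1, map_mul, map_mul, h9, map_inv]; group
  obtain ⟨φ, hφ⟩ := exists_frob_ext r ι ψ
  obtain rfl : ψ = 1 := RingEquiv.ext fun t => ι.injective ((hφ t).symm.trans
    (hF.cent_fix (key φ hφ).1 (key φ hφ).2.1 (key φ hφ).2.2 _
      (by rw [← he, ← map_pow, FiniteField.pow_card])))
  obtain ⟨k1, k2, k3⟩ := key (RingHom.id k) fun _ => rfl
  have := hF.cent_one (mem_Cz.2 ⟨k1, (mul_inv_eq_iff_eq_mul.1 k2).symm⟩) k3
  obtain rfl : x = 1 := GL_map_inj ι ((conj_eq_one_iff.1 this).trans (map_one _).symm)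
  exact a4.ext real_one

theorem std_two [IsAlgClosed k] (r : ℕ) [Fact r.Prime] [CharP k r] (hr : r ≠ 2) {σ : Sym D}
    {η : Rt D → ℤ} {u z : GL D.Idx k} (hu : GM σ η u) (h1 : u ^ 2 = 1) (hz : z ∈ (glSys D k).grp)
    (h2 : (z * u) ^ 2 = 1) : ∃ a ∈ (glSys D k).grp, ∃ c, a * (z * u) * a⁻¹ = dgU c * u := by
  have h3 : ∀ y, (hu.mor 1 (RingHom.id k)).f y = u * y * u⁻¹ := fun y => by
    rw [hu.mor_f, ← dgH_apply, map_one, one_mul]; rfl
  obtain ⟨a, ha, h4⟩ := (hu.mor 1 (RingHom.id k)).tw_conj_H (hu.surj 1 1) (fun i w _ γ t hγ => by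
      obtain ⟨c, hc⟩ := IsAlgClosed.exists_eq_mul_self (t * t + 4 * γ⁻¹)
      have h2 : (2 : k) ≠ 0 := fun e => hr ((Nat.prime_dvd_prime_iff_eq Fact.out Nat.prime_two).1
        ((CharP.cast_eq_zero_iff k r 2).1 e))
      refine ⟨(c - t) / 2, ?_⟩
      simp only [GM.mor, tor, hu.sim, Pi.one_apply, _root_.one_zpow, Finset.prod_const_one,
        Units.val_one, Int.cast_one, one_mul, RingHom.id_apply]
      field_simp at hc ⊢
      linear_combination -hc)
    (fun _ => exists_odd_U r ((Nat.coprime_primes Fact.out Nat.prime_two).2 hr)) hz fun y _ => by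
      rw [h3, h3, h3, show z * (u * z * u⁻¹) = (z * u) ^ 2 * (u ^ 2)⁻¹ by rw [sq, sq]; group, h1, h2,
        show u * (u * y * u⁻¹) * u⁻¹ = u ^ 2 * y * (u ^ 2)⁻¹ by rw [sq]; group, h1]
      simp
  obtain ⟨c, hc⟩ := gl_R3.exists_hT h4
  exact ⟨a, ha, _, by rw [← gl_hT, hc, h3]; group⟩

end Cfsg.Agent.Chev
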