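import Mathlib
import Cfsg.Agent.Chev.BalK
import Cfsg.Agent.Chev.PoinD4
import Cfsg.Agent.Chev.D4Rel

/-! Local balance: elements of order three of triality type. -/

set_option autoImplicit false
set_option linter.unusedSectionVars false
set_option maxHeartbeats 400000

namespace Cfsg.Agent.Chev
open Cfsg.Lie Cfsg.Agent.BN StSys Matrix MatrixGroups Pointwise

section
variable {D : ChevalleyDatum} [g : Good2 D] {F k : Type*} [Field F] [Field k]
  {σ : Sym D} {η : Rt D → ℤ} {u : GL D.Idx F}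

theorem GM.f_one (hu : GM σ η u) (y : GL D.Idx F) :
    (hu.mor 1 (RingHom.id F)).f y = u * y * u⁻¹ := by
  rw [hu.mor_f, ← dgH_apply, map_one, one_mul]; rfl

theorem GM.exists_N [Finite F] (hu : GM σ η u) {p : ℕ} (hp : p.Prime) (h1 : u ^ p = 1)
    {z : GL D.Idx F} (hz : z ∈ GD D F) (h2 : (z * u) ^ p = 1)
    (hc : ¬ p ∣ ((glSys D F).N.subgroupOf (glSys D F).grp).index) :
    ∃ a ∈ (glSys D F).grp, ∃ n ∈ (glSys D F).N, ∃ c, a⁻¹ * (z * u) * a = n * dgU c * u := by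
  obtain ⟨x, hx, c, rfl⟩ := mem_GD.1 hz
  let T : (glSys D F).grp → (glSys D F).grp := fun y =>
    ⟨_, mul_mem hx ((hu.mor c (RingHom.id F)).mem_grp y.2)⟩
  have h3 : ∀ y, (T y).1 = x * dgU c * u * y * (dgU c * u)⁻¹ := fun y => by
    change x * (dgU c * u * y * _) = _; group
  have h4 : ∀ n y, (T^[n] y).1 = (x * dgU c * u) ^ n * y * ((dgU c * u) ^ n)⁻¹ ∧
      ∃ d, (dgU c * u) ^ n = dgU d * u ^ n := fun n y => by
    induction n with
    | zero => exact ⟨by simp, 1, by simp [← dgH_apply]⟩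
    | succ n ih =>
      obtain ⟨h4, d, h5⟩ := ih
      refine ⟨by
        rw [Function.iterate_succ_apply', h3, h4, pow_succ', pow_succ' (dgU c * u)]
        simp only [_root_.mul_inv_rev, mul_assoc],
        c * fun i => d (σ.π⁻¹ i), ?_⟩
      rw [pow_succ', h5, dgU_mul, ← hu.dg fun i => d (σ.π⁻¹ i), pow_succ']
      simp [mul_assoc]
  obtain ⟨a, ha⟩ := exists_fixed_quot _ hp T (fun a b h => by
      have := (hu.mor c (RingHom.id F)).mem_N (a := a.1⁻¹ * b.1) h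
      rw [map_mul, map_inv] at this
      simpa [T, Subgroup.mem_subgroupOf, mul_assoc] using this) (fun a => by
      obtain ⟨h4, d, h5⟩ := h4 p a
      have h6 : (a⁻¹ * T^[p] a).1 = (dgU d)⁻¹ := by
        rw [Subgroup.coe_mul, h4, h2, h5, h1]; simp
      exact (glSys D F).H_le_N (Mono.mem_H (a⁻¹ * T^[p] a).2
        (by simpa [h6] using (mono_dgU d).inv))) hc
  exact ⟨a, a.2, (a⁻¹ * T a).1, ha, c, by rw [Subgroup.coe_mul, h3, Subgroup.coe_inv]; group⟩

theorem GM.exists_W (hu : GM σ η u) {p : ℕ} (hp : p.Prime) (h1 : ∀ r, σ.p^[p] r = r)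
    {n : GL D.Idx F} (hn : n ∈ (glSys D F).N) (h2 : (n * u) ^ p = 1) {v : W D} (hv : σ.ρ v = v)
    (hc : ¬ p ∣ (Subgroup.zpowers v).index) : ∃ a ∈ (glSys D F).N, ∃ m ∈ (glSys D F).N,
      ∃ w ∈ Subgroup.zpowers v, (glSys D F).Mono m w ∧ a⁻¹ * (n * u) * a = m * u := by
  obtain ⟨w, hm⟩ := exists_mono hn
  have h3 : ∀ (l : ℕ) r, ∃ t ≠ 0, (n * u) ^ l * (glSys D F).x r 1 * ((n * u) ^ l)⁻¹ =
      (glSys D F).x ((fun r => w • σ.p r)^[l] r) t := fun l r => by
    induction l with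
    | zero => exact ⟨1, one_ne_zero, by simp⟩
    | succ l ih =>
      obtain ⟨t, h3, h4⟩ := ih
      obtain ⟨c, h5, h6, -⟩ := hm.exists_conj (σ.p ((fun r => w • σ.p r)^[l] r))
      exact ⟨_, mul_ne_zero h5 (mul_ne_zero (hu.η_ne _) h3), by
        rw [Function.iterate_succ_apply', ← h6, ← hu.x, ← h4, pow_succ']
        simp only [_root_.mul_inv_rev, mul_assoc]⟩
  have h4 : ∀ (l : ℕ) x r, (fun x => w * σ.ρ x)^[l] x • σ.p^[l] r =
      (fun r => w • σ.p r)^[l] (x • r) := fun l x r => by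
    induction l with
    | zero => rfl
    | succ l ih => simp only [Function.iterate_succ_apply', mul_smul, σ.ρ_smul, ih]
  obtain ⟨x, hx⟩ := exists_fixed_quot (Subgroup.zpowers v) hp (fun x => w * σ.ρ x) (fun a b h => by
      obtain ⟨j, hj⟩ := h
      exact ⟨j, by simpa [hv, mul_assoc] using congrArg σ.ρ hj⟩) (fun a => by
      rw [show (fun x => w * σ.ρ x)^[p] a = a from W_ext fun r => by
        obtain ⟨t, -, h5⟩ := h3 p (a • r)
        rw [h2, one_mul, inv_one, mul_one, ← h4, h1] at h5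
        exact ((glSys D F).eq_of_x_eq one_ne_zero h5).symm]
      simp) hc
  obtain ⟨a, ha, h5⟩ := (glSys D F).exists_N x
  refine ⟨a, ha, _, mul_mem (inv_mem ha) (mul_mem hn ((hu.mor 1 (RingHom.id F)).mem_N ha)), _, hx,
    h5.inv.mul (hm.mul ((hu.mor 1 (RingHom.id F)).mono ha h5)), ?_⟩
  rw [hu.f_one]; group

theorem GM.exists_tor [IsAlgClosed F] (hu : GM σ η u) {n : GL D.Idx F} (hn : n ∈ (glSys D F).N)
    {w : W D} (hm : (glSys D F).Mono n w) (h : ∀ j, Chev.co (Chev.sim j) +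
      Chev.co (w • σ.p (Chev.sim j)) + Chev.co (w • σ.p (w • σ.p (Chev.sim j))) = 0) (c : Ix D → Fˣ) :
    ∃ t, (dgU t)⁻¹ * (n * u * dgU c) * dgU t = n * u := by
  have h1 : ∀ t, (n * u)⁻¹ * dgU t * (n * u) = dgU fun j => tor t (Chev.co (w • σ.p (Chev.sim j))) :=
    fun t => by
      rw [show (n * u)⁻¹ * dgU t * (n * u) = u⁻¹ * (n⁻¹ * dgU t * n) * u by group, conj_dgU hn hm,
        ← hu.dg]
      simp [mul_assoc, σ.p_sim]
  have h2 : ∀ (t : Ix D → Fˣ) r, tor (fun j => tor t (Chev.co (w • σ.p (Chev.sim j)))) (Chev.co r) =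
      tor t (Chev.co (w • σ.p r)) := fun t r => by
    rw [← tor_smul_eq, ← tor_perm hu.co]; simp only [σ.p_sim]
  choose ρ hρ using fun z : Fˣ => (show ∃ y : Fˣ, y ^ 3 = z by
    obtain ⟨y, hy⟩ := IsAlgClosed.exists_pow_nat_eq (z : F) three_pos
    exact ⟨Units.mk0 y fun e => z.ne_zero (by rw [← hy, e]; simp), Units.ext (by simpa)⟩)
  obtain ⟨s, hs⟩ : ∃ s : Ix D → Fˣ, ∀ j, s j ^ 3 = (c j)⁻¹ := ⟨_, fun j => hρ _⟩
  refine ⟨s * s * fun j => tor s (Chev.co (w • σ.p (Chev.sim j))), ?_⟩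
  rw [show ∀ a b : GL D.Idx F, a⁻¹ * (n * u * b) * a = n * u * (((n * u)⁻¹ * a * (n * u))⁻¹ * b * a)
    from fun a b => by group, h1, mul_eq_left, ← dgH_apply, ← dgH_apply, ← dgH_apply, ← map_inv,
    ← map_mul, ← map_mul]
  refine (congrArg _ (funext fun j => ?_)).trans (map_one _)
  have h3 := congrArg (tor s) (h j)
  rw [tor_add, tor_add, co_sim, tor_single, tor_zero] at h3
  have h4 : ∀ a b : Ix D → Fˣ, ∀ v, tor (a * b) v = tor a v * tor b v := fun a b v => by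
    simp [tor, mul_zpow, Finset.prod_mul_distrib]
  simp only [Pi.mul_apply, Pi.inv_apply, h4, h2, Pi.one_apply]
  rw [← inv_inv (c j), ← hs, eq_inv_of_mul_eq_one_right h3]
  simp only [pow_succ, pow_zero, one_mul, _root_.mul_inv_rev, inv_inv]
  generalize tor s _ = a
  generalize s j = b
  exact Units.ext (by simp only [Units.val_mul, Units.val_inv_eq_inv_val, Units.val_one]; field_simp)

theorem exists_split_x {c : Ix D → Fˣ} {r : Rt D} (h : tor c (co r) ≠ 1) (s : F) :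
    ∃ a, ((glSys D F).x r a)⁻¹ * (dgU c * (glSys D F).x r s) * (glSys D F).x r a = dgU c := by
  have h1 : (1 - tor c (co r) : F) ≠ 0 := sub_ne_zero.2 fun e => h (Units.ext e.symm)
  refine ⟨tor c (co r) * s / (1 - tor c (co r)), ?_⟩
  rw [mul_assoc, mul_assoc, ← StSys.add, inv_mul_eq_iff_eq_mul, ← mul_inv_eq_iff_eq_mul]
  refine (dgU_conj c r _).trans (congrArg _ ?_)
  field_simp; ring

theorem exists_omega (F : Type*) [Field F] [IsAlgClosed F] : ∃ ω : F, ω * ω + ω + 1 = 0 := by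
  obtain ⟨s, hs⟩ := IsAlgClosed.exists_root (Polynomial.X ^ 2 + Polynomial.X + 1 : Polynomial F)
    (by rw [show Polynomial.degree _ = 2 by compute_degree!]; simp)
  exact ⟨s, by simpa [sq] using hs⟩

theorem GM.ell [IsAlgClosed F] (hu : GM σ η u) (hS : Sj D) (h3 : (3 : F) ≠ 0) {a d c : Rt D}
    {e : Ix D → ℤ} {w : W D} (e1 : ph e a = 0) (e2 : ∀ r, 3 ≤ ph e r ↔ r = c ∨ r = d)
    (e3 : pr a c = 1 ∧ pr a d = -1) (e4 : d ≠ c ∧ d ≠ Chev.ng c ∧ D.commTerms c d = [])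
    (e5 : ∀ r ∈ [a, d, c], σ.p r = r ∧ η r = 1) (e6 : w = rW a * rW d)
    (e7 : ∀ j, Chev.co (Chev.sim j) + Chev.co (w • σ.p (Chev.sim j)) +
      Chev.co (w • σ.p (w • σ.p (Chev.sim j))) = 0)
    (h2 : (glSys D F).n a 1 * (glSys D F).n d 1 * ((glSys D F).x (Chev.ng d) 1 *
      (glSys D F).x (Chev.ng a) (-1) * (glSys D F).x (Chev.ng c) (-1)) =
      (glSys D F).x (Chev.ng d) 1 * (glSys D F).x (Chev.ng a) (-1) * (glSys D F).x (Chev.ng c) (-1) *
        ((glSys D F).x a 1 * (glSys D F).x (Chev.ng a) (-3) * (glSys D F).x d 1))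
    {n : GL D.Idx F} (hn : n ∈ (glSys D F).N) (hm : (glSys D F).Mono n w) :
    ∃ y ∈ (glSys D F).grp, ∃ t, y⁻¹ * (n * u) * y = dgU t * u := by
  have h0 : (glSys D F).Mono ((glSys D F).n a 1 * (glSys D F).n d 1) w :=
    e6 ▸ ((glSys D F).mono_n a one_ne_zero).mul ((glSys D F).mono_n d one_ne_zero)
  have h1 := mul_mem ((glSys D F).n_mem_N a one_ne_zero) ((glSys D F).n_mem_N d one_ne_zero)
  obtain ⟨b, hb⟩ := gl_R3.exists_hT (mem_H_of_mono_eq h1 hn h0 hm)
  rw [gl_hT, ← hu.dg] at hb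
  obtain ⟨t, ht⟩ := hu.exists_tor h1 h0 e7 fun i => pw Fˣ (cartanM D) b (σ.π i)
  obtain ⟨ω, hω⟩ := exists_omega F
  have w0 : ω ≠ 0 := fun e => by simp [e] at hω
  have w1 : ω ≠ 1 := fun e => h3 (by rw [e] at hω; linear_combination hω)
  obtain ⟨A, hA, h4⟩ := gl_R3.exists_conj_h a (t := (1 : F)) (s := -3) one_ne_zero w0
    (fun e => w1 (by grind)) (by field_simp; linear_combination -hω)
  have h5 : A⁻¹ * (glSys D F).x d 1 * A ∈ (glSys D F).XS {r | 3 ≤ ph e r} :=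
    (glSys D F).conj_mem_of_cl' (R := {a, Chev.ng a}) (T := {r | 3 ≤ ph e r}) (fun r hr s (hs : 3 ≤ ph e s) => by
      have : ph e r = 0 := by rcases hr with rfl | rfl <;> simp [e1]
      exact ⟨ne_ng_of_ph (c := e) (by linarith), fun v i j _ _ e => by
        rw [Set.mem_setOf_eq, ph_of_co _ e, this]; nlinarith⟩) hA ((glSys D F).x_mem ((e2 d).2 (.inr rfl)) 1)
  obtain ⟨_, h6, _, h7, h8⟩ := (glSys D F).exists_mul (c := e) (R := {r | 3 ≤ ph e r})
    ⟨fun r (hr : 3 ≤ ph e r) => by omega, fun r (hr : 3 ≤ ph e r) s (hs : 3 ≤ ph e s) v i j _ _ e => by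
      rw [Set.mem_setOf_eq, ph_of_co _ e]; nlinarith⟩ (T := {c}) (T' := {d})
    (Set.singleton_subset_iff.2 ((e2 c).2 (.inl rfl)))
    (Set.singleton_subset_iff.2 ((e2 d).2 (.inr rfl))) (fun r => (e2 r).1) h5
  obtain ⟨s1, rfl⟩ := (glSys D F).mem_XS_singleton.1 h6
  obtain ⟨s2, rfl⟩ := (glSys D F).mem_XS_singleton.1 h7
  have h9 : (glSys D F).h a ω = _ := h_eq_dgU a (Units.mk0 ω w0)
  have h10 : ∀ r, tor (fun i => Units.mk0 ω w0 ^ pr a (Chev.sim i)) (Chev.co r) =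
      Units.mk0 ω w0 ^ pr a r := fun r => by
    rw [pr_eq _ r, lin_apply, zpow_sum_eq]
    simp only [tor, ← _root_.zpow_mul, mul_comm]
  obtain ⟨a1, h11⟩ := exists_split_x (r := c) (by
    rw [h10, e3.1, zpow_one]
    exact fun e => w1 (congrArg Units.val e)) s1
  obtain ⟨a2, h12⟩ := exists_split_x (r := d) (by
    rw [h10, e3.2, _root_.zpow_neg_one, Ne, inv_eq_one]
    exact fun e => w1 (congrArg Units.val e)) s2
  have h13 : Commute ((glSys D F).x c a1) ((glSys D F).x d s2) := (glSys D F).commute_nil e4 _ _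
  have h14 : (glSys D F).XS {r | σ.p r = r ∧ η r = 1} ≤ Subgroup.centralizer {u} :=
    (glSys D F).XS_le.2 fun r hr t => Subgroup.mem_centralizer_singleton_iff.2 (by
      have := hu.x r t
      rw [hr.1, hr.2] at this
      simpa using (mul_inv_eq_iff_eq_mul.1 this).symm)
  have e8 : ∀ r ∈ [a, d, c], σ.p (Chev.ng r) = Chev.ng r ∧ η (Chev.ng r) = 1 := fun r hr =>
    ⟨by rw [σ.p_ng, (e5 r hr).1], by simpa [(e5 r hr).2] using hu.ng r⟩
  have h15 : (glSys D F).x (Chev.ng d) 1 * (glSys D F).x (Chev.ng a) (-1) * (glSys D F).x (Chev.ng c) (-1) * A * (glSys D F).x c a1 *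
      (glSys D F).x d a2 ∈ (glSys D F).XS {r | σ.p r = r ∧ η r = 1} :=
    mul_mem (mul_mem (mul_mem (mul_mem (mul_mem ((glSys D F).x_mem (e8 _ (by simp)) _)
      ((glSys D F).x_mem (e8 _ (by simp)) _)) ((glSys D F).x_mem (e8 _ (by simp)) _))
      ((glSys D F).XS_mono (by rintro _ (rfl | rfl); exacts [e5 _ (by simp), e8 _ (by simp)]) hA))
      ((glSys D F).x_mem (e5 _ (by simp)) _)) ((glSys D F).x_mem (e5 _ (by simp)) _)
  refine ⟨_, mul_mem ((glSys D F).H_le_grp (dgU_mem_H hS t)) ((glSys D F).XS_le_grp _ h15),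
    fun i => Units.mk0 ω w0 ^ pr a (Chev.sim i), ?_⟩
  have h16 := Subgroup.mem_centralizer_singleton_iff.1 (h14 h15)
  rw [show n = (glSys D F).n a 1 * (glSys D F).n d 1 * (u * _ * u⁻¹) by rw [hb]; group,
    show ∀ a b d e : GL D.Idx F, (a * b)⁻¹ * (d * (u * e * u⁻¹) * u) * (a * b) =
      b⁻¹ * (a⁻¹ * (d * u * e) * a * b) from fun a b d e => by group, ht, mul_assoc _ u, ← h16,
    ← mul_assoc, ← mul_assoc, mul_left_inj, ← h12, ← h11, ← h9]
  calc _ = ((glSys D F).x d a2)⁻¹ * ((glSys D F).x c a1)⁻¹ * A⁻¹ *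
        ((glSys D F).x (Chev.ng d) 1 * (glSys D F).x (Chev.ng a) (-1) * (glSys D F).x (Chev.ng c) (-1))⁻¹ * ((glSys D F).n a 1 * (glSys D F).n d 1 *
        ((glSys D F).x (Chev.ng d) 1 * (glSys D F).x (Chev.ng a) (-1) * (glSys D F).x (Chev.ng c) (-1))) * A * (glSys D F).x c a1 *
        (glSys D F).x d a2 := by group
    _ = ((glSys D F).x d a2)⁻¹ * ((glSys D F).x c a1)⁻¹ * (glSys D F).h a ω * (A⁻¹ * (glSys D F).x d 1 * A) * (glSys D F).x c a1 * (glSys D F).x d a2 := by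
      rw [h2, h4]; group
    _ = _ := by rw [h8]; simp only [mul_assoc]; rw [← mul_assoc ((glSys D F).x _ s2), ← h13.eq, mul_assoc]

theorem card_index_N [Finite F] : Nat.card (W D) * ((glSys D F).N.subgroupOf (glSys D F).grp).index =
    Nat.card F ^ {r : Rt D | Pos r}.ncard * ∑ w : W D, Nat.card F ^ ln w := by
  have h1 := ((glSys D F).N.subgroupOf (glSys D F).grp).card_mul_index
  have h2 := (glSys D F).piW.ker.card_mul_index
  rw [Subgroup.index_ker, MonoidHom.range_eq_top.2 (glSys D F).piW_surjective, Subgroup.card_top,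
    ker_piW, Nat.card_congr (Subgroup.subgroupOfEquivOfLe (glSys D F).H_le_N).toEquiv] at h2
  rw [Nat.card_congr (Subgroup.subgroupOfEquivOfLe (glSys D F).N_le_grp).toEquiv, ← h2, card_grp,
    card_B, card_U] at h1
  exact mul_left_cancel₀ (Nat.card_pos (α := (glSys D F).H)).ne' (by linear_combination h1)

end

attribute [local instance] good2D4

/-- the triality -/
noncomputable abbrev auD4a : Aut chevD4 := mkAut sym_D4a gr_D4a graut_D4a graut_D4a'

theorem gm_D4a (F : Type*) [Field F] : GM symD4a (fun r => auD4a.η r) (auD4a.u F) :=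
  auD4a.gm rfl (by decide +kernel) (by decide +kernel)

theorem u_D4a (F : Type*) [Field F] : auD4a.u F ^ 3 = 1 := auD4a.u_pow (by decide +kernel)

theorem index_N_D4 {F : Type*} [Field F] [Finite F] (h : Nat.card F % 3 = 1) :
    ¬ 3 ∣ ((glSys chevD4 F).N.subgroupOf (glSys chevD4 F).grp).index := fun ⟨m, hm⟩ => by
  have h1 := card_index_N (D := chevD4) (F := F)
  rw [hm, card_W_D4] at h1
  have h2 : 9 ∣ ∑ w : W chevD4, Nat.card F ^ ln w := Nat.Coprime.dvd_of_dvd_mul_left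
    (Nat.Coprime.pow 2 _ ((Nat.Prime.coprime_iff_not_dvd Nat.prime_three).2
      (show ¬ 3 ∣ Nat.card F by omega)))
    ⟨64 * m, by rw [← h1]; ring⟩
  have h3 := (ZMod.natCast_eq_zero_iff _ _).2 h2
  have h4 := congrArg (Int.cast : ℤ → ZMod 9) (poin_D4_eq (Nat.card F))
  obtain ⟨a, ha⟩ : ∃ a, Nat.card F = 3 * a + 1 := ⟨Nat.card F / 3, by omega⟩
  simp only [poin] at h4
  push_cast at h3 h4
  rw [h3, ha] at h4
  push_cast at h4
  generalize (a : ZMod 9) = b at h4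
  revert b; decide

/-- an elliptic class -/
def cD4 : W chevD4 := sW (nD4 1) * (sW (nD4 0) * sW (nD4 2) * sW (nD4 3) * sW (nD4 1) *
  (sW (nD4 3) * sW (nD4 2) * sW (nD4 0)))

theorem ell_D4 {k : Type*} [Field k] [IsAlgClosed k] (h3 : (3 : k) ≠ 0) {n : GL chevD4.Idx k}
    (hn : n ∈ (glSys chevD4 k).N) (hm : (glSys chevD4 k).Mono n cD4) :
    ∃ a ∈ (glSys chevD4 k).grp, ∃ c, a⁻¹ * (n * auD4a.u k) * a = dgU c * auD4a.u k := by
  refine (gm_D4a k).ell ⟨_, _, _, _, _, smith_D4, by decide⟩ h3 (a := rD4 14) (d := rD4 22)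
    (c := rD4 23) (e := ![1, 0, 1, 1]) (by decide +kernel) (by decide +kernel) (by decide +kernel)
    (by decide +kernel) (by decide +kernel) ?_ (by decide +kernel) ?_ hn hm
  · rw [show rD4 14 = sim (nD4 1) by decide +kernel, show rD4 22 = (sW (nD4 0) * sW (nD4 2) *
      sW (nD4 3)) • sim (nD4 1) by decide +kernel, rW_smul, rW_sim]
    simp [cD4, mul_assoc]
  have := wordsEq_spec (D := chevD4) (0 : k) 0
    (w1 := [(rD4 14, 1, 0, 0), (ng (rD4 14), -1, 0, 0), (rD4 14, 1, 0, 0), (rD4 22, 1, 0, 0),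
      (ng (rD4 22), -1, 0, 0), (rD4 22, 1, 0, 0), (ng (rD4 22), 1, 0, 0), (ng (rD4 14), -1, 0, 0),
      (ng (rD4 23), -1, 0, 0)])
    (w2 := [(ng (rD4 22), 1, 0, 0), (ng (rD4 14), -1, 0, 0), (ng (rD4 23), -1, 0, 0),
      (rD4 14, 1, 0, 0), (ng (rD4 14), -3, 0, 0), (rD4 22, 1, 0, 0)])
    (by decide +kernel) (by decide +kernel) (by decide +kernel)
  rw [← wd_XG_val, ← wd_XG_val, Units.val_inj] at this
  simp only [evW, List.map_cons, List.map_nil, wd_cons, wd_nil] at this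
  simpa [StSys.n, mul_assoc] using this

theorem std_three {F : Type*} [Field F] [Finite F] (h3 : (3 : F) ≠ 0) {z : GL chevD4.Idx F}
    (hz : z ∈ GD chevD4 F) (h : (z * auD4a.u F) ^ 3 = 1) :
    ∃ a ∈ (glSys chevD4 (AlgebraicClosure F)).grp, ∃ c,
      a * mp (algebraMap F (AlgebraicClosure F)) (z * auD4a.u F) * a⁻¹ = dgU c * auD4a.u _ := by
  set k := AlgebraicClosure F
  have h4 : (3 : k) ≠ 0 := map_ofNat (algebraMap F k) 3 ▸ (_root_.map_ne_zero _).2 h3
  obtain ⟨ω, hω⟩ := exists_omega k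
  let E := IntermediateField.adjoin F {ω}
  haveI : FiniteDimensional F E :=
    IntermediateField.adjoin.finiteDimensional (Algebra.IsIntegral.isIntegral ω)
  haveI : Finite E := Module.finite_of_finite F
  have h5 : Nat.card E % 3 = 1 := by
    have w0 : (IntermediateField.AdjoinSimple.gen F ω) ≠ 0 := fun e => by
      simp [show ω = 0 from congrArg Subtype.val e] at hω
    have := orderOf_dvd_natCard (Units.mk0 _ w0)
    rw [orderOf_eq_prime (p := 3) (Units.ext (Subtype.ext (by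
      change ω ^ 3 = 1; linear_combination (ω - 1) * hω))) fun e => h4 (by
        rw [show ω = 1 from congrArg (fun x : Eˣ => x.1.1) e] at hω; linear_combination hω),
      Nat.card_units] at this
    have h6 : 3 ∣ Nat.card E - 1 := this
    have := Nat.card_pos (α := E)
    omega
  obtain ⟨a, ha, n, hn, c, h6⟩ := (gm_D4a E).exists_N Nat.prime_three (u_D4a E)
    (mp_mem_GD (algebraMap F E) hz) (by rw [← auD4a.mp_u (algebraMap F E), ← map_mul, ← map_pow, h,
      map_one]) (index_N_D4 h5)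
  have h7 := congrArg (mp (algebraMap E k)) h6
  simp only [map_mul, map_inv, Aut.mp_u, map_dgU, mp_mp, ← IsScalarTower.algebraMap_eq] at h7
  have h8 := mul_mem ((fieldGL chevD4 (algebraMap E k)).mem_N hn) ((glSys chevD4 k).H_le_N
    (dgU_mem_H ⟨_, _, _, _, _, smith_D4, by decide⟩
      fun i => Units.map (algebraMap E k).toMonoidHom (c i)))
  have h9 := (fieldGL chevD4 (algebraMap E k)).mem_grp ha
  have h10 : orderOf cD4 = 3 := orderOf_eq_prime (W_ext (by decide +kernel)) fun e =>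
    absurd (congrArg (· • rD4 14) e) (by decide +kernel)
  obtain ⟨b, hb, m, hm, w, hw, h11, h12⟩ := (gm_D4a k).exists_W Nat.prime_three (by decide +kernel) h8
    (by
      change (mp _ n * _ * _) ^ 3 = 1
      rw [← h7, ← inv_inv (mp _ a), inv_inv (mp _ a)⁻¹, conj_pow, ← auD4a.mp_u (algebraMap F k),
        ← map_mul, ← map_pow, h, map_one]; simp)
    (v := cD4) (W_ext fun r => by
      obtain ⟨r, rfl⟩ := symD4a.p.surjective r
      rw [Sym.ρ_smul]; revert r; decide +kernel) (by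
      have := (Subgroup.zpowers cD4).card_mul_index
      rw [Nat.card_zpowers, h10, card_W_D4] at this
      omega)
  suffices ∃ d ∈ (glSys chevD4 k).grp, ∃ c, d⁻¹ * (m * auD4a.u k) * d = dgU c * auD4a.u k by
    obtain ⟨d, hd, c, h13⟩ := this
    refine ⟨_, inv_mem (mul_mem (mul_mem h9 (N_le_grp _ hb)) hd), c, ?_⟩
    rw [← h13, ← h12]
    change (mp (algebraMap E k) a * b * d)⁻¹ * mp (algebraMap F k) _ * (mp (algebraMap E k) a * b * d)⁻¹⁻¹ =
      d⁻¹ * (b⁻¹ * (mp _ n * _ * _) * b) * d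
    rw [← h7, map_mul, Aut.mp_u]; group
  rw [mem_zpowers_iff_mem_range_orderOf, h10, Finset.mem_image] at hw
  obtain ⟨j, hj, rfl⟩ := hw
  obtain rfl | rfl | rfl : j = 0 ∨ j = 1 ∨ j = 2 := by have := Finset.mem_range.1 hj; omega
  · obtain ⟨c, rfl⟩ := gl_R3.exists_hT (mem_H_of_mono hm h11)
    exact ⟨1, one_mem _, pw kˣ (cartanM chevD4) c, by rw [← gl_hT]; simp⟩
  · exact ell_D4 h4 hm (by simpa using h11)
  have h13 := (glSys chevD4 k).n_mem_N (sim (nD4 1)) one_ne_zero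
  have h14 := (glSys chevD4 k).mono_n_sim (nD4 1) one_ne_zero
  obtain ⟨d, hd, c, h15⟩ := ell_D4 h4
    (mul_mem (inv_mem h13) (mul_mem hm (((gm_D4a k).mor 1 (RingHom.id k)).mem_N h13))) (by
      convert h14.inv.mul (h11.mul (((gm_D4a k).mor 1 (RingHom.id k)).mono h13 h14)) using 1
      rw [Sym.ρ_sW, sW_inv]
      exact W_ext (by decide +kernel))
  exact ⟨_, mul_mem (N_le_grp _ h13) hd, c, by rw [← h15, GM.f_one]; group⟩

end Cfsg.Agent.Chev
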