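import Mathlib
import Cfsg.Agent.Chev.BalM
import Cfsg.Agent.Chev.MxE6
import Cfsg.Prelude.Def_StandardType

/-! Local balance for Chevalley groups: the main theorem. -/

set_option autoImplicit false
set_option linter.unusedSectionVars false
set_option maxHeartbeats 400000
set_option synthInstance.maxSize 4000

namespace Cfsg.Agent.Chev
open Cfsg.Lie Cfsg.Agent.BN StSys Matrix MatrixGroups Pointwise Cfsg.Agent.Classical.Balance

section
variable {D : ChevalleyDatum} [g : Good2 D] {F : Type*} [Field F]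

theorem isInnerDiag_iff {γ : MulAut (D.group F)} :
    D.IsInnerDiagonalAutOn (D.group F) γ ↔ ∃ z ∈ GD D F, RlB γ z 1 := by
  constructor
  · rintro ⟨a, ha, χ, h1, h2⟩
    refine ⟨_, mul_mem (mem_GD_of_grp (group_eq.le ha)) (dgU_mem_GD fun i => χ (D.simple i)),
      fun t => Units.ext ?_⟩
    rw [h2, (charDiag_eq h1).1, (charDiag_eq h1).2]
    simp only [Units.val_mul, _root_.mul_inv_rev, mul_assoc]; rfl
  · rintro ⟨z, hz, h⟩
    obtain ⟨a, ha, c, rfl⟩ := mem_GD.1 hz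
    have h1 := charDiag_eq (isRootCharacter_tor c)
    have h2 : (fun i : Ix D => if h : D.simple i < D.nroots then tor c (co ⟨D.simple i, h⟩) else 1) =
        c := funext fun i => (dif_pos (sim i).2).trans (by
      rw [← tor_single c i, ← co_sim]; rfl)
    rw [h2] at h1
    refine ⟨a, group_eq.ge ha, _, isRootCharacter_tor c, fun t => ?_⟩
    rw [h, h1.1, h1.2]
    simp only [Units.val_mul, _root_.mul_inv_rev, mul_assoc]; rfl

theorem real_field (ψ : RingAut F) : RlB (fieldAutHom D F ψ) 1 ψ := fun y => by simp; rfl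

theorem RlB.piH_eq [Finite F] {β : MulAut (D.group F)} {z : GL D.Idx F} (hz : z ∈ GD D F)
    {ψ : RingAut F} (h : RlB β z ψ) : piH D F β = 1 := by
  obtain ⟨a, ha, c, rfl⟩ := mem_GD.1 hz
  rw [show β = MulAut.conj ⟨a, group_eq.ge ha⟩ * diagHom D F c * fieldAutHom D F ψ from
    h.ext fun y => by
      change a * (dgU c * mp ψ.toRingHom y.1 * (dgU c)⁻¹) * a⁻¹ = _
      group, map_mul, map_mul, piH_conj, (std_diag c).piH_eq, (std_field ψ).piH_eq]
  simp

theorem piH_mem [Finite F] (hg : Good3 D) {L : List (Equiv.Perm (Ix D))}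
    (hL : g.cert.chkBond D (L.map pl) = true) (β : MulAut (D.group F)) : piH D F β ∈ L :=
  mem_of_chkBond hL (mem_range_piO (F := F) hg ⟨QuotientGroup.mk β, rfl⟩).1

theorem char_of_piH [Finite F] (hg : Good3 D) {β : MulAut (D.group F)} {σ : Sym D}
    (h : piH D F β = σ.π) {p : ℕ} (hp : p.Prime) (he : Exc σ p) : ringChar F = p :=
  (mem_range_piO (F := F) hg ⟨QuotientGroup.mk β, rfl⟩).2 σ h.symm p hp he

theorem eq_of_pow_prime {G : Type*} [Monoid G] {x : G} {p q : ℕ} (hp : p.Prime) (hq : q.Prime)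
    (h1 : x ^ p = 1) (h2 : x ^ q = 1) (h : x ≠ 1) : p = q :=
  haveI := Fact.mk hp
  haveI := Fact.mk hq
  (orderOf_eq_prime h1 h).symm.trans (orderOf_eq_prime h2 h)

variable [Fintype F] (hg : Good3 D) (hS : Sj D) (r : ℕ) [Fact r.Prime] [CharP F r] {p : ℕ}
  [hp : Fact p.Prime] (hr : p ≠ r) {β : MulAut (D.group F)} (ho : orderOf β = p)
include hg hS hr ho

theorem exists_lang {σ : Sym D} {η : Rt D → ℤ} (u : GL D.Idx F) {z : GL D.Idx F} (hu : GM σ η u)
    (hu' : GM σ η (mp (algebraMap F (AlgebraicClosure F)) u)) (h1 : u ^ p = 1) (hz : z ∈ GD D F)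
    {ψ : RingAut F} (h : RlB β (z * u) ψ) (hψ : ψ ≠ 1) : ∃ j τ η' α, p.Coprime j ∧
      orderOf (ψ ^ j) = p ∧ τ.π = σ.π ^ j ∧ GM τ η' (u ^ j) ∧
        RlB (α * β ^ j * α⁻¹) (u ^ j) (ψ ^ j) := by
  obtain ⟨z', h2, h3⟩ := h.pow hu hz p
  rw [h1, mul_one, ← ho, pow_orderOf_eq_one, ho] at h3
  have h4 := orderOf_eq_prime (h3.eq_one h2) hψ
  obtain ⟨j, e, h5, h6, h7, h8⟩ := exists_frob_pow r hp.out h4
  obtain ⟨τ, η', h9, h10⟩ := hu'.pow j
  obtain ⟨y, h11, h12⟩ := h.pow hu hz j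
  rw [← map_pow] at h10
  obtain ⟨α, h13⟩ := lang_real _ hS r h10 h11 (by rw [← pow_mul, mul_comm, pow_mul, h1, one_pow])
    h6 h7 h8 h12 (by rw [← pow_mul, mul_comm, pow_mul, ← ho, pow_orderOf_eq_one, one_pow])
  exact ⟨j, τ, η', α, h5, by rw [Nat.Coprime.orderOf_pow (h4 ▸ h5), h4], h9,
    h10.of_map _ fun φ => by rw [map_pow, hu.fix], h13⟩

theorem balance_of {𝒢 : Subgroup (MulAut (D.group F))} (hinn : ∀ k, MulAut.conj k ∈ 𝒢)
    (hnot : ¬ D.IsInnerDiagonalAutOn (D.group F) β) (H : piH D F β ≠ 1 → BalBot p β) :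
    pPrimeCore p ↥(𝒢 ⊓ Subgroup.centralizer {β}) ≠ ⊥ ↔
      ((∃ γ φ : MulAut ↥(D.group F), D.IsInnerDiagonalAutOn (D.group F) γ ∧
        IsEntrywiseFieldAutOn (D.group F) φ ∧ β = φ.trans γ) ∧
        Nat.Coprime p (Nat.card ↥(MonoidHom.eqLocus β.toMonoidHom (MonoidHom.id (D.group F))))) := by
  by_cases e : piH D F β = 1
  swap
  · refine iff_of_false (fun h => h (H e 𝒢 hinn)) fun ⟨⟨γ, φ, h1, ⟨ψ, h2⟩, h3⟩, _⟩ => e ?_
    obtain ⟨z, hz, h4⟩ := isInnerDiag_iff.1 h1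
    refine RlB.piH_eq hz (ψ := ψ) fun y => ?_
    rw [h3, MulEquiv.trans_apply, h4, show (φ y).1 = mp ψ.toRingHom y.1 from Units.ext (h2 y)]; rfl
  obtain ⟨z, hz, ψ, h⟩ := exists_real hg gm_one ord_one e
  obtain ⟨j, τ, η', α, h1, h2, -, -, h3⟩ := exists_lang hg hS r hr ho 1 gm_one
    (by rw [map_one]; exact gm_one) (one_pow _) hz h (by
      rintro rfl
      exact hnot (isInnerDiag_iff.2 ⟨z, hz, mul_one z ▸ h⟩))
  rw [one_pow] at h3
  rw [and_iff_right ⟨gdAut D F ⟨z, hz⟩, fieldAutHom D F ψ, isInnerDiag_iff.2 ⟨z, hz, real_gd _⟩,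
    ⟨ψ, fun _ => rfl⟩, h.ext fun y => by rw [mul_one]; rfl⟩]
  obtain ⟨m, hm⟩ := exists_pow_eq_self_of_coprime (x := β) (n := j) (ho ▸ h1.symm)
  have h4 : ∀ (γ : MulAut (D.group F)) y, γ y = y → ∀ n : ℕ, (γ ^ n) y = y := fun γ y h n => by
    induction n with
    | zero => rfl
    | succ n ih => rw [pow_succ, MulAut.mul_apply, h, ih]
  refine ⟨fun h5 => by_contra fun h6 => h5 ?_, core_ne_bot ch_conj_inj hinn
    (k := α⁻¹ ((chSys D F).x (sim ⟨0, g.rank_pos⟩) 1)) ?_ fun e => ?_⟩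
  · obtain ⟨y, h7, h8⟩ := exists_fix_orderOf hp.out α h6
    refine ((bot_field hg hp.out ?_ h3 h2 (conj_pow (a := α) ▸ h4 _ _ h7 j) h8).conj α).of_pow
      (ho ▸ h1) 𝒢 hinn
    rw [ringChar.eq F r]
    exact (Nat.coprime_primes Fact.out hp.out).2 hr.symm
  · rw [← hm]
    refine h4 _ _ (α.injective (Subtype.ext ?_)) m
    refine (h3 _).trans ?_
    simp [ch_x_coe, -glSys_x, mp_x]
  · exact one_ne_zero ((chSys D F).x_inj ((α⁻¹.map_eq_one_iff.1 e).trans ((chSys D F).x_zero _).symm))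

theorem bot_of_aut (a : Aut D) {σ : Sym D} (hu : GM σ (fun r => a.η r) (a.u F)) (h1 : a.u F ^ p = 1)
    (hu' : GM σ (fun r => a.η r) (a.u (AlgebraicClosure F))) (h2 : Ord σ.π) (hD : Dg p σ fun r => a.η r)
    (h3 : ∀ r, σ.p r ≠ r → SO D r (σ.p r)) {L : List (Equiv.Perm (Ix D))}
    (hL : g.cert.chkBond D (L.map pl) = true) (h4 : ∀ π ∈ L, π * σ.π = σ.π * π → π ^ p = 1)
    (h5 : ∀ z ∈ GD D F, (z * a.u F) ^ p = 1 → ∃ b ∈ (glSys D (AlgebraicClosure F)).grp, ∃ c,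
      b * mp (algebraMap F (AlgebraicClosure F)) (z * a.u F) * b⁻¹ = dgU c * a.u _)
    (h : piH D F β = σ.π) : BalBot p β := by
  have h6 : β ^ p = 1 := ho ▸ pow_orderOf_eq_one β
  have h7 : p = 2 ∨ p = 3 := hD.J.symm.imp And.left And.left
  rw [← a.mp_u (algebraMap F (AlgebraicClosure F))] at hu'
  obtain ⟨z, hz, ψ, h8⟩ := exists_real hg hu h2 h
  by_cases e : ψ = 1
  · subst e
    have h9 := h8.pow_eq_one (RingHom.id F) hu hz h1 h6
    obtain ⟨b, hb, c, h10⟩ := h5 z hz h9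
    rw [← a.mp_u (algebraMap F (AlgebraicClosure F))] at h10
    refine bot_graph _ hg hS r hu hD hr.symm hz h8 (fun α a1 a2 => ?_)
      ⟨c, hu', h7, h3, by rw [← h10, conj_pow, ← map_pow, h9]; simp⟩ hb h10
    exact orderOf_eq_one_iff.1 (Nat.eq_one_of_dvd_coprimes a2 (orderOf_map_dvd _ _)
      (orderOf_dvd_of_pow_eq_one (h4 _ (piH_mem hg hL α)
        (h ▸ (a1.map (piH D F)).eq))))
  obtain ⟨j, τ, η', α, h9, -, h10, h11, h12⟩ :=
    exists_lang hg hS r hr ho _ hu hu' h1 hz h8 e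
  have h13 : σ.π ^ p = 1 := by rw [← h, ← map_pow, h6, map_one]
  obtain ⟨m, hm⟩ := exists_pow_eq_self_of_coprime (x := σ.π) (n := j)
    (h9.symm.coprime_dvd_right (orderOf_dvd_of_pow_eq_one h13))
  obtain ⟨i, hi⟩ := hD.ne
  refine ((bot_graph_field hg h11 ?_ (i := i) (fun e => hi ?_) ?_ ?_ h12 ?_).conj α).of_pow
    (ho ▸ h9)
  · rw [ringChar.eq F r]
    exact (Nat.coprime_primes Fact.out hp.out).2 hr.symm
  · rw [← hm, ← h10]
    exact Equiv.Perm.pow_apply_eq_self_of_apply_eq_self e m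
  · exact hD.J.symm.imp And.left fun ⟨h, l, hl⟩ =>
      ⟨h, l, h10 ▸ Equiv.Perm.pow_apply_eq_self_of_apply_eq_self ((hl.1 l).2 rfl) j⟩
  · rw [h10, ← pow_mul, mul_comm, pow_mul, h13, one_pow]
  · rw [conj_pow, ← pow_mul, mul_comm j, pow_mul, h6]; simp

theorem bot_of_two (a : Aut D) {σ : Sym D} (h0 : a.p = σ.p) (h1 : (∀ i : Ix D, a.η (sim i) = 1) ∧
      (∀ r i, co (σ.p r) (σ.π i) = co r i) ∧
      (∀ s, a.p^[2] s = s ∧ ((List.range 2).map fun l => a.η (a.p^[l] s : Rt D)).prod = 1) ∧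
      (∀ r, σ.p r ≠ r → SO D r (σ.p r)) ∧ σ.π ^ 2 = 1 ∧ σ.π ≠ 1)
    (h2 : Ord σ.π) (hD : Dg 2 σ fun r => a.η r) {L : List (Equiv.Perm (Ix D))}
    (hL : g.cert.chkBond D (L.map pl) = true) (h4 : ∀ π ∈ L, π * σ.π = σ.π * π → π ^ 2 = 1)
    (h : piH D F β = σ.π) : BalBot p β := by
  obtain rfl := eq_of_pow_prime hp.out Nat.prime_two
    (by rw [← h, ← map_pow, ← ho, pow_orderOf_eq_one, map_one]) h1.2.2.2.2.1 h1.2.2.2.2.2
  refine bot_of_aut hg hS r hr ho a (a.gm h0 h1.1 h1.2.1) (a.u_pow h1.2.2.1)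
    (a.gm h0 h1.1 h1.2.1) h2 hD
    h1.2.2.2.1 hL h4 (fun z hz e => ?_) h
  rw [map_mul, a.mp_u]
  exact std_two r hr.symm (a.gm h0 h1.1 h1.2.1) (a.u_pow h1.2.2.1) (GD_le hS (mp_mem_GD _ hz))
    (by rw [← a.mp_u (algebraMap F _), ← map_mul, ← map_pow, e, map_one])

omit hS in
theorem bot_of_exc {σ : Sym D} (hL : g.cert.chkBond D ([1, σ.π].map pl) = true) (h1 : Exc σ 2)
    (h2 : σ.π ^ 2 = 1) (h : piH D F β ≠ 1) : BalBot p β := by
  have h4 : piH D F β = σ.π := by simpa [h] using piH_mem hg hL β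
  exact (hr ((eq_of_pow_prime hp.out Nat.prime_two (by
    rw [← map_pow, ← ho, pow_orderOf_eq_one, map_one]) (h4 ▸ h2) h).trans
    ((char_of_piH hg h4 Nat.prime_two h1).symm.trans (ringChar.eq F r)))).elim

end

variable {F : Type*} [Field F] [Fintype F] (r : ℕ) [Fact r.Prime] [CharP F r] {p : ℕ}
  [hp : Fact p.Prime] (hr : p ≠ r)
include hr

attribute [local instance] good2G2 in
theorem bot_G2 {β : MulAut (chevG2.group F)} (ho : orderOf β = p) (h : piH chevG2 F β ≠ 1) :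
    BalBot p β := by
  have h4 : piH chevG2 F β = symG2.π := by simpa [h] using piH_mem good3G2 bond_G2 β
  have h5 := char_of_piH good3G2 h4 Nat.prime_three isExc_G2
  have h6 : β ^ p = 1 := ho ▸ pow_orderOf_eq_one β
  obtain rfl := eq_of_pow_prime hp.out Nat.prime_two (by rw [← map_pow, h6, map_one])
    (h4 ▸ (by decide +kernel : symG2.π ^ 2 = 1)) h
  haveI := ringChar.of_eq h5
  haveI := Fact.mk Nat.prime_three
  obtain ⟨m, -, hm⟩ := exists_excG2 F (frobeniusEquiv F 3).surjective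
  obtain ⟨z, hz, ψ, h7⟩ := exists_real good3G2 gm_one ord_one (α := β * (m.equiv hm)⁻¹) (by
    rw [map_mul, map_inv, (m.std ch_grp hm (θ := m.equiv hm) fun _ => rfl).piH_eq, h4, mul_inv_cancel]; rfl)
  obtain ⟨a, ha, c, rfl⟩ := mem_GD.1 hz
  refine bot_ree good3G2 ((diagMor c).comp ((fieldMor _ ψ.toRingHom).comp m)) (fun s t => ?_)
    (by decide +kernel) (fun i w e => ?_) (by rw [h5]; decide) (y := ⟨a, group_eq.ge ha⟩)
    (fun y => Subtype.ext ?_) h6
  · obtain ⟨v, hv⟩ := hm s (ψ.symm ((tor c (co (symG2.p s)))⁻¹ * t))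
    exact ⟨v, by simp [Mor.comp, diagMor, fieldMor, Mor.restrict, diagGL, fieldGL, Sym.mul, hv]⟩
  · have key : ∀ i, ¬ ((∃ s, pr (sim (symG2.π i)) s = 3) ↔ ∃ s, pr (ng (sim i)) s = 3) := by
      decide +kernel
    refine key i (e ▸ ⟨fun ⟨s, hs⟩ => ⟨w • s, (pr_smul _ _ _).trans hs⟩,
      fun ⟨s, hs⟩ => ⟨w⁻¹ • s, (pr_smul_left _ _ _).symm.trans hs⟩⟩)
  · have := h7 (m.equiv hm y)
    rw [MulAut.mul_apply, MulAut.inv_apply_self] at this
    rw [this, mul_one]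
    change _ = a * (dgU c * mp ψ.toRingHom (m.f y).1 * (dgU c)⁻¹) * a⁻¹
    rw [m.equiv_apply]; group

attribute [local instance] good2E6 in
theorem bot_E6 {β : MulAut (chevE6.group F)} (ho : orderOf β = p) (h : piH chevE6 F β ≠ 1) :
    BalBot p β :=
  bot_of_two good3E6 ⟨_, _, _, _, _, smith_E6, by decide⟩ r hr ho
    (mkAut sym_E6 gr_E6 graut_E6 graut_E6') (σ := symE6) rfl (by decide +kernel)
    (ord_of (by decide +kernel)) ⟨.inr ⟨rfl, nE6 1, nE6 3, rtE6 47, by unfold Dg2; decide +kernel⟩,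
      fun j => ⟨(![[rtE6 56], [rtE6 12, rtE6 62], [rtE6 42], [rtE6 9, rtE6 64], [rtE6 37], [rtE6 36]] :
        Fin 6 → List (Rt chevE6)) j, by
        revert j; decide +kernel⟩, by decide +kernel⟩ bond_E6 (by decide +kernel)
    (by simpa [h] using piH_mem good3E6 bond_E6 β)

attribute [local instance] good2D4

theorem bot_D4a {β : MulAut (chevD4.group F)} (h3 : p = 3) (ho : orderOf β = p)
    (h : piH chevD4 F β = symD4a.π) : BalBot p β := by
  subst h3
  exact bot_of_aut good3D4 ⟨_, _, _, _, _, smith_D4, by decide⟩ r hr ho auD4a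
    (gm_D4a _) (u_D4a _) (gm_D4a _) (ord_of (by decide +kernel))
    ⟨.inl ⟨rfl, nD4 1, by unfold Dg3; decide +kernel⟩,
      fun j => ⟨(![[rD4 18], [rD4 5, rD4 19], [rD4 13], [rD4 12]] :
        Fin 4 → List (Rt chevD4)) j, by
        revert j; decide +kernel⟩, by decide +kernel⟩ (by decide +kernel) bond_D4 (by decide +kernel)
    (fun z => std_three fun e => hr ((Nat.prime_dvd_prime_iff_eq Fact.out Nat.prime_three).1
      ((CharP.cast_eq_zero_iff F r 3).1 e)).symm) h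

theorem bot_D4 {β : MulAut (chevD4.group F)} (ho : orderOf β = p) (h : piH chevD4 F β ≠ 1) :
    BalBot p β := by
  have h1 : piH chevD4 F β ^ p = 1 := by rw [← map_pow, ← ho, pow_orderOf_eq_one, map_one]
  have hS : Sj chevD4 := ⟨_, _, _, _, _, smith_D4, by decide⟩
  have h2 := piH_mem good3D4 bond_D4 β
  simp only [List.mem_cons, h, List.not_mem_nil, or_false, false_or] at h2
  rcases h2 with e | e | e | e | e
  · exact bot_D4a r hr (eq_of_pow_prime hp.out Nat.prime_three h1 (e ▸ by decide +kernel) h) ho e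
  · have h3 := eq_of_pow_prime hp.out Nat.prime_three h1 (e ▸ by decide +kernel) h
    have h4 : (orderOf β).Coprime 2 := by rw [ho, h3]; decide
    exact (bot_D4a r hr h3 (h4.orderOf_pow.trans ho)
      (by rw [map_pow, e]; decide +kernel)).of_pow h4
  · exact bot_of_two good3D4 hS r hr ho (mkAut sym_D4c gr_D4c graut_D4c graut_D4c') (σ := symD4c)
      rfl (by decide +kernel) (ord_of (by decide +kernel))
      ⟨.inr ⟨rfl, nD4 1, nD4 3, rD4 15, by unfold Dg2; decide +kernel⟩,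
        fun j => ⟨(![[rD4 18], [rD4 5, rD4 19], [rD4 13], [rD4 4, rD4 20]] :
        Fin 4 → List (Rt chevD4)) j, by
          revert j; decide +kernel⟩, by decide +kernel⟩ bond_D4 (by decide +kernel) e
  · exact bot_of_two good3D4 hS r hr ho (mkAut sym_D4d gr_D4d graut_D4d graut_D4d') (σ := symD4d)
      rfl (by decide +kernel) (ord_of (by decide +kernel))
      ⟨.inr ⟨rfl, nD4 1, nD4 2, rD4 16, by unfold Dg2; decide +kernel⟩,
        fun j => ⟨(![[rD4 18], [rD4 5, rD4 19], [rD4 4, rD4 21], [rD4 12]] :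
        Fin 4 → List (Rt chevD4)) j, by
          revert j; decide +kernel⟩, by decide +kernel⟩ bond_D4 (by decide +kernel) e
  · exact bot_of_two good3D4 hS r hr ho (mkAut sym_D4e gr_D4e graut_D4e graut_D4e') (σ := symD4e)
      rfl (by decide +kernel) (ord_of (by decide +kernel))
      ⟨.inr ⟨rfl, nD4 0, nD4 1, rD4 19, by unfold Dg2; decide +kernel⟩,
        fun j => ⟨(![[rD4 7, rD4 21], [rD4 10, rD4 16], [rD4 13], [rD4 12]] :
        Fin 4 → List (Rt chevD4)) j, by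
          revert j; decide +kernel⟩, by decide +kernel⟩ bond_D4 (by decide +kernel) e

end Cfsg.Agent.Chev
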