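import Mathlib
import Cfsg.Agent.Chev.BalN
import Cfsg.Agent.Chev.OrthC
import Cfsg.Agent.Classical.GamO11
import Cfsg.Agent.S1054

/-! Local balance for the plus-type orthogonal groups. -/

set_option autoImplicit false
set_option linter.unusedSectionVars false
set_option maxHeartbeats 400000
set_option maxRecDepth 100000
set_option backward.isDefEq.respectTransparency false

namespace Cfsg.Agent.Chev
open Cfsg.Lie Cfsg.Agent.BN StSys Cfsg.Agent.Classical.Balance Cfsg.Agent.Orth QuadraticMap Module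
  Cfsg.Agent.Classical.GamO Cfsg.Agent.Classical.AutO

theorem RelAB.iso_quot' {D : ChevalleyDatum} [g : Good2 D] {F : Type*} [Field F] {G : Type*}
    [Group G] {x : Rt D → F → G} (h : RelAB x) (hs : IsSimpleGroup (D.group F))
    {E : Subgroup G} (hE : E = Subgroup.closure {a | ∃ r t, a = x r t})
    (hc : Subgroup.center E ≠ ⊤) : ∃ e : D.group F ≃* E ⧸ Subgroup.center E,
      ∀ r t (a : E), a.1 = x r t → e ((chSys D F).x r t) = a := by
  have hm : ∀ a, scLift h a ∈ E := fun a => ((scSys D F).XS_le (K := E.comap (scLift h))).mpr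
    (fun r _ t => by
      rw [Subgroup.mem_comap, scLift_x, hE]; exact Subgroup.subset_closure ⟨r, t, rfl⟩)
    (sc_grp (D := D) (F := F) ▸ Subgroup.mem_top a : a ∈ (scSys D F).grp)
  let φ : D.SteinbergCover F →* E := (scLift h).codRestrict E hm
  have hφ : Function.Surjective φ := by
    rintro ⟨a, ha⟩
    have : E ≤ (scLift h).range := by
      rw [hE, Subgroup.closure_le]
      rintro _ ⟨r, t, rfl⟩
      exact ⟨_, scLift_x h r t⟩
    obtain ⟨b, rfl⟩ := this ha
    exact ⟨b, rfl⟩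
  let ψ := (QuotientGroup.mk' (Subgroup.center E)).comp φ
  have hψ : Function.Surjective ψ := (QuotientGroup.mk'_surjective _).comp hφ
  let θ := (scSys D F).θG sc_grp
  have hθ : Function.Surjective θ := (scSys D F).θG_surjective sc_grp
  have hk : θ.ker ≤ ψ.ker := by
    rw [(scSys D F).ker_θG sc_grp]
    intro a ha
    change ((φ a : E) : E ⧸ Subgroup.center E) = 1
    rw [QuotientGroup.eq_one_iff, Subgroup.mem_center_iff]
    intro b
    obtain ⟨b, rfl⟩ := hφ b
    rw [← map_mul, ← map_mul, Subgroup.mem_center_iff.mp ha]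
  let χ := θ.liftOfSurjective hθ ⟨ψ, hk⟩
  have hχ : ∀ a, χ (θ a) = ψ a := fun a => θ.liftOfRightInverse_comp_apply _ _ ⟨ψ, hk⟩ a
  have h1 : Function.Surjective χ := fun y => by
    obtain ⟨a, rfl⟩ := hψ y
    exact ⟨_, hχ a⟩
  refine ⟨MulEquiv.ofBijective χ ⟨(MonoidHom.ker_eq_bot_iff _).mp
    ((hs.eq_bot_or_eq_top_of_normal χ.ker inferInstance).resolve_right fun h2 => hc ?_), h1⟩,
    fun r t a ha => ?_⟩
  · rw [eq_top_iff]
    intro a _
    obtain ⟨b, hb⟩ := h1 a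
    rw [← QuotientGroup.eq_one_iff, ← hb]
    exact (h2 ▸ Subgroup.mem_top b : b ∈ χ.ker)
  · rw [← (scSys D F).θG_x sc_grp]
    exact (hχ _).trans (congrArg QuotientGroup.mk (Subtype.ext ((scLift_x h r t).trans ha.symm)))

theorem core_congr {K K' : Type*} [Group K] [Group K'] (e : K ≃* K') {A : Subgroup (MulAut K')}
    {x : MulAut K} {p : ℕ} (h : pPrimeCore p (A.comap (MulAut.congr e).toMonoidHom ⊓
      Subgroup.centralizer {x} : Subgroup _) = ⊥) :
    pPrimeCore p (A ⊓ Subgroup.centralizer {MulAut.congr e x} : Subgroup _) = ⊥ := by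
  let f : (A.comap (MulAut.congr e).toMonoidHom ⊓ Subgroup.centralizer {x} : Subgroup _) ≃*
      (A ⊓ Subgroup.centralizer {MulAut.congr e x} : Subgroup _) :=
    ((MulAut.congr e).subgroupMap _).trans (MulEquiv.subgroupCongr (by
      rw [Subgroup.map_inf _ _ _ (MulAut.congr e).injective]
      congr 1
      · exact Subgroup.map_comap_eq_self_of_surjective (MulAut.congr e).surjective _
      ext y
      obtain ⟨y, rfl⟩ := (MulAut.congr e).surjective y
      rw [Subgroup.mem_centralizer_singleton_iff, ← map_mul, ← map_mul,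
        (MulAut.congr e).injective.eq_iff, ← Subgroup.mem_centralizer_singleton_iff]
      exact Subgroup.mem_map_iff_mem (f := (MulAut.congr e).toMonoidHom)
        (MulAut.congr e).injective))
  refine sSup_eq_bot.2 fun N ⟨hN, hNp⟩ => ?_
  exact (Subgroup.map_eq_bot_iff_of_injective N (f := f.symm.toMonoidHom) f.symm.injective).1
    (sSup_eq_bot.1 h _ ⟨hN.map _ f.symm.surjective, by
      rwa [Subgroup.card_map_of_injective f.symm.injective]⟩)

theorem congr_trans {K K' K'' : Type*} [Group K] [Group K'] [Group K''] (e : K ≃* K')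
    (f : K' ≃* K'') (x : MulAut K) :
    MulAut.congr (e.trans f) x = MulAut.congr f (MulAut.congr e x) := rfl

theorem congr_conj {K K' : Type*} [Group K] [Group K'] (e : K ≃* K') (a : K) :
    MulAut.congr e (MulAut.conj a) = MulAut.conj (e a) := by
  ext y
  simp

theorem card_fix_congr {K K' : Type*} [Group K] [Group K'] (e : K ≃* K') (x : MulAut K) :
    Nat.card ((MulAut.congr e x).toMonoidHom.eqLocus (MonoidHom.id K')) =
      Nat.card (x.toMonoidHom.eqLocus (MonoidHom.id K)) :=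
  (Nat.card_congr (e.toEquiv.subtypeEquiv fun a => by
    change x a = a ↔ e (x (e.symm (e a))) = e a
    rw [e.symm_apply_apply, e.injective.eq_iff])).symm

theorem dvd_card_fix {K : Type*} [Group K] [Finite K] {x : MulAut K} {p : ℕ} [Fact p.Prime]
    (h : x ^ p = 1) (h1 : p ∣ Nat.card K) :
    p ∣ Nat.card (x.toMonoidHom.eqLocus (MonoidHom.id K)) := by
  classical
  haveI := Fintype.ofFinite K
  have h2 := Equiv.Perm.card_fixedPoints_modEq (f := (⇑x : Function.End K)) (p := p) (n := 1) (by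
    rw [pow_one]
    funext y
    exact (iterate_eq_pow p y).trans (by rw [h]; rfl))
  rw [← Nat.card_eq_fintype_card, ← Nat.card_eq_fintype_card] at h2
  exact (h2.dvd_iff dvd_rfl).1 h1

variable {F : Type*} [Field F]

section Gen
variable {K V₀ V P : Type*} [Field K] [AddCommGroup V₀] [Module K V₀] [AddCommGroup V] [Module F V]
  {φ : K →+* F} {Q₀ : QuadraticForm K V₀} {Q : QuadraticForm F V} {j : V₀ →ₛₗ[φ] V} {e : F}
  [Group P] [Finite F] [FiniteDimensional F V] {A : Gam Q →* MulAut P} (hA : Model A)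
  (hZ : Subgroup.center P = ⊥)
include hA hZ

theorem exists_fix_ne [FiniteDimensional K V₀] (hj : IsForm φ Q₀ Q j e) {a : Gam Q}
    (h3 : ∀ v, a.T (j v) = j v) : ∃ k, k ≠ 1 ∧ A a k = k := by
  have h := hA.big
  haveI : Finite K := Finite.of_injective _ φ.injective
  have h₀ := hj.big_iff.1 h
  obtain ⟨u, hu0, hu⟩ := exists_singular Q₀ h₀.three
  obtain ⟨y, huy, hy⟩ := h₀.nd.exists_hyp hu0 hu
  have huy' := huy.trans_ne one_ne_zero
  obtain ⟨z, hz0, -, huz, hyz⟩ := exists_sing_orth h₀.nd h₀.dim hu hy huy'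
  obtain ⟨ε, hε⟩ := hj.exists_extO h
  obtain ⟨k, hk⟩ := hA.mem_inn.2 (og_mem_NO_of h (map_mem_commutator ε (h₀.E u z).2))
  refine ⟨k, fun h5 => hz0 (eq_zero_of_mem_span huy' hyz ?_),
    fix_of_conj_mem (conj_injective hZ) ?_⟩
  · obtain ⟨d, hd⟩ := hA.ker.1 (hk.symm.trans (by rw [h5, map_one]))
    have h6 := fun v => (hε _ v).symm.trans (congrArg (fun a : Gam Q => a.T (j v)) hd)
    have h7 := h6 u
    rw [show (h₀.E u z).1.1 u = u from eich_apply_left hu huz, sc_T] at h7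
    refine (eich_eq_one_iff h₀.nd hu0 hu huz).1 (OG.ext fun v => hj.injective ((h6 v).trans ?_))
    rw [sc_T, smul_left_injective F ((map_ne_zero_iff j hj.injective).2 hu0)
      (h7.symm.trans (one_smul _ _).symm), one_smul]; rfl
  · rw [hk, Subgroup.mem_centralizer_singleton_iff, ← map_mul, ← map_mul]
    exact congrArg A (gam_ext h (hj.T_ext (by simp) fun v => by
      rw [Gam.mul_T, h3, Gam.mul_T a, og_T, hε, h3]))

theorem two_dvd_card (h2 : (2 : F) ≠ 0) : 2 ∣ Nat.card P := by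
  have h := hA.big
  obtain ⟨s, h4, h5, v, w, h6, h7, h8, h9⟩ := exists_invol h h2
  obtain ⟨k, hk⟩ := hA.mem_inn.2 (og_mem_NO_of h h4)
  have h1 : orderOf (A (og s)) = 2 := orderOf_eq_prime (by simp [pow_two, ← map_mul, h5])
    fun h10 => by
      obtain ⟨c, hc⟩ := hA.ker.1 h10
      have h11 := fun v => congrArg (fun a : Gam Q => a.T v) hc
      have h12 := h11 v
      have h13 := h11 w
      simp only [og_T, sc_T] at h12 h13
      rw [h9] at h13
      rw [h7, smul_left_injective F h8 (h13.symm.trans (one_smul _ _).symm), one_smul,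
        neg_eq_iff_add_eq_zero, ← two_smul F] at h12
      exact smul_ne_zero h2 h6 h12
  rw [← h1, ← hk, orderOf_injective _ (conj_injective hZ)]
  exact orderOf_dvd_natCard k

theorem core_graph_plus (hs : Function.Surjective A) (h2 : (2 : F) ≠ 0) {B : Subgroup (MulAut P)}
    (hinn : ∀ k, MulAut.conj k ∈ B) (hp : IsPlus Q) {M : ℕ} (hn : finrank F V = 2 * M)
    (hM : 5 ≤ M) {g : Gam Q} (hσ : g.σ = 1) (hD : g ∉ DO Q) (hg : orderOf (A g) = 2) :
    pPrimeCore 2 (B ⊓ Subgroup.centralizer {A g} : Subgroup _) = ⊥ := by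
  have h := hA.big
  obtain ⟨d, hd⟩ := hA.exists_sq hg
  by_cases h3 : IsSquare (g.μ : F)
  · obtain ⟨c, o, rfl, h4, h5⟩ := invol_of_sq hσ hd h h2 (even_of_eq hn) hD h3
    have h6 := rk_add_finrank_fix o
    have h7 := rk_add_finrank_fix (negOne Q * o)
    rw [Nat.even_iff] at h5
    rw [hA.sc_mul]
    by_cases h8 : 5 ≤ finrank F (fix o)
    · exact hA.core_refl hZ hs h2 hinn h4 (Nat.odd_iff.2 (by omega)) h8
    · rw [← hA.sc_mul (-1), ← og_negOne, ← map_mul]
      rw [rk, mov_eq h2 h4] at h5 h6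
      exact hA.core_refl hZ hs h2 hinn (neg_mul_self h4) (Nat.odd_iff.2 (by omega)) (by omega)
  rcases sq_cases hσ hd with h1 | h1
  · obtain rfl := Units.ext h1
    exact hA.core_ext hZ hs h2 hinn hσ hd h3 (by omega)
  refine (hD ?_).elim
  by_cases h4 : IsSquare (d : F)
  swap
  · exact (mem_DO_odd h2).2 ⟨hσ, fun _ => by
      rw [(det_eq hσ).trans (det_of_sq (T_T hd) h4 hn), h1, hn]; simp⟩
  obtain ⟨a, ha⟩ := h4
  have key : ∀ a : F, d = a * a →
      Sing Q (LinearMap.range ((g.lin hσ).toLinearMap + a • LinearMap.id)) ∧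
      LinearMap.ker ((g.lin hσ).toLinearMap + a • LinearMap.id) ≤
        LinearMap.range ((g.lin hσ).toLinearMap + (-a) • LinearMap.id) := fun a ha =>
    ⟨by
      rintro _ ⟨v, rfl⟩
      simp [q_add, q_smul, g.q, hσ, h1, ha, polar_comm Q (g.T v), polar_eq_zero hσ hd h2 h1,
        pow_two],
    fun v hv => ⟨(-(2 * a))⁻¹ • v, by
      have h3 : a ≠ 0 := by rintro rfl; simp at ha
      have h4 : g.T v = -(a • v) := eq_neg_of_add_eq_zero_left hv
      simp only [map_smul, LinearMap.add_apply, LinearEquiv.coe_coe, Gam.lin_apply, h4,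
        LinearMap.smul_apply, LinearMap.id_apply]
      match_scalars; field_simp; ring⟩⟩
  have h8 := LinearMap.finrank_range_add_finrank_ker ((g.lin hσ).toLinearMap + a • LinearMap.id)
  have h4 := Submodule.finrank_mono (key a ha).2
  have h5 := h.nd.two_mul_finrank_le (key a ha).1
  have h6 := h.nd.two_mul_finrank_le (key (-a) (by simp [ha])).1
  refine (mem_DO_iff_pres h hp).2 ⟨hσ, pres_of_map_eq h.nd (key a ha).1 (by omega)
    (Submodule.eq_of_le_of_finrank_eq ?_ (Gam.finrank_map _ _))⟩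
  rintro _ ⟨_, ⟨v, rfl⟩, rfl⟩
  exact ⟨g.T v, by simp [g.smul, hσ]⟩

end Gen

theorem field_of_pres [Finite F] {m : ℕ} (hm : 3 ≤ m) {b : Gam (plusQ m F)} (hb : b.σ ≠ 1)
    (h1 : Pres b) {p : ℕ} (hp : p.Prime) (ho : orderOf (aM b) = p) :
    IsFieldAutClassPOmega (quadFormPlus m F) (aM b) := by
  have h := big_plusQ (F := F) hm
  have hA := model_aM h
  obtain ⟨φ, hφ⟩ := exists_fix_hom (σ := b.σ) rfl
  obtain ⟨c, j, e, h7, h8, hj, h9⟩ := hA.exists_form hb hp ho hφ (nd_plusQ m)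
    ((finrank_plus _).trans (finrank_plus _).symm)
    (iff_of_true (isPlus_plusQ m) ⟨isPlus_plusQ m, h1⟩)
  obtain ⟨k, -, hk⟩ := hj.exists_conj h (isForm_plusQ m φ) h9 (b := std b.σ (std_plus _))
    (fun v => funext fun i => (hφ _).2 ⟨_, rfl⟩) h8 Iff.rfl
  exact ⟨aM k, _, b.σ, hb, (isField_std (std_plus _)).2 rfl, by
    rw [h7, ← hk, map_mul, map_mul, map_inv]⟩

theorem fix_of_field [Finite F] {m : ℕ} (hm : 3 ≤ m) {x : MulAut (POmega F (quadFormPlus m F))}
    (hx : IsFieldAutClassPOmega _ x) : ∃ k, k ≠ 1 ∧ x k = k := by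
  have h := big_plusQ (F := F) hm
  obtain ⟨α, _, σ, -, h1, rfl⟩ := hx
  obtain ⟨φ, hφ⟩ := exists_fix_hom (σ := σ) rfl
  obtain ⟨k, h2, h3⟩ := exists_fix_ne (model_aM h) (center_POmega h) (isForm_plusQ m φ)
    (a := std σ (std_plus _)) fun v => funext fun i => (hφ _).2 ⟨_, rfl⟩
  rw [← (isField_std (std_plus _)).1 h1] at h3
  exact ⟨α⁻¹ k, fun e => h2 (by simpa using e), α.injective (h3.trans (α.apply_symm_apply k).symm)⟩

attribute [local instance] good2D4

/-- exponents of the diagonal similarity -/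
def exD4 (k : ℕ) : Ix chevD4 → ℤ := fun i => (([[1, 1, 1, 0], [0, 1, 1, 0], [0, 0, 1, 0],
  [0, 0, 0, 0], [-1, -1, 0, -1], [0, -1, 0, -1], [0, 0, 0, -1], [0, 0, 1, -1]] :
    List (List ℤ)).getD k []).getD i 0

theorem exists_gam_D4 [Finite F] (c : Ix chevD4 → Fˣ) (ψ : F ≃+* F) : ∃ a : Gam (plusQ 4 F),
    a.σ = ψ ∧ Pres a ∧ a.μ = tor c (exD4 7) ∧
      ∀ k, a.T (bvD4 F k) = (tor c (exD4 k) : F) • bvD4 F k := by
  let d : Fin 4 ⊕ Fin 4 → F := fun i => tor c (exD4 (nmD4 i))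
  have h1 : ∀ i, d (.inl i) * d (.inr i) = tor c (exD4 7) := fun i => by
    rw [← Units.val_mul, ← tor_add]
    congr 2
    revert i; decide +kernel
  let a := ofLin (nd_plusQ 4) (LinearMap.mulLeft F d) (tor c (exD4 7)) fun v => by
    rw [plusQ_apply, plusQ_apply, Finset.mul_sum]
    refine Finset.sum_congr rfl fun i _ => ?_
    rw [← h1 i]
    simp only [LinearMap.mulLeft_apply, Pi.mul_apply]; ring
  have h2 : ∀ v i, (a * std ψ (std_plus ψ)).T v i = d i * ψ (v i) := fun _ _ => rfl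
  refine ⟨a * std ψ (std_plus ψ), one_mul ψ, ?_, Units.ext (by simp [a, std, ofLin]), fun k => ?_⟩
  · refine pres_of_map_eq (nd_plusQ 4) (sing_stdX 4) (by rw [finrank_stdX, finrank_plus])
      (Submodule.eq_of_le_of_finrank_eq ?_ (Gam.finrank_map _ _))
    rintro _ ⟨v, hv, rfl⟩
    exact mem_stdX.2 fun i => by rw [Gam.semi_apply, h2, mem_stdX.1 hv i, map_zero, mul_zero]
  · funext i
    rw [h2, Pi.smul_apply, bvD4]
    split_ifs with h
    · simp [d, h]
    · simp

theorem aM_eq_congr {ι : Type} [Fintype ι] [DecidableEq ι] {Q : QuadraticForm F (ι → F)}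
    (a : Gam Q) : aM a = MulAut.congr (pomegaEquiv Q).symm (aO a) := rfl

theorem RlB.decomp {D : ChevalleyDatum} [Good2 D] {β : MulAut (D.group F)} {a : GL D.Idx F}
    (ha : a ∈ (glSys D F).grp) {c : Ix D → Fˣ} {ψ : RingAut F} (h : RlB β (a * dgU c) ψ) :
    β = MulAut.conj ⟨a, group_eq.ge ha⟩ * (diagHom D F c * fieldAutHom D F ψ) :=
  h.ext fun y => by
    change a * (dgU c * mp ψ.toRingHom y.1 * (dgU c)⁻¹) * a⁻¹ = _
    group

theorem congr_eq_of {D : ChevalleyDatum} [Good2 D] {P : Type*} [Group P] (e : D.group F ≃* P)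
    (c : Ix D → Fˣ) (ψ : RingAut F) {α : MulAut P} (h : ∀ r t, α (e ((chSys D F).x r t)) =
      e ((chSys D F).x r (tor c (co r) * ψ t))) :
    MulAut.congr e (diagHom D F c * fieldAutHom D F ψ) = α := by
  have : ∀ y, e ((diagHom D F c * fieldAutHom D F ψ) y) = α (e y) := fun y =>
    DFunLike.congr_fun (StSys.hom_ext ch_grp (f := e.toMonoidHom.comp (MulEquiv.toMonoidHom
      (diagHom D F c * fieldAutHom D F ψ)))
      (f' := (MulEquiv.toMonoidHom α).comp e.toMonoidHom) fun r t => by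
        change e (diagAut c (fieldAut D ψ _)) = α (e _)
        rw [fieldAut_x, diagAut_x, h]) y
  exact MulEquiv.ext fun y => (this (e.symm y)).trans (by rw [e.apply_symm_apply])

theorem aO_xE [Finite F] (h : Big (plusQ 4 F)) {c : Ix chevD4 → Fˣ} {b : Gam (plusQ 4 F)}
    (h3 : b.μ = tor c (exD4 7)) (h4 : ∀ k, b.T (bvD4 F k) = (tor c (exD4 k) : F) • bvD4 F k)
    (r : Rt chevD4) (t : F) : ∃ u v : Om (plusQ 4 F), u.1 = xE (plusQ 4 F) (bvD4 F) tD4 r t ∧
      v.1 = xE (plusQ 4 F) (bvD4 F) tD4 r (tor c (co r) * b.σ t) ∧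
        aO b (u : Classical.AutO.PO _) = v := by
  refine ⟨h.E _ _, _, rfl, ?_, aO_E h b _ _⟩
  have h6 : pD4 (tD4.getD r (0, 0, 0)).1 (tD4.getD r (0, 0, 0)).2.1 = 0 ∧
      exD4 (tD4.getD r (0, 0, 0)).1 + exD4 (tD4.getD r (0, 0, 0)).2.1 =
        exD4 7 + co r := by revert r; decide +kernel
  have h7 := congrArg (fun v => (tor c v : F)) h6.2
  simp only [tor_add, Units.val_mul] at h7
  change eich _ _ _ = eich _ _ _
  rw [h4, b.smul, h4, eich_smul_left (q_bvD4 _) (by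
    rw [polar_smul_right, polar_smul_right, polar_smul_right, polar_bvD4, h6.1]; simp), h3,
    smul_smul, smul_smul, smul_smul]
  congr 2
  rw [map_mul, map_intCast]
  field_simp
  linear_combination (((tD4.getD r (0, 0, 0)).2.2 : F) * b.σ t) * h7

theorem exists_iso_xE : ∃ e : chevD4.group F ≃* Classical.AutO.PO (plusQ 4 F),
    ∀ r t (a : Om (plusQ 4 F)), a.1 = xE (plusQ 4 F) (bvD4 F) tD4 r.1 t →
      e ((chSys chevD4 F).x r t) = a := by
  have hc : Subgroup.center (commutator (OG (plusQ 4 F))) ≠ ⊤ := by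
    rw [commutator_D4]
    refine center_ne_top (e := bvD4 F 0) (f := bvD4 F 4) (e' := bvD4 F 1) (f' := bvD4 F 5)
      (q_bvD4 _) (q_bvD4 _) ?_ ?_ (q_bvD4 _) (q_bvD4 _) ?_ ?_ ?_
    all_goals simp [polar_plusQ, bvD4, nmD4, Fin.sum_univ_four]
  exact (relAB_D4 (F := F)).iso_quot' (S1054.result chevD4 (by simp)).1
    (commutator_D4.trans closure_D4) hc

theorem congr_decomp {K P : Type*} [Group K] [Group P] (e : K ≃* P) {β γ : MulAut K} {a : K}
    (h : β = MulAut.conj a * γ) {α δ : MulAut P} (h1 : MulAut.congr e γ = α)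
    (h2 : δ = MulAut.conj (e a) * α) : MulAut.congr e β = δ := by
  rw [h, map_mul, h1, congr_conj, h2]

theorem exists_iso_PO [Finite F] : ∃ e : chevD4.group F ≃* Classical.AutO.PO (plusQ 4 F),
    ∀ β z ψ, z ∈ GD chevD4 F → RlB β z ψ →
      ∃ b : Gam (plusQ 4 F), b.σ = ψ ∧ Pres b ∧ MulAut.congr e β = aO b := by
  have h := big_plusQ (F := F) (m := 4) (by omega)
  have hp := isPlus_plusQ (F := F) 4
  obtain ⟨e, he⟩ := exists_iso_xE (F := F)
  refine ⟨e, fun β z ψ hz hβ => ?_⟩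
  obtain ⟨a, ha, c, rfl⟩ := mem_GD.1 hz
  obtain ⟨b, h1, h2, h3, h4⟩ := exists_gam_D4 c ψ
  obtain ⟨s, hs⟩ := QuotientGroup.mk_surjective (e ⟨a, group_eq.ge ha⟩)
  refine ⟨og s.1 * b, by simp [h1], (pres_mul h.nd hp _ _).2 (iff_of_true
    ((mem_DO_iff_pres h hp).1 (NO_le_DO h (og_mem_NO_of h s.2))).2 h2),
    congr_decomp e (hβ.decomp ha) (congr_eq_of e c ψ (α := aO b) fun r t => ?_) ?_⟩
  · obtain ⟨u, v, h5, h6, h7⟩ := aO_xE h h3 h4 r t
    rw [he r t u h5, h7, ← h1, he r _ v h6]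
  · rw [map_mul, aO_om, hs]

theorem exists_iso_D4 [Finite F] : ∃ e : chevD4.group F ≃* POmega F (plusQ 4 F),
    ∀ β z ψ, z ∈ GD chevD4 F → RlB β z ψ →
      ∃ b : Gam (plusQ 4 F), b.σ = ψ ∧ Pres b ∧ MulAut.congr e β = aM b := by
  obtain ⟨e, he⟩ := exists_iso_PO (F := F)
  refine ⟨e.trans (pomegaEquiv (plusQ 4 F)).symm, fun β z ψ hz hβ => ?_⟩
  obtain ⟨b, h1, h2, h3⟩ := he β z ψ hz hβ
  exact ⟨b, h1, h2, by rw [congr_trans, h3, aM_eq_congr]⟩

variable [Fintype F] {r : ℕ} [Fact r.Prime] [CharP F r] {p : ℕ} [Fact p.Prime] (hpr : p ≠ r)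
include hpr

theorem balance_four {A : Subgroup (MulAut (POmega F (plusQ 4 F)))}
    (hinn : ∀ k, MulAut.conj k ∈ A) {x : MulAut (POmega F (plusQ 4 F))} (ho : orderOf x = p)
    (hnot : x ∉ (DO (plusQ 4 F)).map aM)
    (h1 : pPrimeCore p (A ⊓ Subgroup.centralizer {x} : Subgroup _) ≠ ⊥) :
    (∃ b : Gam (plusQ 4 F), b.σ ≠ 1 ∧ Pres b ∧ x = aM b) ∧
      p.Coprime (Nat.card (x.toMonoidHom.eqLocus (MonoidHom.id _))) := by
  have h := big_plusQ (F := F) (m := 4) (by omega)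
  obtain ⟨e, he⟩ := exists_iso_D4 (F := F)
  obtain ⟨β, rfl⟩ := (MulAut.congr e).surjective x
  rw [MulEquiv.orderOf_eq] at ho
  have h2 : ∀ b : Gam (plusQ 4 F), b.σ = 1 → Pres b → MulAut.congr e β ≠ aM b :=
    fun b h2 h3 h4 => hnot ⟨b, (mem_DO_iff_pres h (isPlus_plusQ 4)).2 ⟨h2, h3⟩, h4.symm⟩
  obtain ⟨⟨γ, φ, h3, ⟨ψ, h4⟩, h5⟩, h6⟩ := (balance_of good3D4 ⟨_, _, _, _, _, smith_D4, by decide⟩ r
    hpr ho (𝒢 := A.comap (MulAut.congr e).toMonoidHom)
    (fun k => Subgroup.mem_comap.2 ((congr_conj e k).symm ▸ hinn (e k) :))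
    (fun h3 => by
      obtain ⟨z, hz, h4⟩ := isInnerDiag_iff.1 h3
      obtain ⟨b, h5, h6, h7⟩ := he β z 1 hz h4
      exact h2 b h5 h6 h7) (bot_D4 r hpr ho)).1 fun h3 => h1 (core_congr e h3)
  obtain ⟨z, hz, h7⟩ := isInnerDiag_iff.1 h3
  obtain ⟨b, h8, h9, h10⟩ := he β z ψ hz fun y => by
    rw [h5, MulEquiv.trans_apply, h7, show (φ y).1 = mp ψ.toRingHom y.1 from Units.ext (h4 y)]; rfl
  exact ⟨⟨b, fun h11 => h2 b h11 h9 h10, h9, h10⟩, by rwa [card_fix_congr]⟩

theorem balance_five {m : ℕ} (hm : 5 ≤ m) {A : Subgroup (MulAut (POmega F (plusQ m F)))}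
    (hinn : ∀ k, MulAut.conj k ∈ A) {x : MulAut (POmega F (plusQ m F))} (ho : orderOf x = p)
    (hnot : x ∉ (DO (plusQ m F)).map aM)
    (h1 : pPrimeCore p (A ⊓ Subgroup.centralizer {x} : Subgroup _) ≠ ⊥) :
    (∃ b : Gam (plusQ m F), b.σ ≠ 1 ∧ Pres b ∧ x = aM b) ∧
      p.Coprime (Nat.card (x.toMonoidHom.eqLocus (MonoidHom.id _))) := by
  have h := big_plusQ (F := F) (m := m) (by omega)
  have hA := model_aM h
  have hp : p.Prime := Fact.out
  have hs := surj_plus (F := F) hm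
  have hP := isPlus_plusQ (F := F) m
  have hpF : (p : F) ≠ 0 := fun h3 => hpr
    ((Nat.prime_dvd_prime_iff_eq Fact.out hp).1 ((CharP.cast_eq_zero_iff F r p).1 h3)).symm
  obtain ⟨g, rfl⟩ := hs x
  have h7 : g ∉ DO _ := fun h7 => hnot ⟨g, h7, rfl⟩
  have h0 : aM g ^ p = 1 := ho ▸ pow_orderOf_eq_one _
  have h2 : ¬ Pres g → p = 2 := fun h2 => by
    obtain ⟨c, hc⟩ := hA.ker.1 ((map_pow aM g p).trans h0)
    exact hp.even_iff.1 (((pres_pow h.nd hP g).1 (hc ▸ pres_sc c)).resolve_left h2)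
  by_cases hb : g.σ = 1
  · obtain rfl := h2 fun h3 => h7 ((mem_DO_iff_pres h hP).2 ⟨hb, h3⟩)
    exact (h1 (core_graph_plus hA (center_POmega h) hs hpF hinn hP (finrank_plus m) hm hb h7
      ho)).elim
  have h3 := (hA.balance (center_POmega h) hs hb hp ho hpF hinn).1 h1
  refine ⟨⟨g, hb, by_contra fun h4 => ?_, rfl⟩, h3⟩
  obtain rfl := h2 h4
  exact hp.dvd_iff_not_coprime.1 (dvd_card_fix h0 (two_dvd_card hA (center_POmega h) hpF)) h3

end Cfsg.Agent.Chev
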