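import Mathlib
import Cfsg.Agent.Classical.LSL

/-! Lower bounds for the degrees of complex representations from long root subgroups. -/

set_option autoImplicit false
set_option linter.unusedSectionVars false
set_option maxHeartbeats 400000

namespace Cfsg.Agent.Chev.Md
open Module Cfsg.Agent.Classical.LS

variable {G V : Type*} [Group G] [Finite G] [AddCommGroup V] [Module ℂ V] [FiniteDimensional ℂ V]
  {ρ : Representation ℂ G V}

section
variable {A : Type*} [AddCommGroup A] [Fintype A] {x : A → G}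
  (hx : ∀ a b, x (a + b) = x a * x b)
include hx

theorem sum_le {J : Type*} [Fintype J] {f : J → AddChar A ℂ} (hf : Function.Injective f)
    {W : Submodule ℂ V} (p : J → Submodule ℂ V) (h1 : ∀ j, p j ≤ W)
    (h2 : ∀ j, p j ≤ Wt ρ x (f j)) : ∑ j, finrank ℂ (p j) ≤ finrank ℂ W := by
  classical
  rw [← Module.finrank_pi_fintype]
  refine LinearMap.finrank_le_finrank_of_injective
    (f := ∑ j, Submodule.inclusion (h1 j) ∘ₗ LinearMap.proj j) ?_
  rw [injective_iff_map_eq_zero]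
  intro v hv
  funext j
  have := congrArg (fun w : W => P ρ x (f j) (w : V)) hv
  simp only [LinearMap.sum_apply, LinearMap.comp_apply, LinearMap.proj_apply,
    Submodule.coe_sum, Submodule.coe_inclusion, map_sum, ZeroMemClass.coe_zero, map_zero] at this
  rw [Finset.sum_eq_single j (fun k _ hk => by
    rw [P_apply (h2 k (v k).2), if_neg fun e => hk (hf e).symm]) (by simp),
    P_apply (h2 j (v j).2), if_pos rfl] at this
  exact Subtype.ext this

theorem le_sum {W : Submodule ℂ V} (hW : ∀ a, ∀ v ∈ W, ρ (x a) v ∈ W) :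
    finrank ℂ W ≤ ∑ l : AddChar A ℂ, finrank ℂ ↥(W ⊓ Wt ρ x l) := by
  classical
  rw [← Module.finrank_pi_fintype]
  have hm : ∀ (l : AddChar A ℂ) (v : W), (P ρ x l).domRestrict W v ∈ W ⊓ Wt ρ x l := fun l v => by
    refine Submodule.mem_inf.2 ⟨?_, P_mem hx l v.1⟩
    simp only [LinearMap.domRestrict_apply, P, LinearMap.smul_apply, LinearMap.sum_apply]
    exact W.smul_mem _ (W.sum_mem fun a _ => W.smul_mem _ (hW a v v.2))
  refine LinearMap.finrank_le_finrank_of_injective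
    (f := LinearMap.pi fun l => ((P ρ x l).domRestrict W).codRestrict (W ⊓ Wt ρ x l) (hm l)) ?_
  rw [injective_iff_map_eq_zero]
  intro v hv
  have h : ∀ l, P ρ x l (v : V) = 0 := fun l => congrArg Subtype.val (congrFun hv l)
  have := congrArg (fun f : End ℂ V => f v) (sum_P (ρ := ρ) hx)
  simp only [LinearMap.sum_apply, h, Finset.sum_const_zero, End.one_apply] at this
  exact Subtype.ext this.symm

theorem heis {A' : Type*} [Fintype A'] {y : A' → G} (hc : Fintype.card A = Fintype.card A')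
    {W : Submodule ℂ V} (hW : ∀ a, ∀ v ∈ W, ρ (x a) v ∈ W) (hW' : ∀ b, ∀ v ∈ W, ρ (y b) v ∈ W)
    {φ : A' → AddChar A ℂ} (hφ : Function.Injective φ)
    (h : ∀ a b, ∀ v ∈ W, ρ (x a) (ρ (y b) v) = φ b a • ρ (y b) (ρ (x a) v)) :
    finrank ℂ W = Fintype.card A * finrank ℂ ↥(W ⊓ Wt ρ x fun _ => 1) := by
  classical
  have hb : Function.Bijective φ :=
    (Fintype.bijective_iff_injective_and_card φ).2 ⟨hφ, by rw [AddChar.card_eq, hc]⟩
  have k : ∀ l m : AddChar A ℂ, finrank ℂ ↥(W ⊓ Wt ρ x l) ≤ finrank ℂ ↥(W ⊓ Wt ρ x m) := by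
    intro l m
    obtain ⟨b, hb⟩ := hb.2 (m / l)
    refine finrank_le_of_map (ρ := ρ) (y b) fun v hv => ⟨hW' b v hv.1, mem_Wt.2 fun a => ?_⟩
    rw [h a b v hv.1, mem_Wt.1 hv.2 a, map_smul, smul_smul, hb, ← AddChar.mul_apply,
      div_mul_cancel]
  have e : ∀ l : AddChar A ℂ, finrank ℂ ↥(W ⊓ Wt ρ x l) = finrank ℂ ↥(W ⊓ Wt ρ x fun _ => 1) :=
    fun l => le_antisymm (k l 1) (k 1 l)
  have h1 := le_sum hx hW
  have h2 := sum_le (ρ := ρ) hx (f := id) Function.injective_id (W := W) (fun l => W ⊓ Wt ρ x l)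
    (fun _ => inf_le_left) fun _ => inf_le_right
  simp only [e, Finset.sum_const, Finset.card_univ, AddChar.card_eq, smul_eq_mul] at h1 h2
  omega
end

section
variable {F : Type*} [Field F] [Fintype F]

/-- the characters of the additive group -/
noncomputable def ch (c : F) : AddChar F ℂ := (ψ F).mulShift c

theorem ch_apply (c t : F) : ch c t = ψ F (c * t) := AddChar.mulShift_apply

theorem ch_bij : Function.Bijective (ch : F → _) := by
  refine ⟨fun a b h => eq_of_ψ fun t => by rw [← ch_apply, h, ch_apply], fun l => ?_⟩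
  obtain ⟨a, ha⟩ := exists_eq_ψ l
  exact ⟨a, AddChar.ext _ _ fun t => by rw [ch_apply, ha]⟩

theorem ch_zero : (ch (0 : F) : F → ℂ) = fun _ => 1 := funext fun t => by simp [ch_apply]

theorem trace_z {z : F → G} (hz : ∀ a b, z (a + b) = z a * z b) {a : ℕ}
    (ha : ∀ c, c ≠ 0 → finrank ℂ (Wt ρ z (ch c)) = a) :
    LinearMap.trace ℂ V (ρ (z 1)) = finrank ℂ V - Fintype.card F * a := by
  classical
  have h1 := trace_eq_sum (ρ := ρ) hz (ρ (z 1))
  have h2 := finrank_eq_sum (ρ := ρ) hz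
  rw [← ch_bij.sum_comp] at h1 h2
  have h3 : ∑ c : F, ψ F (c * 1) = 0 := by
    simpa using AddChar.sum_mulShift (1 : F) (ψ_prim (F := F))
  rw [← Finset.add_sum_erase _ _ (Finset.mem_univ 0)] at h1 h2 h3
  rw [Finset.sum_congr rfl fun c hc => ha c (Finset.ne_of_mem_erase hc)] at h2
  rw [Finset.sum_congr rfl fun c hc => by
    rw [trace_mul_P_of_smul hz (c := ψ F (c * 1)) fun v hv => by rw [mem_Wt.1 hv, ch_apply],
      ha c (Finset.ne_of_mem_erase hc)],
    trace_mul_P_of_smul hz (c := 1) fun v hv => by rw [mem_Wt.1 hv, ch_apply]; simp,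
    ← Finset.sum_mul] at h1
  rw [h1, h2, eq_neg_of_add_eq_zero_right h3, Finset.sum_const, Finset.card_erase_of_mem (by simp),
    Finset.card_univ]
  rw [smul_eq_mul, Nat.cast_add, Nat.cast_mul, Nat.cast_sub (Fintype.card_pos (α := F))]
  simp; ring
end

/-- root subgroups with long root subgroups -/
structure MD (G F R : Type*) (A : R → Type*) [Group G] [Field F] [∀ r, AddCommGroup (A r)] where
  x : ∀ r, A r → G
  add : ∀ r a b, x r (a + b) = x r a * x r b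
  z : R → F → G
  z_add : ∀ r a b, z r (a + b) = z r a * z r b
  lg : R → Prop
  z_x : ∀ α, lg α → ∀ s, ∃ t, x α s = z α t
  x_z : ∀ α, lg α → ∀ t, ∃ s, z α t = x α s
  conj : ∀ α α', lg α → lg α' → ∀ c, c ≠ 0 → ∃ g, ∀ t, z α t * g = g * z α' (c * t)

namespace MD
variable {F R : Type*} {A : R → Type*} [Field F] [Fintype F] [∀ r, AddCommGroup (A r)]
  [∀ r, Fintype (A r)] (M : MD G F R A)

/-- the commutators lie in given root subgroups -/
def Cl (r s : R) (T : R → Prop) : Prop := ∀ H : Subgroup G, (∀ γ, T γ → ∀ c, M.x γ c ∈ H) →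
  ∀ a b, (M.x s b * M.x r a)⁻¹ * (M.x r a * M.x s b) ∈ H
/-- the commutators fill a root subgroup -/
def Gn (r s γ : R) : Prop := ∀ c, ∃ a b, M.x r a * M.x s b = M.x s b * M.x r a * M.x γ c
/-- commuting root subgroups -/
def Cm (r s : R) : Prop := ∀ a b, M.x r a * M.x s b = M.x s b * M.x r a
/-- a Heisenberg pair -/
def Hs (α β β' : R) : Prop := Fintype.card (A β) = Fintype.card (A β') ∧
  (∃ B : A β' → A β →+ F, (∀ a b, M.x β a * M.x β' b = M.x β' b * M.x β a * M.z α (B b a)) ∧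
    ∀ b b', b ≠ b' → ∀ s, ∃ a, B b a - B b' a = s) ∧ M.Cm α β ∧ M.Cm α β'

/-- derivations of trivial action (`true`) and of stabilising (`false`) -/
inductive Der (α : R) (S : R → Prop) : Bool → R → Prop
  | base {β : R} : S β → Der α S true β
  | fx {δ : R} : Der α S true δ → Der α S false δ
  | st {δ : R} (T : R → R → Prop) : (∀ β, β = α ∨ S β → M.Cl β δ (T β)) →
      (∀ β γ, β = α ∨ S β → T β γ → Der α S true γ) → Der α S false δ
  | gn {δ δ' γ : R} : Der α S false δ → Der α S false δ' → M.Gn δ δ' γ → Der α S true γ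

variable (ρ) in
/-- the fixed space of a set of root subgroups -/
def Fix (T : R → Prop) : Submodule ℂ V where
  carrier := {v | ∀ r, T r → ∀ a, ρ (M.x r a) v = v}
  zero_mem' := by simp
  add_mem' ha hb r hr a := by rw [map_add, ha r hr, hb r hr]
  smul_mem' c a ha r hr b := by rw [map_smul, ha r hr]

variable (ρ) in
/-- the eigenspaces of a long root subgroup -/
noncomputable def Eig (α : R) (c : F) : Submodule ℂ V := Wt ρ (M.z α) (ch c)

variable {M}

theorem ap {a b c d : G} (h : a * b = c * d) (v : V) : ρ a (ρ b v) = ρ c (ρ d v) := by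
  rw [← End.mul_apply, ← map_mul, h, map_mul, End.mul_apply]

/-- the pointwise stabiliser of a vector -/
def stab (ρ : Representation ℂ G V) (v : V) : Subgroup G where
  carrier := {g | ρ g v = v}
  one_mem' := by simp
  mul_mem' {a b} ha hb := by
    change ρ (a * b) v = v
    rw [map_mul, End.mul_apply, hb, ha]
  inv_mem' {a} ha := by
    change ρ a⁻¹ v = v
    conv_lhs => rw [← (show ρ a v = v from ha), ← End.mul_apply, ← map_mul, inv_mul_cancel, map_one,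
      End.one_apply]

theorem Cl.ap {r s : R} {T : R → Prop} (h : M.Cl r s T) {v : V} (hv : v ∈ M.Fix ρ T) (a : A r)
    (b : A s) : ρ (M.x r a) (ρ (M.x s b) v) = ρ (M.x s b) (ρ (M.x r a) v) := by
  have : ρ _ v = v := h (stab ρ v) hv a b
  conv_rhs => rw [← this]
  simp only [← End.mul_apply, ← map_mul]
  congr 2; group

theorem Cm.eig {α β : R} (hα : M.lg α) (h : M.Cm α β) {c : F} (b : A β) {v : V}
    (hv : v ∈ M.Eig ρ α c) : ρ (M.x β b) v ∈ M.Eig ρ α c := mem_Wt.2 fun t => by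
  obtain ⟨s, hs⟩ := M.x_z α hα t
  rw [hs, ap (h s b), ← hs, mem_Wt.1 hv, map_smul]

theorem Der.sound {α : R} (hα : M.lg α) {S : R → Prop} {c : F}
    (h1 : finrank ℂ ↥(M.Eig ρ α c ⊓ M.Fix ρ S) ≤ 1) {b : Bool} {δ : R} (h : M.Der α S b δ) :
    ∀ a, ∀ v ∈ M.Eig ρ α c ⊓ M.Fix ρ S, (b = true → ρ (M.x δ a) v = v) ∧
      ρ (M.x δ a) v ∈ M.Eig ρ α c ⊓ M.Fix ρ S := by
  induction h with
  | base h => exact fun a v hv => ⟨fun _ => hv.2 _ h a, (hv.2 _ h a).symm ▸ hv⟩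
  | fx _ ih => exact fun a v hv => ⟨by simp, (ih a v hv).2⟩
  | st T h _ ih =>
    refine fun a v hv => ⟨by simp, mem_Wt.2 fun t => ?_, fun β hβ b => ?_⟩
    · obtain ⟨s, hs⟩ := M.x_z α hα t
      rw [hs, (h α (.inl rfl)).ap fun γ hγ e => (ih α γ (.inl rfl) hγ e v hv).1 rfl, ← hs,
        mem_Wt.1 hv.1, map_smul]
    · rw [(h β (.inr hβ)).ap fun γ hγ e => (ih β γ (.inr hβ) hγ e v hv).1 rfl, hv.2 β hβ]
  | gn _ _ h ih ih' =>
    intro e v hv
    obtain ⟨a, b, h⟩ := h e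
    have k := comm_of_finrank_le_one (ρ := ρ) h1 (fun v hv => (ih a v hv).2)
      (fun v hv => (ih' b v hv).2) hv
    rw [h, map_mul, End.mul_apply] at k
    have := apply_injective (ρ := ρ) _ k
    exact ⟨fun _ => this, this.symm ▸ hv⟩

theorem Hs.heis {α β β' : R} (h : M.Hs α β β') {c : F} (hc : c ≠ 0) {W : Submodule ℂ V}
    (h0 : W ≤ M.Eig ρ α c) (hW : ∀ a, ∀ v ∈ W, ρ (M.x β a) v ∈ W)
    (hW' : ∀ b, ∀ v ∈ W, ρ (M.x β' b) v ∈ W) :
    finrank ℂ W = Fintype.card (A β) * finrank ℂ ↥(W ⊓ M.Fix ρ (· = β)) := by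
  obtain ⟨h1, ⟨B, h2, h3⟩, -⟩ := h
  have e : M.Fix ρ (· = β) = Wt ρ (M.x β) fun _ => 1 := by
    ext v
    rw [mem_Wt]
    exact ⟨fun h a => by rw [one_smul]; exact h β rfl a, fun h r hr a => by
      subst hr; rw [h a, one_smul]⟩
  rw [e]
  refine Md.heis (M.add β) h1 hW hW' (φ := fun b => (ch c).compAddMonoidHom (B b))
    (fun b b' hb => by_contra fun hn => hc (eq_zero_of_ψ fun s => ?_)) fun a b v hv => ?_
  · obtain ⟨a, ha⟩ := h3 b b' hn s
    have := DFunLike.congr_fun hb a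
    simp only [AddChar.compAddMonoidHom_apply] at this
    rw [← ch_apply, ← ha, AddChar.map_sub_eq_div, this, div_self (AddChar.val_isUnit _ _).ne_zero]
  · rw [← End.mul_apply, ← map_mul, h2, map_mul, map_mul, End.mul_apply, End.mul_apply,
      mem_Wt.1 (h0 hv), map_smul, map_smul]; rfl

/-- a list of Heisenberg pairs -/
def Lag (M : MD G F R A) (α : R) (L : List (R × R)) : Prop :=
  (∀ p ∈ L, M.Hs α p.1 p.2) ∧ L.Pairwise fun p p' => M.Cm p.1 p'.1 ∧ M.Cm p.1 p'.2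

/-- the weight of a list of pairs -/
def wt (A : R → Type*) [∀ r, Fintype (A r)] (L : List (R × R)) : ℕ :=
  (L.map fun p => Fintype.card (A p.1)).prod

theorem Lag.finrank {α : R} {c : F} (hc : c ≠ 0) : ∀ {L : List (R × R)} (_ : M.Lag α L)
    {W : Submodule ℂ V} (_ : W ≤ M.Eig ρ α c) (_ : ∀ p ∈ L, (∀ a, ∀ v ∈ W, ρ (M.x p.1 a) v ∈ W) ∧
      ∀ a, ∀ v ∈ W, ρ (M.x p.2 a) v ∈ W),
    finrank ℂ W = wt A L * finrank ℂ ↥(W ⊓ M.Fix ρ fun r => ∃ p ∈ L, r = p.1)
  | [], _, W, _, _ => by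
    rw [inf_eq_left.2 fun v _ r hr => by simp at hr]; simp [wt]
  | p :: L, h, W, h0, hW => by
    have h2 := List.pairwise_cons.1 h.2
    rw [(h.1 p (by simp)).heis hc h0 (hW p (by simp)).1 (hW p (by simp)).2,
      Lag.finrank hc ⟨fun q hq => h.1 q (by simp [hq]), h2.2⟩ (inf_le_left.trans h0) fun q hq =>
        ⟨fun a v hv => ⟨(hW q (by simp [hq])).1 a v hv.1, fun r hr b => by
          subst hr; rw [ap ((h2.1 q hq).1 b a), hv.2 _ rfl]⟩,
        fun a v hv => ⟨(hW q (by simp [hq])).2 a v hv.1, fun r hr b => by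
          subst hr; rw [ap ((h2.1 q hq).2 b a), hv.2 _ rfl]⟩⟩, ← mul_assoc, inf_assoc]
    have e : (M.Fix ρ (· = p.1) ⊓ M.Fix ρ fun r => ∃ p ∈ L, r = p.1) =
        M.Fix ρ fun r => ∃ q ∈ p :: L, r = q.1 := by
      ext v
      exact ⟨fun h r ⟨q, hq, e⟩ => (List.mem_cons.1 hq).elim (fun e' => h.1 r (e' ▸ e))
        fun e' => h.2 r ⟨q, e', e⟩, fun h => ⟨fun r e => h r ⟨p, by simp, e⟩,
          fun r ⟨q, hq, e⟩ => h r ⟨q, by simp [hq], e⟩⟩⟩
    rw [e]
    simp [wt]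

theorem eig_eq {α α' : R} (h : M.lg α) (h' : M.lg α') {c c' : F} (hc : c ≠ 0) (hc' : c' ≠ 0) :
    finrank ℂ (M.Eig ρ α c) = finrank ℂ (M.Eig ρ α' c') := by
  have k : ∀ {α α' : R} {c c' : F}, M.lg α → M.lg α' → c ≠ 0 → c' ≠ 0 →
      finrank ℂ (M.Eig ρ α c) ≤ finrank ℂ (M.Eig ρ α' c') := by
    intro α α' c c' h h' hc hc'
    obtain ⟨g, hg⟩ := M.conj α' α h' h (c' / c) (div_ne_zero hc' hc)
    refine (finrank_Wt_le (x := M.z α) (β := ch c) (g := 1) (π := id) (by simp)).trans ?_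
    refine finrank_le_of_map (ρ := ρ) g fun v hv => mem_Wt.2 fun t => ?_
    rw [ap (hg t), mem_Wt.1 hv, map_smul, Function.comp, ch_apply, ch_apply, id, ← mul_assoc,
      mul_div_cancel₀ _ hc]
  exact le_antisymm (k h h' hc hc') (k h' h hc' hc)

theorem step {α : R} {W : Submodule ℂ V} (p : F → Submodule ℂ V) (h1 : ∀ c, p c ≤ W)
    (h2 : ∀ c, p c ≤ M.Eig ρ α c) {k : ℕ} (hk : ∀ c, c ≠ 0 → k ≤ finrank ℂ (p c)) :
    finrank ℂ (p 0) + (Fintype.card F - 1) * k ≤ finrank ℂ W := by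
  classical
  refine le_trans ?_ (sum_le (M.z_add α) ch_bij.1 p h1 h2)
  rw [← Finset.add_sum_erase _ _ (Finset.mem_univ 0)]
  have := Finset.card_nsmul_le_sum (Finset.univ.erase (0 : F)) _ k fun c hc =>
    hk c (Finset.ne_of_mem_erase hc)
  rw [Finset.card_erase_of_mem (by simp), Finset.card_univ, smul_eq_mul] at this
  omega

theorem mem_eig_zero {α : R} (hα : M.lg α) {v : V} (h : ∀ a, ρ (M.x α a) v = v) :
    v ∈ M.Eig ρ α 0 := mem_Wt.2 fun t => by
  obtain ⟨s, hs⟩ := M.x_z α hα t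
  rw [hs, h, ch_zero, one_smul]

theorem sum_list {U : R → F → Submodule ℂ V} {k : R → ℕ} : ∀ (L : List R)
    (_ : ∀ α ∈ L, M.lg α ∧ ∀ c, U α c ≤ M.Eig ρ α c ∧ (c ≠ 0 → k α ≤ finrank ℂ (U α c)))
    (_ : L.Pairwise fun α' α => ∀ c, U α c ≤ M.Fix ρ (· = α')) (W : Submodule ℂ V)
    (_ : ∀ α ∈ L, ∀ c, U α c ≤ W), (Fintype.card F - 1) * (L.map k).sum ≤ finrank ℂ W
  | [], _, _, _, _ => by simp
  | α :: L, h, hp, W, hW => by
    classical
    have h2 := List.pairwise_cons.1 hp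
    have hα := h α (by simp)
    have ih := sum_list L (fun β hβ => h β (by simp [hβ])) h2.2 (W ⊓ M.Eig ρ α 0) fun β hβ c =>
      le_inf (hW β (by simp [hβ]) c) fun v hv => mem_eig_zero hα.1 (h2.1 β hβ c hv α rfl)
    have := step (M := M) (ρ := ρ) (α := α) (W := W) (k := k α)
      (fun c => if c = 0 then W ⊓ M.Eig ρ α 0 else U α c)
      (fun c => by split_ifs; exacts [inf_le_left, hW α (by simp) c])
      (fun c => by split_ifs with e; exacts [e ▸ inf_le_right, (hα.2 c).1])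
      fun c hc => by rw [if_neg hc]; exact (hα.2 c).2 hc
    rw [if_pos rfl] at this
    rw [List.map_cons, List.sum_cons, mul_add]
    omega

/-- the combinatorial data attached to a long root -/
structure Loc (M : MD G F R A) (N : ℕ) (K : R → Prop) (k : ℕ) (α : R) : Prop where
  lg : M.lg α
  ex : ∃ L L' : List (R × R), M.Lag α L ∧ M.Lag α L' ∧ wt A L = N ∧ wt A L' = k ∧
    (∀ p ∈ L', ∃ q ∈ L, p.1 = q.1) ∧ (∀ γ, K γ → M.Der α (fun r => ∃ p ∈ L, r = p.1) true γ) ∧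
    ∀ p ∈ L', ∀ γ, K γ → M.Cl γ p.1 K ∧ M.Cl γ p.2 K

theorem main {N : ℕ} {K : R → R → Prop} {k : R → ℕ} {L : List R}
    (hL : ∀ α ∈ L, M.Loc N (K α) (k α) α) (hp : L.Pairwise fun α' α => K α α')
    {α β δ : R} (hα : α ∈ L) (hβ : M.lg β) (hs : M.Hs α β δ) (hq : Fintype.card (A β) = Fintype.card F)
    (hρ : ρ (M.z α 1) ≠ 1) :
    2 * (Fintype.card F ^ 2 - 1) * N ≤ Fintype.card F * finrank ℂ V ∨
      ((Fintype.card F - 1) * (L.map k).sum ≤ finrank ℂ V ∧
        LinearMap.trace ℂ V (ρ (M.z α 1)) = finrank ℂ V - Fintype.card F * N) := by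
  have lα := (hL α hα).lg
  set a := finrank ℂ (M.Eig ρ α 1) with ha
  have hE : ∀ γ, M.lg γ → ∀ c, c ≠ 0 → finrank ℂ (M.Eig ρ γ c) = a := fun γ hγ c hc =>
    eig_eq hγ lα hc one_ne_zero
  have a0 : a ≠ 0 := fun h => hρ (by
    ext v
    have ev := congrArg (fun f : End ℂ V => f v) (sum_P (ρ := ρ) (M.z_add α))
    simp only [← ch_bij.sum_comp, LinearMap.sum_apply, End.one_apply] at ev
    rw [End.one_apply, ← ev, map_sum]
    refine Finset.sum_congr rfl fun c _ => ?_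
    have hv := P_mem (ρ := ρ) (M.z_add α) (ch c) v
    by_cases hc : c = 0
    · rw [mem_Wt.1 hv, hc, ch_zero, one_smul]
    · have := hE α lα c hc
      rw [h, Submodule.finrank_eq_zero] at this
      rw [show Wt ρ (M.z α) (ch c) = ⊥ from this, Submodule.mem_bot] at hv
      rw [hv, map_zero])
  have hL' : ∀ γ ∈ L, ∀ c, c ≠ 0 → ∀ P : List (R × R), M.Lag γ P →
      a = wt A P * finrank ℂ ↥(M.Eig ρ γ c ⊓ M.Fix ρ fun r => ∃ p ∈ P, r = p.1) :=
    fun γ hγ c hc P hP => (hE γ (hL γ hγ).lg c hc).symm.trans (hP.finrank hc le_rfl fun p hp =>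
      ⟨fun b v => (hP.1 p hp).2.2.1.eig (hL γ hγ).lg b, fun b v => (hP.1 p hp).2.2.2.eig (hL γ hγ).lg b⟩)
  by_cases h2 : 2 * N ≤ a
  · left
    obtain ⟨b, hb⟩ : ∃ b, ∀ c, c ≠ 0 → finrank ℂ ↥(M.Eig ρ α c ⊓ M.Fix ρ (· = β)) = b ∧
        a = Fintype.card F * b := by
      have e : ∀ c, c ≠ 0 → a = Fintype.card F * finrank ℂ ↥(M.Eig ρ α c ⊓ M.Fix ρ (· = β)) :=
        fun c hc => by
          rw [← hq, ← hs.heis hc le_rfl (fun b v => hs.2.2.1.eig lα b) fun b v => hs.2.2.2.eig lα b,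
            hE α lα c hc]
      exact ⟨_, fun c hc => ⟨Nat.eq_of_mul_eq_mul_left Fintype.card_pos
        ((e c hc).symm.trans (e 1 one_ne_zero)), e 1 one_ne_zero⟩⟩
    have s1 := step (M := M) (ρ := ρ) (α := β) (W := ⊤) (M.Eig ρ β) (fun _ => le_top)
      (fun _ => le_rfl) fun c hc => (hE β hβ c hc).ge
    have s2 := step (M := M) (ρ := ρ) (α := α) (W := M.Eig ρ β 0)
      (fun c => M.Eig ρ α c ⊓ M.Fix ρ (· = β)) (fun c v hv => mem_eig_zero hβ (hv.2 β rfl))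
      (fun _ => inf_le_left) fun c hc => (hb c hc).1.ge
    rw [finrank_top] at s1
    have e := (hb 1 one_ne_zero).2
    obtain ⟨q, hq⟩ : ∃ q, Fintype.card F = q + 1 := ⟨_, (Nat.succ_pred_eq_of_pos Fintype.card_pos).symm⟩
    rw [hq] at s1 s2 e ⊢
    rw [show (q + 1) ^ 2 - 1 = q * (q + 2) from Nat.sub_eq_of_eq_add (by ring)]
    simp only [Nat.add_sub_cancel] at s1 s2
    have : q * a + q * b ≤ finrank ℂ V := by omega
    nlinarith [Nat.mul_le_mul_left (q * (q + 2)) h2, Nat.mul_le_mul_left (q + 1) this]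
  right
  have key : ∀ γ ∈ L, ∀ c, c ≠ 0 → a = N ∧
      k γ ≤ finrank ℂ ↥(M.Eig ρ γ c ⊓ M.Fix ρ (K γ)) := by
    intro γ hγ c hc
    obtain ⟨P, P', h1, h1', rfl, e, h3, h4, h5⟩ := (hL γ hγ).ex
    have h6 := hL' γ hγ c hc P h1
    have h7 : finrank ℂ ↥(M.Eig ρ γ c ⊓ M.Fix ρ fun r => ∃ p ∈ P, r = p.1) = 1 := by
      generalize finrank ℂ ↥(M.Eig ρ γ c ⊓ M.Fix ρ fun r => ∃ p ∈ P, r = p.1) = n at h6
      rcases n with _ | _ | n
      · simp [a0] at h6
      · rfl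
      · exact absurd (by nlinarith) h2
    refine ⟨by rw [h6, h7, mul_one], ?_⟩
    rw [h1'.finrank hc inf_le_left fun p hp => ⟨fun b v hv =>
      ⟨(h1'.1 p hp).2.2.1.eig (hL γ hγ).lg b hv.1, fun r hr s => by
        rw [(h5 p hp r hr).1.ap hv.2, hv.2 r hr]⟩, fun b v hv =>
      ⟨(h1'.1 p hp).2.2.2.eig (hL γ hγ).lg b hv.1, fun r hr s => by
        rw [(h5 p hp r hr).2.ap hv.2, hv.2 r hr]⟩⟩, e]
    refine Nat.le_mul_of_pos_right _ (h7.ge.trans (Submodule.finrank_mono fun v hv =>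
      ⟨⟨hv.1, fun r hr s => ((h4 r hr).sound (hL γ hγ).lg h7.le s v hv).1 rfl⟩, ?_⟩))
    rintro r ⟨p, hp, rfl⟩
    obtain ⟨q, hq, e⟩ := h3 p hp
    exact hv.2 _ ⟨q, hq, e⟩
  refine ⟨?_, trace_z (M.z_add α) fun c hc => (hE α lα c hc).trans (key α hα 1 one_ne_zero).1⟩
  rw [← finrank_top]
  exact sum_list (U := fun γ c => M.Eig ρ γ c ⊓ M.Fix ρ (K γ)) L
    (fun γ hγ => ⟨(hL γ hγ).lg, fun c => ⟨inf_le_left, fun hc => (key γ hγ c hc).2⟩⟩)
    (hp.imp fun h c v hv r hr => hv.2 r (hr ▸ h)) ⊤ fun _ _ _ => le_top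

end MD
end Cfsg.Agent.Chev.Md
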