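import Mathlib
import Cfsg.Agent.Chev.MdA
import Cfsg.Agent.Chev.MxU9
import Cfsg.Agent.Chev.Ree2

/-! Minimal degrees: the simply laced Chevalley groups. -/

set_option autoImplicit false
set_option linter.unusedSectionVars false
set_option maxHeartbeats 400000

namespace Cfsg.Agent.Chev.Md
open Module Cfsg.Agent.Classical.LS Cfsg.Lie StSys

theorem MD.der_of_rank {G F R : Type*} {A : R → Type*} [Group G] [Field F]
    [∀ r, AddCommGroup (A r)] {M : MD G F R A} {α : R} {S : R → Prop} (rf rs : R → ℕ)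
    (h1 : ∀ β, rf β = 1 → S β) (hB : ∀ δ, rs δ ≠ 0 → ∀ β, β = α ∨ S β →
      ∃ T, M.Cl β δ T ∧ ∀ γ, T γ → rf γ ≠ 0 ∧ rf γ < rs δ)
    (hC : ∀ γ, 2 ≤ rf γ → ∃ δ δ', M.Gn δ δ' γ ∧
      (rs δ ≠ 0 ∧ rs δ < rf γ ∨ rf δ ≠ 0 ∧ rf δ < rf γ) ∧
      (rs δ' ≠ 0 ∧ rs δ' < rf γ ∨ rf δ' ≠ 0 ∧ rf δ' < rf γ)) (γ : R) (h : rf γ ≠ 0) :
    M.Der α S true γ := by
  suffices H : ∀ n γ, rf γ ≠ 0 → rf γ < n → M.Der α S true γ from H _ γ h (Nat.lt_succ_self _)
  intro n
  induction n with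
  | zero => intro γ _ h; omega
  | succ n ih =>
    intro γ h h'
    by_cases e : rf γ = 1
    · exact .base (h1 γ e)
    obtain ⟨δ, δ', h2, h3, h4⟩ := hC γ (by omega)
    have k : ∀ δ, (rs δ ≠ 0 ∧ rs δ < rf γ ∨ rf δ ≠ 0 ∧ rf δ < rf γ) → M.Der α S false δ := by
      rintro δ (h | h)
      · choose! T hT hT' using hB δ h.1
        exact .st T hT fun β v hβ hv => ih v (hT' β hβ v hv).1 (by have := (hT' β hβ v hv).2; omega)
      · exact .fx (ih δ h.1 (by omega))
    exact .gn (k δ h3) (k δ' h4) h2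

theorem index_dvd {G F : Type*} [Group G] [Field F] [Fintype F] {z : F → G}
    (hz : Function.Injective z) {P : Subgroup G}
    (hP : ∀ a ∈ P, ∃ c, c ≠ 0 ∧ ∀ t, a * z t * a⁻¹ = z (c * t)) :
    (Subgroup.centralizer {z 1}).index ∣ (Fintype.card F - 1) * P.index := by
  classical
  choose c hc hc' using hP
  let χ : P →* Fˣ := MonoidHom.mk' (fun a => Units.mk0 (c a a.2) (hc a a.2)) fun a b =>
    Units.ext (by
      have := hc' _ (a * b).2 1
      rw [show (a * b).1 * z 1 * (a * b).1⁻¹ = a.1 * (b.1 * z 1 * b.1⁻¹) * a.1⁻¹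
        by rw [Subgroup.coe_mul]; group, hc' _ b.2, hc' _ a.2] at this
      simpa using (hz this).symm)
  have h1 : χ.ker.map P.subtype ≤ Subgroup.centralizer {z 1} := by
    rintro _ ⟨a, ha, rfl⟩
    have := hc' _ a.2 1
    rw [show c a a.2 = 1 from congrArg Units.val ha, mul_one, mul_inv_eq_iff_eq_mul] at this
    exact Subgroup.mem_centralizer_singleton_iff.2 this
  refine (Subgroup.index_dvd_of_le h1).trans ?_
  rw [Subgroup.index_map_subtype, Subgroup.index_ker, ← Fintype.card_units, ← Nat.card_eq_fintype_card]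
  exact Nat.mul_dvd_mul_right (Subgroup.card_subgroup_dvd_card _) _

theorem dvd_of_trace {G V : Type*} [Group G] [Finite G] [AddCommGroup V] [Module ℂ V]
    [FiniteDimensional ℂ V] {ρ : Representation ℂ G V} (hρ : ρ.IsIrreducible) (h2 : 2 ≤ finrank ℂ V)
    {g : G} {a b : ℕ} (h : LinearMap.trace ℂ V (ρ g) = finrank ℂ V - (a : ℕ))
    (hb : (Subgroup.centralizer {g}).index ∣ b) : finrank ℂ V ∣ a * b := by
  have h1 := Char.isIrr_isIntegral_central (Char.isIrr_character ρ) g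
  have h3 : (finrank ℂ V : ℤ) ∣ (Subgroup.centralizer {g}).index * (finrank ℂ V - a : ℤ) :=
    Char.int_dvd_of_isIntegral_div (by omega) (by
      convert h1 using 2
      · push_cast; rw [← h]; rfl
      · simp)
  rw [mul_sub, dvd_sub_right (dvd_mul_left _ _)] at h3
  rw [mul_comm]
  exact (Int.natCast_dvd_natCast.1 (by push_cast; exact h3)).trans (Nat.mul_dvd_mul_right hb a)

theorem nt {q A E m j d : ℕ} (hq : IsPrimePow q) (h : d + j = q * A) (h0 : 0 < j) (h1 : j < q)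
    (hd : d ∣ q ^ m * (A * E)) : ∃ e, 0 < e ∧ e ≤ j ∧ d ∣ e * j * E := by
  obtain ⟨p, k, hp, -, rfl⟩ := (isPrimePow_nat_iff q).1 hq
  have h2 := Nat.gcd_dvd_right d ((p ^ k) ^ m)
  rw [← pow_mul, Nat.dvd_prime_pow hp] at h2
  obtain ⟨s, -, hs⟩ := h2
  rw [pow_mul] at hs
  have h3 := Nat.gcd_dvd_left d ((p ^ k) ^ m)
  have h4 := Nat.dvd_gcd_mul_iff_dvd_mul.2 hd
  rw [hs] at h3 h4
  rcases le_total s k with e | e
  · refine ⟨p ^ s, pow_pos hp.pos _, Nat.le_of_dvd h0 ((Nat.dvd_add_right h3).1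
      (h ▸ (pow_dvd_pow p e).mul_right A)), (Nat.dvd_add_right (dvd_mul_right d (p ^ s * E))).1 ?_⟩
    rw [show d * (p ^ s * E) + p ^ s * j * E = p ^ s * E * (d + j) by ring, h,
      show p ^ s * E * (p ^ k * A) = p ^ s * (A * E) * p ^ k by ring]
    exact h4.mul_right _
  · exact absurd (Nat.le_of_dvd h0 ((Nat.dvd_add_right ((pow_dvd_pow p e).trans h3)).1
      (h ▸ dvd_mul_right _ A))) (by omega)

theorem fin {q A T h m r d : ℕ} (hq : IsPrimePow q) (hT : q * (q * A) = q ^ h + T) (hr : r < q)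
    (h1 : r * q ≤ T) (h2 : r * r * (T + 1) + r < q * A) (h3 : q * A ≤ d + r) (h4 : d < q * A)
    (hd : d ∣ q ^ m * (A * (q ^ h - 1))) : False := by
  obtain ⟨j, hj⟩ : ∃ j, d + j = q * A := ⟨q * A - d, by omega⟩
  obtain ⟨e, e0, e1, e2⟩ := nt hq hj (by omega) (by omega) hd
  obtain ⟨E, hE⟩ : ∃ E, q ^ h = E + 1 := ⟨_, (Nat.succ_pred_eq_of_pos (pow_pos hq.pos h)).symm⟩
  have h5 : j * q ≤ r * q := Nat.mul_le_mul_right q (by omega)
  obtain ⟨R, hR⟩ : ∃ R, T = j * q + R := ⟨T - j * q, by omega⟩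
  rw [hE, Nat.add_sub_cancel] at e2
  have h6 : q * d = E + (R + 1) := by rw [← hj, hE, hR, mul_add, mul_comm q j] at hT; omega
  have h7 : d ∣ e * j * (R + 1) := (Nat.dvd_add_right e2).1 (by
    rw [← mul_add, ← h6, ← mul_assoc]; exact dvd_mul_left _ _)
  have h8 := Nat.le_of_dvd (by have : 0 < j := by omega
                               positivity) h7
  have h9 : e * j * (R + 1) ≤ r * r * (T + 1) :=
    Nat.mul_le_mul (Nat.mul_le_mul (by omega) (by omega)) (by omega)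
  omega

section
variable {D : ChevalleyDatum} [g : Good2 D] {F : Type*} [Field F] {G : Type*} [Group G]

theorem par_of_SLD {k : Ix D} {θ : Rt D} {P P' : ℕ} {s : Rt D} {a : List ℤ}
    (h : SLD k θ P P' s a) {J : Set (Ix D)} (hk : k ∉ J) (r : Rt D) (hr : Pos r ∨ PhiK J r) :
    0 ≤ pr θ r := by
  rw [← prQ_eq, h.prθ]
  exact hr.elim (fun h => (pos_iff r).1 h k) fun h => (h k hk).ge

/-- simply laced data -/
structure SL (θ : Rt D) : Prop where
  conj : ∀ r : Rt D, ∃ w : W D, w • r = θ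
  lg : LgR θ
  one : ∀ β, pr θ β = -1 → One θ β
  prim : Prim θ

theorem SL.of_SLD {k : Ix D} {θ : Rt D} {P P' : ℕ} {s : Rt D} {a : List ℤ}
    (h : SLD k θ P P' s a) (h' : ca k θ = 1) : SL θ where
  conj r := by
    obtain ⟨w, hw⟩ := exists_dom r
    exact ⟨w, h.dom _ fun i => ca_eq' i _ ▸ hw i⟩
  lg s hs := by
    rw [← prQ_eq, h.prθ]
    by_contra H
    exact hs (h.top.2.2.2 s (by omega))
  one β hβ := (h.m1 β (by rwa [← h.prθ, prQ_eq])).2
  prim := ⟨sim k, by rwa [pr_sim]⟩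

namespace SL
variable {θ : Rt D} (H : SL θ)
include H

theorem all (r : Rt D) : LgR r := by
  obtain ⟨w, hw⟩ := H.conj r
  exact (lg_smul_iff w).1 (hw ▸ H.lg)

theorem eq_one {r s v : Rt D} (h : s ≠ ng r) {i j : ℤ} (hi : 0 < i) (hj : 0 < j)
    (e : co v = i • co r + j • co s) : co v = co r + co s := by
  have h1 := pr_lin r e
  have h2 := pr_lin s e
  have h3 := (H.all r).neg_le h
  have h4 := (H.all s).neg_le (s := r) fun e => h (by rw [e, ng_ng])
  have h5 : pr r v ≤ 1 ∨ v = r := or_iff_not_imp_right.2 (H.all r v)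
  have h6 : pr s v ≤ 1 ∨ v = s := or_iff_not_imp_right.2 (H.all s v)
  rw [pr_self] at h1 h2
  have h7 : -j ≤ j * pr r s := by nlinarith
  have h8 : -i ≤ i * pr s r := by nlinarith
  have k : ∀ {a b : Rt D} {i j : ℤ}, 0 < j → co a = i • co a + j • co b → i ≠ 1 := by
    rintro a b i j hj e rfl
    rw [one_smul, left_eq_add, smul_eq_zero] at e
    exact e.elim hj.ne' (co_ne_zero b)
  have : i = 1 ∧ j = 1 := by
    rcases h5 with h5 | rfl <;> rcases h6 with h6 | h6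
    · omega
    · subst h6
      have := k hi (e.trans (add_comm _ _))
      rw [pr_self] at h2; omega
    · have := k hj e
      rw [pr_self] at h1; omega
    · subst h6
      rw [pr_self] at h1; omega
  rw [e, this.1, this.2, one_smul, one_smul]

theorem pr_eq_one {α β β' : Rt D} (h : co α = co β + co β') : pr α β = 1 := by
  have h1 := pr_lin α (v := α) (a := β) (b := β') (i := 1) (j := 1) (by simpa using h)
  have h2 := H.all α β fun e => co_ne_zero β' (by rwa [e, left_eq_add] at h)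
  have h3 := H.all α β' fun e => co_ne_zero β (by rwa [e, right_eq_add] at h)
  rw [pr_self] at h1; omega

variable (S : StSys D F G)

theorem cl {r s : Rt D} (h : s ≠ ng r) {K : Subgroup G}
    (hK : ∀ v, co v = co r + co s → ∀ t, S.x v t ∈ K) (t u : F) :
    (S.x s u * S.x r t)⁻¹ * (S.x r t * S.x s u) ∈ K :=
  S.comm_mem (fun e => h (by rw [e, ng_ng])) (fun v _ _ hi hj e =>
    hK v ((H.eq_one (fun e => h (by rw [e, ng_ng])) hi hj e).trans (add_comm _ _))) u t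

theorem cm {r s : Rt D} (h : s ≠ ng r) (h' : ∀ v, co v ≠ co r + co s) (t u : F) :
    S.x r t * S.x s u = S.x s u * S.x r t :=
  (inv_mul_eq_one.1 (H.cl S h (K := ⊥) (fun v e => absurd e (h' v)) t u)).symm

theorem cm_of_pr {r s : Rt D} (h : 0 ≤ pr r s) (t u : F) :
    S.x r t * S.x s u = S.x s u * S.x r t := by
  refine H.cm S (fun e => by rw [e, pr_ng_right, pr_self] at h; omega) (fun v e => ?_) t u
  have h1 := pr_lin r (v := v) (a := r) (b := s) (i := 1) (j := 1) (by simpa using e)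
  have h2 := H.all r v fun e' => co_ne_zero s (by rwa [e', left_eq_add] at e)
  rw [pr_self] at h1; omega

theorem cm_of_lev {α r s : Rt D} (h1 : pr α r = 1) (h2 : pr α s = 1) (h : co α ≠ co r + co s)
    (t u : F) : S.x r t * S.x s u = S.x s u * S.x r t := by
  refine H.cm S (fun e => by rw [e, pr_ng_right] at h2; omega) (fun v e => ?_) t u
  have h3 := pr_lin α (v := v) (a := r) (b := s) (i := 1) (j := 1) (by simpa using e)
  have h4 := H.all α v fun e' => h (e' ▸ e)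
  omega

theorem gn {r s v : Rt D} (h : co v = co r + co s) : ∃ C : F, C ≠ 0 ∧ ∀ t u,
    S.x r t * S.x s u = S.x s u * S.x r t * S.x v (C * t * u) := by
  obtain ⟨w, hw⟩ := H.conj s
  obtain ⟨a, -, ha⟩ := S.exists_N w⁻¹
  have e : co (w • v) = co (w • r) + co θ := by
    simpa [hw] using co_smul_of_eq w (v := v) (r := r) (s := s) (a := 1) (b := 1) (by simpa using h)
  have h1 : pr θ (w • r) = -1 := by
    have := pr_lin θ (v := w • v) (a := w • r) (b := θ) (i := 1) (j := 1) (by simpa using e)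
    rw [H.pr_eq_one (β := w • v) (β' := ng (w • r)) (by rw [e, co_ng]; abel), pr_self] at this
    omega
  obtain ⟨v', C, hC, h2, h3⟩ := (H.one _ h1).exists
  obtain rfl : v' = w • v := co_inj (by rw [h3, e, add_comm])
  have h4 := S.comm θ (w • r) (fun e => by rw [e, pr_self] at h1; omega)
    (fun e => by rw [e, pr_ng_right, pr_self] at h1; omega)
  simp only [ChevalleyDatum.commWord, h2, List.map_cons, List.map_nil, wd_cons, wd_nil, mul_one,
    pow_one] at h4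
  obtain ⟨c1, hc1, e1, -⟩ := ha.exists_conj (w • r)
  obtain ⟨c2, hc2, e2, -⟩ := ha.exists_conj θ
  obtain ⟨c3, hc3, e3, -⟩ := ha.exists_conj (w • v)
  rw [inv_smul_smul] at e1 e3
  rw [← hw, inv_smul_smul, hw] at e2
  refine ⟨-(c3 * C / (c1 * c2)), by simp [hc1, hc2, hc3, cast_ne_zero_of_sq hC], fun t u => ?_⟩
  have := congrArg (fun y => a * y * a⁻¹) (h4 (u / c2) (t / c1))
  simp only [← conj_mul, e1, e2, e3, mul_div_cancel₀ _ hc1, mul_div_cancel₀ _ hc2] at this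
  rw [this]; congr 2; field_simp

theorem conj_x (r s : Rt D) {c : F} (hc : c ≠ 0) : ∃ a ∈ S.N, ∀ t,
    S.x r t * a = a * S.x s (c * t) := by
  obtain ⟨w, hw⟩ := H.conj r
  obtain ⟨w', hw'⟩ := H.conj s
  obtain ⟨a, ha', ha⟩ := S.exists_N w
  obtain ⟨b, hb', hb⟩ := S.exists_N w'
  obtain ⟨c1, hc1, e1, -⟩ := ha.exists_conj r
  obtain ⟨c2, hc2, e2, -⟩ := hb.exists_conj s
  obtain ⟨p, hp⟩ := H.prim
  have h0 : c2 * c / c1 ≠ 0 := by simp [hc, hc1, hc2]
  refine ⟨(S.h p (c2 * c / c1) * a)⁻¹ * b, mul_mem (inv_mem (mul_mem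
    (S.H_le_N (S.h_mem_H p h0)) ha')) hb', fun t => ?_⟩
  have e3 := S.h_conj p h0 θ (c1 * t)
  rw [hp, zpow_one, ← mul_assoc _ c1, div_mul_cancel₀ _ hc1, mul_assoc c2, ← hw, ← e1, hw, ← hw',
    ← e2] at e3
  calc _ = (S.h p (c2 * c / c1) * a)⁻¹ * (S.h p (c2 * c / c1) * (a * S.x r t * a⁻¹) *
      (S.h p (c2 * c / c1))⁻¹) * b := by group
    _ = _ := by rw [e3]; group

/-- the data of a simply laced group -/
def md : MD G F (Rt D) fun _ => F where
  x := S.x
  add := S.add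
  z := S.x
  z_add := S.add
  lg _ := True
  z_x _ _ s := ⟨s, rfl⟩
  x_z _ _ s := ⟨s, rfl⟩
  conj r s _ _ _ hc := (H.conj_x S r s hc).imp fun _ h => h.2

theorem md_cl {r s : Rt D} (h : s ≠ ng r) {T : Rt D → Prop} (hT : ∀ v, co v = co r + co s → T v) :
    (H.md S).Cl r s T := fun _ hK t u => H.cl S h (fun v e => hK v (hT v e)) t u

theorem md_gn {r s v : Rt D} (h : co v = co r + co s) : (H.md S).Gn r s v := fun c => by
  obtain ⟨C, hC, e⟩ := H.gn S h
  exact ⟨1, c / C, (e 1 _).trans (by rw [mul_one, mul_div_cancel₀ _ hC]; rfl)⟩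

theorem md_hs [Fintype F] {α β β' : Rt D} (h : co α = co β + co β') : (H.md S).Hs α β β' := by
  obtain ⟨C, hC, e⟩ := H.gn S h
  refine ⟨rfl, ⟨fun b => AddMonoidHom.mulRight b |>.comp (AddMonoidHom.mulLeft C), e,
    fun b b' hb s => ⟨s / (C * (b - b')), ?_⟩⟩, H.cm_of_pr S (by rw [H.pr_eq_one h]; omega),
    H.cm_of_pr S (by rw [H.pr_eq_one (h.trans (add_comm _ _))]; omega)⟩
  have := sub_ne_zero.2 hb
  simp only [AddMonoidHom.comp_apply, AddMonoidHom.coe_mulLeft, AddMonoidHom.coe_mulRight]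
  field_simp

theorem md_lag [Fintype F] {α : Rt D} {L : List (Rt D)} (hL : L.Nodup) {π : Rt D → Rt D}
    (h : ∀ β ∈ L, co α = co β + co (π β) ∧ π β ∉ L) : (H.md S).Lag α (L.map fun β => (β, π β)) := by
  refine ⟨fun p hp => ?_, List.pairwise_map.2 (hL.imp_of_mem fun {a b} ha hb hab => ⟨?_, ?_⟩)⟩
  · obtain ⟨β, hβ, rfl⟩ := List.mem_map.1 hp
    exact H.md_hs S (h β hβ).1
  · exact H.cm_of_lev S (H.pr_eq_one (h a ha).1) (H.pr_eq_one (h b hb).1) fun e =>
      (h a ha).2 (co_inj (add_left_cancel ((h a ha).1.symm.trans e)) ▸ hb)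
  · exact H.cm_of_lev S (H.pr_eq_one (h a ha).1) (H.pr_eq_one ((h b hb).1.trans (add_comm _ _)))
      fun e => hab (co_inj (add_right_cancel (e.symm.trans (h b hb).1)))

theorem par {J : Set (Ix D)} (hθ : ∀ r, Pos r ∨ PhiK J r → 0 ≤ pr θ r) {a : G} (ha : a ∈ S.P J) :
    ∃ c, c ≠ 0 ∧ ∀ t, a * S.x θ t * a⁻¹ = S.x θ (c * t) := by
  let K : Subgroup G :=
    { carrier := {a | ∃ c, c ≠ 0 ∧ ∀ t, a * S.x θ t * a⁻¹ = S.x θ (c * t)}
      one_mem' := ⟨1, one_ne_zero, by simp⟩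
      mul_mem' := fun {a b} ⟨c, hc, e⟩ ⟨c', hc', e'⟩ => ⟨c * c', mul_ne_zero hc hc', fun t => by
        rw [mul_assoc c, ← e, ← e']; group⟩
      inv_mem' := fun {a} ⟨c, hc, e⟩ => ⟨c⁻¹, inv_ne_zero hc, fun t => by
        have := e (c⁻¹ * t)
        rw [mul_inv_cancel_left₀ hc] at this
        rw [← this]; group⟩ }
  rw [P_eq] at ha
  refine (sup_le (fun a ha => ?_) (S.XS_le.2 fun r hr t => ⟨1, one_ne_zero, fun u => ?_⟩) :
    _ ≤ K) ha
  · obtain ⟨c, hc, e, -⟩ := (mono_of_mem_H ha).exists_conj θ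
    exact ⟨c, hc, by simpa using e⟩
  · rw [← H.cm_of_pr S (hθ r hr), one_mul, mul_inv_cancel_right]

theorem nontriv (hS : S.grp = ⊤) {V : Type*} [AddCommGroup V] [Module ℂ V]
    {ρ : Representation ℂ G V} (h : ∃ a, ρ a ≠ 1) (r : Rt D) : ρ (S.x r 1) ≠ 1 := fun e => by
  obtain ⟨a, ha⟩ := h
  refine ha ((S.XS_le.2 fun s _ t => ?_ : S.grp ≤ ρ.ker) (hS.ge (Subgroup.mem_top a)))
  by_cases ht : t = 0
  · simp [ht]
  obtain ⟨b, -, hb⟩ := H.conj_x S r s ht
  have := conj_eq_one ρ e b⁻¹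
  rwa [inv_inv, mul_assoc, hb, mul_one, inv_mul_cancel_left] at this

end SL

theorem index_P {S : StSys D F G} [Finite F] [Finite G] (hS : S.grp = ⊤) {J : Set (Ix D)} {n : ℤ}
    (h : (Fold.triv D).P Set.univ (Nat.card F) = n * (Fold.triv D).P J (Nat.card F)) :
    ((S.P J).index : ℤ) = n := by
  have h1 := S.card_P J
  have h2 := S.card_P Set.univ
  rw [P_univ, hS, Subgroup.card_top, h, ← Subgroup.index_mul_card (S.P J), Nat.cast_mul,
    mul_left_comm, ← h1] at h2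
  exact mul_right_cancel₀ (by exact_mod_cast Nat.card_pos.ne') h2

noncomputable section
/-- a table of large numbers -/
def fld (N i : ℕ) : ℕ := Nat.mod (Nat.shiftRight N (Nat.mul 64 i)) 18446744073709551616
/-- the test for sums -/
def smOK (n LV v r s : ℕ) : Bool := Nat.blt r n && Nat.blt s n &&
  Nat.beq (Nat.add (fld LV v) 4611686018427387904) (Nat.add (fld LV r) (fld LV s))
/-- the test for ranks -/
def rk (R k δ : ℕ) : Bool := !(Nat.beq (byte R δ) 0) && Nat.blt (byte R δ) k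
/-- the test for a root -/
def chkLoc (D : ChevalleyDatum) (LV m α k : ℕ) (c : ℕ × ℕ × ℕ × ℕ) : Bool :=
  allN D.nroots (fun γ => force (byte c.1 γ) fun f =>
    (!(Nat.beq f 0) || Nat.ble (fld LV γ) (fld LV α)) &&
    (!(Nat.beq f 1) || (smOK D.nroots LV α γ (byte c.2.2.1 γ) &&
      !(Nat.beq (byte c.1 (byte c.2.2.1 γ)) 1))) &&
    (Nat.blt f 2 || (smOK D.nroots LV γ (byte c.2.2.1 γ) (byte c.2.2.2 γ) &&
      (rk c.2.1 f (byte c.2.2.1 γ) || rk c.1 f (byte c.2.2.1 γ)) &&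
      (rk c.2.1 f (byte c.2.2.2 γ) || rk c.1 f (byte c.2.2.2 γ)))) &&
    (!(Nat.beq γ α || Nat.beq f 1) || (Nat.beq (byte c.2.1 (Cert.ng D γ)) 0 &&
      lall (row D γ) fun e => force (byte c.2.1 e.1) fun s => Nat.beq s 0 ||
        lall e.2.toList fun a => rk c.1 s a.1))) &&
  Nat.beq ((List.range D.nroots).countP fun β => Nat.beq (byte c.1 β) 1) m &&
  Nat.beq ((List.range D.nroots).countP fun β => Nat.beq (byte c.1 β) 1 &&
    Nat.blt 4611686018427387904 (fld LV β) &&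
    Nat.blt 4611686018427387904 (fld LV (byte c.2.2.1 β))) k
/-- a test along two lists -/
def lall2 {α β : Type} (p : α → β → Bool) (l : List α) : List β → Bool :=
  List.rec (fun _ => true) (fun a _ ih m => List.rec false (fun b m' _ => p a b && ih m') m) l
end

theorem lall2_spec {α β : Type} {p : α → β → Bool} : ∀ {l : List α} {m : List β},
    lall2 p l m = true → ∀ a ∈ l, ∃ b, p a b = true
  | [], _, _ => by simp
  | _ :: _, [], h => absurd h Bool.false_ne_true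
  | a :: l, b :: m, h => by
    have h' : (p a b && lall2 p l m) = true := h
    rw [Bool.and_eq_true] at h'
    exact List.forall_mem_cons.2 ⟨⟨b, h'.1⟩, lall2_spec h'.2⟩

theorem length_filter (n : ℕ) (p : ℕ → Bool) :
    ((List.finRange n).filter fun β : Fin n => p β.1).length = (List.range n).countP p := by
  rw [← List.countP_eq_length_filter, ← List.map_coe_finRange_eq_range, List.countP_map]; rfl

theorem wt_const {R : Type*} [Fintype F] (L : List R) (π : R → R) :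
    MD.wt (fun _ : R => F) (L.map fun β => (β, π β)) = Fintype.card F ^ L.length := by
  simp [MD.wt, Function.comp_def]

/-- the linear functional is tabulated -/
structure Tab (w : Ix D → ℤ) (LV : ℕ) : Prop where
  val : ∀ r : Rt D, (fld LV r : ℤ) = ph w r + 4611686018427387904
  inj : ∀ u : Ix D → ℤ, (∀ i, -24 ≤ u i ∧ u i ≤ 24) → lin w u = 0 → u = 0

theorem co_bound (r : Rt D) (i : Ix D) : -8 ≤ co r i ∧ co r i ≤ 8 := by
  have := Nat.mod_lt (Nat.shiftRight g.cert.CO (Nat.mul 4 (Nat.add (Nat.mul D.rank r) i)))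
    (show 0 < 16 by norm_num)
  simp only [co, Cert.co, nib, Int.subNatNat_eq_coe]
  change -8 ≤ ((_ % 16 : ℕ) : ℤ) - (8 : ℕ) ∧ ((_ % 16 : ℕ) : ℤ) - (8 : ℕ) ≤ 8
  omega

theorem Tab.sm {w : Ix D → ℤ} {LV : ℕ} (T : Tab w LV) {v : Rt D} {r s : ℕ}
    (h : smOK D.nroots LV v r s = true) : ∃ r' s' : Rt D, r = r' ∧ s = s' ∧ co v = co r' + co s' := by
  simp only [smOK, Bool.and_eq_true, Nat.blt_eq, Nat.beq_eq, Nat.add_eq] at h
  obtain ⟨⟨h1, h2⟩, h3⟩ := h
  lift r to Rt D using h1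
  lift s to Rt D using h2
  refine ⟨r, s, rfl, rfl, sub_eq_zero.1 (T.inj _ (fun i => ?_) ?_)⟩
  · have := co_bound v i; have := co_bound r i; have := co_bound s i
    simp only [Pi.sub_apply, Pi.add_apply]; omega
  · have := T.val v; have := T.val r; have := T.val s
    simp only [map_sub, map_add, ph] at *; omega

theorem SL.loc [Fintype F] {θ : Rt D} (H : SL θ) (S : StSys D F G) {w : Ix D → ℤ} {LV : ℕ}
    (T : Tab w LV) {m k : ℕ} {α : Rt D} {c : ℕ × ℕ × ℕ × ℕ} (h : chkLoc D LV m α k c = true) :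
    (H.md S).Loc (Fintype.card F ^ m) (fun γ => ph w α < ph w γ) (Fintype.card F ^ k) α := by
  simp only [chkLoc, Bool.and_eq_true, allN_iff, force_eq, Bool.or_eq_true, Bool.not_eq_true',
    Nat.beq_eq, Nat.ble_eq, Nat.blt_eq, lall_iff, rk, ← Bool.not_eq_true] at h
  obtain ⟨⟨h, h1⟩, h2⟩ := h
  rw [← length_filter] at h1 h2
  have hS : ∀ β : Rt D, byte c.1 β = 1 → byte c.2.2.1 β = wit c.2.2.1 β ∧
      co α = co β + co (wit c.2.2.1 β) ∧ byte c.1 (wit c.2.2.1 β) ≠ 1 := fun β hβ => by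
    obtain ⟨h3, h4⟩ := (h β β.2).1.1.2.resolve_left (not_not.2 hβ)
    obtain ⟨r, s, e1, e2, e3⟩ := T.sm h3
    obtain rfl : s = wit c.2.2.1 β := Fin.ext (by simp only [wit, e2, Nat.mod_eq_of_lt s.2])
    exact ⟨e2, Fin.ext e1 ▸ e3, e2 ▸ h4⟩
  rw [← h1, ← h2, ← wt_const _ (wit c.2.2.1), ← wt_const _ (wit c.2.2.1)]
  refine ⟨trivial, _, _, H.md_lag S ((List.nodup_finRange _).filter _)
    fun β hβ => ?_, H.md_lag S ((List.nodup_finRange _).filter _)
    fun β hβ => ?_, rfl, rfl, ?_, fun γ hγ => ?_, ?_⟩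
  · simp only [List.mem_filter, Nat.beq_eq] at hβ ⊢
    exact ⟨(hS β hβ.2).2.1, fun e => (hS β hβ.2).2.2 e.2⟩
  · simp only [List.mem_filter, Nat.beq_eq, Bool.and_eq_true] at hβ ⊢
    exact ⟨(hS β hβ.2.1.1).2.1, fun e => (hS β hβ.2.1.1).2.2 e.2.1.1⟩
  · simp only [List.mem_map, List.mem_filter, Nat.beq_eq, Bool.and_eq_true]
    rintro _ ⟨β, hβ, rfl⟩
    exact ⟨_, ⟨β, ⟨hβ.1, hβ.2.1.1⟩, rfl⟩, rfl⟩
  · refine MD.der_of_rank (fun r : Rt D => byte c.1 r) (fun r : Rt D => byte c.2.1 r) (fun β hβ => ⟨_,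
      List.mem_map_of_mem (List.mem_filter.2 ⟨List.mem_finRange β, by simpa using hβ⟩), rfl⟩)
      (fun δ hδ β hβ => ?_) (fun v hv => ?_) γ ?_
    · have h3 := (h β β.2).2.resolve_left (not_not.2 (hβ.imp (congrArg Fin.val) (by
        rintro ⟨_, hp, e⟩
        obtain ⟨β', hβ', rfl⟩ := List.mem_map.1 hp
        rw [e]
        simpa using hβ')))
      refine ⟨_, H.md_cl S (fun e => hδ (by rw [e, ng_val']; exact h3.1)) fun _ h => h,
        fun v hv => ?_⟩
      have h4 := chainRoot_of_co hv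
      rw [ChevalleyDatum.chainRoot, chainEntry_eq, Option.map_eq_some_iff] at h4
      obtain ⟨a, h4, h5⟩ := h4
      rcases lookup_eq_nil_or δ (row D β) with h6 | ⟨e, he, h6, h7⟩
      · simp [h6] at h4
      · have := ((h3.2 e he).resolve_left (h6 ▸ hδ)) a (h7 ▸ List.mem_of_getElem? h4)
        rwa [h5, h6] at this
    · obtain ⟨⟨h3, h4⟩, h5⟩ := (h v v.2).1.2.resolve_left (not_lt.2 hv)
      obtain ⟨r, s, e1, e2, e3⟩ := T.sm h3
      exact ⟨r, s, H.md_gn S e3, e1 ▸ h4, e2 ▸ h5⟩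
    · refine (h γ γ.2).1.1.1.resolve_right (not_le.2 ?_)
      have := T.val α; have := T.val γ; omega
  · simp only [List.mem_map, List.mem_filter, Nat.beq_eq, Bool.and_eq_true, Nat.blt_eq]
    rintro _ ⟨β, ⟨-, ⟨h3, h4⟩, h5⟩, rfl⟩ γ hγ
    obtain ⟨e1, e2, -⟩ := hS β h3
    rw [e1] at h5
    have h6 := T.val β
    have h7 := T.val (wit c.2.2.1 β)
    have h8 := ph_of_co w (v := α) (r := β) (s := wit c.2.2.1 β) (a := 1) (b := 1) (by simpa using e2)
    have k : ∀ δ : Rt D, 0 < ph w δ → (H.md S).Cl γ δ fun γ => ph w α < ph w γ := fun δ hδ =>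
      H.md_cl S (ne_ng_of_ph (c := w) (by omega)) fun v hv => by
        have := ph_of_co w (v := v) (r := γ) (s := δ) (a := 1) (b := 1) (by simpa using hv)
        omega
    exact ⟨k β (by omega), k (wit c.2.2.1 β) (by omega)⟩

theorem SL.bound [Fintype F] [Finite G] {θ : Rt D} (H : SL θ) {S : StSys D F G} (hS : S.grp = ⊤)
    {w : Ix D → ℤ} {LV : ℕ} (T : Tab w LV) {m HT : ℕ} {L : List (Rt D)}
    (h : ∀ α ∈ L, ∃ c, chkLoc D LV m α (byte HT α) c = true)
    (hp : L.Pairwise fun a b : Rt D => fld LV b.1 < fld LV a.1) (hθ : θ ∈ L) {β δ : Rt D}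
    (hβ : co θ = co β + co δ) {J : Set (Ix D)} (hJ : ∀ r, Pos r ∨ PhiK J r → 0 ≤ pr θ r) {n : ℤ}
    (hn : (Fold.triv D).P Set.univ (Nat.card F) = n * (Fold.triv D).P J (Nat.card F))
    {V : Type*} [AddCommGroup V] [Module ℂ V] [FiniteDimensional ℂ V] {ρ : Representation ℂ G V}
    (hρ : ρ.IsIrreducible) (h2 : 2 ≤ finrank ℂ V) :
    2 * (Fintype.card F ^ 2 - 1) * Fintype.card F ^ m ≤ Fintype.card F * finrank ℂ V ∨
      ((Fintype.card F - 1) * ((L.map fun α : Rt D => byte HT α.1).map (Fintype.card F ^ ·)).sum ≤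
        finrank ℂ V ∧ ∃ I : ℕ, (I : ℤ) = n ∧
        finrank ℂ V ∣ Fintype.card F ^ (m + 1) * ((Fintype.card F - 1) * I)) := by
  refine (MD.main (M := H.md S) (ρ := ρ) (k := fun α => Fintype.card F ^ byte HT α)
    (K := fun α γ => ph w α < ph w γ) (fun α hα => (h α hα).elim fun c hc => H.loc S T hc)
    (hp.imp fun {a b} e => by have := T.val a; have := T.val b; omega) hθ trivial (H.md_hs S hβ) rfl
    (H.nontriv S hS (nontriv_of_irr ρ hρ h2) θ)).imp_right fun h => ⟨by rw [List.map_map]; exact h.1,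
      _, index_P hS hn, dvd_of_trace hρ h2 (g := S.x θ 1) (by rw [pow_succ']; exact_mod_cast h.2)
        (index_dvd (fun _ _ => S.x_inj) fun a ha => H.par S hJ ha)⟩

end
end Cfsg.Agent.Chev.Md
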