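import Mathlib
import Cfsg.Agent.Chev.MdB

/-! Representations with a unique line fixed by the maximal unipotent subgroup. -/

set_option autoImplicit false
set_option linter.unusedSectionVars false
set_option maxHeartbeats 400000

namespace Cfsg.Agent.Chev.Md
open Module Cfsg.Agent.Classical.LS Cfsg.Lie StSys

section
variable {G V : Type*} [Group G] [Finite G] [AddCommGroup V] [Module ℂ V] [FiniteDimensional ℂ V]
  {ρ : Representation ℂ G V}

theorem exists_phi {U : Subgroup G} {v : V} (h0 : v ≠ 0) (h1 : ∀ u ∈ U, ρ u v = v)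
    (h2 : ∀ y, (∀ u ∈ U, ρ u y = y) → ∃ c : ℂ, y = c • v) : ∃ φ : V →ₗ[ℂ] ℂ, φ v = 1 ∧
      (∀ u ∈ U, ∀ y, φ (ρ u y) = φ y) ∧
      ∀ (ψ : V →ₗ[ℂ] ℂ) (y : V), (∀ u ∈ U, ψ (ρ u y) = ψ y) → ψ y = φ y * ψ v := by
  classical
  have := Fintype.ofFinite U
  obtain ⟨f, hf⟩ : ∃ f : Dual ℂ V, f v ≠ 0 := by
    by_contra! H
    exact h0 ((forall_dual_apply_eq_zero_iff ℂ v).1 H)
  have hc : (Fintype.card U : ℂ) ≠ 0 := by simp
  let e : End ℂ V := (Fintype.card U : ℂ)⁻¹ • ∑ u : U, ρ u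
  have he : ∀ y, e y = (Fintype.card U : ℂ)⁻¹ • ∑ u : U, ρ u y := fun y => by simp [e]
  have e1 : ∀ (ψ : V →ₗ[ℂ] ℂ) (y : V), (∀ u ∈ U, ψ (ρ u y) = ψ y) → ψ (e y) = ψ y := fun ψ y h => by
    rw [he, map_smul, map_sum, Finset.sum_congr rfl fun (u : U) _ => h u u.2]; simp [hc]
  have e2 : ∀ y, ∃ c : ℂ, e y = c • v := fun y => h2 _ fun u hu => by
    rw [he, map_smul, map_sum]
    congr 1
    exact Fintype.sum_equiv (Equiv.mulLeft ⟨u, hu⟩) _ _ fun a => by simp
  have e3 : ∀ u ∈ U, ∀ y, e (ρ u y) = e y := fun u hu y => by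
    rw [he, he]
    congr 1
    exact Fintype.sum_equiv (Equiv.mulRight ⟨u, hu⟩) _ _ fun a => by simp
  refine ⟨(f v)⁻¹ • f ∘ₗ e, ?_, fun u hu y => by simp [e3 u hu], fun ψ y h => ?_⟩
  · simp [e1 f v fun u hu => by rw [h1 u hu], hf]
  · obtain ⟨c, hc⟩ := e2 y
    rw [← e1 ψ y h, hc]
    simp [hc, hf, mul_left_comm (f v)⁻¹]

theorem schur_sum [Fintype G] (hρ : ρ.IsIrreducible) {v : V} {φ : V →ₗ[ℂ] ℂ} (h : φ v = 1) :
    finrank ℂ V * ∑ g, φ (ρ g v) * φ (ρ g⁻¹ v) = Fintype.card G := by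
  obtain ⟨c, hc⟩ := Char.exists_eq_smul_of_comm ρ (∑ g, ρ g * φ.smulRight v * ρ g⁻¹) fun a => by
    change _ * ρ a = ρ a * _
    rw [Finset.sum_mul, Finset.mul_sum]
    refine (Fintype.sum_equiv (Equiv.mulLeft a) _ _ fun g => ?_).symm
    simp only [Equiv.coe_mulLeft, mul_inv_rev, map_mul, mul_assoc]
    rw [← map_mul ρ a⁻¹, inv_mul_cancel, map_one, mul_one]
  have h1 := congrArg (LinearMap.trace ℂ V) hc
  have h2 := congrArg (fun f : End ℂ V => φ (f v)) hc
  simp only [map_sum, LinearMap.trace_mul_cycle ℂ (ρ _), ← map_mul, inv_mul_cancel, map_one, one_mul,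
    LinearMap.trace_smulRight, h, map_smul, LinearMap.trace_id, smul_eq_mul] at h1
  simp only [LinearMap.sum_apply, End.mul_apply, LinearMap.smulRight_apply, map_smul, map_sum,
    LinearMap.smul_apply, LinearMap.id_apply, h, smul_eq_mul, mul_one] at h2
  simp only [mul_comm (φ (ρ _ v)) (φ (ρ _⁻¹ v)), h2, mul_comm _ c, ← h1]
  simp

theorem int_of_sum {v : V} (h0 : v ≠ 0) {c : ℂ} {I : Type*} [Fintype I] {g : I → G}
    (h : ∑ i, ρ (g i) v = c • v) : IsIntegral ℤ c := by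
  refine isIntegral_of_smul_mem_submodule (Submodule.span ℤ (Set.range fun a => ρ a v))
    (fun e => h0 (by simpa using e.le (Submodule.subset_span ⟨1, rfl⟩)))
    (Submodule.fg_span (Set.finite_range _)) c fun n hn => ?_
  induction hn using Submodule.span_induction with
  | mem _ h' =>
    obtain ⟨a, rfl⟩ := h'
    rw [← map_smul, ← h, map_sum]
    exact Submodule.sum_mem _ fun i _ => Submodule.subset_span ⟨a * g i, by simp⟩
  | zero => simp
  | add _ _ _ _ h1 h2 => rw [smul_add]; exact add_mem h1 h2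
  | smul a _ _ h1 => rw [smul_comm]; exact Submodule.smul_mem _ a h1

variable {D : ChevalleyDatum} [g : Good2 D] {F : Type*} [Field F] [Fintype F] {S : StSys D F G}

theorem U_split (i : Ix D) {u : G} (hu : u ∈ S.U) :
    ∃ t, ∃ y ∈ S.UJ {i}, u = S.x (sim i) t * y := by
  obtain ⟨z, hz, y, hy, e⟩ := S.exists_mul uni_pos (T := {sim i}) (T' := {r | Pos r ∧ ¬ PhiK {i} r})
    (fun r h => h ▸ pos_sim i) (fun _ h => h.1) (fun r hr => (em (r = sim i)).imp id fun h =>
      ⟨hr, fun h' => (phiK_singleton.1 h').elim h fun e => not_pos_ng_sim i (e ▸ hr)⟩) hu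
  obtain ⟨t, rfl⟩ := S.mem_XS_singleton.1 hz
  exact ⟨t, y, hy, e⟩

theorem hecke (hS : S.grp = ⊤) (hρ : ρ.IsIrreducible) {v : V} (h0 : v ≠ 0)
    (h1 : ∀ u ∈ S.U, ρ u v = v) (h2 : ∀ y, (∀ u ∈ S.U, ρ u y = y) → ∃ c : ℂ, y = c • v) (j : Ix D)
    (h3 : ∀ i, i ≠ j → ∃ c : ℂ, ρ (S.n (sim i) 1) v = c • v) :
    (finrank ℂ V : ℤ) ∣ Fintype.card F * poin D (Fintype.card F) := by
  classical
  have := Fintype.ofFinite G
  obtain ⟨φ, p1, p2, p3⟩ := exists_phi h0 h1 h2
  have ap : ∀ a b y, ρ (a * b) y = ρ a (ρ b y) := fun a b y => by rw [map_mul, End.mul_apply]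
  have mul : ∀ a b : G, (∀ u ∈ S.U, ∃ z y, u = z * y ∧ a * z * a⁻¹ ∈ S.U ∧ b⁻¹ * y * b ∈ S.U) →
      φ (ρ (a * b) v) = φ (ρ b v) * φ (ρ a v) := fun a b h => by
    rw [ap]
    refine p3 (φ ∘ₗ ρ a) (ρ b v) fun u hu => ?_
    obtain ⟨z, y, rfl, k1, k2⟩ := h u hu
    simp only [LinearMap.comp_apply, ← ap]
    rw [show a * (z * y * b) = a * z * a⁻¹ * (a * b * (b⁻¹ * y * b)) by group, ap, p2 _ k1, ap, h1 _ k2]
  let f : G → ℂ := fun a => φ (ρ a v) * φ (ρ a⁻¹ v)
  have fB : ∀ b ∈ S.B, ∀ a, f (b * a) = f a ∧ f (a * b) = f a := fun b hb a => by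
    have k1 : ∀ b ∈ S.B, ∀ a, φ (ρ (b * a) v) = φ (ρ a v) * φ (ρ b v) := fun b hb a =>
      mul b a fun u hu => ⟨u, 1, by simp, B_conj_U hb hu, by simp⟩
    have k2 : ∀ b ∈ S.B, ∀ a, φ (ρ (a * b) v) = φ (ρ b v) * φ (ρ a v) := fun b hb a =>
      mul a b fun u hu => ⟨1, u, by simp, by simp, B_conj_U' hb hu⟩
    have k3 := k1 b hb b⁻¹
    rw [mul_inv_cancel, map_one, End.one_apply, p1] at k3
    simp only [f, mul_inv_rev, k1 b hb, k2 b hb, k1 _ (inv_mem hb), k2 _ (inv_mem hb)]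
    exact ⟨by linear_combination (-(φ (ρ a v) * φ (ρ a⁻¹ v))) * k3,
      by linear_combination (-(φ (ρ a v) * φ (ρ a⁻¹ v))) * k3⟩
  choose n hn hm using S.exists_N
  have fc : ∀ w, ∀ y ∈ S.cell w, f y = f (n w) := fun w y hy => by
    obtain ⟨b, hb, b', hb', rfl⟩ := (mem_cell_iff (hn w) (hm w)).1 hy
    rw [(fB b' hb' _).2, (fB b hb _).1]
  have nP : ∀ i, S.n (sim i) 1 ∈ S.P {i} := fun i => mul_mem (mul_mem
    (x_mem_P (phiK_singleton.2 (.inl rfl)) _) (x_mem_P (phiK_singleton.2 (.inr rfl)) _))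
    (x_mem_P (phiK_singleton.2 (.inl rfl)) _)
  have nU : ∀ i, ∀ a ∈ S.P {i}, ∀ y ∈ S.UJ {i}, a⁻¹ * y * a ∈ S.UJ {i} := fun i a ha y hy => by
    simpa using (Subgroup.mem_normalizer_iff.1 (P_le_normalizer {i} (inv_mem ha)) y).1 hy
  have fm : ∀ w i, Pos (w • sim i) → f (n (w * sW i)) = f (n w) * f (S.n (sim i) 1) := fun w i h => by
    have k : ∀ t, n w * S.x (sim i) t * (n w)⁻¹ ∈ S.U := fun t => (hm w).conj_x_mem h t
    rw [← fc _ _ (self_mem_cell (mul_mem (hn w) (S.n_mem_N _ one_ne_zero))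
      ((hm w).mul (S.mono_n_sim i one_ne_zero)))]
    simp only [f, mul_inv_rev]
    rw [mul _ _ fun u hu => ?_, mul _ _ fun u hu => ?_]
    · ring
    · obtain ⟨t, y, hy, e⟩ := U_split i (inv_mem hu)
      exact ⟨y⁻¹, S.x (sim i) (-t), by rw [S.x_neg, ← mul_inv_rev, ← e, inv_inv], by
        simpa using UJ_le_U _ (nU i _ (nP i) _ (inv_mem hy)), by simpa using k (-t)⟩
    · obtain ⟨t, y, hy, e⟩ := U_split i hu
      exact ⟨_, y, e, k t, UJ_le_U _ (nU i _ (nP i) _ hy)⟩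
  have fj : ∀ a ∈ S.P {j}, IsIntegral ℤ (Fintype.card F * φ (ρ a v)) := fun a ha => by
    obtain ⟨c, hc⟩ := h2 (∑ t, ρ (S.x (sim j) t * a) v) fun u hu => by
      obtain ⟨t, y, hy, rfl⟩ := U_split j hu
      rw [map_sum]
      refine Fintype.sum_equiv (Equiv.addLeft t) _ _ fun s => ?_
      have := nU j _ (mul_mem (x_mem_P (phiK_singleton.2 (.inl rfl)) s) ha) y hy
      rw [← ap, Equiv.coe_addLeft, S.add, show S.x (sim j) t * y * (S.x (sim j) s * a) =
        S.x (sim j) t * S.x (sim j) s * a * ((S.x (sim j) s * a)⁻¹ * y * (S.x (sim j) s * a)) by group,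
        ap, h1 _ (UJ_le_U _ this)]
    have := congrArg φ hc
    simp only [map_sum, ap, p2 _ (S.x_mem (T := {r | Pos r}) (pos_sim j) _), map_smul, p1,
      Finset.sum_const, Finset.card_univ, nsmul_eq_mul, smul_eq_mul, mul_one] at this
    exact this ▸ int_of_sum h0 hc
  have key : ∀ k w, ln w = k → IsIntegral ℤ (Fintype.card F * (Fintype.card F ^ k * f (n w))) ∧
      (Pos (w • sim j) → IsIntegral ℤ (Fintype.card F ^ k * f (n w))) := by
    intro k
    induction k with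
    | zero =>
      intro w hw
      obtain rfl : w = 1 := by
        by_contra e
        obtain ⟨i, hi⟩ := exists_not_pos e
        have := ln_mul_lt hi; omega
      rw [← fc 1 1 (mem_cell_one.2 (one_mem _))]
      simp [f, p1, isIntegral_natCast, isIntegral_one]
    | succ k ih =>
      intro w hw
      obtain ⟨i, hi⟩ := exists_not_pos (w := w) (by rintro rfl; simp at hw)
      have k1 := ln_mul_of_not_pos hi
      have k2 : Pos ((w * sW i) • sim i) := by
        rwa [mul_smul, sW_smul, rf_sim, pos_smul_ng]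
      have k3 := fm _ i k2
      obtain ⟨k4, k5⟩ := ih (w * sW i) (by omega)
      rw [sW_cancel_right] at k3
      by_cases e : i = j
      · subst e
        refine ⟨?_, fun h => absurd h hi⟩
        exact Eq.mpr (congrArg _ (by rw [k3]; simp only [f]; ring))
          ((k5 k2).mul ((fj _ (nP i)).mul (fj _ (inv_mem (nP i)))))
      · obtain ⟨c, hc⟩ := h3 i e
        have k6 : f (S.n (sim i) 1) = 1 := by
          have := congrArg (fun y => φ (ρ (S.n (sim i) 1)⁻¹ y)) hc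
          simp only [← ap, inv_mul_cancel, map_one, End.one_apply, p1, map_smul, smul_eq_mul] at this
          simp only [f, hc, map_smul, p1, smul_eq_mul, mul_one, ← this]
        rw [k3, k6, mul_one, pow_succ', mul_assoc]
        exact ⟨(isIntegral_natCast _).mul k4, fun _ => k4⟩
  have hs := schur_sum hρ p1
  have hG := S.card_grp
  have hB : (Nat.card S.B : ℂ) ≠ 0 := by exact_mod_cast Nat.card_pos.ne'
  choose c hc using fun y : G => exists_cell (S := S) (y := y) (hS.ge trivial)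
  rw [hS, Subgroup.card_top, Nat.card_eq_fintype_card, Nat.card_eq_fintype_card (α := F)] at hG
  rw [← Finset.sum_fiberwise Finset.univ c, Finset.sum_congr rfl fun w _ => show _ =
    (Nat.card S.B : ℂ) * (Fintype.card F ^ ln w * f (n w)) by
      rw [Finset.sum_congr (s₁ := Finset.univ.filter (c · = w)) rfl fun y hy =>
        fc w y ((Finset.mem_filter.1 hy).2 ▸ hc y),
        Finset.sum_const, nsmul_eq_mul, ← mul_assoc (Nat.card S.B : ℂ), ← Nat.card_eq_fintype_card, ← Nat.cast_pow,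
        ← S.card_Uw, ← Nat.cast_mul, ← card_cell, ← Fintype.card_subtype, ← Nat.card_eq_fintype_card]
      congr 2
      exact Nat.card_congr (Equiv.subtypeEquivRight fun y =>
        ⟨fun e => e ▸ hc y, cell_unique (hc y)⟩), ← Finset.mul_sum, hG, mul_left_comm, Nat.cast_mul,
    mul_right_inj' hB] at hs
  have hd : (finrank ℂ V : ℂ) ≠ 0 := by
    exact_mod_cast (finrank_pos_iff_exists_ne_zero.2 ⟨v, h0⟩).ne'
  refine Char.int_dvd_of_isIntegral_div (by exact_mod_cast hd) ?_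
  refine Eq.mpr (congrArg _ ?_) (IsIntegral.sum (s := Finset.univ) _ fun w _ => (key _ w rfl).1)
  rw [← Finset.mul_sum, poin]
  push_cast at hs ⊢
  rw [← hs]; field_simp

end
end Cfsg.Agent.Chev.Md
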