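import Mathlib
import Cfsg.Agent.Chev.MdH

/-! Joint eigenspaces of root subgroups. -/

set_option autoImplicit false
set_option linter.unusedSectionVars false
set_option maxHeartbeats 400000

namespace Cfsg.Agent.Chev.Md
open Module Cfsg.Agent.Classical.LS Cfsg.Lie StSys

variable {G V : Type*} [Group G] [Finite G] [AddCommGroup V] [Module ℂ V] [FiniteDimensional ℂ V]
  {D : ChevalleyDatum} [g : Good2 D] {F : Type*} [Field F] [Fintype F]

/-- joint eigenspaces -/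
def JE (S : StSys D F G) (ρ : Representation ℂ G V) (l : List (Rt D × F)) : Submodule ℂ V where
  carrier := {v | ∀ p ∈ l, ∀ t, ρ (S.x p.1 t) v = ψ F (p.2 * t) • v}
  zero_mem' := by simp
  add_mem' ha hb p hp t := by rw [map_add, ha p hp, hb p hp, smul_add]
  smul_mem' c a ha p hp t := by rw [map_smul, ha p hp, smul_comm]

/-- their dimensions -/
noncomputable def dJ (S : StSys D F G) (ρ : Representation ℂ G V) (l : List (Rt D × F)) : ℕ :=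
  finrank ℂ (JE S ρ l)

/-- the commutators involve only given roots -/
def OK (m : ℤ) (Z : List (Rt D)) (r s : Rt D) : Prop :=
  s ≠ ng r ∧ ∀ e ∈ D.commTerms r s, m ∣ e.2.1 ∨ e.1 ∈ Z.map Fin.val

instance (m : ℤ) (Z : List (Rt D)) (r s : Rt D) : Decidable (OK m Z r s) :=
  inferInstanceAs (Decidable (_ ∧ ∀ e ∈ _, _))

variable {S : StSys D F G} {ρ : Representation ℂ G V} {l l' : List (Rt D × F)} {v : V} {m : ℤ}

theorem rap (a b : G) (y : V) : ρ (a * b) y = ρ a (ρ b y) := by rw [map_mul, End.mul_apply]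

theorem mem_JE : v ∈ JE S ρ l ↔ ∀ p ∈ l, ∀ t, ρ (S.x p.1 t) v = ψ F (p.2 * t) • v := Iff.rfl

theorem JE_cons (r : Rt D) (c : F) : JE S ρ ((r, c) :: l) = JE S ρ l ⊓ Wt ρ (S.x r) (ch c) := by
  ext v; simp only [mem_JE, List.forall_mem_cons, Submodule.mem_inf, mem_Wt, ch_apply, and_comm]

theorem JE_mono (h : l' ⊆ l) : JE S ρ l ≤ JE S ρ l' := fun _ hv p hp => hv p (h hp)

theorem dJ_mono (h : l' ⊆ l) : dJ S ρ l ≤ dJ S ρ l' := Submodule.finrank_mono (JE_mono h)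

theorem dJ_perm (h : l' ⊆ l) (h' : l ⊆ l') : dJ S ρ l = dJ S ρ l' :=
  le_antisymm (dJ_mono h) (dJ_mono h')

theorem dJ_nil : dJ S ρ [] = finrank ℂ V := by
  rw [dJ, show JE S ρ [] = ⊤ from eq_top_iff.2 fun _ _ => by simp [mem_JE], finrank_top]

theorem JE.fix (hv : v ∈ JE S ρ l) {r : Rt D} (h : (r, 0) ∈ l) (t : F) : ρ (S.x r t) v = v := by
  simpa using hv _ h t

theorem JE.cons (hv : v ∈ JE S ρ l) {r : Rt D} (h : ∀ t, ρ (S.x r t) v = v) :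
    v ∈ JE S ρ ((r, 0) :: l) := List.forall_mem_cons.2 ⟨by simpa using h, hv⟩

theorem OK.ap (hm : (m : F) = 0) {Z : List (Rt D)} {r s : Rt D} (h : OK m Z r s)
    (hv : ∀ z ∈ Z, ∀ t, ρ (S.x z t) v = v) (t u : F) :
    ρ (S.x s u) (ρ (S.x r t) v) = ρ (S.x r t) (ρ (S.x s u) v) := by
  by_cases e : s = r
  · rw [e, ← rap, ← rap, S.x_comm_self]
  rw [← rap, S.comm r s e h.1, rap, rap, show ρ _ v = v from wd_mem (K := MD.stab ρ v) fun z a ha => ?_]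
  obtain ⟨c, hc, e⟩ := List.mem_map.1 ha
  obtain ⟨e1, rfl⟩ := Prod.mk.inj e
  rcases h.2 c hc with ⟨k, hk⟩ | h
  · simp [hk, hm]
  · obtain ⟨z', hz, e⟩ := List.mem_map.1 h
    exact Fin.ext (e.trans e1) ▸ hv z' hz _

/-- invariance -/
theorem JE.inv (hm : (m : F) = 0) (Z : List (Rt D)) (hZ : ∀ z ∈ Z, (z, 0) ∈ l) {s : Rt D}
    (h : ∀ r ∈ l.map Prod.fst, OK m Z r s) (u : F) (v : V) (hv : v ∈ JE S ρ l) :
    ρ (S.x s u) v ∈ JE S ρ l := fun p hp t => by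
  rw [← (h _ (List.mem_map_of_mem hp)).ap hm fun z hz => JE.fix hv (hZ z hz), hv p hp, map_smul]

theorem dJ_split {r : Rt D} (h : ∀ t, ∀ v ∈ JE S ρ l, ρ (S.x r t) v ∈ JE S ρ l) :
    dJ S ρ l = ∑ c, dJ S ρ ((r, c) :: l) := by
  rw [Finset.sum_congr rfl fun c _ => show dJ S ρ ((r, c) :: l) =
    finrank ℂ ↥(JE S ρ l ⊓ Wt ρ (S.x r) (ch c)) by rw [dJ, JE_cons], dJ]
  exact le_antisymm ((le_sum (S.add r) h).trans_eq (ch_bij.sum_comp
    fun a : AddChar F ℂ => finrank ℂ ↥(JE S ρ l ⊓ Wt ρ (S.x r) a)).symm)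
    (sum_le (S.add r) ch_bij.1 _ (fun _ => inf_le_left) fun _ => inf_le_right)

theorem dJ_split' {r : Rt D} (h : ∀ t, ∀ v ∈ JE S ρ l, ρ (S.x r t) v ∈ JE S ρ l) {k : ℕ}
    (hk : ∀ c, c ≠ 0 → dJ S ρ ((r, c) :: l) = k) :
    dJ S ρ l = dJ S ρ ((r, 0) :: l) + (Fintype.card F - 1) * k := by
  classical
  rw [dJ_split h, ← Finset.add_sum_erase _ _ (Finset.mem_univ 0), Finset.sum_congr rfl fun c hc =>
    hk c (Finset.ne_of_mem_erase hc), Finset.sum_const, Finset.card_erase_of_mem (by simp)]; rfl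

theorem sum_dJ_le (r : Rt D) : ∑ c, dJ S ρ ((r, c) :: l) ≤ dJ S ρ l :=
  sum_le (S.add r) ch_bij.1 _ (fun _ => JE_mono (by simp)) fun _ => (JE_cons _ _).trans_le inf_le_right

theorem dJ_ge {r : Rt D} {k : ℕ} (hk : ∀ c, c ≠ 0 → k ≤ dJ S ρ ((r, c) :: l)) :
    dJ S ρ ((r, 0) :: l) + (Fintype.card F - 1) * k ≤ dJ S ρ l := by
  classical
  refine le_trans ?_ (sum_dJ_le r)
  rw [← Finset.add_sum_erase _ _ (Finset.mem_univ 0)]
  have := Finset.card_nsmul_le_sum (Finset.univ.erase (0 : F)) _ k fun c hc =>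
    hk c (Finset.ne_of_mem_erase hc)
  rw [Finset.card_erase_of_mem (by simp), Finset.card_univ, smul_eq_mul] at this
  omega

theorem eq_of_line (h : dJ S ρ l ≤ 1) {r : Rt D} {c c' : F} (h1 : 0 < dJ S ρ ((r, c) :: l))
    (h2 : 0 < dJ S ρ ((r, c') :: l)) : c = c' := by_contra fun e => by
  have := Finset.add_le_sum (f := fun c => dJ S ρ ((r, c) :: l)) (fun _ _ => Nat.zero_le _)
    (Finset.mem_univ c) (Finset.mem_univ c') e
  have := sum_dJ_le (S := S) (ρ := ρ) (l := l) r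
  omega

theorem dJ_le (a : G) (h : ∀ v ∈ JE S ρ l, ρ a v ∈ JE S ρ l') : dJ S ρ l ≤ dJ S ρ l' :=
  finrank_le_of_map a h

/-- transport by monomial elements -/
theorem JE.conj {a : G} {π : Rt D → Rt D} {k : Rt D → F} (hk : ∀ r, k r ≠ 0)
    (h : ∀ r u, a * S.x r u * a⁻¹ = S.x (π r) (k r * u)) (hv : v ∈ JE S ρ l)
    (hl : ∀ p ∈ l', ∃ q ∈ l, p.1 = π q.1 ∧ p.2 * k q.1 = q.2) : ρ a v ∈ JE S ρ l' := fun p hp t => by
  obtain ⟨q, hq, e, e'⟩ := hl p hp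
  rw [e, ← mul_div_cancel₀ t (hk q.1), ← h, ← rap, inv_mul_cancel_right, rap, hv q hq, map_smul,
    ← mul_assoc, e']

theorem JE.tor (p : Rt D) {t : F} (ht : t ≠ 0) (hv : v ∈ JE S ρ l)
    (hl : ∀ a ∈ l', ∃ b ∈ l, a.1 = b.1 ∧ a.2 * t ^ pr p b.1 = b.2) : ρ (S.h p t) v ∈ JE S ρ l' :=
  JE.conj (π := id) (fun _ => zpow_ne_zero _ ht) (S.h_conj p ht) hv hl

/-- independence of a nonzero character -/
theorem dJ_tor (p : Rt D) {r : Rt D} (hp : pr p r = 1)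
    (hl : ∀ b ∈ l, b.2 = 0 ∨ pr p b.1 = 0) {c c' : F} (hc : c ≠ 0) (hc' : c' ≠ 0) :
    dJ S ρ ((r, c) :: l) = dJ S ρ ((r, c') :: l) := by
  have k : ∀ {c c' : F}, c ≠ 0 → c' ≠ 0 → dJ S ρ ((r, c) :: l) ≤ dJ S ρ ((r, c') :: l) :=
    fun {c c'} hc hc' => dJ_le _ fun v hv => JE.tor p (div_ne_zero hc hc') hv
      (List.forall_mem_cons.2 ⟨⟨_, List.mem_cons_self, rfl, by simp [hp, mul_div_cancel₀ _ hc']⟩,
        fun b hb => ⟨b, List.mem_cons_of_mem _ hb, rfl, by rcases hl b hb with e | e <;> simp [e]⟩⟩)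
  exact le_antisymm (k hc hc') (k hc' hc)

theorem exists_refl (S : StSys D F G) (p : Rt D) : ∃ k : Rt D → F, (∀ r, k r ≠ 0) ∧
    ∀ r u, S.n p 1 * S.x r u * (S.n p 1)⁻¹ = S.x (rW p • r) (k r * u) := by
  obtain ⟨η, h1, -, -, h2⟩ := S.exists_n_conj p
  exact ⟨η, fun r => left_ne_zero_of_mul_eq_one (h1 r), fun r u => by
    simpa using h2 1 one_ne_zero r u⟩

theorem rW_eq {p r s : Rt D} (h : co s = co r - pr p r • co p) : s = rW p • r :=
  co_inj (by rw [co_rW, h])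

theorem comm_one {r s z : Rt D} {C : ℤ} (h : s ≠ r ∧ s ≠ ng r ∧ D.commTerms r s = [(z.1, C, 1, 1)])
    (t u : F) : S.x s u * S.x r t = S.x r t * S.x s u * S.x z (C * -t * u) := by
  simpa [ChevalleyDatum.commWord, h.2.2] using S.comm r s h.1 h.2.1 t u

/-- translation of a character -/
theorem JE.shift {r s : Rt D} {c d u : F} (hv : v ∈ JE S ρ ((s, c) :: l))
    (h1 : ρ (S.x r u) v ∈ JE S ρ l)
    (h2 : ∀ t, ρ (S.x s t) (ρ (S.x r u) v) = ψ F (d * t) • ρ (S.x r u) (ρ (S.x s t) v)) :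
    ρ (S.x r u) v ∈ JE S ρ ((s, c + d) :: l) :=
  List.forall_mem_cons.2 ⟨fun t => by
    rw [h2, hv _ List.mem_cons_self, map_smul, smul_smul, ← ψ_add, add_mul, add_comm], h1⟩

/-- Heisenberg pairs -/
theorem dJ_heis {r s z : Rt D} {C : ℤ}
    (h : ∀ t u, S.x s u * S.x r t = S.x r t * S.x s u * S.x z (C * -t * u))
    (hC : (C : F) ≠ 0) {e : F} (he : e ≠ 0) (hz : (z, e) ∈ l)
    (h1 : ∀ t, ∀ v ∈ JE S ρ l, ρ (S.x r t) v ∈ JE S ρ l)
    (h2 : ∀ t, ∀ v ∈ JE S ρ l, ρ (S.x s t) v ∈ JE S ρ l) (c : F) :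
    dJ S ρ l = Fintype.card F * dJ S ρ ((s, c) :: l) := by
  have k : ∀ c c', dJ S ρ ((s, c) :: l) ≤ dJ S ρ ((s, c') :: l) := fun c c' =>
    dJ_le (S.x r ((c - c') / (e * C))) fun v hv => by
      have hv' := JE_mono (List.subset_cons_self _ _) hv
      have := JE.shift (d := c' - c) hv (h1 ((c - c') / (e * C)) v hv') fun t => by
        rw [← rap, h, rap, hv' _ hz, map_smul, rap]
        congr 2; field_simp; ring
      rwa [add_sub_cancel] at this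
  rw [dJ_split h2, Finset.sum_congr rfl fun c' _ => le_antisymm (k c' c) (k c c')]
  simp

/-- the torus trick -/
theorem JE.fix_of_tor (h : dJ S ρ l ≤ 1) {r : Rt D}
    (h1 : ∀ t, ∀ v ∈ JE S ρ l, ρ (S.x r t) v ∈ JE S ρ l) (p : Rt D) {a : F} (ha : a ≠ 0)
    (ha' : a ^ pr p r ≠ 1) (hl : ∀ b ∈ l, b.2 = 0 ∨ pr p b.1 = 0) :
    JE S ρ l ≤ JE S ρ ((r, 0) :: l) := fun v hv => JE.cons hv fun t => by
  refine fix_of_comm (ρ := ρ) h (g := S.x r (a ^ pr p r * (t / (a ^ pr p r - 1)) - t))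
    (h := (S.h p a)⁻¹) (fun v => h1 _ v) (fun v hv => ?_) ?_ (fun v => h1 t v) hv
  · refine JE.conj (π := id) (k := fun r => (a ^ pr p r)⁻¹) (fun _ => inv_ne_zero (zpow_ne_zero _ ha))
      (fun r u => ?_) hv fun b hb => ⟨b, hb, rfl, by rcases hl b hb with e | e <;> simp [e]⟩
    have := S.h_conj p ha r ((a ^ pr p r)⁻¹ * u)
    rw [mul_inv_cancel_left₀ (zpow_ne_zero _ ha)] at this
    rw [← this]; simp [mul_assoc]
  · have h0 := sub_ne_zero.2 ha'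
    rw [mul_assoc, ← S.add, sub_add_cancel, ← S.h_conj p ha, show a ^ pr p r * (t / (a ^ pr p r - 1)) - t =
      t / (a ^ pr p r - 1) by field_simp; ring]
    group

theorem exists_JE (h : 0 < dJ S ρ l) : ∃ v ∈ JE S ρ l, v ≠ 0 := by
  obtain ⟨v, hv⟩ := finrank_pos_iff_exists_ne_zero.1 h
  exact ⟨v, v.2, by simpa using hv⟩

theorem trace_dJ {r : Rt D} {a : ℕ} (h : ∀ c, c ≠ 0 → dJ S ρ [(r, c)] = a) :
    LinearMap.trace ℂ V (ρ (S.x r 1)) = finrank ℂ V - Fintype.card F * a :=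
  trace_z (S.add r) fun c hc => by
    rw [← h c hc, dJ, JE_cons, show JE S ρ [] = ⊤ from eq_top_iff.2 fun _ _ => by simp [mem_JE],
      top_inf_eq]

theorem par_of_comm {θ : Rt D} {J : Set (Ix D)} (hθ : ∀ r, Pos r ∨ PhiK J r → OK 0 [] θ r) {a : G}
    (ha : a ∈ S.P J) : ∃ c, c ≠ 0 ∧ ∀ t, a * S.x θ t * a⁻¹ = S.x θ (c * t) := by
  let K : Subgroup G :=
    { carrier := {a | ∃ c, c ≠ 0 ∧ ∀ t, a * S.x θ t * a⁻¹ = S.x θ (c * t)}
      one_mem' := ⟨1, one_ne_zero, by simp⟩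
      mul_mem' := fun {a b} ⟨c, hc, e⟩ ⟨c', hc', e'⟩ => ⟨c * c', mul_ne_zero hc hc', fun t => by
        rw [mul_assoc c, ← e, ← e']; group⟩
      inv_mem' := fun {a} ⟨c, hc, e⟩ => ⟨c⁻¹, inv_ne_zero hc, fun t => by
        have := e (c⁻¹ * t)
        rw [mul_inv_cancel_left₀ hc] at this
        rw [← this]; group⟩ }
  rw [P_eq] at ha
  refine (sup_le (fun a ha => ?_) (S.XS_le.2 fun r hr t => ⟨1, one_ne_zero, fun u => ?_⟩) :
    _ ≤ K) ha
  · obtain ⟨c, hc, e, -⟩ := (mono_of_mem_H ha).exists_conj θ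
    exact ⟨c, hc, by simpa using e⟩
  · by_cases e : r = θ
    · rw [e, S.x_comm_self, one_mul, mul_inv_cancel_right]
    rw [S.comm θ r e (hθ r hr).1, show wd S.x _ = 1 from wd_mem (K := ⊥) fun z a ha => ?_]
    · simp
    obtain ⟨c, hc, e⟩ := List.mem_map.1 ha
    obtain ⟨-, rfl⟩ := Prod.mk.inj e
    simp [zero_dvd_iff.1 (((hθ r hr).2 c hc).resolve_right (by simp))]

end Cfsg.Agent.Chev.Md
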