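import Mathlib
import Cfsg.Agent.Chev.MdJ
import Cfsg.Agent.Chev.TwG2
import Cfsg.Agent.Chev.SsC

/-! The minimal degree of the groups of type G2 in characteristic not three. -/

set_option autoImplicit false
set_option linter.unusedSectionVars false
set_option maxHeartbeats 400000
set_option maxRecDepth 100000

namespace Cfsg.Agent.Chev.Md
open Module Cfsg.Agent.Classical.LS Cfsg.Lie StSys

attribute [local instance] good2G2

variable {G V : Type*} [Group G] [Finite G] [AddCommGroup V] [Module ℂ V] [FiniteDimensional ℂ V]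
  {F : Type*} [Field F] [Fintype F] {S : StSys chevG2 F G} {ρ : Representation ℂ G V}

local notation "q" => Fintype.card F
local notation "R" => rG2

theorem iv {l : List (Rt chevG2 × F)} {s : Rt chevG2} (Z : List (Rt chevG2))
    (hZ : ∀ z ∈ Z, (z, 0) ∈ l := by simp)
    (h : ∀ r ∈ l.map Prod.fst, OK 0 Z r s := by dsimp only [List.map]; decide +kernel) :
    ∀ u, ∀ v ∈ JE S ρ l, ρ (S.x s u) v ∈ JE S ρ l := JE.inv Int.cast_zero Z hZ h

theorem dJ_refl {D : ChevalleyDatum} [Good2 D] (S : StSys D F G) (ρ : Representation ℂ G V) (p : Rt D) :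
    ∃ k : Rt D → F, (∀ r, k r ≠ 0) ∧ ∀ l l' : List (Rt D × F),
      (∀ a ∈ l', ∃ b ∈ l, a.1 = rW p • b.1 ∧ a.2 * k b.1 = b.2) → dJ S ρ l ≤ dJ S ρ l' :=
  (exists_refl S p).imp fun _ h => ⟨h.1, fun _ _ hl => dJ_le _ fun _ hv => JE.conj h.1 h.2 hv hl⟩

theorem long_eq {p r : Rt chevG2} (h : r = rW p • R 11) (h' : R 11 = rW p • r) {s : Rt chevG2}
    (hs : pr s r = 1) {c : F} (hc : c ≠ 0) : dJ S ρ [(r, c)] = dJ S ρ [(R 11, 1)] := by
  obtain ⟨k, hk, e⟩ := dJ_refl S ρ p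
  exact le_antisymm ((dJ_tor s hs (by simp) hc (hk r)).trans_le (e _ _ (by simp [h'])))
    ((dJ_tor (R 6) (by decide +kernel) (by simp) one_ne_zero (mul_ne_zero hc (hk (R 11)))).trans_le (e _ _ (by simp [h])))

theorem base (h : ρ (S.x (R 11) 1) ≠ 1) : ∃ b, 0 < b ∧
    (∀ e, e ≠ 0 → ∀ c, dJ S ρ [(R 10, c), (R 11, e)] = b) ∧
    (∀ e, e ≠ 0 → dJ S ρ [(R 11, e)] = q * b) ∧ (∀ c, c ≠ 0 → dJ S ρ [(R 10, c), (R 11, 0)] = b) ∧
    finrank ℂ V = dJ S ρ [(R 10, 0), (R 11, 0)] + (q - 1) * b + (q - 1) * (q * b) := by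
  have h0 : ∀ e : F, e ≠ 0 → dJ S ρ [(R 11, e)] = dJ S ρ [(R 11, 1)] := fun e he =>
    dJ_tor (R 6) (by decide +kernel) (by simp) he one_ne_zero
  have h1 : ∀ e : F, e ≠ 0 → ∀ c, dJ S ρ [(R 11, e)] = q * dJ S ρ [(R 10, c), (R 11, e)] :=
    fun e he c => dJ_heis (r := R 6) (z := R 11) (C := 1) (comm_one (by decide +kernel)) (by simp) he (by simp) (iv []) (iv []) c
  have h2 : ∀ e : F, e ≠ 0 → ∀ c, dJ S ρ [(R 10, c), (R 11, e)] = dJ S ρ [(R 10, 0), (R 11, 1)] :=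
    fun e he c => Nat.eq_of_mul_eq_mul_left Fintype.card_pos
      (by rw [← h1 e he, h0 e he, h1 1 one_ne_zero])
  have h3 := fun e he => (h0 e he).trans (h1 1 one_ne_zero 0)
  have h4 := dJ_split' (S := S) (ρ := ρ) (l := []) (r := R 11) (iv []) h3
  have h5 : ∀ c : F, c ≠ 0 → dJ S ρ [(R 10, c), (R 11, 0)] = dJ S ρ [(R 10, 0), (R 11, 1)] := by
    intro c hc
    have := dJ_split' (S := S) (ρ := ρ) (l := [(R 10, c)]) (r := R 11) (iv [])
      fun e he => (dJ_perm (by simp) (by simp)).trans (h2 e he c)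
    rw [long_eq (p := R 6) (rW_eq (by decide +kernel)) (rW_eq (by decide +kernel)) (s := R 11) (by decide +kernel) hc, h1 1 one_ne_zero 0,
      dJ_perm (l := [(R 11, 0), (R 10, c)]) (l' := [(R 10, c), (R 11, 0)]) (by simp) (by simp)] at this
    obtain ⟨n, hn⟩ : ∃ n, q = n + 1 := ⟨_, (Nat.succ_pred_eq_of_pos Fintype.card_pos).symm⟩
    rw [hn, Nat.add_sub_cancel, add_mul] at this
    omega
  refine ⟨_, Nat.pos_of_ne_zero fun e => h ?_, h2, h3, h5, by
    rw [← dJ_nil (S := S) (ρ := ρ), h4, dJ_split' (l := [(R 11, 0)]) (r := R 10) (iv []) h5]⟩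
  rw [e, dJ_nil, mul_zero, mul_zero, add_zero] at h4
  ext v
  exact JE.fix ((Submodule.eq_top_of_finrank_eq h4.symm).ge trivial) List.mem_cons_self 1

theorem partA (h : ρ (S.x (R 11) 1) ≠ 1) (h3 : ((3 : ℤ) : F) ≠ 0) {a : F} (ha : a ≠ 0)
    (ha' : a ^ (3 : ℤ) ≠ 1) : 2 * (q * (q ^ 2 - 1)) ≤ finrank ℂ V ∨
    (∀ e, e ≠ 0 → ∀ c, dJ S ρ [(R 9, 0), (R 10, c), (R 11, e)] = 1) ∧
    (∀ c, c ≠ 0 → dJ S ρ [(R 9, 0), (R 10, c), (R 11, 0)] = 1) ∧
    finrank ℂ V + q = dJ S ρ [(R 10, 0), (R 11, 0)] + q ^ 3 ∧ ∃ z, 0 < z ∧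
      dJ S ρ [(R 10, 0), (R 11, 0)] = dJ S ρ [(R 6, 0), (R 10, 0), (R 11, 0)] + (q - 1) * z := by
  obtain ⟨b, b0, b1, b2, b3, b4⟩ := base h
  have h1 : ∀ e : F, e ≠ 0 → ∀ c, b = q * dJ S ρ [(R 9, 0), (R 10, c), (R 11, e)] := fun e he c =>
    (b1 e he c).symm.trans (dJ_heis (r := R 8) (z := R 11) (C := 3) (comm_one (by decide +kernel)) h3 he (by simp) (iv []) (iv []) 0)
  obtain ⟨n, hn⟩ : ∃ n, q = n + 1 := ⟨_, (Nat.succ_pred_eq_of_pos Fintype.card_pos).symm⟩
  by_cases h2 : 2 * q ≤ b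
  · left
    rw [b4, hn, show (n + 1) ^ 2 - 1 = n * (n + 2) from Nat.sub_eq_of_eq_add (by ring)] at *
    simp only [Nat.add_sub_cancel]
    nlinarith [Nat.mul_le_mul_left (n * (n + 2)) h2]
  have k : ∀ {m}, b = q * m → m = 1 := fun {m} e => by
    rcases m with _ | _ | m
    · omega
    · rfl
    · exact absurd (by nlinarith) h2
  have hb := h1 1 one_ne_zero 0
  rw [k hb, mul_one] at hb
  refine .inr ⟨fun e he c => k (h1 e he c), fun c hc => k ((b3 c hc).symm.trans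
    (dJ_heis (r := R 7) (z := R 10) (C := 3) (comm_one (by decide +kernel)) h3 hc (by simp) (iv []) (iv []) 0)),
    by rw [b4, hb, hn, Nat.add_sub_cancel]; ring, _, ?_, dJ_split' (r := R 6) (iv [R 11]) fun c hc =>
      dJ_tor (R 11) (by decide +kernel) (by simp) hc one_ne_zero⟩
  have h4 : dJ S ρ [(R 8, 0), (R 11, 0), (R 6, 1)] = 1 := k (Nat.eq_of_mul_eq_mul_left Fintype.card_pos (by
    rw [← b2 1 one_ne_zero, ← long_eq (p := R 10) (r := R 6) (rW_eq (by decide +kernel)) (rW_eq (by decide +kernel)) (s := R 11) (by decide +kernel)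
      one_ne_zero, dJ_heis (r := R 1) (s := R 11) (z := R 6) (C := -1) (comm_one (by decide +kernel)) (by simp) one_ne_zero
      (by simp) (iv []) (iv []) 0, dJ_heis (l := [(R 11, 0), (R 6, 1)]) (r := R 4) (s := R 8) (z := R 6)
      (C := -3) (comm_one (by decide +kernel)) (by simpa using h3) one_ne_zero (by simp) (iv []) (iv []) 0]))
  exact h4.ge.trans (Submodule.finrank_mono ((JE.fix_of_tor h4.le (r := R 10) (iv [R 11]) (R 9) ha
    (by rwa [show pr (R 9) (R 10) = 3 from (by decide +kernel)]) (by simp; decide +kernel)).trans (JE_mono (by simp))))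

theorem partB2 (hS : S.grp = ⊤) (hρ : ρ.IsIrreducible) {a : F} (ha : a ≠ 0) (ha' : a ≠ 1)
    (h : dJ S ρ [(R 6, 0), (R 10, 0), (R 11, 0)] = 1) : finrank ℂ V ≠ q ^ 3 := fun hd => by
  obtain ⟨v, hv, h0⟩ := exists_JE h.ge
  have h1 := JE.fix_of_tor ((dJ_mono (by simp)).trans h.le) (r := R 9) (iv [R 11]) (R 7) ha
    (by rwa [show pr (R 7) (R 9) = 1 from (by decide +kernel), zpow_one]) (by simp) (JE.fix_of_tor h.le (r := R 8)
      (iv []) (R 6) ha (by rwa [show pr (R 6) (R 8) = 1 from (by decide +kernel), zpow_one]) (by simp) hv)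
  have h2 := JE.fix_of_tor ((dJ_mono (by simp)).trans h.le) (r := R 7) (iv [R 8, R 9, R 10, R 11])
    (R 10) ha (by rwa [show pr (R 10) (R 7) = 1 from (by decide +kernel), zpow_one]) (by simp) h1
  have h3 : ∀ y ∈ JE S ρ [(R 6, 0), (R 10, 0), (R 11, 0)], ∃ c : ℂ, y = c • v := fun y hy => by
    obtain ⟨c, hc⟩ := (finrank_eq_one_iff_of_nonzero' (K := ℂ) (⟨v, hv⟩ : JE S ρ _)
      (by simpa using h0)).1 h ⟨y, hy⟩
    exact ⟨c, (congrArg Subtype.val hc).symm⟩
  have h4 := hecke hS hρ h0 (fun u hu => (S.XS_le.2 fun r hr t => ?_ : S.U ≤ MD.stab ρ v) hu)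
    (fun y hy => h3 y fun p hp t => ?_) (nG2 1) fun i hi => ?_
  · rw [hd, Nat.cast_pow, pow_succ', mul_dvd_mul_iff_left (by simp), poin_G2_eq] at h4
    have h5 := (dvd_pow_self _ two_ne_zero).trans h4
    rw [show ∀ t : ℤ, (t ^ 0 + t ^ 1 + t ^ 2 + t ^ 3 + t ^ 4 + t ^ 5) * (t ^ 0 + t ^ 1) =
      t * (2 + 2 * t + 2 * t ^ 2 + 2 * t ^ 3 + 2 * t ^ 4 + t ^ 5) + 1 from fun t => by ring,
      dvd_add_right (dvd_mul_right _ _)] at h5
    exact absurd (Int.eq_one_of_dvd_one (by simp) h5) (by exact_mod_cast Fintype.one_lt_card.ne')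
  · refine JE.fix h2 ?_ t
    simpa using ((by decide +kernel) : ∀ r : Rt chevG2, Pos r → r ∈ [R 7, R 9, R 8, R 6, R 10, R 11]) r hr
  · have : p.2 = 0 ∧ Pos p.1 := by
      simp only [List.mem_cons, List.not_mem_nil, or_false] at hp
      rcases hp with rfl | rfl | rfl <;> exact ⟨rfl, by dsimp only; decide +kernel⟩
    rw [hy _ (S.x_mem (T := {r | Pos r}) this.2 t), this.1]; simp
  · obtain ⟨k, hk, e⟩ := exists_refl S (R 7)
    rw [show sim i = R 7 by revert i; decide +kernel]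
    exact h3 _ (JE.conj hk e hv (by
      simp [← rW_eq (p := R 7) (r := R 6) (s := R 10) (by decide +kernel), ← rW_eq (p := R 7) (r := R 10) (s := R 6) (by decide +kernel),
        ← rW_eq (p := R 7) (r := R 11) (s := R 11) (by decide +kernel)]))

theorem norm_tr_le {h : G} (h3 : h ^ 3 = 1) {W : Submodule ℂ V} (hW : ∀ v ∈ W, ρ h v ∈ W) :
    ‖LinearMap.trace ℂ W ((ρ h).restrict hW)‖ ≤ finrank ℂ W := by
  let K : Subgroup G :=
    { carrier := {a | (∀ v ∈ W, ρ a v ∈ W) ∧ ∀ v ∈ W, ρ a⁻¹ v ∈ W}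
      one_mem' := by simp
      mul_mem' := fun ha hb => ⟨fun v hv => rap (ρ := ρ) _ _ v ▸ ha.1 _ (hb.1 v hv), fun v hv => by
        rw [mul_inv_rev, rap]; exact hb.2 _ (ha.2 v hv)⟩
      inv_mem' := fun ha => ⟨ha.2, by simpa using ha.1⟩ }
  exact Char.isChar_norm_le (Char.isChar_character (Representation.subrepresentation
    (ρ.comp K.subtype) W fun a => a.2.1)) ⟨h, hW, fun v hv => by
      rw [inv_eq_of_mul_eq_one_right (show h * (h * h) = 1 by rw [← h3, pow_three]), rap]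
      exact hW _ (hW v hv)⟩ (Representation.char_one _)

/-- characters of a triple product -/
noncomputable def ch3 (a : F × F × F) : AddChar (F × F × F) ℂ where
  toFun u := ψ F (a.1 * u.1) * ψ F (a.2.1 * u.2.1) * ψ F (a.2.2 * u.2.2)
  map_zero_eq_one' := by simp
  map_add_eq_mul' u v := by simp only [Prod.fst_add, Prod.snd_add, mul_add, ψ_add]; ring

theorem ch3_bij : Function.Bijective (ch3 : F × F × F → _) := by
  classical
  refine (Fintype.bijective_iff_injective_and_card _).2 ⟨fun a b h => ?_, AddChar.card_eq.symm⟩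
  have k := fun u => show ψ F _ * ψ F _ * ψ F _ = ψ F _ * ψ F _ * ψ F _ from DFunLike.congr_fun h u
  exact Prod.ext (eq_of_ψ fun t => by simpa using k (t, 0, 0)) (Prod.ext
    (eq_of_ψ fun t => by simpa using k (0, t, 0)) (eq_of_ψ fun t => by simpa using k (0, 0, t)))

theorem partB1 {h : G} {ω : F} (hω : ω ≠ 0) (hω' : ω ^ (2 : ℤ) ≠ 1) (h3 : h ^ 3 = 1)
    (hh : ∀ r t, h * S.x r t * h⁻¹ = S.x r (ω ^ (if 3 ∣ co r (nG2 0) then 0 else co r (nG2 0)) * t))
    (h1 : ∀ e, e ≠ 0 → ∀ c, dJ S ρ [(R 9, 0), (R 10, c), (R 11, e)] = 1)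
    (h2 : ∀ c, c ≠ 0 → dJ S ρ [(R 9, 0), (R 10, c), (R 11, 0)] = 1)
    (h4 : dJ S ρ [(R 10, 0), (R 11, 0)] ≤ q - 1) : ∃ ζ ε : ℂ, ζ ^ 3 = 1 ∧ ‖ε‖ ≤ 2 * (q - 1 : ℕ) ∧
      LinearMap.trace ℂ V (ρ h) = q * (q - 1 : ℕ) * ζ + ε := by
  classical
  have c1 : ∀ r s : Rt chevG2, s ≠ r ∧ s ≠ ng r ∧ chevG2.commTerms r s = [] → ∀ t u,
      Commute (S.x s u) (S.x r t) := fun r s h t u => by
    simpa [ChevalleyDatum.commWord, h.2.2, commute_iff_eq] using S.comm r s h.1 h.2.1 t u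
  let x : F × F × F → G := fun u => S.x (R 9) u.1 * S.x (R 10) u.2.1 * S.x (R 11) u.2.2
  have hx : ∀ a b, x (a + b) = x a * x b := fun a b => by
    simp only [x, Prod.fst_add, Prod.snd_add, S.add]
    rw [(c1 _ _ (by decide +kernel) _ _).mul_mul_mul_comm, ((c1 _ _ (by decide +kernel) _ _).mul_left (c1 _ _ (by decide +kernel) _ _)).mul_mul_mul_comm]
  have hW : ∀ a : F × F × F, Wt ρ x (ch3 a) = JE S ρ [(R 9, a.1), (R 10, a.2.1), (R 11, a.2.2)] := by
    intro a; ext v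
    simp only [mem_Wt, mem_JE, List.forall_mem_cons, List.not_mem_nil, false_imp_iff, implies_true,
      and_true]
    refine ⟨fun k => ⟨fun t => ?_, fun t => ?_, fun t => ?_⟩, fun k u => ?_⟩
    · simpa [x, ch3] using k (t, 0, 0)
    · simpa [x, ch3] using k (0, t, 0)
    · simpa [x, ch3] using k (0, 0, t)
    · simp only [x, rap, k.1, k.2.1, k.2.2, map_smul, smul_smul]
      congr 1; change _ = ψ F _ * ψ F _ * ψ F _; ring
  have hJ : ∀ a b c : F, ∀ v ∈ JE S ρ [(R 9, a), (R 10, b), (R 11, c)],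
      ρ h v ∈ JE S ρ [(R 9, a / ω ^ (2 : ℤ)), (R 10, b), (R 11, c)] := fun a b c v hv =>
    JE.conj (π := id) (fun _ => zpow_ne_zero _ hω) hh hv (by
      simp [show co (R 9) (nG2 0) = 2 from (by decide +kernel), show co (R 10) (nG2 0) = 3 from (by decide +kernel),
        show co (R 11) (nG2 0) = 3 from (by decide +kernel), hω])
  have hJ0 : ∀ b c : F, ∀ v ∈ JE S ρ [(R 9, 0), (R 10, b), (R 11, c)],
      ρ h v ∈ JE S ρ [(R 9, 0), (R 10, b), (R 11, c)] := fun b c v hv => by simpa using hJ 0 b c v hv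
  obtain ⟨v, hv, h0⟩ := exists_JE (h1 1 one_ne_zero 0).ge
  have k1 := (finrank_eq_one_iff_of_nonzero' (K := ℂ) (⟨v, hv⟩ : JE S ρ _) (by simpa using h0)).1
    (h1 1 one_ne_zero 0)
  obtain ⟨ζ, hζ⟩ := k1 ⟨_, hJ0 _ _ v hv⟩
  replace hζ : ρ h v = ζ • v := (congrArg Subtype.val hζ).symm
  have k2 : ∀ r : Rt chevG2, co r (nG2 0) = 0 → ∀ t, Commute h (S.x r t) := fun r hr t => by
    simpa [hr, mul_inv_eq_iff_eq_mul, commute_iff_eq] using hh r t
  have k3 : ∀ b c : F, c ≠ 0 → ∀ y ∈ JE S ρ [(R 9, 0), (R 10, b), (R 11, c)], ρ h y = ζ • y := by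
    intro b c hc y hy
    have e1 : ρ (S.x (R 6) (b / c)) y ∈ JE S ρ [(R 10, b + -b), (R 9, 0), (R 11, c)] :=
      JE.shift (JE_mono (by simp) hy) ((iv (l := [(R 9, 0), (R 11, c)]) (s := R 6) []) _ _ (JE_mono (by simp) hy))
        fun t => by
        rw [← rap, comm_one (z := R 11) (C := 1) (by decide +kernel), rap, hy (R 11, c) (by simp), map_smul, rap]
        congr 2; field_simp; simp
    obtain ⟨d, hd⟩ := k1 ⟨_, JE.tor (R 6) hc e1 (by
      simp [show pr (R 6) (R 11) = 1 from (by decide +kernel)])⟩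
    replace hd : d • v = ρ _ (ρ _ y) := congrArg Subtype.val hd
    have k4 : ∀ t, Commute h (S.n (R 6) t) := fun t =>
      ((k2 _ (by decide +kernel) _).mul_right (k2 _ (by decide +kernel) _)).mul_right (k2 _ (by decide +kernel) _)
    refine apply_injective (ρ := ρ) (S.h (R 6) c * S.x (R 6) (b / c)) ?_
    have k5 : Commute h (S.h (R 6) c * S.x (R 6) (b / c)) :=
      ((k4 _).mul_right (k4 _)).mul_right (k2 (R 6) (by decide +kernel) _)
    rw [← rap, ← k5.eq, rap,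
      map_smul, rap, ← hd, map_smul, hζ, smul_comm]
  refine ⟨ζ, ∑ b, LinearMap.trace ℂ V (ρ h * P ρ x (ch3 (0, b, 0))), ?_, ?_, ?_⟩
  · have : ρ (h ^ 3) v = ζ ^ 3 • v := by simp only [pow_three, rap, hζ, map_smul, smul_smul, mul_assoc]
    rw [h3, map_one, End.one_apply] at this
    exact smul_left_injective ℂ h0 (this.symm.trans (one_smul _ _).symm)
  · refine (norm_sum_le_of_le _ (n := fun b => (dJ S ρ [(R 9, 0), (R 10, b), (R 11, 0)] : ℝ))
      fun b _ => ?_).trans ?_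
    · rw [trace_mul_P_restrict hx (f := ρ h) (l := ch3 (0, b, 0)) (by rw [hW]; exact hJ0 b 0)]
      exact (norm_tr_le h3 _).trans_eq (by rw [hW, dJ])
    · rw [← Finset.add_sum_erase _ _ (Finset.mem_univ 0), Finset.sum_congr rfl fun c hc => by
        rw [h2 c (Finset.ne_of_mem_erase hc)], Finset.sum_const, Finset.card_erase_of_mem (by simp)]
      have := (dJ_mono (l := [(R 9, 0), (R 10, 0), (R 11, 0)]) (by simp)).trans h4
      simp only [Finset.card_univ, nsmul_eq_mul, Nat.cast_one, mul_one, two_mul, add_le_add_iff_right]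
      exact_mod_cast this
  · rw [trace_eq_sum hx, ← ch3_bij.sum_comp, Fintype.sum_prod_type, Finset.sum_eq_single 0
      (fun a _ ha => Finset.sum_eq_zero fun b _ => trace_mul_P_of_ne hx
        (m := ch3 (a / ω ^ (2 : ℤ), b)) (fun e => hω' ?_) (by rw [hW, hW]; exact hJ _ _ _)) (by simp),
      Fintype.sum_prod_type, mul_assoc, ← nsmul_eq_mul, ← Finset.card_univ, ← Finset.sum_const,
      ← Finset.sum_add_distrib]
    · refine Finset.sum_congr rfl fun b _ => ?_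
      rw [← Finset.add_sum_erase _ _ (Finset.mem_univ 0), Finset.sum_congr rfl fun c hc => by
        rw [trace_mul_P_of_smul hx (c := ζ) (by rw [hW]; exact k3 _ _ (Finset.ne_of_mem_erase hc)), hW,
          show finrank ℂ _ = 1 from h1 c (Finset.ne_of_mem_erase hc) b], Finset.sum_const,
        Finset.card_erase_of_mem (by simp)]
      simp [add_comm]
    · have := congrArg Prod.fst (ch3_bij.1 e)
      rwa [eq_div_iff (zpow_ne_zero _ hω), mul_eq_left₀ ha] at this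

theorem partB1' {h : G} (h3 : h ^ 3 = 1) (hρ : ρ.IsIrreducible) {n : ℕ} (hn : 5 ≤ n)
    (hd : finrank ℂ V + 1 = n ^ 3) (hi : (Subgroup.centralizer {h}).index ∣ n ^ 3 * (n ^ 3 + 1))
    {ζ ε : ℂ} (h1 : ζ ^ 3 = 1) (h2 : ‖ε‖ ≤ 2 * (n - 1 : ℕ))
    (h4 : LinearMap.trace ℂ V (ρ h) = n * (n - 1 : ℕ) * ζ + ε) : False := by
  have k : ∀ z : ℂ, z ^ 3 = 1 → z.re = 1 ∨ z.re = -1 / 2 := fun z hz => by
    have e1 := congrArg Complex.re hz
    have e2 := congrArg Complex.im hz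
    have e3 := Complex.normSq_apply z
    rw [Complex.normSq_eq_norm_sq, Char.norm_eq_one_of_pow_eq_one three_ne_zero hz] at e3
    simp only [pow_three, Complex.mul_re, Complex.mul_im, Complex.one_re] at e1
    have : (z.re - 1) * ((2 * z.re + 1) * (2 * z.re + 1)) = 0 := by linear_combination e1 - 3 * z.re * e3
    rcases mul_eq_zero.1 this with e | e
    · left; linarith
    · right; linarith [mul_self_eq_zero.1 e]
  obtain ⟨s, s1, -, s2, -⟩ := Char.isChar_eigen_nat (Char.isChar_character ρ) h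
  obtain ⟨m, hm⟩ : ∃ m : ℤ, (m : ℝ) = 2 * s.sum.re := by
    refine Multiset.sum_induction (p := fun z : ℂ => ∃ m : ℤ, (m : ℝ) = 2 * z.re) s
      (fun a b ⟨m, hm⟩ ⟨m', hm'⟩ => ⟨m + m', by simp [hm, hm', mul_add]⟩) ⟨0, by simp⟩ fun z hz => ?_
    obtain ⟨j, hj⟩ := orderOf_dvd_of_pow_eq_one h3
    rcases k z (by rw [hj, pow_mul, s1 z hz, one_pow]) with e | e
    exacts [⟨2, by simp [e]⟩, ⟨-1, by rw [e]; norm_num⟩]
  have i1 := Char.isIrr_isIntegral_central (Char.isIrr_character ρ) h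
  have i2 := Char.isIrr_isIntegral_central (Char.isIrr_character ρ) h⁻¹
  rw [show Subgroup.centralizer {h⁻¹} = Subgroup.centralizer {h} from Subgroup.ext fun a => by
    simp only [Subgroup.mem_centralizer_singleton_iff]; exact Commute.inv_right_iff,
    Char.character_inv] at i2
  obtain ⟨u, rfl⟩ : ∃ u, n = u + 5 := ⟨n - 5, by omega⟩
  have hd' : (finrank ℂ V : ℤ) = u ^ 3 + 15 * u ^ 2 + 75 * u + 124 := by
    zify at hd; linear_combination hd
  have i3 : (finrank ℂ V : ℤ) ∣ (Subgroup.centralizer {h}).index * m :=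
    Char.int_dvd_of_isIntegral_div (by rw [hd']; positivity) (Eq.mpr (congrArg _ (by
      rw [← add_div, ← mul_add, Complex.add_conj, s2, ← hm]; simp)) (i1.add i2))
  have i4 := i3.trans (mul_dvd_mul_right (Int.natCast_dvd_natCast.2 hi) m)
  rw [← hd, show ((finrank ℂ V + 1) * (finrank ℂ V + 1 + 1) : ℕ) * m =
    finrank ℂ V * ((finrank ℂ V + 3) * m) + 2 * m by push_cast; ring,
    dvd_add_right (dvd_mul_right _ _)] at i4
  have e1 := congrArg Complex.re (s2.symm.trans h4)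
  have e2 := abs_le.1 ((Complex.abs_re_le_norm ε).trans h2)
  simp only [show u + 5 - 1 = u + 4 from rfl, Complex.add_re, Complex.mul_re, Complex.natCast_re,
    Complex.natCast_im, mul_zero, sub_zero, Complex.mul_im, zero_mul, add_zero] at e1 e2
  push_cast at e1 e2
  have hu : (0 : ℝ) ≤ u := by positivity
  have e3 : (m : ℝ) ≠ 0 ∧ |(2 * m : ℝ)| < u ^ 3 + 15 * u ^ 2 + 75 * u + 124 := by
    rw [hm, e1, abs_lt]
    rcases k ζ h1 with e | e <;> rw [e] <;> refine ⟨fun e => ?_, ?_, ?_⟩ <;>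
      nlinarith [pow_nonneg hu 2, pow_nonneg hu 3]
  exact e3.1 (by
    have := Int.eq_zero_of_abs_lt_dvd i4 (by rw [hd']; exact_mod_cast e3.2)
    exact_mod_cast (by omega : m = 0))

/-- the elements of the Weyl group -/
def wdG2 : List (List (Ix chevG2)) := ([[], [0], [1], [0, 1], [1, 0], [0, 1, 0], [1, 0, 1], [0, 1, 0, 1],
  [1, 0, 1, 0], [0, 1, 0, 1, 0], [1, 0, 1, 0, 1], [0, 1, 0, 1, 0, 1]] : List (List (Fin 2)))

theorem wp_smul (l : List (Ix chevG2)) (r : Rt chevG2) : BN.wp sW l • r = l.foldr rf r := by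
  induction l with
  | nil => simp
  | cons a l ih => rw [BN.wp_cons, mul_smul, sW_smul, ih]; rfl

theorem sum_W_G2 (f : W chevG2 → ℕ) : ∑ w, f w = (wdG2.map fun l => f (BN.wp sW l)).sum := by
  classical
  have h : (wdG2.map (BN.wp sW)).Nodup := List.pairwise_map.2 (((by decide +kernel) : wdG2.Pairwise fun l l' =>
    ∃ r, l.foldr rf r ≠ l'.foldr rf r).imp fun ⟨r, h⟩ e => h (by rw [← wp_smul, e, wp_smul]))
  rw [← Finset.eq_univ_of_card (wdG2.map (BN.wp sW)).toFinset (by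
    rw [List.toFinset_card_of_nodup h, ← Nat.card_eq_fintype_card, card_W_G2]; rfl),
    List.sum_toFinset _ h, List.map_map]; rfl

theorem exists_h3 [Finite (chevG2.group F)] (hq : q % 3 = 1) : ∃ (h : chevG2.group F) (ω : F),
    ω ≠ 0 ∧ ω ^ (2 : ℤ) ≠ 1 ∧ h ^ 3 = 1 ∧ (∀ r t, h * (chSys chevG2 F).x r t * h⁻¹ =
      (chSys chevG2 F).x r (ω ^ (if 3 ∣ co r (nG2 0) then 0 else co r (nG2 0)) * t)) ∧
    (Subgroup.centralizer {h}).index ∣ q ^ 3 * (q ^ 3 + 1) := by
  classical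
  obtain ⟨ω, hω⟩ := exists_prime_orderOf_dvd_card (G := Fˣ) 3 (by rw [Fintype.card_units]; omega)
  let c : Ix chevG2 → Fˣ := Pi.mulSingle (nG2 0) ω
  have h1 : ∀ v, tor c v = ω ^ v (nG2 0) := fun v => by
    rw [tor, Finset.prod_eq_single (nG2 0)] <;> simp +contextual [c]
  have h2 : ∀ a b : ℤ, ω ^ a = ω ^ b ↔ 3 ∣ a - b := fun a b => by
    rw [zpow_eq_zpow_iff_modEq, hω, Int.modEq_comm, Int.modEq_iff_dvd]; rfl
  have h3 : Psi c = {r | 3 ∣ co r (nG2 0)} := Set.ext fun r => by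
    simpa [Psi, h1] using h2 (co r (nG2 0)) 0
  refine ⟨⟨dgU c, group_eq (D := chevG2) (F := F) ▸ (glSys chevG2 F).H_le_grp
    (dgU_mem_grp (ker_G2 _) c)⟩, ω, ω.ne_zero, fun e => ?_, Subtype.ext ?_,
    fun r t => Subtype.ext ((dgU_conj c r t).trans ?_), ?_⟩
  · have := (h2 2 0).1 (Units.ext (by simpa using e))
    omega
  · change dgH chevG2 F c ^ 3 = 1
    rw [← map_pow, ← Pi.mulSingle_pow, ← hω, pow_orderOf_eq_one, Pi.mulSingle_one, map_one]
  · rw [h1, (h2 _ (if 3 ∣ co r (nG2 0) then 0 else co r (nG2 0))).2 (by split_ifs <;> simp [*]),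
      Units.val_zpow_eq_zpow_val]; rfl
  · have h4 := card_gl_H (D := chevG2) (F := F)
    have h5 := card_gl_grp (D := chevG2) (F := F)
    have h6 := card_Cz c
    rw [ker_G2, Subgroup.card_bot, one_mul] at h4 h5
    rw [diagonalSubgroup_eq] at h4
    rw [h4, h3, Finset.sum_filter, sum_W_G2, show ({r | Pos r} ∩ {r | 3 ∣ co r (nG2 0)}).ncard = 3 by
      rw [Set.ncard_eq_toFinset_card']; decide +kernel, List.map_congr_left (g := (fun p : Bool × ℕ =>
        if p.1 then Nat.card F ^ p.2 else 0) ∘ fun l => (decide (∀ r,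
        3 ∣ co (l.foldr rf r) (nG2 0) - co r (nG2 0)), (Finset.univ.filter fun r =>
          (Pos r ∧ ¬ Pos (l.foldr rf r)) ∧ 3 ∣ co r (nG2 0)).card)) fun l _ => by
        simp only [Function.comp, decide_eq_true_eq, ← wp_smul, ← h2, ← h1, ← Set.ncard_coe_finset,
          Finset.coe_filter, Finset.mem_univ, true_and, mem_invs]
        exact if_congr Iff.rfl rfl rfl, ← List.map_map, ((by decide +kernel) : wdG2.map _ = [(true, 0), (false, 0), (true, 1), (false, 1),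
          (false, 1), (true, 1), (false, 2), (true, 2), (true, 2), (false, 2), (true, 3), (false, 3)])] at h6
    refine dvd_of_eq (Nat.eq_of_mul_eq_mul_right Nat.card_pos
      ((Subgroup.index_mul_card _).trans ?_))
    rw [card_centralizer, h6]
    zify [Nat.card_pos (α := F)]
    rw [h5, poin_G2_eq, Nat.card_eq_fintype_card, show chevG2.nroots / 2 = 6 from rfl]
    simp; ring

end Cfsg.Agent.Chev.Md
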