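import Mathlib
import Cfsg.Agent.Chev.MdG
import Cfsg.Agent.S1055

/-! The minimal degree of the groups of type G2. -/

set_option autoImplicit false
set_option linter.unusedSectionVars false
set_option maxHeartbeats 400000
set_option maxRecDepth 100000

namespace Cfsg.Agent.Chev.Md
open Module Cfsg.Agent.Classical.LS Cfsg.Lie StSys

attribute [local instance] good2G2

variable {G V : Type*} [Group G] [Finite G] [AddCommGroup V] [Module ℂ V] [FiniteDimensional ℂ V]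
  {F : Type*} [Field F] [Fintype F] {S : StSys chevG2 F G} {ρ : Representation ℂ G V}

local notation "q" => Fintype.card F
local notation "R" => rG2

section
variable [CharP F 3]

theorem three_zero : ((3 : ℤ) : F) = 0 := by exact_mod_cast CharP.cast_eq_zero F 3

theorem iw {l : List (Rt chevG2 × F)} {s : Rt chevG2} (Z : List (Rt chevG2))
    (hZ : ∀ z ∈ Z, (z, 0) ∈ l := by simp)
    (h : ∀ r ∈ l.map Prod.fst, OK 3 Z r s := by dsimp only [List.map]; decide +kernel) :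
    ∀ u, ∀ v ∈ JE S ρ l, ρ (S.x s u) v ∈ JE S ρ l := JE.inv three_zero Z hZ h

theorem c78 (t u : F) : S.x (R 8) u * S.x (R 7) t =
    S.x (R 7) t * S.x (R 8) u * S.x (R 9) ((-2 : ℤ) * -t * u) := by
  have h : (3 : F) = 0 := by exact_mod_cast three_zero (F := F)
  rw [S.comm (R 7) (R 8) (by decide +kernel) (by decide +kernel), ChevalleyDatum.commWord, show chevG2.commTerms (R 7) (R 8) =
    [((R 9).1, -2, 1, 1), ((R 10).1, -3, 2, 1), ((R 11).1, 3, 1, 2)] from (by decide +kernel)]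
  simp only [List.map, wd_cons]; simp [h]

theorem c76 (t u : F) : S.x (R 6) u * S.x (R 7) t = S.x (R 7) t * S.x (R 6) u * (S.x (R 8) (t * u) *
    (S.x (R 9) (t ^ 2 * u) * (S.x (R 10) ((-t) ^ 3 * u) * S.x (R 11) ((-t) ^ 3 * u ^ 2)))) := by
  rw [S.comm (R 7) (R 6) (by decide +kernel) (by decide +kernel), ChevalleyDatum.commWord, show chevG2.commTerms (R 7) (R 6) =
    [((R 8).1, -1, 1, 1), ((R 9).1, 1, 2, 1), ((R 10).1, 1, 3, 1), ((R 11).1, 1, 3, 2)] from (by decide +kernel)]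
  simp only [List.map, wd_cons]; simp

theorem c85 (t u : F) : S.x (R 5) u * S.x (R 8) t = S.x (R 8) t * S.x (R 5) u * (S.x (R 7) (t * u) *
    (S.x (R 9) (-(t ^ 2 * u)) * (S.x (R 11) (-((-t) ^ 3 * u)) * S.x (R 10) (-((-t) ^ 3 * u ^ 2))))) := by
  rw [S.comm (R 8) (R 5) (by decide +kernel) (by decide +kernel), ChevalleyDatum.commWord, show chevG2.commTerms (R 8) (R 5) =
    [((R 7).1, -1, 1, 1), ((R 9).1, -1, 2, 1), ((R 11).1, -1, 3, 1), ((R 10).1, -1, 3, 2)] from (by decide +kernel)]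
  simp only [List.map, wd_cons]; simp

theorem shift5 {c k d u : F} (h : ∀ t, ψ F (-(k * (t * u) + t ^ 3 * u)) = ψ F (d * t)) :
    dJ S ρ [(R 8, c), (R 7, k), (R 9, 0), (R 10, 0), (R 11, 1)] ≤
      dJ S ρ [(R 8, c + d), (R 7, k), (R 9, 0), (R 10, 0), (R 11, 1)] :=
  dJ_le (S.x (R 5) u) fun v hv => JE.shift hv ((iw (l := [(R 7, k), (R 9, 0), (R 10, 0), (R 11, 1)])
    (s := R 5) [R 10]) _ _ (JE_mono (by simp) hv)) fun t => by
      rw [← h, ← rap (S.x (R 5) u), c85]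
      simp only [rap, hv (R 7, k) (by simp), hv (R 9, 0) (by simp), hv (R 10, 0) (by simp),
        hv (R 11, 1) (by simp), map_smul, smul_smul, ← ψ_add]
      rw [show ∀ a : F, a = 0 → ψ F a • _ = _ from fun a e => by rw [e, AddChar.map_zero_eq_one, one_smul]]
      ring

theorem count4 (hq : 9 ≤ q) {f : F → ℕ} {k : F} (h : ∀ t, t ≠ 0 → 0 < f (k / t ^ 2)) (hk : k ≠ 0) :
    4 ≤ ∑ c, f c := by
  classical
  have h1 := Finset.card_le_mul_card_image_of_maps_to (s := Finset.univ.erase (0 : F))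
    (t := Finset.univ.filter fun c => 0 < f c) (f := fun t => k / t ^ 2)
    (fun t ht => by simpa using h t (Finset.ne_of_mem_erase ht)) 2 fun b _ => by
      rcases Finset.eq_empty_or_nonempty ((Finset.univ.erase (0 : F)).filter fun t => k / t ^ 2 = b)
        with e | ⟨a, ha⟩
      · simp [e]
      refine (Finset.card_le_card fun t ht => ?_).trans (Finset.card_le_two (a := a) (b := -a))
      simp only [Finset.mem_filter, Finset.mem_erase] at ha ht
      simpa using sq_eq_sq_iff_eq_or_eq_neg.1 (inv_injective (mul_left_cancel₀ hk (by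
        rw [← div_eq_mul_inv, ← div_eq_mul_inv, ht.2, ha.2])))
  have h2 := Finset.card_nsmul_le_sum (Finset.univ.filter fun c => 0 < f c) f 1 fun _ h => (Finset.mem_filter.1 h).2
  have h3 := Finset.sum_le_sum_of_subset (f := f) (Finset.filter_subset (fun c => 0 < f c) Finset.univ)
  rw [Finset.card_erase_of_mem (by simp), Finset.card_univ] at h1
  rw [smul_eq_mul, mul_one] at h2
  have := h2.trans h3
  omega

theorem partC (h : ρ (S.x (R 11) 1) ≠ 1) (hq : 9 ≤ q) : q ^ 4 + q ^ 2 + 1 ≤ finrank ℂ V ∨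
    (∀ e, e ≠ 0 → dJ S ρ [(R 11, e)] = q ^ 3) ∧
    finrank ℂ V + q ^ 2 = dJ S ρ [(R 10, 0), (R 11, 0)] + q ^ 4 ∧
    (q - 1) * q + (q - 1) * q ≤ dJ S ρ [(R 8, 0), (R 9, 0)] := by
  classical
  obtain ⟨b, b0, b1, b2, b3, b4⟩ := base h
  obtain ⟨ν, -, hν⟩ := Finset.exists_mem_notMem_of_card_lt_card (s := {0, 1, -1})
    (t := (Finset.univ : Finset F)) (Finset.card_le_three.trans_lt (by simp; omega))
  simp only [Finset.mem_insert, Finset.mem_singleton, not_or] at hν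
  have f3 : ∀ s : F, ∃ t, t ^ 3 = s := (frobeniusEquiv F 3).surjective
  have hs : ∀ a b c e : F, e ≠ 0 → dJ S ρ [(R 8, a), (R 9, b), (R 11, e)] =
      q * dJ S ρ [(R 8, a), (R 9, b), (R 10, c), (R 11, e)] := fun a b c e he => by
    rw [dJ_heis (r := R 6) (s := R 10) (z := R 11) (C := 1) (comm_one (by decide +kernel)) (by simp) he (by simp) (iw [])
      (iw []) c]
    exact congrArg _ (dJ_perm (by simp) (by simp))
  have t1 : ∀ c e : F, c ≠ 0 → e ≠ 0 → dJ S ρ [(R 8, c), (R 9, 0), (R 11, e)] =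
      dJ S ρ [(R 8, 1), (R 9, 0), (R 11, 1)] := fun c e hc he =>
    (dJ_tor (R 4) (by decide +kernel) (by simp; right; decide +kernel) hc one_ne_zero).trans ((dJ_perm (by simp) (by simp)).trans
      ((dJ_tor (r := R 11) (l := [(R 8, 1), (R 9, 0)]) (R 10) (by decide +kernel) (by simp; decide +kernel) he
        one_ne_zero).trans (dJ_perm (by simp) (by simp))))
  have t2 : ∀ c e : F, c ≠ 0 → e ≠ 0 → dJ S ρ [(R 9, c), (R 8, 0), (R 11, e)] =
      dJ S ρ [(R 9, 1), (R 8, 0), (R 11, 1)] := fun c e hc he =>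
    (dJ_tor (R 7) (by decide +kernel) (by simp; right; decide +kernel) hc one_ne_zero).trans ((dJ_perm (by simp) (by simp)).trans
      ((dJ_tor (r := R 11) (l := [(R 9, 1), (R 8, 0)]) (R 6) (by decide +kernel) (by simp; decide +kernel) he
        one_ne_zero).trans (dJ_perm (by simp) (by simp))))
  have t3 : dJ S ρ [(R 9, 1), (R 8, 0), (R 11, 1)] = dJ S ρ [(R 8, 1), (R 9, 0), (R 11, 1)] := by
    obtain ⟨k, hk, e⟩ := dJ_refl S ρ (R 7)
    have e1 := rW_eq (p := R 7) (r := R 8) (s := R 9) (by decide +kernel)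
    have e2 := rW_eq (p := R 7) (r := R 9) (s := R 8) (by decide +kernel)
    have e3 := rW_eq (p := R 7) (r := R 11) (s := R 11) (by decide +kernel)
    exact le_antisymm ((t2 _ _ (hk (R 9)) (hk (R 11))).symm.trans_le (e _ _ (by simp [← e1, ← e2, ← e3])))
      ((t1 _ _ (hk (R 8)) (hk (R 11))).symm.trans_le (e _ _ (by simp [← e1, ← e2, ← e3])))
  obtain ⟨m, hm⟩ : ∃ m, ∀ c : F, c ≠ 0 → dJ S ρ [(R 8, c), (R 9, 0), (R 10, 0), (R 11, 1)] = m :=
    ⟨_, fun c hc => Nat.eq_of_mul_eq_mul_left Fintype.card_pos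
      (by rw [← hs _ _ _ _ one_ne_zero, t1 c 1 hc one_ne_zero, hs _ _ 0 _ one_ne_zero])⟩
  obtain ⟨k, hk⟩ : ∃ k, dJ S ρ [(R 8, 0), (R 9, 0), (R 10, 0), (R 11, 1)] = k := ⟨_, rfl⟩
  have e1 : q * b = q * k + (q - 1) * (q * m) + (q - 1) * (q * (q * m)) := by
    rw [← b2 1 one_ne_zero, dJ_split' (r := R 9) (iw []) (k := q * (q * m)) fun c hc => by
      rw [dJ_heis (r := R 7) (z := R 9) c78 (by
        simpa using fun e : (2 : F) = 0 => one_ne_zero (by
          linear_combination (CharP.cast_eq_zero F 3 : ((3 : ℕ) : F) = 0) - e)) hc (by simp) (iw [])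
        (iw []) 0, dJ_perm (l' := [(R 9, c), (R 8, 0), (R 11, 1)]) (by simp) (by simp), t2 c 1 hc
        one_ne_zero, t3, hs _ _ 0 _ one_ne_zero, hm 1 one_ne_zero],
      dJ_split' (r := R 8) (iw []) fun c hc => (hs _ _ 0 _ one_ne_zero).trans (congrArg _ (hm c hc)),
      hs _ _ 0 _ one_ne_zero, hk]
  obtain ⟨n, hn⟩ : ∃ n, q = n + 9 := ⟨q - 9, by omega⟩
  have e2 : b = k + (n + 8) * (n + 10) * m := Nat.eq_of_mul_eq_mul_left Fintype.card_pos (by
    rw [e1, hn, show n + 9 - 1 = n + 8 from rfl]; ring)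
  have m0 : m ≠ 0 := fun m0 => by
    have h1 : ∀ c : F, c ≠ 0 → JE S ρ [(R 7, 0), (R 10, c)] = JE S ρ [(R 10, c)] := fun c hc => by
      obtain ⟨k', hk', e⟩ := dJ_refl S ρ (R 6)
      refine Submodule.eq_of_le_of_finrank_le (JE_mono (by simp)) (le_trans ?_ (e [(R 11, c * k' (R 11)),
        (R 8, 0)] _ (by simp [← rW_eq (p := R 6) (r := R 8) (s := R 7) (by decide +kernel),
          ← rW_eq (p := R 6) (r := R 11) (s := R 10) (by decide +kernel)])))
      refine (long_eq (p := R 6) (rW_eq (by decide +kernel)) (rW_eq (by decide +kernel)) (s := R 11) (by decide +kernel) hc).trans_le ?_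
      rw [dJ_tor (R 6) (by decide +kernel) (by simp) (mul_ne_zero hc (hk' _)) one_ne_zero, b2 1 one_ne_zero, e2, m0,
        mul_zero, add_zero, ← hk, ← hs _ _ _ _ one_ne_zero]
      exact dJ_mono (by simp)
    obtain ⟨v, hv, h0⟩ := exists_JE (S := S) (ρ := ρ) (l := [(R 8, 0), (R 9, 0), (R 10, ν), (R 11, 1)])
      (Nat.pos_of_ne_zero fun e => by
        have := hs 0 0 ν 1 one_ne_zero
        rw [hs 0 0 0 1 one_ne_zero, hk, e] at this
        simp [m0, ← e2] at *; omega)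
    have h2 : ρ (S.x (R 6) 1) v ∈ JE S ρ [(R 10, ν + -1)] :=
      JE.shift (JE_mono (by simp) hv) (by simp [mem_JE]) fun t => by
        rw [← rap, comm_one (z := R 11) (C := 1) (by decide +kernel), rap, hv (R 11, 1) (by simp), map_smul, rap]
        congr 2; simp
    refine hν.2.2 (eq_neg_of_add_eq_zero_left (eq_zero_of_ψ fun s => ?_))
    obtain ⟨t, rfl⟩ := f3 s
    have h3 := congrArg (fun a => ρ a v) (c76 (S := S) (-t) 1)
    have h4 := JE.fix ((h1 _ (sub_ne_zero.2 hν.2.1 ∘ (sub_eq_add_neg ν 1).trans)).ge h2) List.mem_cons_self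
    simp only [rap, JE.fix ((h1 ν hν.1).ge (JE_mono (by simp) hv)) List.mem_cons_self, map_smul, h4,
      hv (R 8, 0) (by simp), hv (R 9, 0) (by simp), hv (R 10, ν) (by simp), hv (R 11, 1) (by simp),
      smul_smul, ← ψ_add] at h3
    have h5 := smul_left_injective ℂ (fun e => h0 (apply_injective (ρ := ρ) _ (e.trans (map_zero _).symm)))
      ((one_smul _ _).trans h3)
    rw [h5]; congr 1; ring
  by_cases hc : 2 ≤ m ∨ 4 ≤ k
  · left
    have h1 : (n + 8) * (n + 10) + 4 ≤ b := by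
      have := Nat.mul_le_mul_left ((n + 8) * (n + 10)) (Nat.pos_of_ne_zero m0)
      rcases hc with hc | hc
      · nlinarith [Nat.mul_le_mul_left ((n + 8) * (n + 10)) hc]
      · omega
    rw [b4, hn, show n + 9 - 1 = n + 8 from rfl]
    nlinarith [Nat.mul_le_mul_left ((n + 8) * (n + 10)) h1, Nat.zero_le (n ^ 2)]
  obtain rfl : m = 1 := by omega
  have tr : ∀ c κ t : F, t ≠ 0 → dJ S ρ [(R 7, κ), (R 8, c), (R 9, 0), (R 10, 0), (R 11, 1)] ≤
      dJ S ρ [(R 7, κ / t ^ 2), (R 8, c * t), (R 9, 0), (R 10, 0), (R 11, 1)] := fun c κ t ht =>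
    dJ_le _ fun v hv => JE.tor (R 7) ht hv (by simp [show pr (R 7) (R 8) = -1 from (by decide +kernel),
      show pr (R 7) (R 11) = 0 from (by decide +kernel), ht, zpow_ofNat])
  have h1 : ∀ κ : F, κ ≠ 0 → dJ S ρ [(R 7, κ), (R 8, 0), (R 9, 0), (R 10, 0), (R 11, 1)] = 0 :=
    fun κ hκ => by_contra fun e => hc (.inr (hk ▸ (count4 hq (fun t ht => by
      simpa using (Nat.pos_of_ne_zero e).trans_le (tr 0 κ t ht)) hκ).trans (sum_dJ_le _)))
  have pm : ∀ c κ : F, dJ S ρ [(R 8, c), (R 7, κ), (R 9, 0), (R 10, 0), (R 11, 1)] =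
      dJ S ρ [(R 7, κ), (R 8, c), (R 9, 0), (R 10, 0), (R 11, 1)] := fun _ _ => dJ_perm (by simp) (by simp)
  obtain ⟨κ, -, hκ⟩ := Finset.exists_ne_zero_of_sum_ne_zero
    (((dJ_split (r := R 7) (iw [R 9])).symm.trans (hm 1 one_ne_zero)).trans_ne one_ne_zero)
  replace hκ := Nat.pos_of_ne_zero hκ
  obtain rfl : κ = 0 := by_contra fun h0 => by
    have h2 : ∀ u d : F, (∀ t, ψ F (-(κ * (t * u) + t ^ 3 * u)) = ψ F (d * t)) → (1 + d) ^ 2 = 1 := by
      intro u d hd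
      have h3 := (pm 1 κ ▸ hκ).trans_le (shift5 hd)
      rw [pm] at h3
      have h4 : 1 + d ≠ 0 := fun e => by rw [e, h1 κ h0] at h3; omega
      have h5 := eq_of_line (hm _ h4).le h3 (by simpa using hκ.trans_le (tr 1 κ _ h4))
      rwa [eq_div_iff (pow_ne_zero _ h4), mul_eq_left₀ h0] at h5
    have h3 : ∀ t : F, κ * t + t ^ 3 = 0 := fun t => eq_zero_of_ψ fun u => by
      obtain ⟨d, hd⟩ := exists_eq_ψ' (fun t => ψ F (-(κ * (t * u) + t ^ 3 * u))) (by simp) fun a b => by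
        rw [← ψ_add, add_pow_char]; congr 1; ring
      have h4 := h2 u d hd
      have h5 : ∀ t, ψ F (-(κ * (t * -u) + t ^ 3 * -u)) = ψ F (-d * t) := fun t => by
        rw [neg_mul_comm, ← hd]; congr 1; ring
      have h6 : d = 0 := by
        linear_combination h4 - h2 _ _ h5 - d * (CharP.cast_eq_zero F 3 : ((3 : ℕ) : F) = 0)
      rw [← (h5 t).trans (show _ = 1 by simp [h6])]; congr 1; ring
    have h4 : ν * ((ν - 1) * (ν + 1)) = 0 := by linear_combination h3 ν - ν * h3 1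
    simp [hν, sub_eq_zero, add_eq_zero_iff_eq_neg] at h4
  obtain ⟨a, ha⟩ := exists_eq_ψ' (fun t => ψ F ((frobeniusEquiv F 3).symm t)) (by simp) fun a b => by
    rw [map_add, ψ_add]
  replace ha : ∀ t, ψ F t = ψ F (a * t ^ 3) := fun t => by
    simpa [frobenius_def] using ha (frobeniusEquiv F 3 t)
  have h2 := shift5 (S := S) (ρ := ρ) (c := 1) (k := 0) (d := -1) (u := a) fun t => by
    rw [ha (-1 * t)]; congr 1; ring
  have h3 := shift5 (S := S) (ρ := ρ) (c := 0) (k := 0) (d := 1) (u := -a) fun t => by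
    rw [ha (1 * t)]; congr 1; ring
  have h4 := dJ_split' (S := S) (ρ := ρ) (r := R 7) (iw [R 9]) h1
  have h5 := dJ_mono (S := S) (ρ := ρ) (l := [(R 7, 0), (R 8, 1), (R 9, 0), (R 10, 0), (R 11, 1)])
    (l' := [(R 8, 1), (R 9, 0), (R 10, 0), (R 11, 1)]) (by simp)
  rw [add_neg_cancel, pm, pm] at h2
  rw [zero_add, pm, pm] at h3
  rw [hm 1 one_ne_zero] at h5
  obtain rfl : k = 1 := by omega
  have h6 : q ≤ dJ S ρ [(R 7, 0), (R 9, 0), (R 10, 0), (R 11, 1)] := by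
    have := dJ_ge (S := S) (ρ := ρ) (r := R 8) (l := [(R 7, 0), (R 9, 0), (R 10, 0), (R 11, 1)]) (k := 1)
      fun c hc => by simpa [pm, Nat.succ_le_iff] using hκ.trans_le (tr 1 0 c hc)
    rw [pm] at this; omega
  refine .inr ⟨fun e he => by rw [b2 e he, e2, hn]; ring, by
    rw [b4, e2, hn, show n + 9 - 1 = n + 8 from rfl]; ring, le_trans (Nat.add_le_add_right
      (le_trans (Nat.le_add_left _ _) (dJ_ge (r := R 10) fun c hc => ?_)) _) (dJ_ge (r := R 11) fun c hc => ?_)⟩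
  · obtain ⟨k', hk', e⟩ := dJ_refl S ρ (R 6)
    refine h6.trans ((dJ_perm (by simp) (by simp)).trans_le ((dJ_tor (r := R 11)
      (l := [(R 7, 0), (R 9, 0), (R 10, 0)]) (R 6) (by decide +kernel) (by simp) one_ne_zero
      (mul_ne_zero hc (hk' (R 11)))).trans_le (e _ _ ?_)))
    simp [← rW_eq (p := R 6) (r := R 7) (s := R 8) (by decide +kernel), ← rW_eq (p := R 6) (r := R 11) (s := R 10) (by decide +kernel),
      ← rW_eq (p := R 6) (r := R 10) (s := R 11) (by decide +kernel), ← rW_eq (p := R 6) (r := R 9) (s := R 9) (by decide +kernel)]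
  · rw [dJ_tor (R 6) (by decide +kernel) (by simp) hc one_ne_zero,
      dJ_perm (l' := [(R 8, 0), (R 9, 0), (R 11, 1)]) (by simp) (by simp), hs _ _ 0 _ one_ne_zero, hk,
      mul_one]
end

theorem arithC {n d : ℕ} (hp : ∃ f, n = 3 ^ f) (hn : 9 ≤ n) (h1 : n ^ 4 + n ^ 2 ≤ d + 2 * n)
    (h2 : d ∣ n ^ 4 * (n ^ 6 - 1)) : n ^ 4 + n ^ 2 + 1 ≤ d := by
  by_contra! H
  obtain ⟨j, hj⟩ : ∃ j, d + j = n ^ 4 + n ^ 2 := ⟨n ^ 4 + n ^ 2 - d, by omega⟩
  obtain ⟨f, hf⟩ := hp
  obtain ⟨s, -, hs⟩ := (Nat.dvd_prime_pow Nat.prime_three).1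
    (show Nat.gcd d (n ^ 4) ∣ 3 ^ (f * 4) by rw [pow_mul, ← hf]; exact Nat.gcd_dvd_right _ _)
  have h3 := Nat.gcd_dvd_left d (n ^ 4)
  have h4 := Nat.dvd_gcd_mul_iff_dvd_mul.2 h2
  rw [hs] at h3 h4
  obtain ⟨u, rfl⟩ : ∃ u, n = u + 9 := ⟨n - 9, by omega⟩
  obtain ⟨E, hE⟩ : ∃ E, E = u ^ 2 + 18 * u + 80 := ⟨_, rfl⟩
  rw [show (u + 9) ^ 6 - 1 = E * d + E * (j + 1) from Nat.sub_eq_of_eq_add (by
    rw [← mul_add, ← add_assoc, hj, hE]; ring), mul_add, ← mul_assoc,
    Nat.dvd_add_right (dvd_mul_left _ _)] at h4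
  have k : ∀ a b c, d = a * b → 0 < a → ∀ r, 0 < r → r < b → 3 ^ s * (E * (j + 1)) ∣ a * (b * c + r) →
      False := fun a b c e ha r r0 hr h => by
    rw [e] at h4
    exact absurd (Nat.le_of_dvd r0 ((Nat.dvd_add_right (dvd_mul_right b c)).1
      (Nat.dvd_of_mul_dvd_mul_left ha (h4.trans h)))) (by omega)
  rcases lt_trichotomy s f with e | rfl | e
  · have h5 : 3 ^ s * 3 ≤ u + 9 := by rw [hf, ← pow_succ]; exact Nat.pow_le_pow_right (by omega) e
    have h6 := Nat.le_of_dvd (by rw [hE]; positivity) h4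
    have h7 : 3 ^ s * 3 * (E * (j + 1)) ≤ (u + 9) * (E * (2 * u + 19)) :=
      Nat.mul_le_mul h5 (Nat.mul_le_mul_left _ (by omega))
    rw [hE] at h6 h7
    nlinarith [Nat.zero_le (u ^ 4), Nat.zero_le (u ^ 3), Nat.zero_le (u ^ 2)]
  · rw [← hf] at h3 k
    obtain ⟨i, rfl⟩ : u + 9 ∣ j := (Nat.dvd_add_right h3).1 (hj ▸ dvd_add (dvd_pow_self _ (by omega))
      (dvd_pow_self _ (by omega)))
    have : i = 0 ∨ i = 1 ∨ i = 2 := by
      rcases i with _ | _ | _ | i <;> simp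
      nlinarith
    rcases this with rfl | rfl | rfl
    · refine k (u + 9) (u ^ 3 + 27 * u ^ 2 + 244 * u + 738) 0 (by nlinarith) (by omega) E
        (by rw [hE]; positivity) (by rw [hE]; nlinarith [Nat.zero_le (u ^ 3)]) (dvd_of_eq (by ring))
    · refine k (u + 9) (u ^ 3 + 27 * u ^ 2 + 244 * u + 737) 1 (by nlinarith) (by omega)
        (u ^ 2 + 16 * u + 63) (by positivity) (by nlinarith [Nat.zero_le (u ^ 3)])
        (dvd_of_eq (by rw [hE]; ring))
    · refine k (u + 9) (u ^ 3 + 27 * u ^ 2 + 244 * u + 736) 2 (by nlinarith) (by omega)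
        (u ^ 2 + 14 * u + 48) (by positivity) (by nlinarith [Nat.zero_le (u ^ 3)])
        (dvd_of_eq (by rw [hE]; ring))
  · have h5 : (u + 9) * 3 ∣ (u + 9) ^ 2 := by
      rw [sq, Nat.mul_dvd_mul_iff_left (by omega), hf]
      exact dvd_pow_self 3 (by rintro rfl; omega)
    have h6 : (u + 9) * 3 ∣ j := (Nat.dvd_add_right (((by rw [hf, ← pow_succ]; exact pow_dvd_pow 3 e :
      (u + 9) * 3 ∣ 3 ^ s)).trans h3)).1 (hj ▸ dvd_add (h5.trans (pow_dvd_pow _ (by omega))) h5)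
    obtain rfl : j = 0 := Nat.eq_zero_of_dvd_of_lt h6 (by omega)
    have h7 : Nat.Coprime ((u + 9) ^ 2 + 1) (3 ^ s) := Nat.Coprime.pow_right _ (by
      rw [Nat.coprime_comm, Nat.Prime.coprime_iff_not_dvd Nat.prime_three]
      have := (Dvd.intro_left _ rfl).trans h5
      omega)
    have h8 := Nat.le_of_dvd (by rw [hE]; positivity) (h7.dvd_of_dvd_mul_left
      ((Dvd.intro_left ((u + 9) ^ 2) (by rw [add_zero] at hj; rw [hj]; ring)).trans h4))
    rw [hE] at h8; nlinarith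

theorem min_G2 {ρ : Representation ℂ (chevG2.group F) V} (hρ : ρ.IsIrreducible)
    (h2 : 2 ≤ finrank ℂ V) : (q % 3 = 1 → 4 < q → q ^ 3 + 1 ≤ finrank ℂ V) ∧
      (q % 3 = 2 → 2 < q → q ^ 3 - 1 ≤ finrank ℂ V) ∧
      (q % 3 = 0 → 3 < q → q ^ 4 + q ^ 2 + 1 ≤ finrank ℂ V) := by
  classical
  have hne : 2 < q → ∀ r t, t ≠ 0 → ρ ((chSys chevG2 F).x r t) ≠ 1 := fun hq r t ht e => by
    have := (S1055.result (exists_ne_zero_one hq)).1
    have hker : ρ.ker = ⊥ := (Subgroup.Normal.eq_bot_or_eq_top inferInstance).resolve_right fun h => by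
      obtain ⟨g, hg⟩ := nontriv_of_irr ρ hρ h2
      exact hg (show g ∈ ρ.ker from h ▸ trivial)
    exact ht ((chSys chevG2 F).x_inj ((hker.le e).trans ((chSys chevG2 F).x_zero r).symm))
  have hA : q % 3 ≠ 0 → 4 < q → q ^ 3 + 1 ≤ finrank ℂ V ∨
      q ^ 3 ≤ finrank ℂ V + 1 ∧ (q % 3 = 1 → False) := fun h3 hq => by
    obtain ⟨a, -, ha⟩ := Finset.exists_mem_notMem_of_card_lt_card (t := (Finset.univ : Finset F))
      (s := insert 0 (Polynomial.nthRoots 3 (1 : F)).toFinset) ((Finset.card_insert_le _ _).trans_lt (by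
        have := (Multiset.toFinset_card_le _).trans (Polynomial.card_nthRoots 3 (1 : F))
        simp; omega))
    simp only [Finset.mem_insert, Multiset.mem_toFinset, Polynomial.mem_nthRoots three_pos, not_or] at ha
    obtain ⟨n, hn⟩ : ∃ n, q = n + 5 := ⟨q - 5, by omega⟩
    rcases partA (hne (by omega) _ _ one_ne_zero) (fun e => h3 (Nat.mod_eq_zero_of_dvd
      ((prime_dvd_char_iff_dvd_card 3).1 ((ringChar.spec F 3).1 (by exact_mod_cast e) |> fun h =>
        (Nat.prime_dvd_prime_iff_eq (CharP.char_is_prime F _) Nat.prime_three).1 h ▸ dvd_rfl)))) ha.1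
      (by exact_mod_cast ha.2) with h | ⟨h4, h5, h6, z, z0, h7⟩
    · left
      rw [hn, show (n + 5) ^ 2 - 1 = n ^ 2 + 10 * n + 24 from Nat.sub_eq_of_eq_add (by ring)] at h
      rw [hn]; nlinarith [Nat.zero_le (n ^ 3), Nat.zero_le (n ^ 2)]
    refine or_iff_not_imp_left.2 fun H => ?_
    have h8 : (q - 1) * z = q - 1 := by
      rcases z with _ | _ | z
      · omega
      · simp
      · rw [hn, show n + 5 - 1 = n + 4 from rfl] at *; nlinarith
    refine ⟨by omega, fun h9 => ?_⟩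
    by_cases e : finrank ℂ V = q ^ 3
    · exact partB2 ch_grp hρ ha.1 (fun e => ha.2 (by simp [e])) (by omega) e
    obtain ⟨h, ω, k1, k2, k3, k4, k5⟩ := exists_h3 (F := F) h9
    obtain ⟨ζ, ε, k6, k7, k8⟩ := partB1 k1 k2 k3 k4 h4 h5 (by omega)
    exact partB1' k3 hρ hq (by omega) k5 k6 k7 k8
  refine ⟨fun h hq => (hA (by omega) hq).resolve_right fun h' => h'.2 h, fun h hq =>
    (hA (by omega) (by omega)).elim (by omega) (by omega), fun h hq => ?_⟩
  have : CharP F 3 := (Nat.prime_dvd_prime_iff_eq Nat.prime_three (CharP.char_is_prime F _)).1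
    ((prime_dvd_char_iff_dvd_card 3).2 (Nat.dvd_of_mod_eq_zero h)) ▸ ringChar.charP F
  obtain ⟨f, -, hf⟩ := FiniteField.card F 3
  have h9 : 9 ≤ q := by
    rw [hf] at hq ⊢
    exact Nat.pow_le_pow_right (n := 3) (i := 2) (by omega) ((Nat.pow_lt_pow_iff_right (a := 3) (n := 1)
      (by omega)).1 hq)
  obtain ⟨m, -, hm⟩ := exists_excG2 F (frobeniusEquiv F 3).surjective
  rcases partC (hne (by omega) _ _ one_ne_zero) h9 with h | ⟨h3, h4, -⟩
  · exact h
  rcases partC (S := chSys chevG2 F) (ρ := ρ.comp m.f) (by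
    rw [MonoidHom.comp_apply, m.f_x]; exact hne (by omega) _ _ (m.φ_ne _ one_ne_zero)) h9 with h | ⟨-, -, h5⟩
  · exact h
  have h6 : dJ (chSys chevG2 F) (ρ.comp m.f) [(R 8, 0), (R 9, 0)] ≤
      dJ (chSys chevG2 F) ρ [(R 10, 0), (R 11, 0)] := Submodule.finrank_mono fun v hv => by
    have k : ∀ r, (r, 0) ∈ [(R 8, (0 : F)), (R 9, 0)] → ∀ t,
        ρ ((chSys chevG2 F).x (symG2.p r) t) v = v := fun r hr t => by
      obtain ⟨s, rfl⟩ := hm r t
      rw [← m.f_x]; exact JE.fix hv hr s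
    exact JE.cons (JE.cons (by simp [mem_JE]) (p_G2 9 ▸ k (R 9) (by simp))) (p_G2 8 ▸ k (R 8) (by simp))
  have h7 := index_P (ch_grp (D := chevG2) (F := F)) (J := MS chevG2 1) (by
    rw [← poin_eq, poin_G2_eq, (desc_triv fd_G2).step step0_G2_1, dep0_G2_1, sum0_G2_1, MS_zero,
      Fold.P_empty, mul_one])
  have h8 := dvd_of_trace hρ h2 (a := q ^ 4) (by
    rw [trace_dJ h3, pow_succ' _ 3]; push_cast; rfl) (index_dvd (fun _ _ => (chSys chevG2 F).x_inj)
      fun a ha => par_of_comm (J := MS chevG2 1) (fun r hr => ((by decide +kernel) : ∀ r : Rt chevG2,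
        Pos r ∨ co r (nG2 1) = 0 → OK 0 [] (R 11) r) r (hr.imp_right fun h => h _ (show ¬ bit 1 1 = 1 from (by decide +kernel)))) ha)
  obtain ⟨n, hn⟩ : ∃ n, q = n + 1 := ⟨q - 1, by omega⟩
  refine arithC ⟨_, hf⟩ h9 (by rw [hn] at h4 h5 ⊢; rw [Nat.add_sub_cancel] at h5; nlinarith) ?_
  rwa [show (q - 1) * _ = q ^ 6 - 1 by
    zify [Fintype.card_pos (α := F), Nat.one_le_pow 6 _ (Fintype.card_pos (α := F))]
    rw [h7, Nat.card_eq_fintype_card]; ring] at h8

end Cfsg.Agent.Chev.Md
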