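import Mathlib
import Cfsg.Agent.Chev.MdT
import Cfsg.Agent.Chev.TwE6

/-! The minimal degree of the twisted groups of type E6. -/

set_option autoImplicit false
set_option linter.unusedSectionVars false
set_option maxHeartbeats 400000
set_option maxRecDepth 100000

namespace Cfsg.Agent.Chev.Md
open Module Cfsg.Lie StSys Tw

attribute [local instance] good2E6
local notation "σ" => symE6.p

theorem comm4 {G : Type*} [Group G] {a a' b b' c c' : G} (h : a * b = b * a * c)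
    (h' : a' * b' = b' * a' * c') (h1 : a' * b = b * a') (h2 : a * b' = b' * a)
    (h3 : c * b' = b' * c) (h4 : c * a' = a' * c) :
    a * a' * (b * b') = b * b' * (a * a') * (c * c') :=
  calc _ = a * (a' * b) * b' := by group
    _ = (a * b) * (a' * b') := by rw [h1]; group
    _ = b * a * (c * b') * a' * c' := by rw [h, h']; group
    _ = b * (a * b') * (c * a') * c' := by rw [h3]; group
    _ = _ := by rw [h2, h4]; group

theorem NC.pr {r s : Rt chevE6} (h : NC r s) : 0 ≤ pr r s := by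
  by_contra H
  have h1 := (slE6.all r).neg_le h.1
  exact h.2 (rW r • s) (by rw [co_rW, show Chev.pr r s = -1 by omega]; simp [add_comm])

theorem uni_of_NC {U : Set (Rt chevE6)} (h : ∀ v ∈ U, ∀ w ∈ U, NC v w) : ∃ c, Uni c U := by
  classical
  refine ⟨fun j => ∑ u ∈ (Set.toFinite U).toFinset, pr u (sim j), fun r hr => ?_,
    fun r hr s hs v i j hi hj e => absurd (slE6.eq_one (h r hr s hs).1 hi hj e) ((h r hr s hs).2 v)⟩
  have : ph (fun j => ∑ u ∈ (Set.toFinite U).toFinset, pr u (sim j)) r =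
      ∑ u ∈ (Set.toFinite U).toFinset, pr u r := by
    simp only [ph, pr_eq _ r, lin_apply, Finset.mul_sum]; exact Finset.sum_comm
  rw [this]
  exact Finset.sum_pos' (fun u hu => (h u (by simpa using hu) r hr).pr)
    ⟨r, by simpa using hr, by rw [pr_self]; omega⟩

/-- the data of a twisting -/
structure TE {K G : Type*} [Field K] [Group G] (S : StSys chevE6 K G) where
  ψ : K →+* K
  T : Tw S symE6
  ψψ : ∀ t, ψ (ψ t) = t
  hT : ∀ r t, T.φ r t = (sgn (bit gEE6 r) 1 : ℤ) * ψ t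
  fix : ∀ r, σ r = r → ∀ t, T.φ r t = ψ t
  ne : ∃ a, ψ a ≠ a

namespace TE
variable {K G : Type*} [Field K] [Group G] {S : StSys chevE6 K G} (C : TE S)

theorem _root_.Cfsg.Agent.Chev.Md.NC.cm {r s : Rt chevE6} (h : NC r s) (t u : K) :
    S.x r t * S.x s u = S.x s u * S.x r t := slE6.cm S h.1 h.2 t u

/-- the fixed field -/
def Fq : Subfield K := C.ψ.eqLocusField (RingHom.id K)

/-- the parameters -/
def Par (r : Rt chevE6) : AddSubgroup K where
  carrier := {t | σ r = r → C.ψ t = t}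
  zero_mem' _ := map_zero _
  add_mem' ha hb h := by rw [map_add, ha h, hb h]
  neg_mem' ha h := by rw [map_neg, ha h]

/-- the root elements -/
noncomputable def xr (r : Rt chevE6) (t : K) : G :=
  if σ r = r then S.x r t else S.x r t * S.x (σ r) (C.T.φ r t)

theorem xr_lg {r : Rt chevE6} (h : σ r = r) (t : K) : C.xr r t = S.x r t := if_pos h
theorem xr_sh {r : Rt chevE6} (h : σ r ≠ r) (t : K) :
    C.xr r t = S.x r t * S.x (σ r) (C.T.φ r t) := if_neg h

theorem φφ (r : Rt chevE6) (t : K) : C.T.φ (σ r) (C.T.φ r t) = t := by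
  rw [C.hT, C.hT, map_mul, map_intCast, C.ψψ, ← mul_assoc, ← Int.cast_mul, (orb_spec r).2.2]; simp

theorem xr_mem {r : Rt chevE6} {t : K} (h : t ∈ C.Par r) : C.xr r t ∈ C.T.Fx := by
  by_cases e : σ r = r
  · rw [C.xr_lg e, x_mem_Fx e, C.fix r e, h e]
  · rw [C.xr_sh e]
    exact two_mem rfl (orb_spec r).1 (orb_spec r).2.1.cm (C.φφ r t)

theorem xr_add (r : Rt chevE6) (a b : K) : C.xr r (a + b) = C.xr r a * C.xr r b := by
  by_cases e : σ r = r
  · simp only [C.xr_lg e, S.add]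
  · simp only [C.xr_sh e, C.hT, map_add, mul_add, S.add, mul_assoc]
    rw [← mul_assoc (S.x r b), (orb_spec r).2.1.cm, mul_assoc]

theorem xr_XS (r : Rt chevE6) (t : K) : C.xr r t ∈ S.XS {v | v ∈ [r, σ r]} := by
  unfold xr
  split_ifs
  · exact S.x_mem (by simp) _
  · exact mul_mem (S.x_mem (by simp) _) (S.x_mem (by simp) _)

theorem xr_σ {r : Rt chevE6} {t : K} (h : t ∈ C.Par r) :
    ∃ t' ∈ C.Par (σ r), C.xr r t = C.xr (σ r) t' := by
  by_cases e : σ r = r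
  · exact ⟨t, e.symm ▸ h, by rw [e]⟩
  · have e' : σ (σ r) ≠ σ r := fun h => e (symE6.p.injective h)
    exact ⟨_, fun h => absurd h e', by
      rw [C.xr_sh e, C.xr_sh e', C.φφ, (orb_spec r).1, (orb_spec r).2.1.cm]⟩

theorem prd_mem {H : Subgroup G} {t : Rt chevE6 → K} : ∀ (n : ℕ) (L : List (Rt chevE6)),
    L.length < n → L.Nodup → (∀ v ∈ L, σ v ∈ L) → (∀ v ∈ L, ∀ w ∈ L, NC v w) →
    (∀ v ∈ L, t (σ v) = C.T.φ v (t v)) → (∀ v ∈ L, ∀ a ∈ C.Par v, C.xr v a ∈ H) → S.prd L t ∈ H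
  | 0, _, h, _, _, _, _, _ => absurd h (by omega)
  | _ + 1, [], _, _, _, _, _, _ => one_mem _
  | n + 1, v :: L, h, h1, h2, h3, h4, h5 => by
    have hv := List.nodup_cons.1 h1
    have k := h5 v (by simp) (t v) fun e => by rw [← C.fix v e, ← h4 v (by simp), e]
    rw [prd_cons]
    by_cases e : σ v = v
    · rw [C.xr_lg e] at k
      exact mul_mem k (prd_mem n L (by simpa using h) hv.2 (fun w hw =>
        (List.mem_cons.1 (h2 w (by simp [hw]))).resolve_left fun e' =>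
          hv.1 (symE6.p.injective (e'.trans e.symm) ▸ hw)) (fun a ha b hb => h3 a (by simp [ha]) b (by simp [hb]))
        (fun a ha => h4 a (by simp [ha])) fun a ha => h5 a (by simp [ha]))
    · have hm : σ v ∈ L := (List.mem_cons.1 (h2 v (by simp))).resolve_left e
      have hs : ∀ a ∈ L.erase (σ v), a ∈ v :: L := fun a ha => by simp [List.mem_of_mem_erase ha]
      rw [C.xr_sh e, ← h4 v (by simp)] at k
      rw [prd, ((List.perm_cons_erase hm).map _).prod_eq' (List.pairwise_map.2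
        (List.pairwise_of_forall_mem_list fun a ha b hb => (h3 a (by simp [ha]) b (by simp [hb])).cm _ _)),
        List.map_cons, List.prod_cons, ← mul_assoc]
      refine mul_mem k (prd_mem n _ (by rw [List.length_erase_of_mem hm]; simp at h; omega)
        (hv.2.erase _) (fun w hw => ?_) (fun a ha b hb => h3 a (hs a ha) b (hs b hb))
        (fun a ha => h4 a (hs a ha)) fun a ha => h5 a (hs a ha))
      have hw' := hv.2.mem_erase_iff.1 hw
      refine hv.2.mem_erase_iff.2 ⟨fun e' => hv.1 (symE6.p.injective e' ▸ hw'.2),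
        (List.mem_cons.1 (h2 w (hs w hw))).resolve_left fun e' => hw'.1 ?_⟩
      rw [← e', (orb_spec w).1]

theorem Fx_le {U : Set (Rt chevE6)} (h1 : ∀ v ∈ U, σ v ∈ U) (h2 : ∀ v ∈ U, ∀ w ∈ U, NC v w)
    {H : Subgroup G} (h3 : ∀ v ∈ U, ∀ a ∈ C.Par v, C.xr v a ∈ H) : C.T.Fx ⊓ S.XS U ≤ H := by
  intro y hy
  obtain ⟨c, hc⟩ := uni_of_NC h2
  obtain ⟨L, hL, hLU⟩ := exists_list U
  obtain ⟨t, rfl⟩ := S.exists_prd hc hL hLU hy.2
  simp only [← hLU] at h1 h2 h3
  refine C.prd_mem _ L (Nat.lt_succ_self _) hL h1 h2 ((prd_mem_iff hc hL (fun r => (hLU r).1)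
    ((List.perm_ext_iff_of_nodup (hL.map symE6.p.injective) hL).2 fun v => ?_)
    fun r hr s hs => (h2 r hr s hs).cm).1 hy.1) h3
  rw [List.mem_map]
  exact ⟨fun ⟨a, ha, e⟩ => e ▸ h1 a ha, fun h => ⟨_, h1 v h, (orb_spec v).1⟩⟩

/-- conjugate long root subgroups -/
def Cj (a b : Rt chevE6) : Prop :=
  ∀ c, c ≠ 0 → C.ψ c = c → ∃ g ∈ C.T.Fx, ∀ t, S.x a t * g = g * S.x b (c * t)

variable {C} in
theorem Cj.symm {a b : Rt chevE6} (h : C.Cj a b) : C.Cj b a := fun c hc e => by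
  obtain ⟨g, hg, k⟩ := h c⁻¹ (inv_ne_zero hc) (by rw [map_inv₀, e])
  refine ⟨g⁻¹, inv_mem hg, fun t => ?_⟩
  have := k (c * t)
  rw [inv_mul_cancel_left₀ hc] at this
  rw [eq_inv_mul_iff_mul_eq, ← mul_assoc, ← this, mul_inv_cancel_right]

variable {C} in
theorem Cj.trans {a b d : Rt chevE6} (h : C.Cj a b) (h' : C.Cj b d) : C.Cj a d := fun c hc e => by
  obtain ⟨g, hg, k⟩ := h 1 one_ne_zero (map_one _)
  obtain ⟨g', hg', k'⟩ := h' c hc e
  exact ⟨g * g', mul_mem hg hg', fun t => by rw [← mul_assoc, k, one_mul, mul_assoc, k', mul_assoc]⟩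

theorem cj_step {a p v : Rt chevE6} (hp : σ p = p) (h : co v = co a + co p) : C.Cj a v := by
  intro c hc e
  obtain ⟨η, h1, -, -, h2⟩ := S.exists_n_conj p
  have h3 : pr p a = -1 := by
    have := slE6.pr_eq_one (α := p) (β := ng a) (β' := v) (by rw [h, co_ng]; abel)
    rw [pr_ng_right] at this; omega
  have h4 : rW p • a = v := co_inj (by rw [co_rW, h3, h]; simp)
  have h5 : η a * c ≠ 0 := mul_ne_zero (left_ne_zero_of_mul_eq_one (h1 a)) hc
  have h6 : C.ψ (η a) = η a := by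
    rcases mul_self_eq_one_iff.1 (h1 a) with e | e <;> simp [e]
  refine ⟨(S.n p (η a * c))⁻¹, inv_mem ⟨S.N_le_grp (S.n_mem_N _ h5), by
    rw [C.T.f_n _ h5, hp, C.fix p hp, map_mul, h6, e]⟩, fun t => ?_⟩
  have := h2 _ h5 a t
  rw [h3, h4, neg_neg, zpow_one, ← mul_assoc (η a), h1, one_mul] at this
  rw [← this]; group

theorem cj_top (a : Rt chevE6) (h : σ a = a) : C.Cj a (rtE6 71) := by
  induction a using WellFoundedGT.induction with
  | ind a ih =>
    by_cases e : a = rtE6 71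
    · have := C.cj_step (a := rtE6 70) (p := rtE6 46) (v := rtE6 71) (by decide +kernel)
        (by decide +kernel)
      exact e ▸ this.symm.trans this
    · obtain ⟨p, v, h1, h2, h3, h4⟩ := up_spec h e
      exact (C.cj_step h1 h3).trans (ih v h4 h2)

/-- the root subgroups of the twisted group -/
noncomputable def md : MD C.T.Fx C.Fq (Rt chevE6) fun r => C.Par r where
  x r t := ⟨C.xr r t, C.xr_mem t.2⟩
  add r a b := Subtype.ext (C.xr_add r a b)
  z r t := ⟨C.xr r t, C.xr_mem fun _ => t.2⟩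
  z_add r a b := Subtype.ext (C.xr_add r a b)
  lg r := σ r = r
  z_x _ h s := ⟨⟨s, s.2 h⟩, rfl⟩
  x_z _ _ t := ⟨⟨t, fun _ => t.2⟩, rfl⟩
  conj a b ha hb c hc := by
    obtain ⟨g, hg, k⟩ := (C.cj_top a ha).trans (C.cj_top b hb).symm c (by simpa using hc) c.2
    exact ⟨⟨g, hg⟩, fun t => Subtype.ext (by
      simpa only [MulMemClass.coe_mul, C.xr_lg ha, C.xr_lg hb] using k t)⟩

theorem md_cl {r s : Rt chevE6} (h : okp r s = true) {T : Rt chevE6 → Prop}
    (hT : ∀ v, UU r s v → T v ∨ T (σ v)) : C.md.Cl r s T := by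
  intro H hH a b
  obtain ⟨h1, h2⟩ := UU_spec h
  have k : ∀ {l : List (Rt chevE6)}, (∀ a ∈ l, a ∈ [r, σ r, s, σ s]) →
      Cl {v | v ∈ l} {v | UU r s v} {v | UU r s v} := fun hl a ha v hv =>
    ⟨((h2 v hv).2.1 a (hl a ha)).1, fun w i j hi hj e => ((h2 v hv).2.1 a (hl a ha)).2 w
      (slE6.eq_one ((h2 v hv).2.1 a (hl a ha)).1 hi hj e)⟩
  have h3 := S.commutator_mem (U := {v | UU r s v}) (fun a ha b hb => ⟨(h1 a ha b hb).1,
    fun w i j hi hj e => (h1 a ha b hb).2 w (slE6.eq_one (h1 a ha b hb).1 hi hj e)⟩)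
    (k (by simp)) (k (by simp)) (C.xr_XS r a) (C.xr_XS s b)
  have h4 : ∀ v, T v → ∀ a ∈ C.Par v, C.xr v a ∈ H.map C.T.Fx.subtype := fun v hv a ha =>
    ⟨_, hH v hv ⟨a, ha⟩, rfl⟩
  obtain ⟨y, hy, e⟩ := C.Fx_le (U := {v | UU r s v}) (fun v hv => (h2 v hv).1)
    (fun v hv => (h2 v hv).2.2) (H := H.map C.T.Fx.subtype) (fun v hv a ha => (hT v hv).elim
      (fun h => h4 v h a ha) fun h => by
        obtain ⟨t, ht, e⟩ := C.xr_σ ha
        exact e ▸ h4 _ h t ht) ⟨((C.md.x s b * C.md.x r a)⁻¹ * (C.md.x r a * C.md.x s b)).2, by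
      simpa [md, mul_assoc] using h3⟩
  exact Subtype.ext e ▸ hy

theorem md_cm {r s : Rt chevE6} (h : cm r s = true) : C.md.Cm r s := fun a b => by
  simp only [cm, Bool.and_eq_true] at h
  exact (inv_mul_eq_one.1 (C.md_cl h.1 (T := fun _ => False)
    (fun v hv => absurd (allU_spec h.2 hv) Bool.false_ne_true) ⊥ (by simp) a b)).symm

theorem sgn_ne (r : Rt chevE6) : ((sgn (bit gEE6 r) 1 : ℤ) : K) ≠ 0 := fun e => by
  have := congrArg (Int.cast : ℤ → K) (orb_spec r).2.2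
  simp [e] at this

theorem comm_sh {r s v : Rt chevE6} (h : tr r s v = true) (hr : σ r ≠ r) : ∃ c c' : K, c ≠ 0 ∧
    c' ≠ 0 ∧ ∀ a b, C.xr r a * C.xr s b =
      C.xr s b * C.xr r a * (S.x v (c * (a * b)) * S.x (σ v) (c' * C.ψ (a * b))) := by
  obtain ⟨h0, h | ⟨-, hs, h1, h2, h3, h4, h5⟩⟩ := tr_spec h
  · exact absurd h.1 hr
  obtain ⟨c, hc, e⟩ := slE6.gn S h0
  obtain ⟨c', hc', e'⟩ := slE6.gn S h1
  refine ⟨c, c' * (sgn (bit gEE6 r) 1 : ℤ) * (sgn (bit gEE6 s) 1 : ℤ), hc,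
    mul_ne_zero (mul_ne_zero hc' (sgn_ne r)) (sgn_ne s), fun a b => ?_⟩
  rw [C.xr_sh hr, C.xr_sh hs, comm4 (e _ _) (e' _ _) (h2.cm _ _) (h3.cm _ _) (h4.cm _ _) (h5.cm _ _),
    C.hT, C.hT, map_mul]
  congr 3 <;> ring

theorem mem_of_comm {r s : Rt chevE6} {a b : K} (ha : a ∈ C.Par r) (hb : b ∈ C.Par s) {y : G}
    (h : C.xr r a * C.xr s b = C.xr s b * C.xr r a * y) : y ∈ C.T.Fx := by
  rw [← inv_mul_eq_iff_eq_mul] at h
  exact h ▸ mul_mem (inv_mem (mul_mem (C.xr_mem hb) (C.xr_mem ha))) (mul_mem (C.xr_mem ha) (C.xr_mem hb))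

theorem comm_lg {r s v : Rt chevE6} (h : tr r s v = true) (hv : σ v = v) : ∃ m : K →+ K,
    (∀ a ∈ C.Par r, ∀ b ∈ C.Par s, C.ψ (m (a * b)) = m (a * b)) ∧
    (∀ a b, C.xr r a * C.xr s b = C.xr s b * C.xr r a * C.xr v (m (a * b))) ∧
    ∀ e, C.ψ e = e → ∀ d ∈ C.Par s, d ≠ 0 → ∃ a ∈ C.Par r, m (a * d) = e := by
  have k : ∀ {m : K →+ K}, (∀ a b, C.xr r a * C.xr s b = C.xr s b * C.xr r a * C.xr v (m (a * b))) →
      ∀ a ∈ C.Par r, ∀ b ∈ C.Par s, C.ψ (m (a * b)) = m (a * b) := fun h a ha b hb => by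
    have := C.mem_of_comm ha hb (h a b)
    rwa [C.xr_lg hv, x_mem_Fx hv, C.fix v hv] at this
  by_cases hr : σ r = r
  · have hs : σ s = s := (tr_spec h).2.elim (·.2.1) fun h => absurd hr h.1
    obtain ⟨c, hc, e⟩ := slE6.gn S (tr_spec h).1
    have e' : ∀ a b, C.xr r a * C.xr s b = C.xr s b * C.xr r a *
        C.xr v (AddMonoidHom.mulLeft c (a * b)) := fun a b => by
      rw [C.xr_lg hr, C.xr_lg hs, C.xr_lg hv, e, mul_assoc c]; rfl
    have h1 : C.ψ c = c := by simpa using k e' 1 (fun _ => map_one _) 1 fun _ => map_one _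
    refine ⟨_, k e', e', fun t ht d hd h0 => ⟨t / (c * d), fun _ => by
      rw [map_div₀, map_mul, ht, h1, hd hs], ?_⟩⟩
    simp only [AddMonoidHom.coe_mulLeft]; field_simp
  · have hs : σ s ≠ s := (tr_spec h).2.elim (fun h => absurd h.1 hr) (·.2.1)
    obtain ⟨c, c', hc, hc', e⟩ := C.comm_sh h hr
    let m : K →+ K := AddMonoidHom.mulLeft c + (AddMonoidHom.mulLeft c').comp C.ψ.toAddMonoidHom
    have hm : ∀ t, m t = c * t + c' * C.ψ t := fun _ => rfl
    have e' : ∀ a b, C.xr r a * C.xr s b = C.xr s b * C.xr r a * C.xr v (m (a * b)) := fun a b => by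
      rw [e, C.xr_lg hv, hv, hm, S.add]
    obtain ⟨a, ha⟩ : ∃ a, m a ≠ 0 := by
      by_contra! H
      obtain ⟨a, ha⟩ := C.ne
      have h1 := H 1
      have h2 := H a
      rw [hm, map_one] at h1
      rw [hm] at h2
      exact ha (mul_left_cancel₀ hc' (by linear_combination h2 - a * h1))
    have h1 := k e' a (fun h => absurd h hr) 1 fun h => absurd h hs
    rw [mul_one] at h1
    refine ⟨m, k e', e', fun t ht d _ h0 => ⟨t / m a * a / d, fun h => absurd h hr, ?_⟩⟩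
    rw [div_mul_cancel₀ _ h0, hm, map_mul, map_div₀, ht, h1, mul_left_comm, mul_left_comm c',
      ← mul_add, ← hm, div_mul_cancel₀ _ ha]

theorem md_gn {r s v : Rt chevE6} (h : tr r s v = true) : C.md.Gn r s v := fun c => by
  by_cases hv : σ v = v
  · obtain ⟨m, -, h1, h2⟩ := C.comm_lg h hv
    obtain ⟨a, ha, e⟩ := h2 c (c.2 hv) 1 (fun _ => map_one _) one_ne_zero
    exact ⟨⟨a, ha⟩, ⟨1, fun _ => map_one _⟩, Subtype.ext ((h1 a 1).trans (by rw [e]; rfl))⟩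
  · have hr : σ r ≠ r := (tr_spec h).2.elim (fun h => absurd h.2.2 hv) (·.1)
    obtain ⟨d, d', hd, -, e⟩ := C.comm_sh h hr
    have ha : c / d ∈ C.Par r := fun h => absurd h hr
    have hb : 1 ∈ C.Par s := fun _ => map_one _
    have h1 := e (c / d) 1
    rw [mul_one, mul_div_cancel₀ _ hd] at h1
    have h2 := mul_mem (inv_mem (C.xr_mem c.2)) (C.mem_of_comm ha hb h1)
    rw [C.xr_sh hv, mul_inv_rev, mul_assoc, inv_mul_cancel_left, ← S.x_neg, ← S.add] at h2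
    have h3 := h2.2
    rw [C.T.f_x, (orb_spec v).1] at h3
    have h4 : -C.T.φ v c + d' * C.ψ (c / d) = 0 := by_contra fun H => hv (S.eq_of_x_eq H h3.symm)
    rw [← neg_add_eq_zero.1 h4, ← C.xr_sh hv] at h1
    exact ⟨⟨_, ha⟩, ⟨_, hb⟩, Subtype.ext h1⟩

section
variable [Finite K]

noncomputable instance (r : Rt chevE6) : Fintype (C.Par r) := Fintype.ofFinite _
noncomputable instance : Fintype C.Fq := Fintype.ofFinite _

theorem card_lg {r : Rt chevE6} (h : σ r = r) : Fintype.card (C.Par r) = Fintype.card C.Fq :=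
  Fintype.card_congr (Equiv.subtypeEquivRight fun _ => ⟨fun e => e h, fun e _ => e⟩)

theorem card_sh {r : Rt chevE6} (h : σ r ≠ r) : Fintype.card (C.Par r) = Nat.card K := by
  rw [← Nat.card_eq_fintype_card]
  exact Nat.card_congr (Equiv.subtypeUnivEquiv fun _ e => absurd e h)

theorem md_hs {α r s : Rt chevE6} (hα : σ α = α) (h : tr r s α = true) (h1 : cm α r = true)
    (h2 : cm α s = true) : C.md.Hs α r s := by
  obtain ⟨m, k1, k2, k3⟩ := C.comm_lg h hα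
  refine ⟨(tr_spec h).2.elim (fun h => by rw [C.card_lg h.1, C.card_lg h.2.1])
    fun h => by rw [C.card_sh h.1, C.card_sh h.2.1], ⟨fun b => AddMonoidHom.mk'
      (fun a => ⟨m (a * b), k1 a a.2 b b.2⟩) fun a a' => Subtype.ext (by simp [add_mul]),
    fun a b => Subtype.ext (k2 a b), fun b b' hb e => ?_⟩, C.md_cm h1, C.md_cm h2⟩
  obtain ⟨a, ha, k⟩ := k3 e e.2 _ (b - b').2 (by simpa [sub_eq_zero] using hb)
  exact ⟨⟨a, ha⟩, Subtype.ext (by simpa [mul_sub] using k)⟩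

theorem md_lag {α : Rt chevE6} (hα : σ α = α) {L : List (Fin 72 × Fin 72)}
    (h : lagD α L = true) : C.md.Lag α L := by
  simp only [lagD, Bool.and_eq_true, lall_iff, decide_eq_true_eq] at h
  exact ⟨fun p hp => C.md_hs hα (h.1 p hp).1.1 (h.1 p hp).1.2 (h.1 p hp).2,
    h.2.imp fun h => ⟨C.md_cm h.1, C.md_cm h.2⟩⟩

theorem wt_eq (hK : Nat.card K = Fintype.card C.Fq ^ 2) (L : List (Rt chevE6 × Rt chevE6)) :
    MD.wt (fun r => C.Par r) L = Fintype.card C.Fq ^ ws L := by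
  induction L with
  | nil => rfl
  | cons p L ih =>
    refine (congrArg _ ih).trans (Eq.trans ?_ (pow_add _ (if sg p.1 = p.1 then 1 else 2) _).symm)
    congr 1
    split_ifs with e
    · exact (C.card_lg (sg_iff.1 e)).trans (pow_one _).symm
    · exact (C.card_sh (sg_iff.not.1 e)).trans hK

theorem loc (hK : Nat.card K = Fintype.card C.Fq ^ 2) {α : Rt chevE6}
    {c : List (Rt chevE6 × Rt chevE6) × List (Rt chevE6 × Rt chevE6) × ℕ × ℕ × ℕ × ℕ}
    (h : chkT α c = true) : C.md.Loc (Fintype.card C.Fq ^ 10) (fun γ => kk α γ = true)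
      (Fintype.card C.Fq ^ byte htT α) α := by
  simp only [chkT, Bool.and_eq_true, allN_iff, force_eq, Bool.or_eq_true, Bool.not_eq_true',
    Nat.beq_eq, Nat.blt_eq, lall_iff, ← Bool.not_eq_true, decide_eq_true_eq] at h
  obtain ⟨⟨⟨⟨⟨⟨h1, h2⟩, h3⟩, h4⟩, h5⟩, h6⟩, h⟩ := h
  have hα := sg_iff.1 h1
  have rk' : ∀ {R k δ : ℕ}, rk R k δ = true → byte R δ ≠ 0 ∧ byte R δ < k := fun h => by
    simpa [rk, ← Bool.not_eq_true] using h
  refine ⟨hα, c.1, c.2.1, C.md_lag hα h2, C.md_lag hα h3, by rw [C.wt_eq hK, h4],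
    by rw [C.wt_eq hK, h5], fun p hp => h6 p hp, fun γ hγ => ?_, fun p hp γ hγ => ?_⟩
  · refine MD.der_of_rank (fun r : Rt chevE6 => byte c.2.2.1 r)
      (fun r : Rt chevE6 => byte c.2.2.2.1 r) (fun β hβ => ?_) (fun δ hδ β hβ => ?_)
      (fun v hv => ?_) γ ((h γ γ.2).1.1.1.resolve_left (not_not.2 hγ)).1
    · obtain ⟨p, hp, e⟩ := (h β β.2).1.1.2.resolve_left (not_not.2 hβ)
      exact ⟨p, hp, Fin.ext e⟩
    · have := (h δ δ.2).1.2.resolve_left hδ β (by
        rcases hβ with rfl | ⟨p, hp, rfl⟩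
        exacts [List.mem_cons_self, List.mem_cons_of_mem _ (List.mem_map_of_mem hp)])
      exact ⟨_, C.md_cl this.1 fun v hv => (Bool.or_eq_true_iff.1 (allU_spec this.2 hv)).imp rk' rk',
        fun _ h => h⟩
    · obtain ⟨⟨⟨⟨k1, k2⟩, k3⟩, k4⟩, k5⟩ := (h v v.2).2.resolve_left (not_lt.2 hv)
      exact ⟨⟨_, k1⟩, ⟨_, k2⟩, C.md_gn k3, k4.imp rk' rk', k5.imp rk' rk'⟩
  · have := ((h γ γ.2).1.1.1.resolve_left (not_not.2 hγ)).2 p hp
    exact ⟨C.md_cl (this _ (by simp)).1 fun v hv => Bool.or_eq_true_iff.1 (allU_spec (this _ (by simp)).2 hv),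
      C.md_cl (this _ (by simp)).1 fun v hv => Bool.or_eq_true_iff.1 (allU_spec (this _ (by simp)).2 hv)⟩

theorem z_inj {α : Rt chevE6} (h : σ α = α) : Function.Injective (C.md.z α) := fun a b e =>
  Subtype.ext (S.x_inj (r := α) (by simpa only [md, Subtype.mk.injEq, C.xr_lg h] using e))

theorem bound (hK : Nat.card K = Fintype.card C.Fq ^ 2) [IsSimpleGroup C.T.Fx] [Finite C.T.Fx]
    {V : Type*} [AddCommGroup V] [Module ℂ V] [FiniteDimensional ℂ V]
    {ρ : Representation ℂ C.T.Fx V} (hρ : ρ.IsIrreducible) (h2 : 2 ≤ finrank ℂ V) :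
    2 * (Fintype.card C.Fq ^ 2 - 1) * Fintype.card C.Fq ^ 10 ≤ Fintype.card C.Fq * finrank ℂ V ∨
      ((Fintype.card C.Fq - 1) * ([10, 9, 8, 6, 4, 5, 3, 4, 2, 1, 0, 0].map
        (Fintype.card C.Fq ^ ·)).sum ≤ finrank ℂ V ∧ finrank ℂ V ∣ Fintype.card C.Fq ^ 11 *
        ((Fintype.card C.Fq - 1) * ((S.P (MS chevE6 61)).subgroupOf C.T.Fx).index)) := by
  have hθ : σ (rtE6 71) = rtE6 71 := by decide +kernel
  have hker : ρ.ker = ⊥ := (Subgroup.Normal.eq_bot_or_eq_top inferInstance).resolve_right fun h => by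
    obtain ⟨g, hg⟩ := Classical.LS.nontriv_of_irr ρ hρ h2
    exact hg (show g ∈ ρ.ker from h ▸ trivial)
  refine (MD.main (M := C.md) (ρ := ρ) (k := fun α => Fintype.card C.Fq ^ byte htT α)
    (K := fun α γ => kk α γ = true) (fun α hα => (locT α hα).elim fun c hc => C.loc hK hc)
    sort_posT (α := rtE6 71) (β := rtE6 70) (δ := rtE6 46) (by decide +kernel)
    (show σ _ = _ by decide +kernel) (C.md_hs hθ (by decide +kernel) (by decide +kernel)
      (by decide +kernel)) (C.card_lg (by decide +kernel)) fun h => ?_).imp_right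
    fun h => ⟨by rw [← ht_posT, List.map_map]; exact h.1,
      dvd_of_trace hρ h2 (g := C.md.z (rtE6 71) 1) (by rw [pow_succ']; exact_mod_cast h.2)
        (index_dvd (C.z_inj hθ) fun a ha => ?_)⟩
  · have : C.md.z (rtE6 71) 1 ∈ ρ.ker := h
    rw [hker, Subgroup.mem_bot, ← show C.md.z (rtE6 71) 0 = 1 from Subtype.ext (by
      simp [md, C.xr_lg hθ])] at this
    exact one_ne_zero (C.z_inj hθ this)
  · obtain ⟨c, hc, e⟩ := slE6.par S
      (par_of_SLD sld_E6 (by decide +kernel : ¬ bit 61 1 = 1) (J := MS chevE6 61)) ha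
    replace e : ∀ t, (a : G) * S.x _ t * (a : G)⁻¹ = S.x _ (c * t) := e
    have h1 := (a * C.md.z (rtE6 71) 1 * a⁻¹).2
    simp only [md, C.xr_lg hθ, Subgroup.coe_mul, Subgroup.coe_inv, e, x_mem_Fx hθ, C.fix _ hθ,
      OneMemClass.coe_one, mul_one] at h1
    exact ⟨⟨c, h1⟩, fun h => hc (congrArg Subtype.val h), fun t => Subtype.ext (by
      simpa only [md, C.xr_lg hθ, MulMemClass.coe_mul, Subgroup.coe_inv] using e t)⟩

end
end TE

theorem index_par {D : ChevalleyDatum} [g : Good2 D] {F : Type*} [Field F] {G : Type*} [Group G]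
    {S : StSys D F G} {τ : Sym D} {T : Tw S τ} {A : Type} {O : Orb τ A} {K : Subgroup G}
    (h : IsTw T O K) [Finite K] {Q : ℕ}
    (hc : ∀ a, Nat.card ↥(T.Fx ⊓ S.Xp (O.J a)) = Q ^ ln (w0 (O.J a))) {J : Set (Ix D)} {n : ℤ}
    (hn : O.fold.P Set.univ Q = n * O.fold.P J Q) : (((S.P J).subgroupOf K).index : ℤ) = n := by
  have h1 := card_par h hc J
  have h2 := card_par h hc Set.univ
  rw [← Nat.card_congr (Subgroup.subgroupOfEquivOfLe (inf_le_right : S.P J ⊓ K ≤ K)).toEquiv,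
    Subgroup.inf_subgroupOf_right] at h1
  rw [P_univ, inf_eq_right.2 h.le_grp, hn, ← Subgroup.index_mul_card ((S.P J).subgroupOf K),
    Nat.cast_mul, mul_left_comm, ← h1] at h2
  exact mul_right_cancel₀ (by exact_mod_cast Nat.card_pos.ne') h2

theorem fin' {q A T h m r d : ℕ} (hq : IsPrimePow q) (hT : q * (q * A) + (T + 1) = q ^ h)
    (hr : r < q) (h2 : r * r * (T + q * r) + r < q * A) (h3 : q * A ≤ d + r) (h4 : d < q * A)
    (hd : d ∣ q ^ m * (A * (q ^ h - 1))) : False := by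
  obtain ⟨j, hj⟩ : ∃ j, d + j = q * A := ⟨q * A - d, by omega⟩
  obtain ⟨e, e0, e1, e2⟩ := nt hq hj (by omega) (by omega) hd
  rw [← hT, ← add_assoc, Nat.add_sub_cancel, ← hj, mul_add q, add_assoc, mul_add, ← mul_assoc] at e2
  have h8 := Nat.le_of_dvd (by
    have : 0 < j := by omega
    have := hq.pos
    positivity) ((Nat.dvd_add_right (dvd_mul_left _ _)).1 e2)
  have h9 : e * j * (q * j + T) ≤ r * r * (T + q * r) :=
    Nat.mul_le_mul (Nat.mul_le_mul (by omega) (by omega)) (by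
      have := Nat.mul_le_mul_left q (show j ≤ r by omega)
      omega)
  omega

theorem arithT {q d I : ℕ} (hq : IsPrimePow q) (hI : (I : ℤ) = q ^ 0 + q ^ 1 + q ^ 2 + q ^ 4 +
    q ^ 5 + 2 * q ^ 6 + q ^ 7 + q ^ 8 + q ^ 9 + 2 * q ^ 10 + 2 * q ^ 11 + q ^ 12 + q ^ 13 + q ^ 14 +
    2 * q ^ 15 + q ^ 16 + q ^ 17 + q ^ 19 + q ^ 20 + q ^ 21)
    (h : 2 * (q ^ 2 - 1) * q ^ 10 ≤ q * d ∨ ((q - 1) * ([10, 9, 8, 6, 4, 5, 3, 4, 2, 1, 0, 0].map
      (q ^ ·)).sum ≤ d ∧ d ∣ q ^ 11 * ((q - 1) * I))) : q * (q ^ 6 - q ^ 3 + 1) * (q ^ 4 + 1) ≤ d := by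
  obtain ⟨u, rfl⟩ : ∃ u, q = u + 2 := ⟨q - 2, by have := hq.two_le; omega⟩
  obtain ⟨B, hB, hB'⟩ : ∃ B, (u + 2) ^ 6 - (u + 2) ^ 3 = B ∧
      B = u ^ 6 + 12 * u ^ 5 + 60 * u ^ 4 + 159 * u ^ 3 + 234 * u ^ 2 + 180 * u + 56 :=
    ⟨_, rfl, Nat.sub_eq_of_eq_add (by ring)⟩
  rw [hB, mul_assoc]
  rcases h with h | ⟨h, hd⟩
  · rw [show (u + 2) ^ 2 - 1 = u ^ 2 + 4 * u + 3 from Nat.sub_eq_of_eq_add (by ring)] at h
    exact Nat.le_of_mul_le_mul_left (le_trans (Nat.le.intro (k := u ^ 12 + 24 * u ^ 11 +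
      262 * u ^ 10 + 1721 * u ^ 9 + 7577 * u ^ 8 + 23552 * u ^ 7 + 52975 * u ^ 6 + 86805 * u ^ 5 +
      102702 * u ^ 4 + 85384 * u ^ 3 + 47199 * u ^ 2 + 15500 * u + 2268) (by rw [hB']; ring)) h)
      (by omega)
  rw [show (u + 2 - 1) * I = (B + 1) * ((u + 2) ^ 4 + 1) * ((u + 2) ^ 12 - 1) by
    zify [Nat.one_le_pow _ _ hq.pos, show 1 ≤ u + 2 by omega]
    rw [hI, hB']; push_cast; ring] at hd
  have h3 : (u + 2) * ((B + 1) * ((u + 2) ^ 4 + 1)) ≤ d + 2 :=
    le_of_eq_of_le (by rw [hB', show u + 2 - 1 = u + 1 from rfl]; simp; ring) (Nat.add_le_add_right h 2)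
  by_contra! H
  rcases Nat.eq_zero_or_pos u with rfl | hu
  · subst hB'
    have : d = 1936 ∨ d = 1937 := by omega
    rcases this with rfl | rfl <;> exact absurd hd (by decide)
  · exact fin' hq (T := u ^ 9 + 17 * u ^ 8 + 128 * u ^ 7 + 559 * u ^ 6 + 1557 * u ^ 5 +
      2862 * u ^ 4 + 3464 * u ^ 3 + 2655 * u ^ 2 + 1164 * u + 219) (by rw [hB']; ring) (by omega)
      (Nat.lt_of_succ_le (Nat.le.intro (k := u ^ 11 + 22 * u ^ 10 + 216 * u ^ 9 + 1251 * u ^ 8 +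
        4753 * u ^ 7 + 12450 * u ^ 6 + 22977 * u ^ 5 + 29961 * u ^ 4 + 27184 * u ^ 3 +
        16476 * u ^ 2 + 6073 * u + 1043) (by rw [hB', Nat.succ_eq_add_one]; ring))) h3 H hd

theorem min_twE6 {K : Type*} [Field K] [Fintype K] {q : ℕ} (hq : IsPrimePow q)
    (hK : Fintype.card K = q ^ 2) {V : Type*} [AddCommGroup V] [Module ℂ V] [FiniteDimensional ℂ V]
    (ρ : Representation ℂ (twistedE6 K q) V) (hρ : ρ.IsIrreducible) (h2 : 2 ≤ finrank ℂ V) :
    q * (q ^ 6 - q ^ 3 + 1) * (q ^ 4 + 1) ≤ finrank ℂ V := by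
  obtain ⟨C⟩ := exists_CE6 hq hK
  have h1 : Nat.card {t : K // C.ψ t = t} = q := by simpa only [C.hψ] using card_fixed hq.pos hK
  let E : TE (glSys chevE6 K) := ⟨C.ψ, C.T, C.ψψ, C.hT, fun _ => C.φ_fix, by
    by_contra! H
    rw [Nat.card_congr (Equiv.subtypeUnivEquiv H), Nat.card_eq_fintype_card, hK] at h1
    have := hq.two_le
    nlinarith⟩
  have hF : Fintype.card E.Fq = q := (Nat.card_eq_fintype_card (α := E.Fq)).symm.trans h1
  have h3 := index_par C.isTw (C.card_Xp hq.pos hK) (J := MS chevE6 61) (by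
    rw [← MS_eq_univ (m := 63) (by decide +kernel), desc_E6.step step0_twE6, dep0_twE6, sum0_twE6])
  have h4 := (simple_twE6 hq hK).1
  revert ρ
  rw [C.eq_Fx] at h3 h4 ⊢
  intro ρ hρ
  haveI : IsSimpleGroup E.T.Fx := h4
  have h5 := E.bound (by rw [hF, Nat.card_eq_fintype_card, hK]) hρ h2
  rw [hF] at h5
  exact arithT hq h3 h5

end Cfsg.Agent.Chev.Md
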