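import Mathlib
import Cfsg.Agent.Chev.MinRee
import Cfsg.Agent.Classical.LSL

/-! A lower bound for the degrees of the representations of a group with the unipotent structure
of a triality group. -/

set_option autoImplicit false
set_option linter.unusedSectionVars false
set_option maxHeartbeats 400000

namespace Cfsg.Agent.Chev
open Module Cfsg.Agent.Classical.LS

/-- the relations between some root subgroups of a triality group -/
structure Tri (G K F : Type*) [Group G] [Field K] [Field F] where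
  ι : F →+* K
  Tr : K →+ F
  Tr_mul : ∀ a u, Tr (ι a * u) = a * Tr u
  Tr_ne : ∃ u, Tr u ≠ 0
  N : K → F
  N_surj : ∀ a, a ≠ 0 → ∃ s, s ≠ 0 ∧ N s = a
  x : K × F × F → G
  xa : K → G
  xb : F → G
  xm : F → G
  y : K → G
  h : Fˣ → G
  add : ∀ p p', x (p + p') = x p * x p'
  xb_add : ∀ r r', xb (r + r') = xb r * xb r'
  y_add : ∀ r r', y (r + r') = y r * y r'
  x_xa : ∀ s p, x p * xa s = xa s * x (p.1, p.2.1 - Tr (s * p.1), p.2.2)
  x_xb : ∀ r p, x p * xb r = xb r * x (p.1, p.2.1, p.2.2 - r * p.2.1)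
  x_xm : ∀ r p, x p * xm r = xm r * x (p.1, p.2.1 - r * p.2.2, p.2.2)
  x_y : ∀ v p, ∃ w, x p * y v = y v * x (p.1, p.2.1, w)
  xb_xa : ∀ r s, ∃ v u w, xb r * xa s = xa s * (xb r * (y v * x (u, N s * r, w)))
  h_Y : ∀ s u, x (u, 0, 0) * h s = h s * x (ι s * u, 0, 0)
  h_Z : ∀ s w, x (0, 0, w) * h s = h s * x (0, 0, w)
  h_xb : ∀ s r, ∃ r', xb r * h s = h s * xb r'
  tor : ∃ (g : G) (κ : K), κ ≠ 1 ∧ (∀ p, ∃ u, x p * g = g * x (u, p.2)) ∧
    ∀ v, y v * g = g * y (κ * v)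
  weyl : ∃ n : G, (∀ t, ∃ r, x (0, t, 0) * n = n * xb r) ∧
    ∀ w, ∃ w', x (0, 0, w) * n = n * x (0, 0, w')

namespace Tri
variable {G K F : Type*} [Group G] [Finite G] [Field K] [Fintype K] [Field F] [Fintype F]
  (T : Tri G K F)

theorem exists_Tr (l : K → ℂ) (h0 : l 0 = 1) (h : ∀ a b, l (a + b) = l a * l b) :
    ∃ c, ∀ u, l u = ψ F (T.Tr (c * u)) := by
  obtain ⟨e, he⟩ := exists_eq_ψ' (fun u => ψ F (T.Tr u)) (by simp) fun a b => by
    rw [map_add, ψ_add]
  have he0 : e ≠ 0 := by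
    rintro rfl
    obtain ⟨u, hu⟩ := T.Tr_ne
    refine hu (eq_zero_of_ψ fun b => ?_)
    rw [mul_comm, ← T.Tr_mul, he]; simp
  obtain ⟨a, ha⟩ := exists_eq_ψ' l h0 h
  refine ⟨a / e, fun u => ?_⟩
  rw [ha, he]; congr 1; field_simp

theorem eq_of_Tr {c c' : K} (h : ∀ u, ψ F (T.Tr (c * u)) = ψ F (T.Tr (c' * u))) : c = c' := by
  by_contra hc
  obtain ⟨u, hu⟩ := T.Tr_ne
  refine hu (eq_zero_of_ψ fun b => ?_)
  have e := h (T.ι b * u / (c - c'))
  have e' : c * (T.ι b * u / (c - c')) = T.ι b * u + c' * (T.ι b * u / (c - c')) := by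
    have := sub_ne_zero.2 hc
    field_simp; ring
  rw [e', map_add, ψ_add, T.Tr_mul, mul_comm b] at e
  have h0 : ψ F (T.Tr (c' * (T.ι b * u / (c - c')))) ≠ 0 := fun h => by
    have := ψ_add (T.Tr (c' * (T.ι b * u / (c - c')))) (-T.Tr (c' * (T.ι b * u / (c - c'))))
    rw [h] at this; simp at this
  exact mul_right_cancel₀ h0 (e.trans (one_mul _).symm)

/-- the characters of the abelian subgroup -/
noncomputable def L (p : K × F × F) : AddChar (K × F × F) ℂ where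
  toFun v := ψ F (T.Tr (p.1 * v.1) + p.2.1 * v.2.1 + p.2.2 * v.2.2)
  map_zero_eq_one' := by simp
  map_add_eq_mul' v w := by rw [← ψ_add]; congr 1; simp [mul_add]; ring

theorem L_apply (p v : K × F × F) :
    T.L p v = ψ F (T.Tr (p.1 * v.1) + p.2.1 * v.2.1 + p.2.2 * v.2.2) := rfl

theorem L_bij : Function.Bijective T.L := by
  constructor
  · intro p p' h
    refine Prod.ext (T.eq_of_Tr fun b => ?_) (Prod.ext (eq_of_ψ fun b => ?_) (eq_of_ψ fun b => ?_))
    · simpa [L_apply] using DFunLike.congr_fun h (b, 0, 0)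
    · simpa [L_apply] using DFunLike.congr_fun h (0, b, 0)
    · simpa [L_apply] using DFunLike.congr_fun h (0, 0, b)
  · intro l
    obtain ⟨a, ha⟩ := T.exists_Tr (fun b => l (b, 0, 0)) l.map_zero_eq_one fun a b => by
      rw [← AddChar.map_add_eq_mul]; simp
    obtain ⟨c, hc⟩ := exists_eq_ψ' (fun b : F => l (0, b, 0)) l.map_zero_eq_one fun a b => by
      rw [← AddChar.map_add_eq_mul]; simp
    obtain ⟨e, he⟩ := exists_eq_ψ' (fun b : F => l (0, 0, b)) l.map_zero_eq_one fun a b => by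
      rw [← AddChar.map_add_eq_mul]; simp
    refine ⟨(a, c, e), AddChar.ext _ _ fun v => ?_⟩
    rw [L_apply, ψ_add, ψ_add, ← ha, ← hc, ← he, ← AddChar.map_add_eq_mul,
      ← AddChar.map_add_eq_mul]
    simp

variable {V : Type*} [AddCommGroup V] [Module ℂ V] [FiniteDimensional ℂ V] (ρ : Representation ℂ G V)

/-- the multiplicities -/
noncomputable def d (p : K × F × F) : ℕ := finrank ℂ (Wt ρ T.x (T.L p))

theorem d_le {g : G} {π : K × F × F → K × F × F} (h : ∀ i, T.x i * g = g * T.x (π i))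
    {p p' : K × F × F} (e : ∀ i, T.L p (π i) = T.L p' i) : T.d ρ p ≤ T.d ρ p' :=
  (finrank_Wt_le h).trans_eq (congrArg (fun β => finrank ℂ (Wt ρ T.x β)) (funext e))

theorem d_le_d {c c' : K} {e e' : F × F} (he : e ≠ 0) (he' : e' ≠ 0) :
    T.d ρ (c, e) ≤ T.d ρ (c', e') := by
  have h1 : ∀ c a b r, T.d ρ (c, a, b) ≤ T.d ρ (c, a - b * r, b) := fun c a b r =>
    T.d_le ρ (T.x_xb r) fun i => by simp only [L_apply]; congr 1; ring
  have h2 : ∀ c a b r, T.d ρ (c, a, b) ≤ T.d ρ (c, a, b - a * r) := fun c a b r =>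
    T.d_le ρ (T.x_xm r) fun i => by simp only [L_apply]; congr 1; ring
  have h3 : ∀ c c' b, T.d ρ (c, 1, b) ≤ T.d ρ (c', 1, b) := fun c c' b =>
    T.d_le ρ (T.x_xa (c - c')) fun i => by simp only [L_apply, sub_mul, map_sub]; congr 1; ring
  have h1' : ∀ c a a' b, b ≠ 0 → T.d ρ (c, a, b) ≤ T.d ρ (c, a', b) := fun c a a' b hb => by
    have := h1 c a b ((a - a') / b)
    rwa [mul_div_cancel₀ _ hb, sub_sub_cancel] at this
  have h2' : ∀ c a b b', a ≠ 0 → T.d ρ (c, a, b) ≤ T.d ρ (c, a, b') := fun c a b b' ha => by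
    have := h2 c a b ((b - b') / a)
    rwa [mul_div_cancel₀ _ ha, sub_sub_cancel] at this
  obtain ⟨a, b⟩ := e
  obtain ⟨a', b'⟩ := e'
  have k1 : T.d ρ (c, a, b) ≤ T.d ρ (c, 1, 1) := by
    by_cases hb : b = 0
    · exact (h2' c a b 1 fun ha => he (by simp [ha, hb])).trans (h1' c a 1 1 one_ne_zero)
    · exact (h1' c a 1 b hb).trans (h2' c 1 b 1 one_ne_zero)
  have k2 : T.d ρ (c', 1, 1) ≤ T.d ρ (c', a', b') := by
    by_cases hb : b' = 0
    · exact (h1' c' 1 a' 1 one_ne_zero).trans (h2' c' a' 1 b' fun ha => he' (by simp [ha, hb]))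
    · exact (h2' c' 1 1 b' one_ne_zero).trans (h1' c' 1 a' b' hb)
  exact k1.trans ((h3 c c' 1).trans k2)

theorem d_pos (hρ : ρ (T.x (0, 0, 1)) ≠ 1) (c : K) {e : F × F} (he : e ≠ 0) : 1 ≤ T.d ρ (c, e) := by
  by_contra H
  apply hρ
  ext v
  have ev : v = ∑ p, P ρ T.x (T.L p) v := by
    rw [← LinearMap.sum_apply, T.L_bij.sum_comp (P ρ T.x), sum_P T.add, Module.End.one_apply]
  rw [Module.End.one_apply, ev, map_sum, ← ev]
  conv_rhs => rw [ev]
  refine Finset.sum_congr rfl fun p _ => ?_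
  have hv := P_mem (ρ := ρ) T.add (T.L p) v
  by_cases hp : p.2 = 0
  · rw [mem_Wt.1 hv, L_apply]; simp [hp]
  · have : T.d ρ p = 0 := by have : T.d ρ p ≤ T.d ρ (c, e) := T.d_le_d ρ hp he; omega
    rw [Submodule.finrank_eq_zero.1 this, Submodule.mem_bot] at hv
    rw [hv, map_zero]

theorem card_ne [DecidableEq F] : (Finset.univ.filter fun e : F × F => e ≠ 0).card = Fintype.card F ^ 2 - 1 := by
  rw [Finset.filter_ne', Finset.card_erase_of_mem (Finset.mem_univ _), Finset.card_univ,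
    Fintype.card_prod, sq]

theorem d_le_one (hV : finrank ℂ V < 2 * (Fintype.card K * (Fintype.card F ^ 2 - 1))) (c : K)
    {e : F × F} (he : e ≠ 0) : T.d ρ (c, e) ≤ 1 := by
  classical
  by_contra H
  have := card_mul_le (ρ := ρ) (Classical.LS.x_comm T.add)
    (Finset.univ ×ˢ Finset.univ.filter fun e : F × F => e ≠ 0) (fun p => T.L p)
    (fun p _ p' _ h => T.L_bij.1 (DFunLike.coe_injective h)) (k := 2) fun p hp => by
      have : T.d ρ (c, e) ≤ T.d ρ p := T.d_le_d ρ he (by simpa using hp)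
      exact le_trans (by omega) this
  rw [Finset.card_product, card_ne, Finset.card_univ] at this
  omega

/-- the fixed space of two long root subgroups -/
def W' : Submodule ℂ V where
  carrier := {v | (∀ r, ρ (T.xb r) v = v) ∧ ∀ w, ρ (T.x (0, 0, w)) v = v}
  zero_mem' := by simp
  add_mem' ha hb := ⟨fun r => by rw [map_add, ha.1, hb.1], fun r => by rw [map_add, ha.2, hb.2]⟩
  smul_mem' c a ha := ⟨fun r => by rw [map_smul, ha.1], fun r => by rw [map_smul, ha.2]⟩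

theorem mul_apply' {a b c e : G} (h : a * b = c * e) (v : V) : ρ a (ρ b v) = ρ c (ρ e v) := by
  rw [← Module.End.mul_apply, ← map_mul, h, map_mul, Module.End.mul_apply]

theorem bound (hρ : ρ (T.x (0, 0, 1)) ≠ 1) :
    Fintype.card K * (Fintype.card F ^ 2 - 1) + finrank ℂ (T.W' ρ) ≤ finrank ℂ V := by
  classical
  let x : F × F → G := fun e => T.x (0, e)
  have hx : ∀ a b, x (a + b) = x a * x b := fun a b => by simp only [x, ← T.add]; simp
  have h0 : finrank ℂ (T.W' ρ) ≤ finrank ℂ (Wt ρ x (L2 0)) := by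
    obtain ⟨n, h1, h2⟩ := T.weyl
    refine finrank_le_of_map (ρ := ρ) n fun v hv => mem_Wt.2 fun e => ?_
    obtain ⟨r, hr⟩ := h1 e.1
    obtain ⟨w, hw⟩ := h2 e.2
    have : x e = T.x (0, e.1, 0) * T.x (0, 0, e.2) := by simp only [x, ← T.add]; simp
    rw [this, map_mul, Module.End.mul_apply, mul_apply' ρ hw, hv.2, mul_apply' ρ hr, hv.1, L2_apply]
    simp
  have h1 : ∀ e : F × F, e ≠ 0 → Fintype.card K ≤ finrank ℂ (Wt ρ x (L2 e)) := fun e he => by
    refine card_le_finrank_of_wt (ρ := ρ) (Classical.LS.x_comm T.add) _ (fun c => T.L (c, e))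
      (fun c c' h => congrArg Prod.fst (T.L_bij.1 (DFunLike.coe_injective h))) fun c => ?_
    have : Wt ρ T.x (T.L (c, e)) ≠ ⊥ := fun h => by
      have := T.d_pos ρ hρ c he
      rw [d, h, finrank_bot] at this; omega
    obtain ⟨v, hv, hv0⟩ := (Submodule.ne_bot_iff _).1 this
    refine ⟨v, mem_Wt.2 fun i => ?_, hv0, hv⟩
    rw [mem_Wt.1 hv, L_apply, L2_apply]; simp
  rw [finrank_eq_sum (ρ := ρ) hx, ← L2_bij.sum_comp, ← Finset.add_sum_erase _ _ (Finset.mem_univ 0),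
    add_comm]
  refine add_le_add h0 ?_
  have := Finset.card_nsmul_le_sum (Finset.univ.erase (0 : F × F))
    (fun e => finrank ℂ (Wt ρ x (L2 e))) _ fun e he => h1 e (Finset.mem_erase.1 he).1
  rwa [Finset.card_erase_of_mem (Finset.mem_univ _), Finset.card_univ, Fintype.card_prod, ← sq,
    smul_eq_mul, mul_comm] at this

theorem exists_scalar {U : Submodule ℂ V} (hU : finrank ℂ U ≤ 1) {v : V} (hv : v ∈ U) (h0 : v ≠ 0)
    {w : V} (hw : w ∈ U) : ∃ c : ℂ, w = c • v := by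
  obtain ⟨u, hu⟩ := finrank_le_one_iff.1 hU
  obtain ⟨a, ha⟩ := hu ⟨v, hv⟩
  obtain ⟨b, hb⟩ := hu ⟨w, hw⟩
  have ha' : a • (u : V) = v := congrArg Subtype.val ha
  have hb' : b • (u : V) = w := congrArg Subtype.val hb
  have : a ≠ 0 := by rintro rfl; exact h0 (by rw [← ha', zero_smul])
  exact ⟨b / a, by rw [← ha', ← hb', smul_smul, div_mul_cancel₀ _ this]⟩

theorem le_W' (hρ : ρ (T.x (0, 0, 1)) ≠ 1)
    (hV : finrank ℂ V < 2 * (Fintype.card K * (Fintype.card F ^ 2 - 1))) :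
    Fintype.card F - 1 ≤ finrank ℂ (T.W' ρ) := by
  classical
  have key : ∀ e : F, e ≠ 0 → ∃ v, v ≠ 0 ∧ v ∈ Wt ρ T.x (T.L (0, e, 0)) ∧ (∀ u, ρ (T.y u) v = v) ∧
      ∃ a, ∀ r, ρ (T.xb r) v = ψ F (a * r) • v := fun e he => by
    have he' : ((e, 0) : F × F) ≠ 0 := fun h => he (congrArg Prod.fst h)
    have h1 := T.d_le_one ρ hV 0 he'
    have : Wt ρ T.x (T.L (0, e, 0)) ≠ ⊥ := fun h => by
      have := T.d_pos ρ hρ 0 he'
      rw [d, h, finrank_bot] at this; omega
    obtain ⟨v, hv, hv0⟩ := (Submodule.ne_bot_iff _).1 this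
    have hs : ∀ g : G, (∀ p, ∃ u w, T.x p * g = g * T.x (u, p.2.1, w)) → ∃ c : ℂ, ρ g v = c • v :=
      fun g hg => exists_scalar h1 hv hv0 (mem_Wt.2 fun p => by
        obtain ⟨u, w, h⟩ := hg p
        rw [mul_apply' ρ h, mem_Wt.1 hv, map_smul, L_apply, L_apply]; simp)
    choose α hα using fun r => hs (T.xb r) fun p => ⟨_, _, T.x_xb r p⟩
    choose β hβ using fun u => hs (T.y u) fun p => ⟨_, T.x_y u p⟩
    obtain ⟨g, κ, hκ, g1, g2⟩ := T.tor
    obtain ⟨μ, hμ⟩ := hs g fun p => (g1 p).imp fun u h => ⟨_, h⟩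
    have hμ0 : μ ≠ 0 := by
      rintro rfl
      exact hv0 (apply_injective (ρ := ρ) g (by rw [hμ]; simp))
    refine ⟨v, hv0, hv, fun u => ?_, ?_⟩
    · have e1 := mul_apply' ρ (g2 (u / (κ - 1))) v
      have e2 : κ * (u / (κ - 1)) = u / (κ - 1) + u := by
        have := sub_ne_zero.2 hκ
        field_simp; ring
      rw [e2, T.y_add, map_mul, Module.End.mul_apply, hβ u, map_smul, map_smul, hμ, map_smul, hβ,
        map_smul, hμ, smul_smul, smul_smul, smul_smul] at e1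
      have e3 := smul_left_injective ℂ hv0 e1
      have h0 : β (u / (κ - 1)) ≠ 0 := fun h =>
        hv0 (apply_injective (ρ := ρ) (T.y (u / (κ - 1))) (by rw [hβ, h]; simp))
      have e4 : β u = 1 := mul_right_cancel₀ (mul_ne_zero h0 hμ0) (by linear_combination -e3)
      rw [hβ, e4, one_smul]
    · obtain ⟨a, ha⟩ := exists_eq_ψ' α (smul_left_injective ℂ hv0 (by
        simp only [← hα, Classical.LS.x_zero T.xb_add, map_one, Module.End.one_apply, one_smul])) fun a b =>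
        smul_left_injective ℂ hv0 (by
          simp only [← hα, T.xb_add, map_mul, Module.End.mul_apply]
          rw [hα b, map_smul, hα a, smul_smul, mul_comm])
      exact ⟨a, fun r => by rw [hα, ha]⟩
  choose! v hv0 hv hy a ha using key
  rw [← Fintype.card_units]
  by_cases H : ∀ e, e ≠ 0 → a e = 0
  · refine card_le_finrank_of_wt (ρ := ρ) (x := fun t => T.x (0, t, 0))
      (fun _ _ => Classical.LS.x_comm T.add _ _) _ (fun (e : Fˣ) t => ψ F (e * t))
      (fun e e' h => Units.ext (eq_of_ψ (congrFun h))) fun e =>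
        ⟨v e, ⟨fun r => ?_, fun w => ?_⟩, hv0 e e.ne_zero, mem_Wt.2 fun t => ?_⟩
    · rw [ha e e.ne_zero, H e e.ne_zero]; simp
    · rw [mem_Wt.1 (hv e e.ne_zero), L_apply]; simp
    · rw [mem_Wt.1 (hv e e.ne_zero), L_apply]; simp
  push Not at H
  obtain ⟨e, he, hae⟩ := H
  obtain ⟨s, hs, hN⟩ := T.N_surj (-a e / e) (div_ne_zero (neg_ne_zero.2 hae) he)
  have w1 : ∀ r, ρ (T.xb r) (ρ (T.xa s) (v e)) = ρ (T.xa s) (v e) := fun r => by
    obtain ⟨v', u, w, h⟩ := T.xb_xa r s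
    rw [mul_apply' ρ h, map_mul, map_mul, Module.End.mul_apply, Module.End.mul_apply,
      mem_Wt.1 (hv e he), map_smul, hy e he, map_smul, ha e he, smul_smul, L_apply, ← ψ_add, hN]
    have : T.Tr (0 * u) + e * (-a e / e * r) + 0 * w + a e * r = 0 := by simp; field_simp; ring
    simp only at this ⊢
    rw [this]; simp
  have w2 : ∀ p, ρ (T.x p) (ρ (T.xa s) (v e)) =
      ψ F (e * (p.2.1 - T.Tr (s * p.1))) • ρ (T.xa s) (v e) := fun p => by
    rw [mul_apply' ρ (T.x_xa s p), mem_Wt.1 (hv e he), map_smul, L_apply]; simp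
  refine card_le_finrank_of_wt (ρ := ρ) (x := fun u => T.x (u, 0, 0))
    (fun _ _ => Classical.LS.x_comm T.add _ _) _
    (fun (c : Fˣ) u => ψ F (T.Tr (-(T.ι (e * c) * s) * u)))
    (fun c c' h => Units.ext (mul_left_cancel₀ he (T.ι.injective (mul_right_cancel₀ hs
      (neg_injective (T.eq_of_Tr (congrFun h))))))) fun c =>
      ⟨ρ (T.h c) (ρ (T.xa s) (v e)), ⟨fun r => ?_, fun w => ?_⟩, fun h => hv0 e he ?_,
        mem_Wt.2 fun u => ?_⟩
  · obtain ⟨r', h⟩ := T.h_xb c r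
    rw [mul_apply' ρ h, w1]
  · rw [mul_apply' ρ (T.h_Z c w), w2]; simp
  · exact apply_injective (ρ := ρ) (T.xa s) (apply_injective (ρ := ρ) (T.h c) (by simpa using h))
  · rw [mul_apply' ρ (T.h_Y c u), w2, map_smul]
    congr 2
    rw [neg_mul, map_neg, mul_assoc, T.Tr_mul, mul_left_comm s, T.Tr_mul]
    ring

theorem min_degree (hρ : ρ (T.x (0, 0, 1)) ≠ 1)
    (hV : finrank ℂ V < 2 * (Fintype.card K * (Fintype.card F ^ 2 - 1))) :
    Fintype.card K * (Fintype.card F ^ 2 - 1) + (Fintype.card F - 1) ≤ finrank ℂ V :=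
  le_trans (by have := T.le_W' ρ hρ hV; omega) (T.bound ρ hρ)

end Tri
end Cfsg.Agent.Chev
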