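import Mathlib
import Cfsg.Agent.Chev.D4Rel
import Cfsg.Agent.Chev.MinTri
import Cfsg.Agent.Char.Central

/-! The minimal degree of the triality groups. -/

set_option autoImplicit false
set_option linter.unusedSectionVars false
set_option maxHeartbeats 400000
set_option maxRecDepth 100000

namespace Cfsg.Agent.Chev
open Cfsg.Lie Cfsg.Agent.BN StSys Tw Module

attribute [local instance] good2D4

namespace D4R
variable {F : Type*} [Field F] {G : Type*} [Group G] (S : StSys chevD4 F G)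

/-- a product over the orbit of a simple root -/
def A3 (a b c : F) : G := S.x (rD4 18) a * (S.x (rD4 13) b * S.x (rD4 12) c)
/-- a product over an orbit of roots of height two -/
def B3 (a b c : F) : G := S.x (rD4 19) a * (S.x (rD4 16) b * S.x (rD4 15) c)
/-- a product over the roots of height at least three -/
def C5 (a b c t w : F) : G :=
  S.x (rD4 21) a * (S.x (rD4 17) b * (S.x (rD4 20) c * (S.x (rD4 22) t * S.x (rD4 23) w)))
/-- a torus element -/
def H3 (a b c : F) : G := S.h (rD4 18) a * (S.h (rD4 13) b * S.h (rD4 12) c)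
/-- a monomial element -/
def N3 : G := S.n (sim (nD4 0)) 1 * (S.n (sim (nD4 2)) 1 * S.n (sim (nD4 3)) 1)

theorem of_mul {a b : G} (h : ∀ g, a * g = b * g) : a = b := mul_right_cancel (h 1)

theorem C5_add (a b c t w a' b' c' t' w' : F) : C5 S (a + a') (b + b') (c + c') (t + t') (w + w') =
    C5 S a b c t w * C5 S a' b' c' t' w' := of_mul fun g => by
  simp only [C5, mul_assoc, all S]

theorem B3_add (a b c a' b' c' : F) : B3 S (a + a') (b + b') (c + c') = B3 S a b c * B3 S a' b' c' :=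
  of_mul fun g => by simp only [B3, mul_assoc, all S]

theorem C5_A3 (a b c t w a' b' c' : F) : C5 S a b c t w * A3 S a' b' c' =
    A3 S a' b' c' * C5 S a b c (t - (c' * a - a' * b + b' * c)) w := of_mul fun g => by
  simp only [C5, A3, mul_assoc, all S]; ring_nf

theorem C5_B3 (a b c t w a' b' c' : F) : C5 S a b c t w * B3 S a' b' c' =
    B3 S a' b' c' * C5 S a b c t (w + (c' * a + a' * b + b' * c)) := of_mul fun g => by
  simp only [C5, B3, mul_assoc, all S]; ring_nf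

theorem C5_14 (a b c t w r : F) : C5 S a b c t w * S.x (rD4 14) r =
    S.x (rD4 14) r * C5 S a b c t (w - r * t) := of_mul fun g => by
  simp only [C5, mul_assoc, all S]; ring_nf

theorem C5_9 (a b c t w r : F) : C5 S a b c t w * S.x (rD4 9) r =
    S.x (rD4 9) r * C5 S a b c (t - r * w) w := of_mul fun g => by
  simp only [C5, mul_assoc, all S]; ring_nf

theorem x14_A3 (r a b c : F) : S.x (rD4 14) r * A3 S a b c = A3 S a b c * (S.x (rD4 14) r *
    (B3 S (a * r) (-(b * r)) (-(c * r)) * C5 S (-(a * b * r)) (b * c * r) (-(c * a * r))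
      (a * b * c * r) (a * b * c * r ^ 2))) := of_mul fun g => by
  simp only [C5, A3, B3, mul_assoc, all S]; ring_nf

theorem H3_conj {a b c : F} (ha : a ≠ 0) (hb : b ≠ 0) (hc : c ≠ 0) (r : Rt chevD4) {i j k : ℤ}
    (h : pr (rD4 18) r = i ∧ pr (rD4 13) r = j ∧ pr (rD4 12) r = k) (t : F) (g : G) :
    H3 S a b c * (S.x r t * g) = S.x r (a ^ i * b ^ j * c ^ k * t) * (H3 S a b c * g) := by
  obtain ⟨rfl, rfl, rfl⟩ := h
  rw [mul_assoc _ _ t, mul_assoc _ _ (_ * t), ← S.h_conj _ ha, ← S.h_conj _ hb, ← S.h_conj _ hc, H3]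
  group

theorem H3_C5 {a b c : F} (ha : a ≠ 0) (hb : b ≠ 0) (hc : c ≠ 0) (a' b' c' t w : F) :
    H3 S a b c * C5 S a' b' c' t w =
      C5 S (a * b / c * a') (b * c / a * b') (c * a / b * c') (a * b * c * t) w * H3 S a b c :=
  of_mul fun g => by
    simp only [C5, mul_assoc]
    rw [H3_conj S ha hb hc _ (i := 1) (j := 1) (k := -1) (by decide +kernel),
      H3_conj S ha hb hc _ (i := -1) (j := 1) (k := 1) (by decide +kernel),
      H3_conj S ha hb hc _ (i := 1) (j := -1) (k := 1) (by decide +kernel),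
      H3_conj S ha hb hc _ (i := 1) (j := 1) (k := 1) (by decide +kernel),
      H3_conj S ha hb hc _ (i := 0) (j := 0) (k := 0) (by decide +kernel)]
    simp only [zpow_one, zpow_neg, zpow_zero, div_eq_mul_inv]
    ring_nf

theorem H3_B3 {a b c : F} (ha : a ≠ 0) (hb : b ≠ 0) (hc : c ≠ 0) (a' b' c' : F) :
    H3 S a b c * B3 S a' b' c' =
      B3 S (a / (b * c) * a') (b / (c * a) * b') (c / (a * b) * c') * H3 S a b c :=
  of_mul fun g => by
    simp only [B3, mul_assoc]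
    rw [H3_conj S ha hb hc _ (i := 1) (j := -1) (k := -1) (by decide +kernel),
      H3_conj S ha hb hc _ (i := -1) (j := 1) (k := -1) (by decide +kernel),
      H3_conj S ha hb hc _ (i := -1) (j := -1) (k := 1) (by decide +kernel)]
    simp only [zpow_one, zpow_neg, div_eq_mul_inv, mul_inv]
    ring_nf

theorem H3_14 {a b c : F} (ha : a ≠ 0) (hb : b ≠ 0) (hc : c ≠ 0) (r : F) :
    H3 S a b c * S.x (rD4 14) r = S.x (rD4 14) ((a * b * c)⁻¹ * r) * H3 S a b c :=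
  of_mul fun g => by
    simp only [mul_assoc]
    rw [H3_conj S ha hb hc _ (i := -1) (j := -1) (k := -1) (by decide +kernel)]
    simp only [zpow_one, zpow_neg, mul_inv]
    ring_nf

theorem N3_conj {r s : Rt chevD4} (h : rf (nD4 0) (rf (nD4 2) (rf (nD4 3) r)) = s) :
    ∃ ε : ℤ, ∀ t, N3 S * S.x r t = S.x s (ε * t) * N3 S := by
  subst h
  refine ⟨eta (nD4 0) (rf (nD4 2) (rf (nD4 3) r)) * eta (nD4 2) (rf (nD4 3) r) * eta (nD4 3) r,
    fun t => ?_⟩
  have h := fun i s u => S.n_sim_conj i one_ne_zero s u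
  simp only [one_zpow, mul_one] at h
  rw [Int.cast_mul, Int.cast_mul, mul_assoc _ _ t, mul_assoc _ _ (_ * t), ← h, ← h, ← h, N3]
  group

end D4R

namespace CD4
open D4R
variable {K : Type*} [Field K] {q : ℕ} (C : CD4 K q)

local notation "𝐒" => glSys chevD4 K

theorem f_x' {r s : Rt chevD4} {ε : ℤ} (h : symD4a.p r = s ∧ sgn (bit gED4a r) 1 = ε) (t : K) :
    C.T.f ((𝐒).x r t) = (𝐒).x s (ε * C.ψ t) := by
  rw [C.T.f_x, C.hT, h.1, h.2]

theorem mem_of_f {a : GL chevD4.Idx K} (h1 : a ∈ (𝐒).grp) (h2 : C.T.f a = a) : a ∈ twistedD4 K q :=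
  C.eq_Fx ▸ ⟨h1, h2⟩

theorem x_mem {r : Rt chevD4} (h : symD4a.p r = r ∧ sgn (bit gED4a r) 1 = 1) {t : K}
    (ht : C.ψ t = t) : (𝐒).x r t ∈ twistedD4 K q :=
  C.mem_of_f ((𝐒).x_mem_grp _ _) (by rw [C.f_x' h, ht]; simp)

theorem A3_mem (s : K) : A3 𝐒 s (C.ψ s) (C.ψ (C.ψ s)) ∈ twistedD4 K q :=
  C.three_mem (by decide +kernel) s

theorem B3_mem (s : K) : B3 𝐒 s (-C.ψ s) (-C.ψ (C.ψ s)) ∈ twistedD4 K q := by
  have m := (𝐒).x_mem_grp
  refine C.mem_of_f (mul_mem (m _ _) (mul_mem (m _ _) (m _ _))) (of_mul fun g => ?_)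
  rw [B3, C.T.f_mul _ (m _ _) _ (mul_mem (m _ _) (m _ _)), C.T.f_mul _ (m _ _) _ (m _ _),
    C.f_x' (s := rD4 16) (ε := -1) (by decide +kernel),
    C.f_x' (s := rD4 15) (ε := 1) (by decide +kernel),
    C.f_x' (s := rD4 19) (ε := -1) (by decide +kernel)]
  simp only [mul_assoc, all 𝐒]
  simp [C.ψψ]

theorem C5_mem (s : K) {t w : K} (ht : C.ψ t = t) (hw : C.ψ w = w) :
    C5 𝐒 s (-C.ψ s) (C.ψ (C.ψ s)) t w ∈ twistedD4 K q := by
  have m := (𝐒).x_mem_grp
  have h1 : (𝐒).x (rD4 21) s * ((𝐒).x (rD4 17) (-C.ψ s) * (𝐒).x (rD4 20) (C.ψ (C.ψ s))) ∈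
      twistedD4 K q := by
    refine C.mem_of_f (mul_mem (m _ _) (mul_mem (m _ _) (m _ _))) (of_mul fun g => ?_)
    rw [C.T.f_mul _ (m _ _) _ (mul_mem (m _ _) (m _ _)), C.T.f_mul _ (m _ _) _ (m _ _),
      C.f_x' (s := rD4 17) (ε := -1) (by decide +kernel),
      C.f_x' (s := rD4 20) (ε := -1) (by decide +kernel),
      C.f_x' (s := rD4 21) (ε := 1) (by decide +kernel)]
    simp only [mul_assoc, all 𝐒]
    simp [C.ψψ]
  simpa only [C5, mul_assoc] using mul_mem h1 (mul_mem (C.x_mem (r := rD4 22) (by decide +kernel) ht)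
    (C.x_mem (r := rD4 23) (by decide +kernel) hw))

theorem H3_mem (s : K) : H3 𝐒 s (C.ψ s) (C.ψ (C.ψ s)) ∈ twistedD4 K q := C.h_three_mem s

include C in
theorem N3_mem : N3 𝐒 ∈ twistedD4 K q := by
  have m : ∀ r, (𝐒).n r 1 ∈ (𝐒).XS {r, ng r} := fun r => (𝐒).n_mem (by simp) (by simp) _
  have m' : ∀ r, (𝐒).n r 1 ∈ (𝐒).grp := fun r => (𝐒).XS_le_grp _ (m r)
  have e : ∀ i : Fin 4, C.T.f ((𝐒).n (sim (nD4 i)) 1) = (𝐒).n (sim (nD4 (![2, 1, 3, 0] i))) 1 :=
    fun i => by rw [C.T.f_n _ one_ne_zero, C.φ_sim, map_one, symD4a.p_sim, π_D4]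
  refine C.mem_of_f (mul_mem (m' _) (mul_mem (m' _) (m' _))) ?_
  rw [N3, C.T.f_mul _ (m' _) _ (mul_mem (m' _) (m' _)), C.T.f_mul _ (m' _) _ (m' _), e, e, e]
  exact (mul_assoc _ _ _).symm.trans
    ((so02_D4.commute _ (m _) (m _)).mul_right (so03_D4.commute _ (m _) (m _))).symm.eq

/-- the fixed field -/
def Fq : Subfield K := C.ψ.eqLocusField (RingHom.id K)

theorem fix (t : C.Fq) : C.ψ t = t := t.2

/-- the trace -/
def tr : K →+ C.Fq where
  toFun u := ⟨u + C.ψ u + C.ψ (C.ψ u), by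
    change C.ψ _ = _; simp only [map_add, C.ψψ, RingHom.id_apply]; ring⟩
  map_zero' := by ext; simp
  map_add' a b := by ext; simp; ring

theorem tr_val (u : K) : (C.tr u : K) = u + C.ψ u + C.ψ (C.ψ u) := rfl

/-- the norm -/
def nm (u : K) : C.Fq := ⟨u * C.ψ u * C.ψ (C.ψ u), by
    change C.ψ _ = _; simp only [map_mul, C.ψψ, RingHom.id_apply]; ring⟩

theorem nm_val (u : K) : (C.nm u : K) = u * C.ψ u * C.ψ (C.ψ u) := rfl

variable [Fintype K] (hq : 1 < q) (hK : Fintype.card K = q ^ 3)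
include hq hK

theorem card_Fq : Nat.card C.Fq = q := by
  refine Eq.trans ?_ (card_fixed (by omega) hK)
  exact Nat.card_congr (Equiv.subtypeEquivRight fun t => by rw [← C.hψ]; rfl)

theorem exists_tr : ∃ u, C.tr u ≠ 0 := by
  by_contra H
  push Not at H
  have hp : (Polynomial.X ^ q ^ 2 + (Polynomial.X ^ q + Polynomial.X) : Polynomial K).natDegree =
      q ^ 2 := by
    rw [Polynomial.natDegree_add_eq_left_of_natDegree_lt] <;> rw [Polynomial.natDegree_X_pow]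
    refine lt_of_le_of_lt (Polynomial.natDegree_add_le _ _) ?_
    rw [Polynomial.natDegree_X_pow, Polynomial.natDegree_X, max_lt_iff]
    constructor <;> nlinarith
  have := Polynomial.eq_zero_of_natDegree_lt_card_of_eval_eq_zero
    (Polynomial.X ^ q ^ 2 + (Polynomial.X ^ q + Polynomial.X) : Polynomial K)
    Function.injective_id (fun u => by
      have := congrArg Subtype.val (H u)
      rw [tr_val, C.hψ2, C.hψ] at this
      simpa [add_comm, add_left_comm, add_assoc] using this)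
    (by rw [hp, hK]; exact Nat.pow_lt_pow_right hq (by norm_num))
  rw [this, Polynomial.natDegree_zero] at hp
  exact (pow_pos (by omega : 0 < q) 2).ne hp

theorem card_norm_one : Nat.card {c : Kˣ // c ^ (q ^ 2 + q + 1) = 1} = q ^ 2 + q + 1 :=
  card_units_pow_eq_one (hK ▸ ⟨q - 1, by
    obtain ⟨k, rfl⟩ : ∃ k, q = k + 1 := ⟨q - 1, by omega⟩
    rw [Nat.add_sub_cancel, Nat.sub_eq_iff_eq_add (Nat.one_le_pow _ _ (by omega))]; ring⟩)

omit hq hK in
theorem nm_pow (u : K) : (C.nm u : K) = u ^ (q ^ 2 + q + 1) := by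
  rw [nm_val, C.hψ2, C.hψ]; ring

theorem nm_surj (a : C.Fq) (ha : a ≠ 0) : ∃ s, s ≠ 0 ∧ C.nm s = a := by
  have h1 : q ^ 3 - 1 = (q ^ 2 + q + 1) * (q - 1) := by
    obtain ⟨k, rfl⟩ : ∃ k, q = k + 1 := ⟨q - 1, by omega⟩
    rw [Nat.add_sub_cancel, Nat.sub_eq_iff_eq_add (Nat.one_le_pow _ _ (by omega))]; ring
  have ha' : (a : K) ≠ 0 := by simpa using ha
  obtain ⟨g, hg⟩ := IsCyclic.exists_generator (α := Kˣ)
  obtain ⟨k, hk⟩ := (mem_powers_iff_mem_zpowers).2 (hg (Units.mk0 a ha'))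
  have ho : orderOf g = q ^ 3 - 1 := by
    rw [orderOf_eq_card_of_forall_mem_zpowers hg, Nat.card_units, Nat.card_eq_fintype_card, hK]
  have h2 : g ^ (k * (q - 1)) = 1 := by
    have := C.fix a
    rw [C.hψ] at this
    simp only at hk
    rw [pow_mul, hk]
    ext
    obtain ⟨l, rfl⟩ : ∃ k, q = k + 1 := ⟨q - 1, by omega⟩
    simpa [pow_succ, ha'] using this
  rw [← orderOf_dvd_iff_pow_eq_one, ho, h1, Nat.mul_dvd_mul_iff_right (by omega)] at h2
  obtain ⟨l, rfl⟩ := h2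
  refine ⟨(g ^ l : Kˣ), Units.ne_zero _, Subtype.ext ?_⟩
  rw [nm_pow, ← Units.val_pow_eq_pow_val, ← pow_mul, mul_comm, show g ^ _ = _ from hk]; rfl

theorem exists_norm_one : ∃ s : K, s * C.ψ s * C.ψ (C.ψ s) = 1 ∧ s ^ 2 ≠ 1 := by
  by_contra H
  push Not at H
  have h1 := card_norm_one hq hK
  have h2 : Nat.card {c : Kˣ // c ^ (q ^ 2 + q + 1) = 1} ≤ Nat.card Bool := by
    classical
    refine Nat.card_le_card_of_injective (fun c => decide ((c.1 : K) = 1)) fun c c' h => ?_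
    have k : ∀ c : {c : Kˣ // c ^ (q ^ 2 + q + 1) = 1}, (c.1 : K) = 1 ∨ (c.1 : K) = -1 := fun c =>
      sq_eq_one_iff.1 (H _ (by
        rw [← nm_val, nm_pow, ← Units.val_pow_eq_pow_val, c.2]; rfl))
    refine Subtype.ext (Units.ext ?_)
    simp only [decide_eq_decide] at h
    rcases k c with h1 | h1 <;> rcases k c' with h2 | h2 <;> simp_all
  rw [h1, Nat.card_eq_fintype_card, Fintype.card_bool] at h2
  nlinarith

/-- the data of the triality group -/
noncomputable def tri : Tri (twistedD4 K q) K C.Fq where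
  ι := C.Fq.subtype
  Tr := C.tr
  Tr_mul a u := by ext; simp [tr_val, C.fix]; ring
  Tr_ne := C.exists_tr hq hK
  N s := C.nm s
  N_surj := C.nm_surj hq hK
  x p := ⟨_, C.C5_mem p.1 (C.fix p.2.1) (C.fix p.2.2)⟩
  xa s := ⟨_, C.A3_mem (C.ψ s)⟩
  xb r := ⟨_, C.x_mem (r := rD4 14) (by decide +kernel) (C.fix r)⟩
  xm r := ⟨_, C.x_mem (r := rD4 9) (by decide +kernel) (C.fix r)⟩
  y v := ⟨_, C.B3_mem v⟩
  h s := (⟨_, C.H3_mem (s : C.Fq)⟩ : twistedD4 K q)⁻¹
  add p p' := Subtype.ext (by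
    simp only [Subgroup.coe_mul, ← C5_add, Prod.fst_add, Prod.snd_add, map_add, neg_add]; rfl)
  xb_add r r' := Subtype.ext ((𝐒).add _ _ _)
  y_add r r' := Subtype.ext (by simp only [Subgroup.coe_mul, ← B3_add, map_add, neg_add])
  x_xa s p := Subtype.ext ((C5_A3 ..).trans (by
    simp only [Subgroup.coe_mul, AddSubgroupClass.coe_sub, tr_val, map_mul, C.ψψ]; ring_nf))
  x_xb r p := Subtype.ext (C5_14 ..)
  x_xm r p := Subtype.ext (C5_9 ..)
  x_y v p := ⟨p.2.2 - C.tr (C.ψ (C.ψ v) * p.1), Subtype.ext ((C5_B3 ..).trans (by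
    simp only [Subgroup.coe_mul, AddSubgroupClass.coe_sub, tr_val, map_mul, C.ψψ]; ring_nf))⟩
  xb_xa r s := ⟨C.ψ s * r, -(C.ψ s * C.ψ (C.ψ s) * r), C.nm s * r ^ 2,
    Subtype.ext (by
      simp only [MulMemClass.coe_mul, SubmonoidClass.coe_pow, nm_val, map_mul,
        map_neg, C.ψψ, C.fix, neg_neg, x14_A3]
      ring_nf)⟩
  h_Y s u := by
    have hs : ((s : C.Fq) : K) ≠ 0 := by simp
    rw [mul_inv_eq_iff_eq_mul, mul_assoc, eq_inv_mul_iff_mul_eq]
    refine Subtype.ext ?_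
    simp only [Subgroup.coe_mul, C.fix, H3_C5 _ hs hs hs, mul_div_cancel_right₀ _ hs, map_mul,
      Subfield.coe_subtype, ZeroMemClass.coe_zero, mul_zero, mul_neg]
  h_Z s u := by
    have hs : ((s : C.Fq) : K) ≠ 0 := by simp
    rw [mul_inv_eq_iff_eq_mul, mul_assoc, eq_inv_mul_iff_mul_eq]
    refine Subtype.ext ?_
    simp only [Subgroup.coe_mul, C.fix, H3_C5 _ hs hs hs, map_zero, ZeroMemClass.coe_zero, mul_zero,
      neg_zero]
  h_xb s r := ⟨(s * s * s : C.Fq)⁻¹ * r, by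
    have hs : ((s : C.Fq) : K) ≠ 0 := by simp
    rw [mul_inv_eq_iff_eq_mul, mul_assoc, eq_inv_mul_iff_mul_eq]
    refine Subtype.ext ?_
    simp only [Subgroup.coe_mul, C.fix, H3_14 _ hs hs hs]; rfl⟩
  tor := by
    obtain ⟨s, h1, h2⟩ := C.exists_norm_one hq hK
    have ha : s ≠ 0 := by rintro rfl; simp at h1
    have hb : C.ψ s ≠ 0 := by simpa using ha
    have hc : C.ψ (C.ψ s) ≠ 0 := by simpa using ha
    refine ⟨(⟨_, C.H3_mem s⟩ : twistedD4 K q)⁻¹, s / (C.ψ s * C.ψ (C.ψ s)), fun h => h2 ?_,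
      fun p => ⟨s * C.ψ s / C.ψ (C.ψ s) * p.1, ?_⟩, fun v => ?_⟩
    · rw [div_eq_one_iff_eq (mul_ne_zero hb hc)] at h
      linear_combination s * h + h1
    · rw [mul_inv_eq_iff_eq_mul, mul_assoc, eq_inv_mul_iff_mul_eq]
      refine Subtype.ext ?_
      simp only [Subgroup.coe_mul, H3_C5 _ ha hb hc, map_mul, map_div₀, C.ψψ, h1, one_mul, mul_neg]
    · rw [mul_inv_eq_iff_eq_mul, mul_assoc, eq_inv_mul_iff_mul_eq]
      refine Subtype.ext ?_
      simp only [Subgroup.coe_mul, H3_B3 _ ha hb hc, map_mul, map_div₀, C.ψψ, mul_neg]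
  weyl := by
    obtain ⟨ε, h1⟩ := N3_conj 𝐒 (r := rD4 22) (s := rD4 14) (by decide +kernel)
    obtain ⟨ε', h2⟩ := N3_conj 𝐒 (r := rD4 23) (s := rD4 23) (by decide +kernel)
    refine ⟨(⟨_, C.N3_mem⟩ : twistedD4 K q)⁻¹, fun t => ⟨ε * t, ?_⟩, fun t => ⟨ε' * t, ?_⟩⟩ <;>
      rw [mul_inv_eq_iff_eq_mul, mul_assoc, eq_inv_mul_iff_mul_eq] <;> refine Subtype.ext ?_
    · simpa [C5, -glSys_x] using h1 t
    · simpa [C5, -glSys_x] using h2 t

end CD4

theorem tri_not_dvd {q : ℕ} (hq : 1 < q) : ¬ q ^ 3 * (q ^ 2 - 1) + (q - 1) ∣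
    q ^ 12 * (q ^ 2 - 1) * (q ^ 6 - 1) * (q ^ 8 + q ^ 4 + 1) := by
  intro h
  rw [← Int.natCast_dvd_natCast] at h
  push_cast [Nat.one_le_pow _ _ (by omega : 0 < q), hq.le] at h
  have hq' : (2 : ℤ) ≤ q := by exact_mod_cast hq
  generalize (q : ℤ) = x at h hq'
  rw [show x ^ 3 * (x ^ 2 - 1) + (x - 1) = (x - 1) * (x ^ 4 + x ^ 3 + 1) by ring,
    show x ^ 12 * (x ^ 2 - 1) * (x ^ 6 - 1) * (x ^ 8 + x ^ 4 + 1) = (x - 1) * (x ^ 12 *
      ((x ^ 4 + x ^ 3 + 1) * (x ^ 11 + x ^ 6 - 2 * x ^ 5 + x ^ 4 + x - 3) + (3 * x ^ 3 - 2 * x + 2)))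
      by ring, mul_dvd_mul_iff_left (by omega)] at h
  have hc : IsCoprime (x ^ 4 + x ^ 3 + 1) x := ⟨1, -(x ^ 3 + x ^ 2), by ring⟩
  have h1 := (dvd_add_right (dvd_mul_right _ _)).1 (hc.pow_right.dvd_of_dvd_mul_left h)
  have h3 : 0 < x ^ 3 := by positivity
  have h4 : 0 ≤ x * (x ^ 2 - 1) := mul_nonneg (by omega) (by nlinarith)
  have h2 := Int.le_of_dvd (by nlinarith) h1
  nlinarith [mul_nonneg h3.le (sub_nonneg.2 hq')]

theorem triality_min_degree {K : Type*} [Field K] [Fintype K] {q : ℕ} (hq : IsPrimePow q)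
    (hK : Fintype.card K = q ^ 3) {V : Type*} [AddCommGroup V] [Module ℂ V] [FiniteDimensional ℂ V]
    (ρ : Representation ℂ (twistedD4 K q) V) (hρ : ρ.IsIrreducible) (h2 : 2 ≤ finrank ℂ V) :
    q * (q ^ 4 - q ^ 2 + 1) ≤ finrank ℂ V := by
  obtain ⟨C⟩ := exists_CD4 hq hK
  have h1 := hq.one_lt
  haveI := (simple_twD4 hq hK).1
  haveI : Fintype C.Fq := Fintype.ofFinite _
  have hF : Fintype.card C.Fq = q := by rw [← Nat.card_eq_fintype_card, C.card_Fq h1 hK]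
  have hker : ρ.ker = ⊥ := (Subgroup.Normal.eq_bot_or_eq_top inferInstance).resolve_right fun h => by
    obtain ⟨g, hg⟩ := Classical.LS.nontriv_of_irr ρ hρ h2
    exact hg (show g ∈ ρ.ker from h ▸ trivial)
  have hne : ρ ((C.tri h1 hK).x (0, 0, 1)) ≠ 1 := fun h => by
    have : (C.tri h1 hK).x (0, 0, 1) ∈ ρ.ker := h
    rw [hker, Subgroup.mem_bot] at this
    have := congrArg Subtype.val this
    simp only [CD4.tri, D4R.C5, map_zero, neg_zero, ZeroMemClass.coe_zero, StSys.x_zero, one_mul,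
      OneMemClass.coe_one] at this
    exact one_ne_zero ((glSys chevD4 K).x_inj (this.trans ((glSys chevD4 K).x_zero _).symm))
  have e1 : q * (q ^ 4 - q ^ 2 + 1) = q ^ 3 * (q ^ 2 - 1) + q := by
    rw [mul_add, Nat.mul_sub, Nat.mul_sub]; ring_nf
  by_contra hlt
  have h3 : q ≤ q ^ 3 * (q ^ 2 - 1) :=
    (Nat.le_self_pow (by norm_num) q).trans (Nat.le_mul_of_pos_right _ (by
      have : 1 < q ^ 2 := Nat.one_lt_pow (by norm_num) h1; omega))
  have := (C.tri h1 hK).min_degree ρ hne (by rw [hK, hF]; omega)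
  rw [hK, hF] at this
  have h4 := Char.isIrr_degree_dvd_card (Char.isIrr_character ρ) (n := finrank ℂ V) (by simp)
  rw [card_twD4 hq hK, show finrank ℂ V = q ^ 3 * (q ^ 2 - 1) + (q - 1) by omega] at h4
  exact tri_not_dvd h1 h4

end Cfsg.Agent.Chev
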