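import Mathlib
import Cfsg.Agent.Chev.MxU9
import Cfsg.Agent.Chev.MxD4

/-! Finite overgroups of a Chevalley group over a finite subfield. -/

set_option autoImplicit false
set_option linter.unusedSectionVars false
set_option maxHeartbeats 400000

namespace Cfsg.Agent.Chev
open Cfsg.Lie Cfsg.Agent.BN StSys

variable {F : Type*} [Field F] (p : ℕ) [Fact p.Prime] [CharP F p]

include p in
theorem exists_good_btw {D : ChevalleyDatum}
    (hD : D ∈ [chevG2, chevB2, chevD4, chevF4, chevE6, chevE7, chevE8]) : ∃ _ : Good2 D,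
      ∀ M, OV (glSys D F) M → Btw (glSys D F) M := by
  simp only [List.mem_cons, List.not_mem_nil, or_false] at hD
  rcases hD with rfl | rfl | rfl | rfl | rfl | rfl | rfl
  · exact ⟨good2G2, fun _ O => O.btw_G2 p ud_G2 ln_G2 pc_G2⟩
  · exact ⟨good2B2, fun _ O => O.btw_B2 p⟩
  · exact ⟨good2D4, fun _ O => SLD.btw (g := good2D4) sld_D4 O p⟩
  · exact ⟨good2F4, fun _ O => OV.btw_EX (g := good2F4) O p ud_F4 ln_F4 pc_F4 ex_F4⟩
  · exact ⟨good2E6, fun _ O => SLD.btw (g := good2E6) sld_E6 O p⟩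
  · exact ⟨good2E7, fun _ O => SLD.btw (g := good2E7) sld_E7 O p⟩
  · exact ⟨good2E8, fun _ O => SLD.btw (g := good2E8) sld_E8 O p⟩

theorem card_pow_of_le {E L : Subfield F} [Finite L] (h : E ≤ L) :
    ∃ r, 1 ≤ r ∧ Nat.card L = Nat.card E ^ r := by
  letI := (Subfield.inclusion h).toAlgebra
  haveI := Fintype.ofFinite L
  haveI : Fintype E := Fintype.ofInjective _ (Subfield.inclusion h).injective
  exact ⟨_, Module.finrank_pos, by
    rw [Nat.card_eq_fintype_card, Nat.card_eq_fintype_card, Module.card_eq_pow_finrank (K := E)]⟩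

variable {D : ChevalleyDatum} [g : Good2 D] {M : Subgroup (GL D.Idx F)}

theorem Btw.exists_pow (h : Btw (glSys D F) M) {a : ℕ}
    (hc : Nat.card {t : F // t ^ p ^ a = t} = p ^ a)
    (hx : ∀ r t, t ^ p ^ a = t → (glSys D F).x r t ∈ M) : ∃ r, 1 ≤ r ∧
      Nat.card {t : F // t ^ (p ^ a) ^ r = t} = (p ^ a) ^ r ∧
      (∀ s t, t ^ (p ^ a) ^ r = t → (glSys D F).x s t ∈ M) ∧
      ∀ y ∈ M, ∀ i j, (y : Matrix D.Idx D.Idx F) i j ^ (p ^ a) ^ r = (y : Matrix D.Idx D.Idx F) i j := by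
  obtain ⟨L, _, ⟨θ, h1⟩, h2, h3⟩ := h
  obtain ⟨r, hr, e⟩ := card_pow_of_le (E := (iterateFrobenius F p a).eqLocusField (RingHom.id F))
    (L := L) fun t ht => h1 t (hx θ t ht)
  have e : Nat.card L = (p ^ a) ^ r := e.trans (congrArg (· ^ r) hc)
  have h4 : ∀ t, t ∈ L ↔ t ^ (p ^ a) ^ r = t := fun t => by rw [mem_iff_pow_card, e]
  have h5 : ∀ t, iterateFrobenius F p (a * r) t = t ^ (p ^ a) ^ r := fun t => by
    rw [iterateFrobenius_def, pow_mul]
  exact ⟨r, hr, (Nat.card_congr (Equiv.subtypeEquivRight h4)).symm.trans e,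
    fun s t ht => h2 (x_mem_GS s ((h4 t).mpr ht)), fun y hy => (map_eq_iff_pow _ h5 y).mp
      (h3 (fieldGL D _) _ (fun _ _ => rfl) (fun t => by rw [h4, h5]) y hy)⟩

theorem bot_le_of {a : ℕ} (hx : ∀ r t, t ^ p ^ a = t → (glSys D F).x r t ∈ M) :
    (glSys D F).GS ⊥ ≤ M := GS_le.mpr fun r t ht => hx r t
  ((bot_le : ⊥ ≤ (iterateFrobenius F p a).eqLocusField (RingHom.id F)) ht)

theorem card_fixed_closed [IsAlgClosed F] {a : ℕ} (ha : 1 ≤ a) :
    Nat.card {t : F // t ^ p ^ a = t} = p ^ a := by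
  classical
  have h1 : 1 < p ^ a := Nat.one_lt_pow (by omega) (Fact.out : p.Prime).one_lt
  have h2 := Polynomial.card_rootSet_eq_natDegree (K := F)
    (galois_poly_separable (K := F) p (p ^ a) (dvd_pow_self p (by omega))) (IsAlgClosed.splits _)
  rw [FiniteField.X_pow_card_sub_X_natDegree_eq F h1, ← Nat.card_eq_fintype_card] at h2
  refine (Nat.card_congr (Equiv.subtypeEquivRight fun t => ?_)).trans h2
  simp [Polynomial.mem_rootSet, FiniteField.X_pow_card_sub_X_ne_zero F h1, sub_eq_zero]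

end Cfsg.Agent.Chev
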