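import Mathlib
import Cfsg.Agent.Chev.Oct6

/-! The prime graph of `G₂(q)`, `q` even. -/

set_option autoImplicit false
set_option linter.unusedSectionVars false
set_option maxHeartbeats 400000
set_option maxRecDepth 100000

namespace Cfsg.Agent.Chev.Oct
open Cfsg.Lie Cfsg.Agent.Spec Matrix

theorem samePG_of {G k Q : Type*} [Group G] [Finite G] [Field k] [AddCommGroup Q] [Module k Q]
    (ρ : Representation k G Q) (S : Submodule k Q) (hS : ∀ g, ∀ x ∈ S, ρ g x ∈ S) {v : Q}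
    (hv : v ∈ S) (h0 : v ≠ 0) (h2 : ∀ x : Q, 2 • x = 0) (h2' : 2 ∈ spec G)
    (h : ∀ g : G, (orderOf g).Coprime 2 → orderOf g * 2 ∈ spec G ∨ ∀ w ∈ S, ρ g w = w → w = 0)
    (N : ℕ) : ∃ (H : Type) (_ : Group H) (_ : Finite H), N < Nat.card H ∧ SamePG G H := by
  let V := AddSubgroup.closure (Set.range fun g => ρ g v)
  have h1 : ∀ g, V ≤ V.comap (ρ g).toAddMonoidHom := fun g => (AddSubgroup.closure_le _).2 (by
    rintro _ ⟨a, rfl⟩
    exact AddSubgroup.subset_closure ⟨g * a, by simp⟩)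
  have h3 : V ≤ S.toAddSubgroup := (AddSubgroup.closure_le _).2 (by
    rintro _ ⟨a, rfl⟩; exact hS a v hv)
  letI : DistribMulAction G V :=
    { smul g x := ⟨ρ g x, h1 g x.2⟩
      one_smul x := Subtype.ext (LinearMap.congr_fun (map_one ρ) x.1)
      mul_smul a b x := Subtype.ext (LinearMap.congr_fun (map_mul ρ a b) x.1)
      smul_zero a := Subtype.ext (map_zero (ρ a))
      smul_add a x y := Subtype.ext (map_add (ρ a) x.1 y.1) }
  have h4 : ∀ x : V, 2 • x = 0 := fun x => Subtype.ext (h2 x.1)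
  haveI : Finite V := AddCommGroup.finite_of_fg_isAddTorsion V fun x =>
    isOfFinAddOrder_iff_nsmul_eq_zero.2 ⟨2, two_pos, h4 x⟩
  haveI : Nontrivial V := ⟨⟨⟨v, AddSubgroup.subset_closure ⟨1, by simp⟩⟩, 0,
    fun e => h0 (congrArg Subtype.val e)⟩⟩
  have k1 := spec_le_of_inj _ (Aff.inr_injective (K := G) (V := V))
  have k2 : ∀ n ∈ spec (Aff G V), n ∈ spec G ∨ ∃ g : G, n = orderOf g * 2 ∧
      ¬ (orderOf g).Coprime 2 := fun n hn => by
    obtain ⟨g, x, rfl⟩ := Aff.mem_spec.1 hn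
    rcases (Nat.dvd_prime Nat.prime_two).1 (addOrderOf_dvd_of_nsmul_eq_zero
      (h4 (Aff.nm g (orderOf g) x))) with e | e
    · exact .inl ⟨g, by rw [e, mul_one]⟩
    by_cases hc : (orderOf g).Coprime 2
    · refine .inl (e ▸ (h g hc).resolve_right fun h => ?_)
      rw [Aff.nm_eq_zero_of_fpf 1 fun w hw => Subtype.ext (h _ (h3 w.2)
        (by rw [pow_one] at hw; exact congrArg Subtype.val hw))] at e
      simp at e
    · exact .inr ⟨g, by rw [e], hc⟩
  refine samePG_unb ⟨fun p hp => ?_, fun p q hp hq e => ⟨fun h => k1 h, fun h => ?_⟩⟩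
    (Aff.unb (K := G) (V := V)) N
  · rw [prime_dvd_card_iff hp, prime_dvd_card_iff hp]
    refine ⟨fun h => k1 h, fun h => (k2 _ h).elim id fun ⟨g, e, _⟩ => ?_⟩
    exact (Nat.prime_dvd_prime_iff_eq Nat.prime_two hp).1 (e ▸ dvd_mul_left _ _) ▸ h2'
  · refine (k2 _ h).resolve_right fun ⟨g, e', h⟩ => h ?_
    rcases (Nat.Prime.dvd_mul Nat.prime_two).1 (e' ▸ dvd_mul_left _ _ : 2 ∣ p * q) with k | k
    · obtain rfl := (Nat.prime_dvd_prime_iff_eq Nat.prime_two hp).1 k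
      rw [show orderOf g = q by omega]; exact (Nat.coprime_primes hq hp).2 e.symm
    · obtain rfl := (Nat.prime_dvd_prime_iff_eq Nat.prime_two hq).1 k
      rw [show orderOf g = p by omega]; exact (Nat.coprime_primes hp hq).2 e

theorem samePG_G2 {F : Type*} [Field F] [Fintype F] [CharP F 2] (N : ℕ) :
    ∃ (H : Type) (_ : Group H) (_ : Finite H), N < Nat.card H ∧ SamePG (chevG2.group F) H := by
  obtain ⟨ψ, h1, h2, h3⟩ := exists_psi (F := F) 2
  obtain ⟨-, -, -, k1, k2⟩ := mem_all 2 (F := F) rfl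
  set k := AlgebraicClosure F
  have hL : ∀ g, (k ∙ one8 k) ≤ (k ∙ one8 k).comap (((rho k).comp ψ) g) := fun g =>
    (Submodule.span_singleton_le_iff_mem _ _).2 (Submodule.mem_span_singleton.2
      ⟨1, (one_smul _ _).trans (ac_one8 (h2 g)).symm⟩)
  refine samePG_of (Representation.quotient ((rho k).comp ψ) _ hL)
    ((LinearMap.ker (trL k)).map (k ∙ one8 k).mkQ) ?_ (v := (k ∙ one8 k).mkQ (bv k 1))
    ⟨_, by simp [trL, tr, bv_eq], rfl⟩ (fun h => ?_) (fun x => ?_) (mem_of_dvd k1 (dvd_mul_right _ _))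
    (fun g hg => ?_) N
  · rintro g _ ⟨x, hx, rfl⟩
    exact ⟨ac (ψ g) x, (tr_ac (h2 g) x).trans hx, rfl⟩
  · obtain ⟨c, hc⟩ := Submodule.mem_span_singleton.1 ((Submodule.Quotient.mk_eq_zero _).1 h)
    simpa [one8, bv_eq] using congrFun hc 1
  · rw [← Nat.cast_smul_eq_nsmul k, CharP.cast_eq_zero, zero_smul]
  obtain ⟨t, hF, a, ha, hd⟩ := h3 g hg
  have k3 := (pow_of_diag h1 hd).2
  by_cases ht : ∃ i, t i = 1
  · have : t ^ (Fintype.card F - 1) = 1 ∨ t ^ (Fintype.card F + 1) = 1 := by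
      have e : ∀ (t : Fin 3 → kˣ) (n : ℕ), (t ∘ ![1, 2, 0]) ^ n = 1 → t ^ n = 1 :=
        fun t n h => funext fun i => by
          fin_cases i
          exacts [congrFun h 2, congrFun h 0, congrFun h 1]
      obtain ⟨i, hi⟩ := ht
      fin_cases i
      exacts [hF.short Fintype.card_pos hi, (hF.rot.short Fintype.card_pos hi).imp (e _ _) (e _ _),
        (hF.rot.rot.short Fintype.card_pos hi).imp (fun h => e _ _ (e _ _ h)) fun h => e _ _ (e _ _ h)]
    rw [mul_comm]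
    exact .inl (this.elim
      (fun h => mem_of_dvd k1 (mul_dvd_mul_left _ (orderOf_dvd_of_pow_eq_one (k3 _ h))))
      fun h => mem_of_dvd k2 (mul_dvd_mul_left _ (orderOf_dvd_of_pow_eq_one (k3 _ h))))
  refine .inr ?_
  rintro _ ⟨x, hx, rfl⟩ h
  obtain ⟨c, hc⟩ := Submodule.mem_span_singleton.1 ((Submodule.Quotient.eq _).1 h)
  have e1 : c • one8 k = (diagonal fun i => (dd t i).1) *ᵥ ac a⁻¹ x - ac a⁻¹ x := by
    rw [← hd, ← ac_one8 (inv_mem ha), ← ac_smul, hc]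
    change _ = ac _ _ - _
    rw [ac_mul, ac_mul, ac_inv]
    exact mulVec_sub _ _ _
  have e2 : tr (ac a⁻¹ x) = 0 := (tr_ac (inv_mem ha) x).trans hx
  refine (Submodule.Quotient.mk_eq_zero _).2 (Submodule.mem_span_singleton.2 ⟨ac a⁻¹ x 0, ?_⟩)
  rw [← ac_one8 ha, ← ac_smul]
  refine Eq.trans (congrArg _ ?_) (ac_inv a x)
  generalize ac a⁻¹ x = y at *
  have e3 : ∀ i, one8 k i = 0 → dd t i ≠ 1 → y i = 0 := fun i h h' => by
    have := congrFun e1 i
    rw [Pi.smul_apply, h, smul_zero, Pi.sub_apply, mulVec_diagonal, eq_comm, ← sub_one_mul] at this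
    exact (mul_eq_zero.1 this).resolve_left fun e => h' (Units.ext (sub_eq_zero.1 e))
  push Not at ht
  ext i
  fin_cases i <;> simp [one8]
  exacts [(e3 1 rfl (ht 0)).symm, (e3 2 rfl (ht 1)).symm, (e3 3 rfl (ht 2)).symm,
    (e3 4 rfl (inv_ne_one.2 (ht 0))).symm, (e3 5 rfl (inv_ne_one.2 (ht 1))).symm,
    (e3 6 rfl (inv_ne_one.2 (ht 2))).symm, CharTwo.add_eq_zero.1 e2]

end Cfsg.Agent.Chev.Oct
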