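import Mathlib
import Cfsg.Agent.Chev.Oct3
import Cfsg.Agent.Chev.Lang3
import Cfsg.Agent.S1059

/-! Sylow `2`-subgroups of `G₂(q)`, `q` odd. -/

set_option autoImplicit false
set_option linter.unusedSectionVars false
set_option maxHeartbeats 400000
set_option maxRecDepth 100000

namespace Cfsg.Agent.Chev.Oct
open Cfsg.Lie Matrix Subgroup

attribute [local instance] good2G2

theorem two_dvd_of_lt {G : Type*} [Group G] [Finite G] {K L : Subgroup G} (hL : IsPGroup 2 L)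
    (h : K < L) : 2 * Nat.card K ∣ Nat.card L := by
  obtain ⟨n, hn⟩ := hL.index (K.subgroupOf L)
  rw [← (K.subgroupOf L).index_mul_card, Nat.card_congr (subgroupOfEquivOfLe h.le).toEquiv, hn]
  refine mul_dvd_mul_right (dvd_pow_self 2 ?_) _
  rintro rfl
  exact h.not_ge (subgroupOf_eq_top.1 (index_eq_one.1 hn))

theorem sylow_elem {G B : Type*} [Group G] [Finite G] [CommGroup B] (hB : IsPGroup 2 B)
    {D : B →* G} (hD : Function.Injective D) {γ n : G} {τ : B → B} (h1 : γ * γ = 1) (h2 : n * n = 1)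
    (h3 : n * γ * n⁻¹ = γ) (h4 : ∀ b, γ * D b * γ⁻¹ = D b⁻¹) (h5 : ∀ b, n * D b * n⁻¹ = D (τ b))
    {b : B} (h6 : b⁻¹ ≠ b) (h7 : τ b ≠ b) (h8 : τ b ≠ b⁻¹) (h9 : ¬ 8 * Nat.card B ∣ Nat.card G)
    (P : Sylow 2 G) (x : P) : x ^ 2 ∈ commutator P := by
  have z : ∀ y : G, y * y = 1 → IsPGroup 2 (zpowers y) := fun y h => IsPGroup.of_card_dvd_pow (n := 1)
    (by rw [Nat.card_zpowers]; exact orderOf_dvd_of_pow_eq_one (by simpa [pow_two] using h))
  have p1 : IsPGroup 2 (zpowers γ ⊔ D.range :) := (z _ h1).to_sup_of_normal_right'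
    (hB.of_surjective _ D.rangeRestrict_surjective) (zpowers_le.2 (mem_normalizer_fintype (by
      rintro _ ⟨b, rfl⟩; exact ⟨_, (h4 b).symm⟩)))
  have p2 : IsPGroup 2 (zpowers n ⊔ (zpowers γ ⊔ D.range) :) := (z _ h2).to_sup_of_normal_right' p1
    (zpowers_le.2 (mem_normalizer_fintype (sup_le (c := (zpowers γ ⊔ D.range).comap
      (MulAut.conj n).toMonoidHom) (zpowers_le.2 (mem_sup_left (h3.symm ▸ mem_zpowers γ :
        n * γ * n⁻¹ ∈ zpowers γ))) (by rintro _ ⟨b, rfl⟩; exact mem_sup_right ⟨_, (h5 b).symm⟩))))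
  obtain ⟨Q, hQ⟩ := p2.exists_le_sylow
  have c1 : ∀ c, D c * D b * (D c)⁻¹ = D b := fun c => by
    rw [← map_mul, mul_comm c, map_mul, mul_inv_cancel_right]
  have l1 : D.range < zpowers γ ⊔ D.range := right_lt_sup.2 fun h => by
    obtain ⟨c, rfl⟩ := zpowers_le.1 h
    exact h6 (hD ((h4 b).symm.trans (c1 c)))
  have l2 : zpowers γ ⊔ D.range < zpowers n ⊔ (zpowers γ ⊔ D.range) := right_lt_sup.2 fun h => by
    have := sup_le (c := normalizer ({D b, D b⁻¹} : Set G)) (zpowers_le.2 (mem_normalizer_fintype (by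
      rintro _ (rfl | rfl) <;> simp [h4, ← map_inv]))) (fun y => by
      rintro ⟨c, rfl⟩
      refine mem_normalizer_fintype ?_
      rintro _ (rfl | rfl) <;> simp [← map_mul, ← map_inv]) (zpowers_le.1 h)
    rcases ((mem_set_normalizer_iff.1 this) (D b)).1 (by simp) with e | e
    exacts [h7 (hD ((h5 b).symm.trans e)), h8 (hD ((h5 b).symm.trans e))]
  have hQ' := hQ.eq_or_lt.resolve_right fun l3 => h9 (by
    have := ((mul_dvd_mul_left 2 ((mul_dvd_mul_left 2 (two_dvd_of_lt p1 l1)).trans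
      (two_dvd_of_lt p2 l2))).trans (two_dvd_of_lt Q.2 l3)).trans (card_subgroup_dvd_card _)
    rwa [← Nat.card_congr (D.ofInjective hD).toEquiv, ← mul_assoc, ← mul_assoc] at this)
  let K := (((powMonoidHom 2).comp Abelianization.of).ker : Subgroup Q).map (Q : Subgroup G).subtype
  have k1 : ∀ y ∈ (Q : Subgroup G), y * y = 1 → y ∈ K := fun y hy e => ⟨⟨y, hy⟩, by
    change Abelianization.of _ ^ 2 = 1
    rw [← map_pow, pow_two, show (⟨y, hy⟩ * ⟨y, hy⟩ : Q) = 1 from Subtype.ext e, map_one], rfl⟩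
  have k2 : γ ∈ (Q : Subgroup G) := hQ (mem_sup_right (mem_sup_left (mem_zpowers _)))
  have k3 : (Q : Subgroup G) ≤ K := hQ'.ge.trans (sup_le
    (zpowers_le.2 (k1 _ (hQ (mem_sup_left (mem_zpowers _))) h2))
    (sup_le (zpowers_le.2 (k1 _ k2 h1)) (by
      rintro _ ⟨c, rfl⟩
      simpa using mul_mem (k1 (D c * γ) (mul_mem (hQ (mem_sup_right (mem_sup_right ⟨c, rfl⟩))) k2) (by
        rw [mul_assoc, ← mul_assoc γ,
          show γ * D c * γ = D c⁻¹ by rw [← h4, inv_eq_of_mul_eq_one_right h1], ← map_mul]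
        simp)) (inv_mem (k1 _ k2 h1)))))
  obtain ⟨y, rfl⟩ := (Sylow.equiv Q P).surjective x
  obtain ⟨y', hy, e⟩ := k3 y.2
  obtain rfl : y' = y := Subtype.ext e
  have : y' ^ 2 ∈ commutator Q := by
    rw [← Abelianization.ker_of]; exact (map_pow _ _ _).trans hy
  rw [← map_pow]
  exact commutator_mono le_top le_top
    (map_commutator ⊤ ⊤ (Sylow.equiv Q P).toMonoidHom ▸ mem_map_of_mem _ this)

variable {k : Type*} [Field k]

/-- an involution given by a linear map -/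
noncomputable def invo (f : (Fin 8 → k) →ₗ[k] (Fin 8 → k)) (h : ∀ x, f (f x) = x) : GL (Fin 8) k :=
  have : LinearMap.toMatrix' f * LinearMap.toMatrix' f = 1 := by
    rw [← LinearMap.toMatrix'_comp, ← LinearMap.toMatrix'_id]; congr 1; exact LinearMap.ext h
  ⟨_, _, this, this⟩

theorem ac_invo (f : (Fin 8 → k) →ₗ[k] (Fin 8 → k)) (h : ∀ x, f (f x) = x) (x : Fin 8 → k) :
    ac (invo f h) x = f x := LinearMap.toMatrix'_mulVec f x

theorem exists_γ : ∃ γ : GL (Fin 8) k,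
    ∀ x, ac γ x = ![x 7, -x 4, -x 5, -x 6, -x 1, -x 2, -x 3, x 0] :=
  ⟨_, ac_invo ⟨⟨fun x => ![x 7, -x 4, -x 5, -x 6, -x 1, -x 2, -x 3, x 0], fun x y => by
    ext i; fin_cases i <;> simp [add_comm]⟩, fun c x => by ext i; fin_cases i <;> simp⟩
    fun x => by ext i; fin_cases i <;> simp⟩

theorem exists_ν : ∃ n : GL (Fin 8) k,
    ∀ x, ac n x = ![x 0, x 2, x 1, -x 3, x 5, x 4, -x 6, x 7] :=
  ⟨_, ac_invo ⟨⟨fun x => ![x 0, x 2, x 1, -x 3, x 5, x 4, -x 6, x 7], fun x y => by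
    ext i; fin_cases i <;> simp [add_comm]⟩, fun c x => by ext i; fin_cases i <;> simp⟩
    fun x => by ext i; fin_cases i <;> simp⟩

theorem ac_ext {a b : GL (Fin 8) k} (h : ∀ x, ac a x = ac b x) : a = b := gl_ext fun _ _ => h _

theorem exists_D : ∃ D : kˣ × kˣ →* GL (Fin 8) k, ∀ c x, ac (D c) x = ![x 0, c.1 * x 1, c.2 * x 2,
    (c.1 * c.2)⁻¹ * x 3, c.1⁻¹ * x 4, c.2⁻¹ * x 5, c.1 * c.2 * x 6, x 7] := by
  let d : kˣ × kˣ →* (Fin 8 → kˣ) := MonoidHom.mk'
    (fun c => ![1, c.1, c.2, (c.1 * c.2)⁻¹, c.1⁻¹, c.2⁻¹, c.1 * c.2, 1]) fun a b => by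
      ext i; fin_cases i <;> simp <;> ring
  refine ⟨(Units.map (diagonalRingHom (Fin 8) k).toMonoidHom).comp
    (MulEquiv.piUnits.symm.toMonoidHom.comp d), fun c x => funext fun i => ?_⟩
  refine (mulVec_diagonal _ _ _).trans ?_
  fin_cases i <;> simp [d]

theorem ac_map {K : Type*} [Field K] (σ : k →+* K) (g : GL (Fin 8) k) (x : Fin 8 → k) :
    ac (GeneralLinearGroup.map σ g) (σ ∘ x) = σ ∘ ac g x :=
  funext fun i => (σ.map_mulVec _ _ i).symm

theorem map_ext {K : Type*} [Field K] (σ : k →+* K) {g : GL (Fin 8) k} {g' : GL (Fin 8) K}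
    (h : ∀ x, ac g' (σ ∘ x) = σ ∘ ac g x) : GeneralLinearGroup.map σ g = g' := gl_ext fun i _ => by
  rw [show bv K i = σ ∘ bv k i from funext fun j => by simp [bv, apply_ite σ], ac_map, h]

theorem map_X {K : Type*} [Field K] (σ : k →+* K) (r : Fin 12) (t : k) :
    GeneralLinearGroup.map σ (X r t) = X r (σ t) := map_ext σ fun x => by
  refine (ac_X _ _ _).trans (Eq.trans ?_ (congrArg _ (ac_X _ _ _).symm))
  fin_cases r <;> ext i <;> fin_cases i <;> simp [act]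

variable {F : Type*} [Field F] [Fintype F]

theorem exists_twist [IsAlgClosed k] (ι : F →+* k) (p : ℕ) [Fact p.Prime] [CharP k p] {e : ℕ}
    (he : e ≠ 0) (hF : Fintype.card F = p ^ e) {g : GL (Fin 8) k} (hg : g ∈ G2 k) :
    ∃ f : chevG2.group F →* GL (Fin 8) k, Function.Injective f ∧ ∀ y ∈ G2 k,
      g * GeneralLinearGroup.map (iterateFrobenius k p e) y * g⁻¹ = y → y ∈ f.range := by
  obtain ⟨χ, h1, -, h3⟩ := exists_chi (F := k) (by
    classical
    obtain ⟨a, ha⟩ := Infinite.exists_notMem_finset ({0, 1} : Finset k)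
    exact ⟨a, by simpa using ha⟩)
  have hs : G2 k ≤ χ.range := by
    rw [G2_eq, E, closure_le]
    rintro _ ⟨r, t, rfl⟩
    exact ⟨_, h3 r t⟩
  set σ := iterateFrobenius k p e
  have hn : ∀ y, χ ((fieldMor chevG2 σ).f y) = GeneralLinearGroup.map σ (χ y) := fun y =>
    DFunLike.congr_fun (StSys.hom_ext ch_grp (f := χ.comp (fieldMor chevG2 σ).f)
      (f' := (GeneralLinearGroup.map σ).comp χ) fun r t =>
        (congrArg χ ((fieldMor chevG2 σ).f_x r t)).trans ((h3 r _).trans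
          ((map_X σ r t).symm.trans (congrArg _ (h3 r t).symm)))) y
  obtain ⟨g, rfl⟩ := hs hg
  obtain ⟨a, ha, e1⟩ := lang_frob p he ((group_eq (D := chevG2) (F := k)).le g.2)
  rw [← group_eq] at ha
  lift a to chevG2.group k using ha
  have e2 : (fieldMor chevG2 σ).f a = a * g := inv_mul_eq_iff_eq_mul.1 (Subtype.ext e1)
  refine ⟨χ.comp ((MulAut.conj a⁻¹).toMonoidHom.comp (fieldMor chevG2 ι).f),
    h1.comp ((MulAut.conj a⁻¹).injective.comp fun x y e => Subtype.ext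
      (GL_map_inj ι (congrArg Subtype.val e))), fun y hy e => ?_⟩
  obtain ⟨y, rfl⟩ := hs hy
  rw [← hn, ← map_inv, ← map_mul, ← map_mul] at e
  have e3 : (fieldMor chevG2 σ).f (a * y * a⁻¹) = a * y * a⁻¹ := by
    rw [map_mul, map_mul, map_inv, e2]
    conv_rhs => rw [← h1 e]
    group
  obtain ⟨z, hz, e4⟩ := exists_map_of_fix ι (ker_G2 _) (ψ := σ) (fun t => hF ▸ rfl)
    ((group_eq (D := chevG2) (F := k)).le (a * y * a⁻¹).2) (congrArg Subtype.val e3)
  refine ⟨⟨z, (group_eq (D := chevG2) (F := F)).ge hz⟩, congrArg χ ?_⟩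
  change a⁻¹ * _ * a⁻¹⁻¹ = y
  rw [show (fieldMor chevG2 ι).f ⟨z, _⟩ = a * y * a⁻¹ from Subtype.ext e4]
  group

theorem sylow_G2 [IsAlgClosed k] (ι : F →+* k) (hF : Odd (Fintype.card F)) {G : Type*} [Group G] (E : G ≃* chevG2.group F)
    (P : Sylow 2 G) (x : P) : x ^ 2 ∈ commutator P := by
  haveI := Finite.of_equiv _ E.symm.toEquiv
  obtain ⟨p, hc, e, hp, hq⟩ := FiniteField.card' F
  haveI := Fact.mk hp
  haveI := charP_of_injective_ringHom ι.injective p
  set σ := iterateFrobenius k p e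
  obtain ⟨γ, hγ⟩ := exists_γ (k := k)
  obtain ⟨n, hn⟩ := exists_ν (k := k)
  obtain ⟨D, hD⟩ := exists_D (k := k)
  have h1 : γ * γ = 1 := ac_ext fun x => by rw [ac_mul, hγ, hγ]; ext i; fin_cases i <;> simp [ac]
  have h2 : n * n = 1 := ac_ext fun x => by rw [ac_mul, hn, hn]; ext i; fin_cases i <;> simp [ac]
  have h3 : n * γ = γ * n := ac_ext fun x => by simp only [ac_mul, hn, hγ]; simp
  have h4 : ∀ b, γ * D b * γ⁻¹ = D b⁻¹ := fun b => mul_inv_eq_iff_eq_mul.2 (ac_ext fun x => by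
    simp only [ac_mul, hD, hγ]; simp [mul_comm])
  have h5 : ∀ b, n * D b * n⁻¹ = D b.swap := fun b => mul_inv_eq_iff_eq_mul.2 (ac_ext fun x => by
    simp only [ac_mul, hD, hn]; simp [mul_comm])
  have m1 : γ ∈ G2 k := mem_iff.2 fun x y => by
    simp only [hγ, zm, cons_val]; refine v8 ?_ ?_ ?_ ?_ ?_ ?_ ?_ ?_ <;> ring
  have m2 : n ∈ G2 k := mem_iff.2 fun x y => by
    simp only [hn, zm, cons_val]; refine v8 ?_ ?_ ?_ ?_ ?_ ?_ ?_ ?_ <;> ring
  have m3 : ∀ b, D b ∈ G2 k := fun b => mem_iff.2 fun x y => by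
    simp only [hD, zm, cons_val, Units.val_inv_eq_inv_val, Units.val_mul]
    refine v8 ?_ ?_ ?_ ?_ ?_ ?_ ?_ ?_ <;> field_simp
  have s1 : GeneralLinearGroup.map σ γ = γ := map_ext σ fun x => by
    ext i; fin_cases i <;> simp [hγ]
  have s2 : GeneralLinearGroup.map σ n = n := map_ext σ fun x => by
    ext i; fin_cases i <;> simp [hn]
  have s3 : ∀ b, GeneralLinearGroup.map σ (D b) = D (b ^ Fintype.card F) := fun b =>
    map_ext σ fun x => by
      rw [hD, hD]; ext i; fin_cases i <;> simp [σ, iterateFrobenius_def, hq, mul_pow]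
  have iD : Function.Injective D := (injective_iff_map_eq_one D).2 fun b h => by
    have := hD b 1
    rw [h] at this
    exact Prod.ext (Units.ext (by simpa [ac] using (congrFun this 1).symm))
      (Units.ext (by simpa [ac] using (congrFun this 2).symm))
  obtain ⟨a, u, g, hu, ha, e1, hg, k1, k2, k3⟩ : ∃ (a u : ℕ) (g : GL (Fin 8) k), Odd u ∧ 2 ≤ a ∧
      Fintype.card F ^ 2 = 2 * 2 ^ a * u + 1 ∧ g ∈ G2 k ∧ g * γ * g⁻¹ = γ ∧ g * n * g⁻¹ = n ∧
      ∀ b, b ^ 2 ^ a = 1 → g * D (b ^ Fintype.card F) * g⁻¹ = D b := by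
    have q1 : 1 < Fintype.card F := Fintype.one_lt_card
    generalize Fintype.card F = q at *
    have k0 : ∀ a m : ℕ, Odd m → 4 ∣ 2 ^ a * m → 2 ≤ a := fun a m hm h => by
      rcases a with _ | _ | a <;> grind
    rcases (by grind : q % 4 = 1 ∨ q % 4 = 3) with h | h
    · obtain ⟨a, m, hm, e⟩ := Nat.exists_eq_two_pow_mul_odd (n := q - 1) (by omega)
      obtain ⟨v, hv⟩ : 2 ∣ q + 1 := by omega
      refine ⟨a, m * v, 1, hm.mul (by grind), k0 a m hm (by omega), ?_, one_mem _, by simp, by simp,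
        fun b hb => ?_⟩
      · rw [show q = 2 ^ a * m + 1 by omega] at hv ⊢
        linear_combination (2 ^ a * m) * hv
      · rw [show q = 2 ^ a * m + 1 by omega, pow_succ, pow_mul, hb]; simp
    · obtain ⟨a, m, hm, e⟩ := Nat.exists_eq_two_pow_mul_odd (n := q + 1) (by omega)
      obtain ⟨v, hv⟩ : 2 ∣ q - 1 := by omega
      refine ⟨a, m * v, γ, hm.mul (by grind), k0 a m hm (by omega), ?_, m1, by simp,
        by rw [← h3]; simp, fun b hb => ?_⟩
      · rw [show q = 2 * v + 1 by omega] at e ⊢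
        linear_combination (2 * v) * e
      · rw [h4, inv_eq_of_mul_eq_one_right (by rw [← pow_succ, e, pow_mul, hb, one_pow])]
  obtain ⟨f, f1, f2⟩ := exists_twist ι p e.ne_zero hq hg
  haveI : NeZero (2 : k) := ⟨fun h => by
    have := (CharP.cast_eq_zero_iff k p 2).1 (by exact_mod_cast h)
    rw [hq, (Nat.prime_dvd_prime_iff_eq hp Nat.prime_two).1 this, Nat.odd_pow_iff e.ne_zero] at hF
    exact absurd hF (by decide)⟩
  haveI : NeZero ((2 ^ a : ℕ) : k) := ⟨by simpa using fun h => absurd h (NeZero.ne 2)⟩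
  let B := rootsOfUnity (2 ^ a) k
  have cB : Nat.card (B × B) = 2 ^ a * 2 ^ a := by
    rw [Nat.card_prod, HasEnoughRootsOfUnity.natCard_rootsOfUnity]
  let f' := f.comp E.toMonoidHom
  have i1 : Function.Injective f' := f1.comp E.injective
  have r1 : ∀ y ∈ f.range, y ∈ f'.range := by rintro _ ⟨y, rfl⟩; exact ⟨E.symm y, by simp [f']⟩
  obtain ⟨γ', e2⟩ := r1 _ (f2 γ m1 (by rw [s1, k1]))
  obtain ⟨n', e3⟩ := r1 _ (f2 n m2 (by rw [s2, k2]))
  let D' := (f'.ofInjective i1).symm.toMonoidHom.comp ((D.comp (B.subtype.prodMap B.subtype)).codRestrict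
    f'.range fun b => r1 _ (f2 _ (m3 _) (by
      rw [MonoidHom.comp_apply, s3]; exact k3 _ (Prod.ext b.1.2 b.2.2))))
  have e4 : ∀ b, f' (D' b) = D (b.1, b.2) := fun b =>
    congrArg Subtype.val ((f'.ofInjective i1).apply_symm_apply _)
  obtain ⟨ζ, hζ⟩ := HasEnoughRootsOfUnity.exists_primitiveRoot k (2 ^ a)
  lift ζ to kˣ using hζ.isUnit (NeZero.ne _)
  rw [IsPrimitiveRoot.coe_units_iff] at hζ
  have z2 : ζ ^ 2 ≠ 1 := hζ.pow_ne_one_of_pos_of_lt two_ne_zero
    (lt_of_lt_of_le (by norm_num) (Nat.pow_le_pow_right two_pos ha))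
  refine sylow_elem (IsPGroup.of_card (n := a + a) (by rw [cB, pow_add])) (D := D') (γ := γ') (n := n')
    (τ := Prod.swap) (fun b c h => ?_) (i1 (by simp [e2, h1])) (i1 (by simp [e3, h2]))
    (i1 (by simp [e2, e3, h3])) (fun b => i1 (by simp only [map_mul, map_inv f', e2, e4, h4]; rfl))
    (fun b => i1 (by simp only [map_mul, map_inv f', e3, e4, h5]; rfl))
    (b := (⟨ζ, hζ.pow_eq_one⟩, 1)) (fun h => z2 ?_) (fun h => z2 ?_) (fun h => z2 ?_) ?_ P x
  · have := iD ((e4 b).symm.trans ((congrArg f' h).trans (e4 c)))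
    exact Prod.ext (Subtype.ext (congrArg (·.1) this)) (Subtype.ext (congrArg (·.2) this))
  · exact (pow_two ζ).trans (inv_eq_iff_mul_eq_one.1 (congrArg (·.1.1) h))
  · rw [show ζ = 1 from congrArg (·.2.1) h, one_pow]
  · rw [show ζ = 1 from (congrArg (·.2.1) h).trans inv_one, one_pow]
  rw [cB, Nat.card_congr E.toEquiv, S1059.result rfl]
  generalize Fintype.card F = q at *
  have e5 : q ^ 6 * (q ^ 2 - 1) * (q ^ 6 - 1) =
      4 * (2 ^ a * 2 ^ a) * (q ^ 6 * u * u * (q ^ 2 * (q ^ 2 + 1) + 1)) := by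
    rw [show q ^ 6 - 1 = (q ^ 2 - 1) * (q ^ 2 * (q ^ 2 + 1) + 1) by
      rw [show q ^ 6 = (q ^ 2) ^ 3 by ring, e1, Nat.add_sub_cancel, Nat.sub_eq_iff_eq_add
        (Nat.one_le_pow _ _ (by omega))]; ring, show q ^ 2 - 1 = 2 * 2 ^ a * u by omega]
    ring
  rw [e5, show 8 * (2 ^ a * 2 ^ a) = 4 * (2 ^ a * 2 ^ a) * 2 by ring,
    Nat.mul_dvd_mul_iff_left (by positivity)]
  exact (((hF.pow.mul hu).mul hu).mul (Nat.even_mul_succ_self _).add_one).not_two_dvd_nat

end Cfsg.Agent.Chev.Oct
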