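import Mathlib
import Cfsg.Agent.Chev.Ree2

/-! Involutions in the Tits group. -/

set_option autoImplicit false
set_option linter.unusedSectionVars false
set_option maxHeartbeats 400000
set_option maxRecDepth 100000

namespace Cfsg.Agent.Chev
open Cfsg.Lie Cfsg.Agent.BN StSys
attribute [local instance] good2F4

section
variable {G : Type*} [Group G] {K : Subgroup G}

theorem ncard_classes_map (L : Subgroup K) :
    (ConjClasses.mk '' {y : L | orderOf y = 2}).ncard =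
      (ConjClasses.mk '' {y : L.map K.subtype | orderOf y = 2}).ncard := by
  let e := L.equivMapOfInjective _ K.subtype_injective
  refine Set.ncard_congr (fun c _ => ConjClasses.map e.toMonoidHom c) ?_ ?_ ?_
  · rintro _ ⟨y, hy, rfl⟩
    exact ⟨e y, (e.orderOf_eq y).trans hy, rfl⟩
  · rintro _ _ ⟨y, -, rfl⟩ ⟨z, -, rfl⟩ h
    simpa using ConjClasses.mk_eq_mk_iff_isConj.mpr
      (e.symm.toMonoidHom.map_isConj (ConjClasses.mk_eq_mk_iff_isConj.mp h))
  · rintro _ ⟨y, hy, rfl⟩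
    exact ⟨_, ⟨e.symm y, (e.symm.orderOf_eq y).trans hy, rfl⟩,
      congrArg ConjClasses.mk (e.apply_symm_apply y)⟩

theorem mem_comm_iff {y : K} : (y : G) ∈ ⁅K, K⁆ ↔ y ∈ commutator K := by
  rw [← Subgroup.map_subtype_commutator]; simp

theorem conj_mem_comm_iff {a y : G} (ha : a ∈ K) : a * y * a⁻¹ ∈ ⁅K, K⁆ ↔ y ∈ ⁅K, K⁆ :=
  (Subgroup.mem_normalizer_iff.mp (Subgroup.normalizer_commutator_ge_left K K ha) y).symm

theorem mul_mem_comm_iff (h : (commutator K).index = 2) {a b : G} (ha : a ∈ K) (hb : b ∈ K) :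
    a * b ∈ ⁅K, K⁆ ↔ (a ∈ ⁅K, K⁆ ↔ b ∈ ⁅K, K⁆) := by
  simpa [← mem_comm_iff] using Subgroup.mul_mem_iff_of_index_two h (a := ⟨a, ha⟩) (b := ⟨b, hb⟩)
end

namespace CF4
variable {K : Type*} [Field K] [Fintype K] {e : ℕ} (C : CF4 K e)
  (hi : (commutator (twistedF4 K e)).index = 2)
include C hi

theorem t_mem_comm : ∀ M ∈ repstF4, (glSys chevF4 K).zN M ∈ ⁅twistedF4 K e, twistedF4 K e⁆ := by
  haveI := C.char
  have key : ∀ (L : List (Rt chevF4)) (M : List ℕ), (certF4.wordsEqP chevF4 2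
      (((L.map symF4.p).map Fin.val).map (·, 1, 0, 0)) ((L.map Fin.val).map (·, 1, 0, 0)) = true ∧
      certF4.wordsEqP chevF4 2 (M.map (·, 1, 0, 0))
        ((L.map Fin.val ++ L.map Fin.val).map (·, 1, 0, 0)) = true) →
      (glSys chevF4 K).zN M ∈ ⁅twistedF4 K e, twistedF4 K e⁆ := fun L M hL => by
    have h1 : (glSys chevF4 K).zN (L.map Fin.val) ∈ twistedF4 K e :=
      C.eq_Fx.ge ⟨zN_mem _ _, (C.T.f_zN C.φ_one L).trans (zN_eq_of hL.1)⟩
    rw [zN_eq_of hL.2, zN, List.map_append, wd_append]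
    exact (mul_mem_comm_iff hi h1 h1).mpr Iff.rfl
  simp only [repstF4, List.forall_mem_cons]
  exact ⟨key ([29, 41, 44].map rF4) _ (by decide +kernel),
    key ([32, 37, 38, 43, 28, 30, 36, 42].map rF4) _ (by decide +kernel), by simp⟩

theorem mem_comm {y : GL chevF4.Idx K} (hy : y ∈ C.T.Fx) (h : orderOf y = 2) :
    y ∈ ⁅twistedF4 K e, twistedF4 K e⁆ := by
  obtain ⟨M, hM, b, hb, e⟩ := C.exists_conj hy h
  exact (conj_mem_comm_iff (C.eq_Fx.ge hb)).mp (e ▸ C.t_mem_comm hi M hM)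

theorem exists_out : ∃ a ∈ C.T.Fx ⊓ (glSys chevF4 K).Xp (orbF4.J 1),
    a ∉ ⁅twistedF4 K e, twistedF4 K e⁆ := by
  haveI := C.char
  by_contra h
  push Not at h
  have := hi
  rw [C.isTw.perfect C.gen fun a => ?_] at this
  · simp at this
  fin_cases a
  · intro y hy
    by_cases h1 : y = 1
    · exact h1 ▸ one_mem _
    refine C.mem_comm hi hy.1 (orderOf_eq_prime ?_ h1)
    obtain ⟨t, rfl⟩ := (C.o0.1 y).mp hy
    rw [(so_F4.x _ _ _).mul_pow, sq, sq, ← StSys.add, ← StSys.add, CharTwo.add_self_eq_zero,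
      CharTwo.add_self_eq_zero, StSys.x_zero, StSys.x_zero, mul_one]
  · exact h

theorem classes_comm :
    (ConjClasses.mk '' {y : commutator (twistedF4 K e) | orderOf y = 2}).ncard = 2 := by
  haveI := C.char
  rw [ncard_classes_map, Subgroup.map_subtype_commutator]
  have h0 : ⁅twistedF4 K e, twistedF4 K e⁆ ≤ C.T.Fx :=
    (Subgroup.commutator_le_self _).trans C.isTw.le
  refine ncard_classes (K := repstF4) (h0.trans Tw.Fx_le) comm_tF4 C.nc_t (C.t_mem_comm hi)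
    fun y hy h => ?_
  obtain ⟨M, hM, b, hb, e1⟩ := C.exists_conj (h0 hy) h
  by_cases h1 : b ∈ ⁅twistedF4 K e, twistedF4 K e⁆
  · exact ⟨M, hM, b, h1, e1⟩
  obtain ⟨a, ha, h2⟩ := C.exists_out hi
  obtain ⟨n, h3, h4, h5⟩ := C.isTw.exists_n (mul_mem (orbF4.fold.mem 1) (orbF4.fold.mem 0))
  have h6 := C.isTw.pos _ ha
  have h7 : n * a * n⁻¹ ∈ (glSys chevF4 K).grp ⊓ Subgroup.centralizer {(glSys chevF4 K).zN M} := by
    have h9 : n * a * n⁻¹ ∈ (glSys chevF4 K).XS {r | (r : ℕ) ∈ [35, 31, 40, 46]} :=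
      h5.conj_mem (fun r hr => by
        have := (phi1_F4 r).mp hr
        rw [Set.mem_setOf_eq, orbF4.fold_J, orbF4.J_eq orbo_F4, orbF4.J_eq orbo_F4, mul_smul,
          (chkFD_spec (e := fdF4.getD (1 : Fin 2) (0, [], 0)) (by decide +kernel)).1,
          (chkFD_spec (e := fdF4.getD (0 : Fin 2) (0, [], 0)) (by decide +kernel)).1]
        clear hr; revert r; decide +kernel) ha.2
    simp only [repstF4, List.mem_cons, List.not_mem_nil, or_false] at hM
    rcases hM with rfl | rfl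
    · refine C.cent_t.1.ge (XS_mono _ (fun r => ?_) h9)
      simp only [Set.mem_setOf_eq, Set.mem_union, Set.mem_singleton_iff]
      revert r; decide +kernel
    · refine C.cent_t.2.ge (XS_mono _ (fun r => ?_) h9)
      simp only [Set.mem_setOf_eq, Set.mem_union, Set.mem_singleton_iff]
      revert r; decide +kernel
  refine ⟨M, hM, n * a * n⁻¹ * b, (mul_mem_comm_iff hi (mul_mem (mul_mem h3 h6) (inv_mem h3))
    (C.eq_Fx.ge hb)).mpr (iff_of_false (mt (conj_mem_comm_iff h3).mp h2) h1), ?_⟩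
  rw [show n * a * n⁻¹ * b * y * (n * a * n⁻¹ * b)⁻¹ = n * a * n⁻¹ * (b * y * b⁻¹) *
    (n * a * n⁻¹)⁻¹ by group, e1, Subgroup.mem_centralizer_singleton_iff.mp h7.2,
    mul_inv_cancel_right]

end CF4
end Cfsg.Agent.Chev
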