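import Mathlib
import Cfsg.Agent.Chev.SsC
import Cfsg.Agent.Chev.SL2
import Cfsg.Agent.Classical.SLBasic

/-! Commuting fundamental subgroups. -/

set_option autoImplicit false
set_option linter.unusedSectionVars false
set_option maxHeartbeats 400000

namespace Cfsg.Agent.Chev
open Cfsg.Lie Cfsg.Agent.BN StSys Matrix MatrixGroups

variable {D : ChevalleyDatum} [g : Good2 D] {F : Type*} [Field F] {G : Type*} [Group G]

theorem StSys.sl2_inj {S : StSys D F G} {r s : Rt D} (hr : Pos r) (hs : pr r s = 1)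
    {φ : SL(2, F) →* G} (h1 : ∀ t, φ (slU t) = S.x r t) (h2 : ∀ t, φ (slL t) = S.x (ng r) t)
    (h3 : ∀ t ht, φ (slH t ht) = S.h r t) : Function.Injective φ := by
  refine (injective_iff_map_eq_one φ).mpr fun a ha => ?_
  have hd := sl_det a
  by_cases hc : a.1 1 0 = 0
  · rw [hc, mul_zero, sub_zero] at hd
    have h0 := left_ne_zero_of_mul_eq_one hd
    have e : a = slU (a.1 0 0 * a.1 0 1) * slH _ h0 := Subtype.ext (by
      ext i j; fin_cases i <;> fin_cases j <;>
        simp [Matrix.mul_apply, hc, mul_comm (a.1 0 0), h0, eq_inv_of_mul_eq_one_right hd])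
    rw [e, map_mul, h1, h3, mul_eq_one_iff_eq_inv] at ha
    have h4 := one_of_mem_U_H (S.x_mem hr _) (ha ▸ inv_mem (S.h_mem_H r h0))
    have h6 : S.h r (a.1 0 0) = 1 := inv_eq_one.mp (ha.symm.trans h4)
    have h7 := S.h_conj r h0 s 1
    rw [h6, hs, one_mul, inv_one, mul_one, zpow_one, mul_one] at h7
    rw [e, S.x_inj (h4.trans (S.x_zero r).symm)]
    refine Subtype.ext ?_
    ext i j; fin_cases i <;> fin_cases j <;> simp [← S.x_inj h7]
  · have e : a = slU ((a.1 0 0 - 1) / a.1 1 0) * slL (a.1 1 0) * slU ((a.1 1 1 - 1) / a.1 1 0) :=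
      Subtype.ext (by
        ext i j; fin_cases i <;> fin_cases j <;> simp [Matrix.mul_apply, hc] <;> field_simp
        · linear_combination -hd
        · ring)
    rw [e, map_mul, map_mul, h1, h1, h2, mul_eq_one_iff_eq_inv, ← eq_inv_mul_iff_mul_eq, ← S.x_neg,
      ← S.x_neg, ← S.add] at ha
    exact absurd (S.eq_of_x_eq hc ha) (ng_ne r)

omit g in
theorem sl2_pair [Fintype F] {φ ψ : SL(2, F) →* G} (h1 : Function.Injective φ)
    (h2 : Function.Injective ψ) (hc : ∀ a b, Commute (φ a) (ψ b)) {t : G} (e1 : φ (-1) = t)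
    (e2 : ψ (-1) = t) (ht : orderOf t = 2) :
    φ.range ⊓ ψ.range = Subgroup.zpowers t ∧ φ.range ⊔ ψ.range ≤ Subgroup.centralizer {t} ∧
      2 * Nat.card ↥(φ.range ⊔ ψ.range) = (Fintype.card F * (Fintype.card F ^ 2 - 1)) ^ 2 := by
  have key : ∀ a b, φ a = ψ b → a = 1 ∨ a = -1 := fun a b h => by
    obtain ⟨r, hr, e⟩ := Matrix.SpecialLinearGroup.mem_center_iff.mp (Subgroup.mem_center_iff.mpr
      fun c => h1 (by rw [map_mul, map_mul, h, (hc c b).eq]) : a ∈ Subgroup.center _)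
    rw [Fintype.card_fin, sq_eq_one_iff] at hr
    rcases hr with rfl | rfl
    · exact .inl (Subtype.ext (by simp [← e]))
    · exact .inr (Subtype.ext (by rw [← e, map_neg, map_one]; rfl))
  refine ⟨le_antisymm ?_ ?_, sup_le ?_ ?_, ?_⟩
  · rintro _ ⟨⟨a, rfl⟩, b, h⟩
    rcases key a b h.symm with rfl | rfl
    · simp
    · simp [e1]
  · exact (Subgroup.zpowers_le).mpr ⟨⟨_, e1⟩, _, e2⟩
  · rintro _ ⟨a, rfl⟩; exact Subgroup.mem_centralizer_singleton_iff.mpr (e2 ▸ hc a _)
  · rintro _ ⟨a, rfl⟩; exact Subgroup.mem_centralizer_singleton_iff.mpr (e1 ▸ (hc _ a).symm)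
  have h3 : (φ.noncommCoprod ψ hc).ker = Subgroup.zpowers (-1, -1) := by
    refine le_antisymm (fun a h => ?_) ((Subgroup.zpowers_le).mpr ?_)
    · rw [MonoidHom.mem_ker, MonoidHom.noncommCoprod_apply, mul_eq_one_iff_eq_inv, ← map_inv] at h
      rcases key _ _ h with e | e
      · rw [show a = 1 from Prod.ext e (inv_eq_one.mp (h2 (h.symm.trans (by simp [e]))))]
        exact one_mem _
      · rw [show a = (-1, -1) from Prod.ext e ((inv_eq_iff_eq_inv.mp (h2 (h.symm.trans
          (by rw [e, e1, e2])))).trans (inv_eq_of_mul_eq_one_right (by simp)))]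
        exact Subgroup.mem_zpowers _
    · rw [MonoidHom.mem_ker, MonoidHom.noncommCoprod_apply, e1, e2, ← pow_two, ← ht,
        pow_orderOf_eq_one]
  have h4 := Subgroup.card_eq_card_quotient_mul_card_subgroup (φ.noncommCoprod ψ hc).ker
  rw [Nat.card_congr (QuotientGroup.quotientKerEquivRange _).toEquiv, h3, Nat.card_zpowers,
    Prod.orderOf_mk, Nat.lcm_self, ← orderOf_injective φ h1, e1, ht, Nat.card_prod,
    MonoidHom.noncommCoprod_range, Classical.SLBasic.card_SL_two, Nat.card_eq_fintype_card] at h4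
  rw [mul_comm, ← h4, sq (_ * _)]

attribute [local instance] good2G2 in
theorem exists_pair_G2 : ∃ φ ψ : SL(2, F) →* chevG2.group F, Function.Injective φ ∧
    Function.Injective ψ ∧ (∀ a b, Commute (φ a) (ψ b)) ∧
      (φ (-1) : GL chevG2.Idx F) = dgU (zk F ndG2_1) ∧ φ (-1) = ψ (-1) := by
  have key : ∀ r s : Rt chevG2, Pos r → pr r s = 1 → (∀ i, 2 ∣ pr r (sim i) ↔ i ≠ ndG2_1) →
      ∃ φ : SL(2, F) →* chevG2.group F, Function.Injective φ ∧
        (∀ a, (φ a : GL chevG2.Idx F) ∈ (glSys chevG2 F).XS {r, ng r}) ∧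
          (φ (-1) : GL chevG2.Idx F) = dgU (zk F ndG2_1) := fun r s hr hs h => by
    obtain ⟨φ, e1, e2, e3, e4⟩ := (gl_R3 (D := chevG2) (F := F)).exists_sl2 r
    have h1 : ∀ a, φ a ∈ (glSys chevG2 F).XS {r, ng r} := fun a => e4 ▸ ⟨a, rfl⟩
    refine ⟨φ.codRestrict _ fun a => group_eq (D := chevG2) (F := F) ▸ XS_le_grp _ _ (h1 a),
      fun a b e => sl2_inj hr hs e1 e2 e3 (congrArg Subtype.val e), h1, ?_⟩
    have h2 := h_eq_dgU (F := F) r (-1)
    rw [show (-1 : SL(2, F)) = slH (-1) (by simp) from Subtype.ext (by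
      ext i j; fin_cases i <;> fin_cases j <;> simp)]
    refine (e3 _ _).trans (h2.trans (congrArg _ (funext fun i => ?_)))
    by_cases e : i = ndG2_1
    · rw [e, zk, Pi.mulSingle_eq_same, Odd.neg_one_zpow]
      exact Int.not_even_iff_odd.mp fun h' => (h _).mp h'.two_dvd rfl
    · rw [zk, Pi.mulSingle_eq_of_ne e, Even.neg_one_zpow]
      exact even_iff_two_dvd.mpr ((h i).mpr e)
  obtain ⟨φ, a1, a2, a3⟩ := key ⟨7, by decide⟩ ⟨9, by decide⟩ (by decide +kernel)
    (by decide +kernel) (by decide +kernel)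
  obtain ⟨ψ, b1, b2, b3⟩ := key ⟨11, by decide⟩ ⟨9, by decide⟩ (by decide +kernel)
    (by decide +kernel) (by decide +kernel)
  refine ⟨φ, ψ, a1, b1, fun a b => Subtype.ext (commute_XS (fun r hr s hs t u => ?_) (a2 a) (b2 b)),
    a3, Subtype.ext (a3.trans b3.symm)⟩
  have : r ≠ s ∧ r ≠ ng s ∧ chevG2.commTerms s r = [] := by
    simp only [Set.mem_insert_iff, Set.mem_singleton_iff] at hr hs
    revert r s
    decide +kernel
  simpa [ChevalleyDatum.commWord, this.2.2, -glSys_x, commute_iff_eq] using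
    (glSys chevG2 F).comm s r this.1 this.2.1 u t

end Cfsg.Agent.Chev
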