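import Mathlib
import Cfsg.Agent.Chev.SsT2
import Cfsg.Agent.Chev.PoinE7
import Cfsg.Agent.Spc.Basic
import Cfsg.Agent.S1064

/-! The group `E₇(2)` has no element of order 65. -/

set_option autoImplicit false
set_option linter.unusedSectionVars false
set_option maxHeartbeats 400000

namespace Cfsg.Agent.Chev
open Cfsg.Lie Cfsg.Agent.BN StSys Matrix Polynomial

theorem natAbs_det_dvd {ι : Type} [Fintype ι] [DecidableEq ι] {k : Type*} [Field k] [IsAlgClosed k]
    {A : Matrix ι ι ℤ} (h : ((A.det : ℤ) : k) ≠ 0) : A.det.natAbs ∣ Nat.card (pw kˣ A).ker := by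
  have h0 : A.det ≠ 0 := fun e => h (by rw [e, Int.cast_zero])
  have hi : Function.Injective (toLin' A) := LinearMap.ker_eq_bot.mp
    (ker_toLin'_eq_bot_iff.mpr fun v hv => eq_zero_of_mulVec_eq_zero h0 hv)
  have h1 := Submodule.natAbs_det_equiv _ (LinearEquiv.ofInjective _ hi)
  rw [show (LinearMap.range (toLin' A)).subtype ∘ₗ AddMonoidHom.toIntLinearMap
    (LinearEquiv.ofInjective _ hi : (ι → ℤ) →+ LinearMap.range (toLin' A)) = toLin' A from
      LinearMap.ext fun _ => rfl, LinearMap.det_toLin'] at h1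
  set Q := (ι → ℤ) ⧸ LinearMap.range (toLin' A)
  haveI : Finite Q := Nat.finite_of_card_ne_zero (h1 ▸ Int.natAbs_ne_zero.mpr h0)
  haveI : NeZero ((Monoid.exponent (Multiplicative Q) : ℕ) : k) := ⟨fun e => h (by
    obtain ⟨m, hm⟩ := Group.exponent_dvd_nat_card (G := Multiplicative Q)
    rw [Nat.card_congr Multiplicative.toAdd, ← h1] at hm
    rcases Int.natAbs_eq A.det with e' | e' <;> rw [e', hm] <;> push_cast <;> rw [e] <;> simp)⟩
  rw [h1, ← Nat.card_congr Multiplicative.toAdd,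
    ← CommGroup.card_monoidHom_of_hasEnoughRootsOfUnity (Multiplicative Q) k]
  have key : ∀ (φ : Multiplicative Q →* kˣ) (v : ι → ℤ),
      φ (Multiplicative.ofAdd (Submodule.Quotient.mk v)) =
        ∏ i, φ (Multiplicative.ofAdd (Submodule.Quotient.mk (Pi.single i 1))) ^ v i := fun φ v => by
    conv_lhs => rw [← Finset.univ_sum_single v]
    rw [← Submodule.mkQ_apply, map_sum, ofAdd_sum, map_prod]
    refine Finset.prod_congr rfl fun i _ => ?_
    rw [← map_zpow, ← ofAdd_zsmul, ← Submodule.Quotient.mk_smul, ← Pi.single_smul', smul_eq_mul,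
      mul_one, Submodule.mkQ_apply]
  refine Subgroup.card_dvd_of_injective (MonoidHom.mk' (fun φ => ⟨fun i =>
    φ (Multiplicative.ofAdd (Submodule.Quotient.mk (Pi.single i 1))), funext fun j => ?_⟩)
      fun _ _ => rfl) fun φ ψ e => MonoidHom.ext fun x => ?_
  · rw [pw_apply, ← key φ fun i => A i j, (Submodule.Quotient.mk_eq_zero _).mpr
      (LinearMap.mem_range.mpr ⟨Pi.single j 1, by ext i; simp⟩)]
    simp
  · obtain ⟨v, hv⟩ := Submodule.Quotient.mk_surjective _ x.toAdd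
    rw [← ofAdd_toAdd x, ← hv, key, key]
    exact Finset.prod_congr rfl fun i _ => congrArg (· ^ v i) (congrFun (congrArg Subtype.val e) i)

theorem orderOf_dvd_det {ι : Type} [Fintype ι] [DecidableEq ι] {M : Type*} [CommGroup M]
    {A : Matrix ι ι ℤ} {c : ι → M} (h : c ∈ (pw M A).ker) : (orderOf c : ℤ) ∣ A.det :=
  orderOf_dvd_iff_zpow_eq_one.mpr (funext fun j => by
    have := pw_mul A A.adjugate c
    rw [mul_adjugate, smul_one_eq_diagonal, show pw M A c = 1 from h, map_one] at this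
    exact (pw_diagonal _ c j).symm.trans (congrFun this j))

theorem exists_cyclotomic {χ : ℤ[X]} {n m : ℕ} (hn : 0 < n) (h : χ ∣ (X ^ n - 1) ^ m) {r a : ℤ}
    (hr : Prime r) (ha : r ∣ χ.eval a) : ∃ d, d ∣ n ∧ cyclotomic d ℤ ∣ χ ∧ r ∣ (cyclotomic d ℤ).eval a := by
  have h0 : χ ≠ 0 := ne_zero_of_dvd_ne_zero (pow_ne_zero _ (X_pow_sub_C_ne_zero hn 1)) h
  obtain ⟨u, hu⟩ := UniqueFactorizationMonoid.factors_prod h0
  rw [← hu, eval_mul] at ha
  replace ha := (u.isUnit.map (evalRingHom a)).dvd_mul_right.mp ha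
  rw [eval_multiset_prod] at ha
  obtain ⟨f, hf, e⟩ := hr.exists_mem_multiset_map_dvd ha
  have h1 := UniqueFactorizationMonoid.prime_of_factor f hf
  have h2 := UniqueFactorizationMonoid.dvd_of_mem_factors hf
  have h3 := h1.dvd_of_dvd_pow (h2.trans h)
  rw [← prod_cyclotomic_eq_X_pow_sub_one hn] at h3
  obtain ⟨d, hd, h4⟩ := (h1.dvd_finset_prod_iff _).mp h3
  exact ⟨d, Nat.dvd_of_mem_divisors hd, (h1.irreducible.associated_of_dvd
    (cyclotomic.irreducible (Nat.pos_of_mem_divisors hd)) h4).dvd'.trans h2, e.trans (eval_dvd h4)⟩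

theorem eq_orderOf_of_dvd {d r : ℕ} [Fact r.Prime] (h : ¬ r ∣ d) {a : ℤ}
    (ha : (r : ℤ) ∣ (cyclotomic d ℤ).eval a) : d = orderOf (a : ZMod r) := by
  haveI : NeZero (d : ZMod r) := ⟨fun e => h ((ZMod.natCast_eq_zero_iff d r).mp e)⟩
  refine IsPrimitiveRoot.eq_orderOf (isRoot_cyclotomic_iff.mp ?_)
  rw [← map_cyclotomic_int, IsRoot, ← eq_intCast (Int.castRingHom (ZMod r)), eval_map_apply]
  exact (ZMod.intCast_zmod_eq_zero_iff_dvd _ r).mpr ha

theorem orderOf_two_13 : orderOf ((2 : ℤ) : ZMod 13) = 12 :=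
  orderOf_eq_of_pow_and_pow_div_prime (by norm_num) (by decide) fun p hp hd => by
    have := Nat.le_of_dvd (by norm_num) hd
    interval_cases p <;> revert hp hd <;> decide

theorem orderOf_two_5 : orderOf ((2 : ℤ) : ZMod 5) = 4 :=
  orderOf_eq_of_pow_and_pow_div_prime (by norm_num) (by decide) fun p hp hd => by
    have := Nat.le_of_dvd (by norm_num) hd
    interval_cases p <;> revert hp hd <;> decide

theorem dvd_det_of_65 {ι : Type} [Fintype ι] [DecidableEq ι] (h7 : Fintype.card ι = 7)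
    {M : Matrix ι ι ℤ} {n : ℕ} (hn : 0 < n) (h13 : ¬ 13 ∣ n) (hM : M ^ n = 1)
    (h : 65 ∣ ((2 : ℤ) • (1 : Matrix ι ι ℤ) - M).det) :
    5 ^ 6 ∣ ((2 : ℤ) • (1 : Matrix ι ι ℤ) - M ^ 3).det * ((2 : ℤ) • (1 : Matrix ι ι ℤ) - M ^ 9).det := by
  haveI : Fact (Nat.Prime 13) := ⟨by norm_num⟩
  haveI : Fact (Nat.Prime 5) := ⟨by norm_num⟩
  let f : Module.End ℂ (ι → ℂ) := toLin' (M.map (Int.castRingHom ℂ))
  have e1 : Conj.ev ℂ f = (M.charpoly.map (Int.castRingHom ℂ)).roots := by
    rw [Conj.ev_toLin', ← charpoly_map]; rfl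
  have e2 : ∀ k : ℕ, ((((2 : ℤ) • (1 : Matrix ι ι ℤ) - M ^ k).det : ℤ) : ℂ) =
      ((Conj.ev ℂ f).map fun z => 2 - z ^ k).prod := fun k => by
    have := Spc.det_aeval ℂ f (C 2 - X ^ k)
    simp only [eval_sub, eval_C, eval_pow, eval_X] at this
    rw [← this, ← eq_intCast (Int.castRingHom ℂ), RingHom.map_det, ← LinearMap.det_toLin']
    congr 1
    simp only [map_sub, map_zsmul, map_pow, map_one, aeval_C, aeval_X, toLin'_one]
    rw [toLin'_pow]
    congr 1
    ext; simp [Algebra.algebraMap_eq_smul_one]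
  have h1 : M.charpoly ∣ (X ^ n - 1) ^ 7 := by
    rw [← map_dvd_map (Int.castRingHom ℂ) Int.cast_injective M.charpoly_monic, ← charpoly_map,
      ← charpoly_toLin']
    have := Spc.charpoly_dvd ℂ f (P := X ^ n - 1) (X_pow_sub_C_ne_zero hn 1) (k := 7) (fun z hz => by
      have := Spc.pow_eq_one_of_mem_ev ℂ (N := n) (by
        rw [← toLin'_pow, ← RingHom.mapMatrix_apply, ← map_pow, hM, map_one, toLin'_one]; rfl) hz
      simp [this]) fun z => (Multiset.count_le_card _ _).trans (by simp [Conj.card_ev, h7])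
    rwa [Polynomial.map_pow, Polynomial.map_sub, Polynomial.map_pow, map_X, Polynomial.map_one]
  rw [smul_one_eq_diagonal, ← scalar_apply, ← eval_charpoly] at h
  obtain ⟨d, h2, ⟨g, hg⟩, h3⟩ := exists_cyclotomic hn h1 (Int.prime_iff_natAbs_prime.mpr
    (by norm_num : Nat.Prime 13) : Prime (13 : ℤ)) ((by norm_num : (13 : ℤ) ∣ 65).trans h)
  obtain rfl : d = 12 := (eq_orderOf_of_dvd (fun e => h13 (e.trans h2)) h3).trans orderOf_two_13
  have c12 : cyclotomic 12 ℤ = X ^ 4 - X ^ 2 + 1 := by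
    rw [show 12 = 6 * 2 from rfl, ← cyclotomic_expand_eq_cyclotomic Nat.prime_two (by norm_num),
      cyclotomic_six]; simp; ring
  have c4 : cyclotomic 4 ℤ = X ^ 2 + 1 := by
    rw [show 4 = 2 * 2 from rfl, ← cyclotomic_expand_eq_cyclotomic Nat.prime_two (by norm_num),
      cyclotomic_two]; simp
  have hm := M.charpoly_monic
  have hd := M.charpoly_natDegree_eq_dim
  rw [hg] at hm hd
  have hgm := (cyclotomic.monic 12 ℤ).of_mul_monic_left hm
  rw [(cyclotomic.monic 12 ℤ).natDegree_mul hgm, natDegree_cyclotomic, h7,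
    show Nat.totient 12 = 4 by decide] at hd
  have p5 : Prime (5 : ℤ) := Int.prime_iff_natAbs_prime.mpr (by norm_num)
  obtain ⟨d, -, ⟨u, hu⟩, h3⟩ := exists_cyclotomic (χ := g) hn ((Dvd.intro_left _ hg.symm).trans h1) p5
    (a := 2) ((p5.dvd_or_dvd (by
      rw [← eval_mul, ← hg]; exact (by norm_num : (5 : ℤ) ∣ 65).trans h)).resolve_left
        (by rw [c12]; norm_num))
  rw [hu] at hgm hd
  have hum := (cyclotomic.monic d ℤ).of_mul_monic_left hgm
  rw [(cyclotomic.monic d ℤ).natDegree_mul hum, natDegree_cyclotomic] at hd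
  obtain rfl : d = 4 := (eq_orderOf_of_dvd (r := 5) (fun e => by
    have := Nat.le_of_dvd (Nat.totient_pos.mpr (Nat.pos_of_ne_zero fun e => by
      subst e; norm_num at h3)) (Nat.totient_dvd_of_dvd e)
    rw [show Nat.totient 5 = 4 by decide] at this
    omega) h3).trans orderOf_two_5
  rw [show Nat.totient 4 = 2 by decide] at hd
  have e3 : M.charpoly.map (Int.castRingHom ℂ) = (X ^ 6 + 1) * (X - C (-(u.coeff 0 : ℂ))) := by
    rw [hg, hu, c12, c4, hum.eq_X_add_C (by omega)]; simp; ring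
  have h6 : (X ^ 6 + 1 : ℂ[X]) ≠ 0 := (monic_X_pow_add_C 1 (by norm_num)).ne_zero
  refine ⟨(2 - (-u.coeff 0) ^ 3) * (2 - (-u.coeff 0) ^ 9), Int.cast_injective (α := ℂ) ?_⟩
  rw [Int.cast_mul, e2, e2, ← Multiset.prod_map_mul, e1, e3, roots_mul (mul_ne_zero h6 (X_sub_C_ne_zero _)),
    roots_X_sub_C, Multiset.map_add, Multiset.prod_add, Multiset.map_congr rfl
      (g := fun _ => (5 : ℂ)) fun z hz => by
        have : z ^ 6 + 1 = 0 := by simpa using (mem_roots h6).mp hz
        linear_combination (z ^ 6 - 2 * z ^ 3 - 1) * this,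
    Multiset.map_const', Multiset.prod_replicate, IsAlgClosed.card_roots_eq_natDegree,
    show (X ^ 6 + 1 : ℂ[X]).natDegree = 6 from natDegree_X_pow_add_C]
  simp; norm_num

variable {D : ChevalleyDatum} [g : Good2 D] {F : Type*} [Field F] [Fintype F]

theorem wM_pow (w : W D) (n : ℕ) : wM (w ^ n) = wM w ^ n := by
  induction n with
  | zero => simp [wM_one]
  | succ n ih => rw [pow_succ', wM_mul, ih, pow_succ]

theorem det_dvd_card (hk : (pw (AlgebraicClosure F)ˣ (cartanM D)).ker = ⊥) (w : W D) :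
    ((Fintype.card F : ℤ) • (1 : Matrix (Ix D) (Ix D) ℤ) - wM w).det ∣ Nat.card (D.group F) := by
  obtain ⟨m, j, hj, hq, hT⟩ := exists_fix (algebraMap F (AlgebraicClosure F)) (ker_st_of_ker hk)
  obtain ⟨a, ha⟩ := hT w⁻¹
  refine Int.natAbs_dvd.mp (Int.natCast_dvd_natCast.mpr ((natAbs_det_dvd (k := AlgebraicClosure F)
    fun e => ?_).trans ?_))
  · have := congrArg (fun A => ((det A : ℤ) : AlgebraicClosure F)) ((wM_mul w⁻¹ w).symm.trans (by
      rw [inv_mul_cancel, wM_one]))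
    rw [← eq_intCast (Int.castRingHom _), RingHom.map_det, map_sub, map_zsmul, natCast_zsmul,
      ← Nat.cast_smul_eq_nsmul (AlgebraicClosure F), hq, zero_smul, zero_sub, det_neg,
      ← RingHom.map_det] at e
    simp [show ((wM w).det : AlgebraicClosure F) = 0 by simpa using e] at this
  rw [Nat.card_congr (MonoidHom.ofInjective hj.inj).toEquiv]
  let f := (stSys D _).θ.comp ((MulAut.conj a).toMonoidHom.comp (st_R3 (F := AlgebraicClosure F)).hT)
  have hf : Function.Injective f := (injective_iff_map_eq_one _).mpr fun c hc => orderOf_eq_one_iff.mp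
    ((orderOf_hT hk c ((stSys D _).θ a)).symm.trans (orderOf_eq_one_iff.mpr (by
      rw [← hc, ← θ_hT_gl st_R3, ← map_inv, ← map_mul, ← map_mul]; rfl)))
  rw [← Subgroup.card_map_of_injective hf]
  refine Subgroup.card_dvd_of_le ?_
  rintro _ ⟨c, hc, rfl⟩
  exact (hj.mem _).mpr ⟨_, ha.fix_iff.mpr (mem_Tω.mpr ((map_pow (wa w⁻¹) c _).symm.trans
    (by rw [mem_ker_wa.mp hc, ← wa_mul, inv_mul_cancel, wa_one]))), rfl⟩

attribute [local instance] good2E7

theorem no_65_E7 (z : chevE7.group (ZMod 2)) : orderOf z ≠ 65 := fun hz => by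
  have hk := ker_of_char (F := AlgebraicClosure (ZMod 2)) 2 smith_E7 (by decide)
  obtain ⟨w, c, h1, h2⟩ := exists_tor 2 hk (by rw [card_ker_E7]; simp) (z := z) (by rw [hz]; decide)
  have h3 := orderOf_dvd_det (mem_ker_wa.mpr h1)
  have h4 := fun v => det_dvd_card hk v
  rw [h2, hz] at h3
  simp only [ZMod.card, Nat.cast_ofNat] at h3 h4
  have h5 := dvd_det_of_65 (ι := Ix chevE7) (Fintype.card_fin _) (n := Nat.card (W chevE7)) Nat.card_pos
    (by rw [card_W_E7]; decide) (by rw [← wM_pow, pow_card_eq_one', wM_one]) h3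
  have h6 := S1064.result (F := ZMod 2) (ZMod.card 2)
  rw [← wM_pow, ← wM_pow] at h5
  have h7 : ¬ (5 : ℤ) ^ 3 ∣ Nat.card (chevE7.group (ZMod 2)) := by
    rw [show Nat.card (chevE7.group (ZMod 2)) = _ from (one_mul _).symm.trans h6]; norm_num
  have p5 : Prime (5 : ℤ) := Int.prime_iff_natAbs_prime.mpr (by norm_num)
  have k := fun v h => h7 (dvd_trans h (h4 v))
  simp only [pow_dvd_iff_le_emultiplicity, emultiplicity_mul p5, not_le, imp_false] at h5 k
  exact absurd (h5.trans_lt (ENat.add_lt_add (k _) (k _))) (by norm_num)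

theorem isEmpty_of_orderOf {G X : Type*} [Group G] [Group X] {n : ℕ} (h : ∀ z : G, orderOf z ≠ n)
    (H : Subgroup G) (hX : ∃ x : X, orderOf x = n) : IsEmpty (H ≃* X) := ⟨fun e => hX.elim fun z hz =>
  h (e.symm z) ((Subgroup.orderOf_coe _).trans ((e.symm.orderOf_eq z).trans hz))⟩

end Cfsg.Agent.Chev
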