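import Mathlib
import Cfsg.Agent.Chev.SsF4a
import Cfsg.Agent.Chev.SsC

/-! The prime graph of the groups of type `F₄` in characteristic two. -/

set_option autoImplicit false
set_option linter.unusedSectionVars false
set_option maxHeartbeats 400000
set_option maxRecDepth 100000

namespace Cfsg.Agent.Chev
open Cfsg.Lie Cfsg.Agent.BN StSys Matrix

attribute [local instance] good2F4

/-- the maximal minimal polynomials of elements of the Weyl group -/
def fF4 {R : Type*} [CommRing R] (i : Fin 5) (x : R) : R :=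
  ![x ^ 4 + x ^ 3 - x - 1, x ^ 4 - 1, x ^ 4 - x ^ 3 + x - 1, x ^ 4 + 1, x ^ 4 - x ^ 2 + 1] i

theorem det_wM (l : List (Ix chevF4)) (L : List (List ℤ)) (h : (allN 4 fun i => allN 4 fun j =>
    ieq (certF4.cv chevF4 (certF4.appW (l.map Fin.val) (chevF4.simple i)) j) (ent2 L i j)) = true)
    (q : ℤ) : (q • (1 : Matrix (Ix chevF4) (Ix chevF4) ℤ) - wM (wp sW l)).det =
      (of fun i j : Fin 4 => (if i = j then q else 0) - ent2 L i j).det := by
  simp only [allN_iff, ieq_iff] at h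
  refine congrArg (det (n := Fin 4)) (Matrix.ext fun i j => ?_)
  exact congrArg₂ (· - ·) ((mul_ite _ q 1 0).trans (by rw [mul_one, mul_zero]; rfl)) ((congrFun₂ (wM_wp l) i j).trans (h i i.2 j j.2))

theorem exists_det_F4 (i : Fin 5) : ∃ w : W chevF4, ∀ q : ℤ,
    (q • (1 : Matrix (Ix chevF4) (Ix chevF4) ℤ) - wM w).det = fF4 i q := by
  fin_cases i
  on_goal 1 => refine ⟨_, fun q => (det_wM ([3, 1, 0] : List (Fin 4)) [[-1, -1, 0, 0], [1, 0, 0, 0], [0, 1, 1, 1], [0, 0, 0, -1]] (by decide +kernel) q).trans ?_⟩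
  on_goal 2 => refine ⟨_, fun q => (det_wM ([2, 1, 2, 1, 0] : List (Fin 4)) [[-1, -2, -2, 0], [1, 1, 2, 0], [0, 0, -1, 0], [0, 1, 2, 1]] (by decide +kernel) q).trans ?_⟩
  on_goal 3 => refine ⟨_, fun q => (det_wM ([2, 1, 0] : List (Fin 4)) [[-1, -1, -2, 0], [1, 0, 0, 0], [0, 1, 1, 0], [0, 0, 1, 1]] (by decide +kernel) q).trans ?_⟩
  on_goal 4 => refine ⟨_, fun q => (det_wM ([3, 2, 1, 2, 1, 0] : List (Fin 4)) [[-1, -2, -2, -2], [1, 1, 2, 2], [0, 0, -1, -1], [0, 1, 2, 1]] (by decide +kernel) q).trans ?_⟩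
  on_goal 5 => refine ⟨_, fun q => (det_wM ([3, 2, 1, 0] : List (Fin 4)) [[-1, -1, -2, -2], [1, 0, 0, 0], [0, 1, 1, 1], [0, 0, 1, 0]] (by decide +kernel) q).trans ?_⟩
  all_goals simp [fF4, det_succ_row_zero, Fin.sum_univ_succ, Fin.succAbove, ent2]; ring

theorem exists_det_fix (i : Fin 3) : ∃ (w : W chevF4) (j : Ix chevF4), w • sim j = sim j ∧ ∀ q : ℤ,
    (q • (1 : Matrix (Ix chevF4) (Ix chevF4) ℤ) - wM w).det =
      (q - 1) * ![q ^ 3 - 1, q ^ 3 + q ^ 2 + q + 1, q ^ 3 + 1] i := by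
  fin_cases i
  on_goal 1 => refine ⟨_, (3 : Fin 4), Fin.ext ((wp_smul_val _ _).trans (by decide +kernel)), fun q => (det_wM ([1, 0] : List (Fin 4)) [[-1, -1, 0, 0], [1, 0, 0, 0], [0, 1, 1, 0], [0, 0, 0, 1]] (by decide +kernel) q).trans ?_⟩
  on_goal 2 => refine ⟨_, (2 : Fin 4), Fin.ext ((wp_smul_val _ _).trans (by decide +kernel)), fun q => (det_wM ([3, 2, 1, 2, 3, 1, 2, 0, 1, 2, 0, 1, 0] : List (Fin 4)) [[-1, -1, -2, -2], [0, -1, -2, 0], [0, 0, 1, 0], [1, 2, 2, 1]] (by decide +kernel) q).trans ?_⟩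
  on_goal 3 => refine ⟨_, (1 : Fin 4), Fin.ext ((wp_smul_val _ _).trans (by decide +kernel)), fun q => (det_wM ([3, 2, 1, 2, 0, 1, 2, 1, 0] : List (Fin 4)) [[-1, -1, 0, 0], [0, 1, 0, 0], [0, -1, -1, -1], [1, 2, 3, 2]] (by decide +kernel) q).trans ?_⟩
  all_goals simp [det_succ_row_zero, Fin.sum_univ_succ, Fin.succAbove, ent2]; ring

theorem tor_F4 {k : Type*} [Field k] {w : W chevF4} {q : ℕ} {c : Ix chevF4 → kˣ}
    (h : c ^ q = wa w c) : ∃ i, (orderOf c : ℤ) ∣ fF4 i (q : ℤ) := by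
  obtain ⟨P, h1, h2⟩ := chkW_spec chkW_F4 w
  simp only [Bool.or_eq_true] at h1
  rcases h1 with (((h1 | h1) | h1) | h1) | h1 <;>
    have := orderOf_dvd_iff_zpow_eq_one.mpr (kills_spec h2 h1 h) <;>
    simp [evp_eq, Fin.sum_univ_succ] at this
  exacts [⟨0, by convert this using 1; simp [fF4]; ring⟩, ⟨1, by convert this using 1; simp [fF4]; ring⟩,
    ⟨2, by convert this using 1; simp [fF4]; ring⟩, ⟨3, by convert this using 1; simp [fF4]; ring⟩,
    ⟨4, by convert this using 1; simp [fF4]; ring⟩]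

theorem cast_fF4 {R : Type*} [CommRing R] (i : Fin 5) (q : ℕ) :
    ((fF4 i (q : ℤ) : ℤ) : R) = fF4 i (q : R) := by
  fin_cases i <;> simp [fF4]

theorem fF4_field {K : Type*} [Field K] (x : K) (h3 : (2 : K) ≠ 0) (h4 : (3 : K) = 0 → x ^ 2 = 1) :
  (x ^ 4 + x ^ 3 - x - 1 = 0 ↔ x ^ 2 = 1 ∨ x ^ 3 = 1) ∧ (x ^ 4 - 1 = 0 ↔ x ^ 4 = 1) ∧
  (x ^ 4 - x ^ 3 + x - 1 = 0 ↔ x ^ 2 = 1 ∨ (x ^ 6 = 1 ∧ ¬ x ^ 3 = 1)) ∧
  (x ^ 4 + 1 = 0 ↔ x ^ 8 = 1 ∧ ¬ x ^ 4 = 1) ∧
  (x ^ 4 - x ^ 2 + 1 = 0 ↔ x ^ 12 = 1 ∧ ¬ x ^ 6 = 1 ∧ ¬ x ^ 4 = 1) := by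
  have k : ∀ {a b : K}, a * b = 0 → a = 0 ∨ b = 0 := mul_eq_zero.mp
  refine ⟨⟨fun h => ?_, ?_⟩, sub_eq_zero, ⟨fun h => ?_, ?_⟩, ⟨fun h => ⟨by
    linear_combination (x ^ 4 - 1) * h, fun h' => h3 (by linear_combination h - h')⟩, fun h =>
      (k (by linear_combination h.1)).resolve_left (sub_ne_zero.mpr h.2)⟩,
    ⟨fun h => ⟨by linear_combination (x ^ 6 - 1) * (x ^ 2 + 1) * h, fun h' => h3 (by
      linear_combination (x ^ 2 + 1) * h - h'), fun h' => ?_⟩, fun h => ?_⟩⟩
  · rcases k (by linear_combination h : (x + 1) * (x ^ 3 - 1) = 0) with h | h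
    exacts [.inl (by linear_combination (x - 1) * h), .inr (by linear_combination h)]
  · rintro (h | h)
    exacts [by linear_combination (x ^ 2 + x + 1) * h, by linear_combination (x + 1) * h]
  · rcases k (by linear_combination h : (x - 1) * (x ^ 3 + 1) = 0) with h | h
    exacts [.inl (by linear_combination (x + 1) * h), .inr ⟨by linear_combination (x ^ 3 - 1) * h,
      fun h' => h3 (by linear_combination h - h')⟩]
  · rintro (h | h)
    · linear_combination (x ^ 2 - x + 1) * h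
    have := (k (by linear_combination h.1 : (x ^ 3 - 1) * (x ^ 3 + 1) = 0)).resolve_left
      (sub_ne_zero.mpr h.2)
    linear_combination (x - 1) * this
  · have h5 : x ^ 2 = 2 := by linear_combination h' - h
    have h6 := h4 (by linear_combination h' - (x ^ 2 + 2) * h5)
    exact one_ne_zero (by linear_combination h6 - h5 : (1 : K) = 0)
  · have := (k (by linear_combination h.1 : (x ^ 6 - 1) * (x ^ 6 + 1) = 0)).resolve_left
      (sub_ne_zero.mpr h.2.1)
    refine (k (by linear_combination this : (x ^ 2 + 1) * (x ^ 4 - x ^ 2 + 1) = 0)).resolve_left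
      fun h' => h.2.2 ?_
    linear_combination (x ^ 2 - 1) * h'

variable {F : Type*} [Field F] [Fintype F]

theorem card_P_dvd (i : Fin 4) : (Nat.card ((glSys chevF4 F).P {j | j ≠ i}) : ℤ) ∣
    (Fintype.card F : ℤ) ^ 24 * ((Fintype.card F : ℤ) ^ 4 - 1) ^ 3 * ((Fintype.card F : ℤ) ^ 6 - 1) := by
  haveI := (gl_R3 (D := chevF4) (F := F)).finite_H
  have h1 := (gl_R3 (D := chevF4) (F := F)).card_H
  have h2 : {r : Rt chevF4 | Pos r}.ncard = 24 := by
    rw [Set.ncard_eq_toFinset_card']; decide +kernel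
  rw [ker_hT_F4, Subgroup.card_bot, one_mul] at h1
  replace h1 : _ = (Nat.card F - 1) ^ 4 := h1
  have h3 : {j : Ix chevF4 | j ≠ i} = MS chevF4 (![14, 13, 11, 7] i) := by
    ext j; exact (by decide +kernel : ∀ i j : Fin 4, j ≠ i ↔ bit (![14, 13, 11, 7] i) j = 1) i j
  have t := fun K K' μ dd h => (desc_triv fd_F4).step (K := K) (K' := K') (μ := μ) (dd := dd) h
    (Fintype.card F)
  have a := t _ _ _ _ step1_F4
  have b := t _ _ _ _ step2_F4
  have c := t _ _ _ _ step3_F4
  have d := t _ _ _ _ step0_F4_3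
  have e1 := t 11 3 1 39402006196394479212279040100143613805079739270465446667948293404245721771497210611414266254884915640806627990241281 (by decide +kernel)
  have e2 := t 3 1 8 39402006196394479212279040100143613805079739270465446667948293404245721771497210611414266254880193418438942176313343 (by decide +kernel)
  have e3 := t 1 0 7 39402006196394479212279040100143613805079739270465446667948293404245721771497210611414266254884897266120144057270271 (by decide +kernel)
  have e4 := t 13 12 7 39402006196394479212279040100143613805079739270465446667948293404245721771497210611414266254884897266120144057270271 (by decide +kernel)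
  have e5 := t 12 8 2 39402006196394479212279040100143613805079739270465446667948293404245721771497210611414266254884915640806627973529858 (by decide +kernel)
  have e6 := t 8 0 1 39402006196394479212279040100143613805079739270465446667948293404245721771497210611414266254884915640806627990241281 (by decide +kernel)
  have d1 : depths chevF4.nroots 39402006196394479212279040100143613805079739270465446667948293404245721771497210611414266254884915640806627990241281 = [1, 0] := by decide +kernel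
  have d2 : depths chevF4.nroots 39402006196394479212279040100143613805079739270465446667948293404245721771497210611414266254880193418438942176313343 = [2, 1, 0] := by decide +kernel
  have d3 : depths chevF4.nroots 39402006196394479212279040100143613805079739270465446667948293404245721771497210611414266254884897266120144057270271 = [1, 0] := by decide +kernel
  have d4 : depths chevF4.nroots 39402006196394479212279040100143613805079739270465446667948293404245721771497210611414266254884915640806627973529858 = [2, 1, 0] := by decide +kernel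
  simp only [dep1_F4, dep2_F4, dep3_F4, dep0_F4_3, d1, d2, d3, d4, MS_zero, Fold.P_empty,
    List.map_cons, List.map_nil, List.sum_cons, List.sum_nil] at a b c d e1 e2 e3 e4 e5 e6
  rw [h3, card_P, card_B, card_U, h1, h2, Nat.card_eq_fintype_card]
  push_cast [Nat.cast_sub (Fintype.card_pos (α := F))]
  generalize (Fintype.card F : ℤ) = q at *
  fin_cases i
  · exact ⟨(q + 1) * (q ^ 2 + 1) ^ 2, by simp only [Matrix.cons_val, a, b, c, Fin.zero_eta]; ring⟩
  · exact ⟨(q + 1) * (q ^ 2 + 1) ^ 3 * (q ^ 3 + 1), by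
      simp only [Matrix.cons_val, e4, e5, e6, Fin.mk_one]; ring⟩
  · exact ⟨(q + 1) * (q ^ 2 + 1) ^ 3 * (q ^ 3 + 1), by
      simp only [Matrix.cons_val, e1, e2, e3, Fin.reduceFinMk]; ring⟩
  · exact ⟨(q + 1) * (q ^ 2 + 1) ^ 2, by simp only [Matrix.cons_val, d, b, c, Fin.reduceFinMk]; ring⟩

variable [CharP F 2]

theorem ne_zero_closure {r : ℕ} (hr : r.Prime) (h : r ≠ 2) : (r : AlgebraicClosure F) ≠ 0 := fun e =>
  h ((Nat.prime_dvd_prime_iff_eq Nat.prime_two hr).mp ((CharP.cast_eq_zero_iff _ 2 r).mp e)).symm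

theorem adj_odd_F4 {r s : ℕ} (hr : r.Prime) (hs : s.Prime) (hrs : r ≠ s) (h1 : r ≠ 2) (h2 : s ≠ 2) :
    (∃ x : chevF4.group F, orderOf x = r * s) ↔
      ∃ i, fF4 i (Fintype.card F : ZMod r) = 0 ∧ fF4 i (Fintype.card F : ZMod s) = 0 := by
  constructor
  · rintro ⟨x, hx⟩
    obtain ⟨w, c, h3, h4⟩ := exists_tor 2 (ker_F4 _) (card_ker_F4 _) (z := x) (by
      rw [hx]
      exact Nat.Coprime.mul_left ((Nat.coprime_primes hr Nat.prime_two).mpr h1)
        ((Nat.coprime_primes hs Nat.prime_two).mpr h2))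
    obtain ⟨i, hi⟩ := tor_F4 h3
    rw [h4, hx, Nat.cast_mul] at hi
    exact ⟨i, by rw [← cast_fF4, ZMod.intCast_zmod_eq_zero_iff_dvd]; exact (dvd_mul_right _ _).trans hi,
      by rw [← cast_fF4, ZMod.intCast_zmod_eq_zero_iff_dvd]; exact (dvd_mul_left _ _).trans hi⟩
  · rintro ⟨i, h3, h4⟩
    obtain ⟨w, hw⟩ := exists_det_F4 i
    rw [← cast_fF4, ← hw] at h3 h4
    obtain ⟨c, hc, e⟩ := exists_of_dvd_det hr (ne_zero_closure (F := F) hr h1) h3
    obtain ⟨d, hd, e'⟩ := exists_of_dvd_det hs (ne_zero_closure (F := F) hs h2) h4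
    obtain ⟨z, hz⟩ := (exists_mixed 2 (ker_F4 _) (mem_ker_wa.mp (mul_mem hc hd))).1
    exact ⟨z, by rw [hz, (Commute.all c d).orderOf_mul_eq_mul_orderOf_of_coprime
      (by rw [e, e']; exact (Nat.coprime_primes hr hs).mpr hrs), e, e']⟩

theorem adj_two_F4 {s : ℕ} (hs : s.Prime) (h2 : s ≠ 2) (h0 : (Fintype.card F : ZMod s) ≠ 0) :
    (∃ x : chevF4.group F, orderOf x = 2 * s) ↔
      (Fintype.card F : ZMod s) ^ 4 = 1 ∨ (Fintype.card F : ZMod s) ^ 6 = 1 := by
  haveI := Fact.mk hs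
  constructor
  · rintro ⟨x, hx⟩
    have h3 : orderOf (x.1 ^ s) = 2 := by
      rw [orderOf_pow' _ hs.ne_zero, Subgroup.orderOf_coe, hx, Nat.gcd_mul_left_left,
        Nat.mul_div_cancel _ hs.pos]
    have h4 : orderOf (x.1 ^ 2) = s := by
      rw [orderOf_pow' _ two_ne_zero, Subgroup.orderOf_coe, hx, Nat.gcd_mul_right_left,
        Nat.mul_div_cancel_left _ two_pos]
    have hx' : x.1 ∈ (glSys chevF4 F).grp := group_eq.le x.2
    obtain ⟨a, -, J, h5, h6⟩ := H23.BT.borel_tits_p 2 gl_R3 (X := Subgroup.zpowers (x.1 ^ s))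
      ((Subgroup.zpowers_le_of_mem (pow_mem hx' s)))
      (IsPGroup.of_card (n := 1) (by rw [Nat.card_zpowers, h3, pow_one]))
    obtain ⟨i, hi⟩ : ∃ i, i ∉ J := by
      by_contra h
      have := h5 _ (Subgroup.mem_zpowers _)
      rw [Set.eq_univ_of_forall (by simpa using h : ∀ i, i ∈ J), H23.BT.UJ_univ, Subgroup.mem_bot,
        mul_inv_eq_one, mul_eq_left] at this
      simp [this] at h3
    have h7 : a * x.1 ^ 2 * a⁻¹ ∈ (glSys chevF4 F).P {j | j ≠ i} :=
      P_le (B_le_P _) (fun j hj => Subgroup.mem_sup_right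
        (Subgroup.subset_closure ⟨j, fun e : j = i => hi (e ▸ hj), rfl⟩)) (h6 _ (pow_mem hx' 2) (by
          rintro _ ⟨n, rfl⟩
          exact ⟨n, by simp only [← zpow_natCast, ← _root_.zpow_mul]; group⟩))
    have h8 := (Int.natCast_dvd_natCast.mpr (Subgroup.orderOf_dvd_natCard _ h7)).trans (card_P_dvd i)
    rw [show orderOf (a * x.1 ^ 2 * a⁻¹) = s from ((MulAut.conj a).orderOf_eq _).trans h4,
      ← ZMod.intCast_zmod_eq_zero_iff_dvd] at h8
    simpa [h0, sub_eq_zero] using h8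
  · intro h
    by_cases h1 : (Fintype.card F : ZMod s) = 1
    · haveI : NeZero (s : AlgebraicClosure F) := ⟨ne_zero_closure hs h2⟩
      obtain ⟨ζ, hζ⟩ := HasEnoughRootsOfUnity.exists_primitiveRoot (AlgebraicClosure F) s
      lift ζ to (AlgebraicClosure F)ˣ using hζ.isUnit hs.ne_zero
      replace hζ := (IsPrimitiveRoot.coe_units_iff.mp hζ).eq_orderOf
      let i0 : Ix chevF4 := (0 : Fin 4)
      have h3 : orderOf (Pi.mulSingle (M := fun _ : Ix chevF4 => (AlgebraicClosure F)ˣ) i0 ζ) = s :=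
        (orderOf_injective (MonoidHom.mulSingle (fun _ : Ix chevF4 => (AlgebraicClosure F)ˣ) i0)
          (Pi.mulSingle_injective (M := fun _ : Ix chevF4 => (AlgebraicClosure F)ˣ) i0) ζ).trans hζ.symm
      refine h3 ▸ (exists_mixed 2 (ker_F4 _) (w := 1) ?_).2 (2 : Fin 4) (one_smul _ _) ?_
      · rw [wa_one, ← pow_mod_orderOf, h3, (ZMod.natCast_eq_natCast_iff' _ 1 s).mp (by simpa using h1),
          Nat.mod_eq_of_lt hs.one_lt, pow_one]
      · rw [chr, Finset.prod_eq_single i0 (fun j _ hj => by simp [Pi.mulSingle_eq_of_ne hj])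
          (by simp), show ca i0 (sim (D := chevF4) (2 : Fin 4)) = 0 by decide +kernel, zpow_zero]
    obtain ⟨i, hi⟩ : ∃ i : Fin 3, ((![(Fintype.card F : ℤ) ^ 3 - 1, (Fintype.card F : ℤ) ^ 3 +
        (Fintype.card F : ℤ) ^ 2 + Fintype.card F + 1, (Fintype.card F : ℤ) ^ 3 + 1] i : ℤ) : ZMod s) = 0 := by
      rcases h with h | h
      · exact ⟨1, by simpa using (mul_eq_zero.mp (by linear_combination h)).resolve_left (sub_ne_zero.mpr h1)⟩
      · rcases mul_eq_zero.mp (by linear_combination h : ((Fintype.card F : ZMod s) ^ 3 - 1) *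
          ((Fintype.card F : ZMod s) ^ 3 + 1) = 0) with h | h
        exacts [⟨0, by simpa using h⟩, ⟨2, by simpa using h⟩]
    obtain ⟨w, j, h3, h4⟩ := exists_det_fix i
    obtain ⟨c, hc, e⟩ := exists_of_dvd_det hs (ne_zero_closure (F := F) hs h2)
      ((congrArg _ (h4 (Fintype.card F))).trans (by rw [Int.cast_mul, hi, mul_zero]))
    replace hc := mem_ker_wa.mp hc
    refine e ▸ (exists_mixed 2 (ker_F4 _) hc).2 j h3 (by_contra fun h5 => h1 ?_)
    have h6 : orderOf (chr c (sim j)) = s :=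
      orderOf_eq_prime (by rw [← chr_pow, ← e, pow_orderOf_eq_one]; simp [chr]) h5
    have h7 : chr c (sim j) ^ Fintype.card F = chr c (sim j) ^ 1 := by
      rw [← chr_pow, hc, pow_one]; exact (congrArg _ h3.symm).trans (chr_wa w c _)
    rw [pow_eq_pow_iff_modEq, h6] at h7
    simpa using (ZMod.natCast_eq_natCast_iff _ _ _).mpr h7

end Cfsg.Agent.Chev
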